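import Cfsg.Agent.Lib.Char.H12Deg
import Cfsg.Agent.Lib.Odd.BG4x2

/-!
# Dade's extension theorem for extraspecial 2-groups, first part
-/

set_option autoImplicit false
set_option linter.unusedSectionVars false
set_option linter.unusedVariables false

namespace CA.H10Dade
open Cfsg CA.PF CA.OQuo CA.H12Gl CA.H12Gl2 CA.H12Gl3 CA.H12Gl4 CA.H12Tri CA.H12Berger
  Subgroup Function
open CA.BG hiding cj cj_one cj_mul cj_inv_cj cj_cj_inv mem_cent1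
open scoped ComplexConjugate commutatorElement

variable {Γ : Type*} [Group Γ] [Fintype Γ] {A B C E K L N S U : Subgroup Γ}
  {χ η θ φ ψ : Γ → ℂ} {g x y z : Γ}

/-- `E` is extraspecial with centre generated by the involution `z`, or `E = ⟨z⟩`. -/
structure XS (z : Γ) (E : Subgroup Γ) : Prop where
  ord : orderOf z = 2
  two : IsPi {2} E
  der : ⁅E, E⁆ ≤ zpowers z
  cen : 𝓩(E) = zpowers z

/-- `φ` changes sign under multiplication by `z`. -/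
def Sg (z : Γ) (φ : Γ → ℂ) : Prop := ∀ x, φ (z * x) = -φ x

/-- The faithful irreducible character of `E` extends to `L`. -/
def Ex (z : Γ) (E L : Subgroup Γ) (η : Γ → ℂ) : Prop :=
  IsChar L η ∧ 2 * η 1 ^ 2 = ♯E ∧ Sg z η

theorem mem_two (h : orderOf z = 2) : x ∈ zpowers z ↔ x = 1 ∨ x = z := by
  classical
  rw [mem_zpowers_iff_mem_range_orderOf, h]
  simp [Finset.range_add_one, eq_comm, or_comm]

theorem ne_one (h : orderOf z = 2) : z ≠ 1 := by rintro rfl; simp at h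

theorem sum_two (h : orderOf z = 2) (F : Γ → ℂ) :
    ∑ x ∈ fs (zpowers z : Set Γ), F x = F 1 + F z := by
  classical
  rw [← Finset.sum_pair (ne_one h).symm]
  exact Finset.sum_congr (Finset.ext fun x => by simp [mem_two h]) fun _ _ => rfl

theorem Sg.one (h : Sg z φ) : φ z = -φ 1 := by simpa using h 1

theorem Sg.Res (h : Sg z φ) (hz : z ∈ L) : Sg z (Res (L : Set Γ) φ) := fun x => by
  by_cases hx : x ∈ L
  · rw [Res_of_mem _ hx, Res_of_mem _ (L.mul_mem hz hx), h]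
  · rw [Res_of_not_mem _ hx, Res_of_not_mem _ fun e => hx ((L.mul_mem_cancel_left hz).1 e), neg_zero]

theorem sg_of_irr (h : orderOf z = 2) (hχ : χ ∈ irr L) (hz : z ∈ L) (hc : L ≤ 𝓒(zpowers z))
    (hk : χ z ≠ χ 1) : Sg z χ := fun x => by
  obtain ⟨l, hl⟩ := exists_lin_of_central hχ (zpowers_le.2 hz)
    ((comm_eq_bot_iff.2 (cent_symm hc)).le.trans bot_le)
  have h1 := lin_apply_pow l (mem_zpowers z) 2
  rw [← h, pow_orderOf_eq_one, lin_apply_one, h, eq_comm, sq_eq_one_iff] at h1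
  rcases h1 with e | e
  · exact absurd (by simpa [e] using hl z (mem_zpowers z) 1) hk
  · rw [hl z (mem_zpowers z), e, neg_one_mul]

namespace XS
variable (h : XS z E)
include h

theorem le : zpowers z ≤ E := h.cen.ge.trans inf_le_left

theorem mem : z ∈ E := h.le (mem_zpowers z)

theorem card : ♯(zpowers z) = 2 := by rw [Nat.card_zpowers, h.ord]

theorem cent : 𝓝(E) ≤ 𝓒(zpowers z) := fun g hg => mem_cent.2 fun y hy => by
  have h1 : g * y * g⁻¹ ∈ zpowers z :=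
    h.cen ▸ conj_mem_of_mem_norm (norm_center E hg) (h.cen.ge hy)
  rcases (mem_two h.ord).1 hy with rfl | rfl
  · simp
  · rcases (mem_two h.ord).1 h1 with e | e
    · exact absurd (by simpa using e) (ne_one h.ord)
    · exact (mul_inv_eq_iff_eq_mul.1 e).symm

theorem cjz (hg : g ∈ 𝓝(E)) : g * z * g⁻¹ = z :=
  mul_inv_eq_iff_eq_mul.2 (mem_cent.1 (h.cent hg) z (mem_zpowers z)).symm

theorem van (hφ : φ ∈ CInv E) (hs : Sg z φ) (hx : x ∈ E) (hn : x ∉ zpowers z) : φ x = 0 := by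
  obtain ⟨y, hy, e⟩ : ∃ y ∈ E, y * x ≠ x * y := by
    by_contra! k
    exact hn (h.cen.le ⟨hx, mem_cent.2 k⟩)
  rcases (mem_two h.ord).1 (h.der (commutator_mem_commutator hy hx)) with k | k
  · exact absurd (commutatorElement_eq_one_iff_mul_comm.1 k) e
  · have := hφ y hy x
    rw [show y * x * y⁻¹ = z * x by rw [← k, commutatorElement_def]; group, hs] at this
    linear_combination (-1 / 2 : ℂ) * this

theorem dot_eq (hφ : φ ∈ CF E) (hs : Sg z φ) (ht : Sg z ψ) :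
    dot E φ ψ = (♯E : ℂ)⁻¹ * (2 * φ 1 * conj (ψ 1)) := by
  rw [dot_eq_sum_left E (A := (zpowers z : Set Γ)) (fun x hx => by
    by_cases e : x ∈ E
    exacts [h.van hφ.2 hs e hx, hφ.1 x e]), sum_two h.ord, hs.one, ht.one, map_neg]
  ring

theorem irr (hL : E ≤ L) (e : Ex z E L η) : Res (E : Set Γ) η ∈ irr E := by
  refine irr_of_char (e.1.Res hL) ?_
  obtain ⟨n, hn⟩ := e.1.one_nat
  rw [h.dot_eq (e.1.Res hL).CF (e.2.2.Res h.mem) (e.2.2.Res h.mem), Res_one,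
    inv_mul_eq_one₀ (cardC_ne E), ← e.2.1, hn, map_natCast]
  ring

theorem sg (hθ : θ ∈ PF.irr E) (hk : θ z ≠ θ 1) : Sg z θ :=
  sg_of_irr h.ord hθ h.mem (le_normalizer.trans h.cent) hk

theorem uniq (hθ : θ ∈ PF.irr E) (hs : Sg z θ) (hφ : φ ∈ PF.irr E) (ht : Sg z φ) : θ = φ :=
  irr_eq_of_dot_ne hθ hφ (by
    rw [h.dot_eq (irr_CF hθ) hs ht, conj_irr_one hφ]
    exact mul_ne_zero (inv_ne_zero (cardC_ne E))
      (mul_ne_zero (mul_ne_zero two_ne_zero (irr_one_ne hθ)) (irr_one_ne hφ)))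

theorem deg (hθ : θ ∈ PF.irr E) (hs : Sg z θ) : 2 * θ 1 ^ 2 = ♯E := by
  have := dot_irr_self hθ
  rw [h.dot_eq (irr_CF hθ) hs hs, conj_irr_one hθ, inv_mul_eq_one₀ (cardC_ne E)] at this
  rw [this]; ring

theorem exists_irr : ∃ θ ∈ PF.irr E, Sg z θ := by
  obtain ⟨θ, h1, -, h2⟩ := exists_irr_not_mem_cfker (nrm_bot E) h.mem (ne_one h.ord)
  exact ⟨θ, h1, h.sg h1 fun e => h2 ((irr_mem_cfker h1).2 e)⟩

theorem stab (hθ : θ ∈ PF.irr E) (hs : Sg z θ) : 𝓝(E) ≤ stab θ := fun g hg =>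
  h.uniq (irr_cj (conj_iff_of_norm hg) hθ) (fun x => by
    rw [cj_apply, cj_apply, ← hs, ← mul_assoc z, ← mul_assoc z, mem_cent.1 (h.cent hg) z (mem_zpowers z),
      mul_assoc g z]) hθ hs

theorem aut (hθ : θ ∈ PF.irr E) (hs : Sg z θ) (u : ℂ →+* ℂ) : aut u θ = θ :=
  h.uniq (irr_aut u hθ) (fun x => by rw [aut_apply, aut_apply, hs, map_neg]) hθ hs

theorem ex (hL : E ≤ L) (hn : L ≤ 𝓝(E)) (hχ : χ ∈ PF.irr L) (hθ : θ ∈ PF.irr E) (hs : Sg z θ)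
    (e : Res (E : Set Γ) χ = θ) : Ex z E L χ := by
  refine ⟨irr_char hχ, by rw [← Res_one E χ, e, h.deg hθ hs],
    sg_of_irr h.ord hχ (hL h.mem) (hn.trans h.cent) fun k => irr_one_ne hθ ?_⟩
  rw [← Res_of_mem (A := E) χ h.mem, ← Res_one E χ, e, hs.one] at k
  linear_combination (-1 / 2 : ℂ) * k

end XS

theorem Ex.Res (h : Ex z E L η) (hz : z ∈ K) (hK : K ≤ L) : Ex z E K (Res (K : Set Γ) η) :=
  ⟨h.1.Res hK, by rw [Res_one, h.2.1], h.2.2.Res hz⟩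

/-- The group of triples `(a s, b s, a b s)`. -/
def trip (hc : A ≤ 𝓒(B)) (hA : S ≤ 𝓝(A)) (hB : S ≤ 𝓝(B)) : Subgroup (Γ × Γ × Γ) where
  carrier := {w | ∃ a ∈ A, ∃ b ∈ B, ∃ s ∈ S, w = (a * s, b * s, a * b * s)}
  one_mem' := ⟨1, A.one_mem, 1, B.one_mem, 1, S.one_mem, by simp only [mul_one]; rfl⟩
  mul_mem' := by
    rintro _ _ ⟨a, ha, b, hb, s, hs, rfl⟩ ⟨a', ha', b', hb', s', hs', rfl⟩
    have h1 := conj_mem_of_norm hA hs ha'
    refine ⟨_, A.mul_mem ha h1, _, B.mul_mem hb (conj_mem_of_norm hB hs hb'), _, S.mul_mem hs hs',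
      Prod.ext (by simp only [Prod.fst_mul]; group) (Prod.ext (by simp only [Prod.snd_mul, Prod.fst_mul]; group) ?_)⟩
    calc a * b * s * (a' * b' * s') = a * (b * (s * a' * s⁻¹)) * (s * b' * s') := by group
      _ = _ := by rw [mem_cent.1 (hc h1) b hb]; group
  inv_mem' := by
    rintro _ ⟨a, ha, b, hb, s, hs, rfl⟩
    refine ⟨_, conj_mem_of_mem_norm' (hA hs) (A.inv_mem ha), _,
      conj_mem_of_mem_norm' (hB hs) (B.inv_mem hb), _, S.inv_mem hs,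
      Prod.ext (by simp only [Prod.fst_inv]; group) (Prod.ext (by simp only [Prod.snd_inv, Prod.fst_inv]; group) ?_)⟩
    calc (a * b * s)⁻¹ = s⁻¹ * (a * b)⁻¹ := by group
      _ = _ := by rw [← mem_cent.1 (hc ha) b hb]; group

theorem mem_trip (hc : A ≤ 𝓒(B)) (hA : S ≤ 𝓝(A)) (hB : S ≤ 𝓝(B)) :
    x ∈ A ⊔ B ⊔ S ↔ ∃ a ∈ A, ∃ b ∈ B, ∃ s ∈ S, x = a * b * s := by
  refine ⟨fun h => ?_, fun ⟨a, ha, b, hb, s, hs, e⟩ => e ▸ mul_mem_sup (mul_mem_sup ha hb) hs⟩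
  obtain ⟨n, hn, s, hs, rfl⟩ := (mem_sup_norm' (norm_sup hA hB)).1 h
  obtain ⟨a, ha, b, hb, rfl⟩ := (mem_sup_norm (norm_of_cent hc)).1 hn
  exact ⟨a, ha, b, hb, s, hs, rfl⟩

theorem prod (hz : orderOf z = 2) (hc : A ≤ 𝓒(B)) (hA : S ≤ 𝓝(A)) (hB : S ≤ 𝓝(B))
    (hi : A ⊓ B = zpowers z) (hd : (A ⊔ B) ⊓ S = ⊥) (h1 : Ex z A (A ⊔ S) φ)
    (h2 : Ex z B (B ⊔ S) ψ) : ∃ η, Ex z (A ⊔ B) (A ⊔ B ⊔ S) η ∧
      ∀ a ∈ A, ∀ b ∈ B, ∀ s ∈ S, η (a * b * s) = φ (a * s) * ψ (b * s) := by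
  classical
  set W := trip hc hA hB
  have := Fintype.ofFinite (A ⊔ B ⊔ S : Subgroup Γ)
  let f : W →* (A ⊔ B ⊔ S : Subgroup Γ) :=
    (((MonoidHom.snd _ _).comp (MonoidHom.snd _ _)).comp W.subtype).codRestrict _ (by
      rintro ⟨_, a, ha, b, hb, s, hs, rfl⟩
      exact mul_mem_sup (mul_mem_sup ha hb) hs)
  have hf : Surjective f := fun ⟨x, hx⟩ => by
    obtain ⟨a, ha, b, hb, s, hs, rfl⟩ := (mem_trip hc hA hB).1 hx
    exact ⟨⟨_, a, ha, b, hb, s, hs, rfl⟩, rfl⟩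
  have h3 : IsCharacter W fun w => φ w.1.1 * ψ w.1.2.1 := CChar.CharFun.char_mul
    (CChar.CharFun.char_comp h1.1.2 (((MonoidHom.fst _ _).comp W.subtype).codRestrict (A ⊔ S) (by
      rintro ⟨_, a, ha, b, hb, s, hs, rfl⟩
      exact mul_mem_sup ha hs)))
    (CChar.CharFun.char_comp h2.1.2 ((((MonoidHom.fst _ _).comp (MonoidHom.snd _ _)).comp
      W.subtype).codRestrict (B ⊔ S) (by
      rintro ⟨_, a, ha, b, hb, s, hs, rfl⟩
      exact mul_mem_sup hb hs)))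
  obtain ⟨α, hα⟩ := exists_pb hf (χ := fun w => φ w.1.1 * ψ w.1.2.1) (by
    rintro ⟨_, a, ha, b, hb, s, hs, rfl⟩ e y
    replace e : a * b * s = 1 := congrArg Subtype.val e
    obtain rfl : s = 1 := mem_bot.1 (hd.le ⟨by
      rw [eq_inv_of_mul_eq_one_right e]; exact (A ⊔ B).inv_mem (mul_mem_sup ha hb), hs⟩)
    obtain rfl : b = a⁻¹ := eq_inv_of_mul_eq_one_right (by simpa using e)
    change φ (a * 1 * _) * ψ (a⁻¹ * 1 * _) = _
    rcases (mem_two hz).1 (hi.le ⟨ha, (B.inv_mem_iff).1 hb⟩) with rfl | rfl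
    · simp
    · rw [inv_eq_of_mul_eq_one_right (a := a) (b := a) (by rw [← sq, ← hz, pow_orderOf_eq_one]),
        mul_one, h1.2.2, h2.2.2, neg_mul_neg])
  have h4 : ∀ a ∈ A, ∀ b ∈ B, ∀ s ∈ S, extendByZero _ α (a * b * s) = φ (a * s) * ψ (b * s) :=
    fun a ha b hb s hs => (CA.Ind.ext_of_mem _ _ (mul_mem_sup (mul_mem_sup ha hb) hs)).trans
      (congrFun hα ⟨_, a, ha, b, hb, s, hs, rfl⟩).symm
  have h5 : z ∈ A := (hi.ge (mem_zpowers z)).1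
  refine ⟨extendByZero _ α, ⟨ext_isChar.2 (isChar_top.1 ((pb_char_iff hf).1
    (isChar_top.2 (hα ▸ h3)))), ?_, fun x => ?_⟩, h4⟩
  · have e1 := h4 1 A.one_mem 1 B.one_mem 1 S.one_mem
    have e2 : ((♯(A ⊔ B) * ♯(A ⊓ B) : ℕ) : ℂ) = (♯A * ♯B : ℕ) :=
      congrArg _ (card_sup_mul_inf (norm_of_cent hc))
    rw [hi, Nat.card_zpowers, hz] at e2
    simp only [mul_one] at e1
    push_cast at e2
    rw [e1]
    linear_combination (-1 / 2 : ℂ) * e2 + (ψ 1 ^ 2) * h1.2.1 + ((♯A : ℂ) / 2) * h2.2.1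
  · by_cases hx : x ∈ A ⊔ B ⊔ S
    · obtain ⟨a, ha, b, hb, s, hs, rfl⟩ := (mem_trip hc hA hB).1 hx
      rw [← mul_assoc, ← mul_assoc, h4 _ (A.mul_mem h5 ha) b hb s hs, h4 a ha b hb s hs, mul_assoc,
        h1.2.2, neg_mul]
    · rw [ext_on _ α x hx, ext_on _ α _ fun e => hx (((A ⊔ B ⊔ S).mul_mem_cancel_left
        (mem_sup_left (mem_sup_left h5))).1 e), neg_zero]

end CA.H10Dade
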