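import Cfsg.Agent.Lib.Char.H10Dade
import Cfsg.Agent.Lib.Odd.PF1d

/-!
# Dade's extension theorem for extraspecial 2-groups, second part
-/

set_option autoImplicit false
set_option linter.unusedSectionVars false
set_option linter.unusedVariables false

namespace CA.H10Dade2
open Cfsg CA.PF CA.OQuo CA.H12Gl CA.H12Gl2 CA.H12Gl3 CA.H12Gl4 CA.H12Tri CA.H12Berger CA.H10Dade
  Subgroup Function
open CA.BG hiding cj cj_one cj_mul cj_inv_cj cj_cj_inv mem_cent1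
open scoped ComplexConjugate commutatorElement

variable {Γ : Type*} [Group Γ] [Fintype Γ] {A B C E K L N S U : Subgroup Γ}
  {χ η θ φ ψ : Γ → ℂ} {g x y z : Γ} {q : ℕ}

theorem cyc_cent (hq : q.Prime) (hK : ♯K = q) (hS : S ≤ 𝓝(K)) :
    ∃ s ∈ S, S ≤ zpowers s ⊔ S ⊓ 𝓒(K) := by
  have := Fact.mk hq
  have := isCyclic_of_prime (hK ▸ hq)
  have : IsCyclic (MulAut K) := by
    have e := IsCyclic.mulAutMulEquiv K
    rw [hK] at e
    exact isCyclic_of_surjective e.symm e.symm.surjective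
  let f := K.normalizerMonoidHom.comp (inclusion hS)
  obtain ⟨⟨_, s, rfl⟩, hs⟩ := IsCyclic.exists_generator (α := f.range)
  refine ⟨s, s.2, fun t ht => ?_⟩
  obtain ⟨n, hn⟩ := hs ⟨_, ⟨t, ht⟩, rfl⟩
  have h1 : inclusion hS ((s ^ n)⁻¹ * ⟨t, ht⟩) ∈ K.normalizerMonoidHom.ker := by
    change f _ = 1
    rw [map_mul, map_inv, map_zpow, inv_mul_eq_one]
    exact congrArg Subtype.val hn
  rw [normalizerMonoidHom_ker] at h1
  rw [show t = s ^ n * (((s : Γ) ^ n)⁻¹ * t) by group]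
  exact mul_mem_sup (zpow_mem (mem_zpowers _) n) ⟨((s ^ n)⁻¹ * ⟨t, ht⟩ : S).2, h1⟩

theorem odd_mult (h : XS z E) (hE : ¬ E ≤ zpowers z) (hq : q.Prime) (hq2 : q ≠ 2) (hK : ♯K = q)
    (hKE : K ≤ 𝓝(E)) (hf : E ⊓ 𝓒(K) ≤ zpowers z) (e : Ex z E (K ⊔ E) η) :
    ∃ (j : Lin K) (a : ℕ), Odd a ∧ dot K η (lin j) = a := by
  classical
  have hc := comm_of_cyclic (isCyclic_of_prime (hK ▸ hq))
  obtain ⟨a, ε, i, h1, -, h2, h3⟩ := exists_lin_of_norm (nrm_bot K) (comm_iff_der_eq_bot.1 hc).le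
    (e.1.Res le_sup_left) bot_le fun y hy hy1 => by
      have k1 := coset_self (nrm_of_le_normalizer le_sup_right (sup_le hKE le_normalizer)) e.1
        (h.irr le_sup_right e) (mem_sup_left hy)
      rw [coset_cop (C := zpowers z) (f := fun x => η x * conj (η x)) (hKE hy)
        ((h.two.coprime_ne (isPi_of_card_eq hq hK) hq2.symm).coprime_dvd_right
          (orderOf_dvd_card_of_mem hy))
        (by rw [← cent_eq_cent1_of_prime (hK ▸ hq) hy hy1]
            exact le_antisymm (le_inf h.le (cent_symm (hKE.trans h.cent))) hf)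
        (fun k hk x => by simp only [e.1.CF.2 k (mem_sup_right hk) x]),
        sum_two h.ord, h.card, e.2.2, one_mul, map_neg] at k1
      rw [Res_of_mem _ hy, ← k1]
      ring
  obtain ⟨j, hj⟩ := Fintype.exists_ne_of_one_lt_card (by rw [card_Lin_comm hc, hK]; exact hq.one_lt) i
  rw [relIndex_bot_left, hK, Res_one] at h2
  refine ⟨j, a, ?_, ?_⟩
  · obtain ⟨n, hn⟩ := e.1.one_nat
    have k1 : 2 * n ^ 2 = ♯E := by exact_mod_cast hn ▸ e.2.1
    have k2 : (n : ℤ) = a * q + ε := by exact_mod_cast hn ▸ h2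
    have k3 : 2 ∣ n := by_contra fun k => hE (eq_of_le_of_card_eq h.le (by
      rw [← k1, h.card, (h.two.nat.of_dvd (k1 ▸ Dvd.intro_left (2 * n) (by ring))).eq_one
        ((piNat_compl_iff Nat.prime_two).2 k)]; rfl)).ge
    refine Nat.not_even_iff_odd.1 fun ⟨b, hb⟩ => ?_
    subst hb
    have : ((b + b : ℕ) : ℤ) * q = 2 * (b * q) := by push_cast; ring
    omega
  · rw [← dot_Res_left (lin_on j), show Res (K : Set Γ) η = ((a : ℂ) * q) • triv ⊥ + (ε : ℂ) • lin i from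
      CF_ext (Res_on _ _) (add_mem (Submodule.smul_mem _ _ (cfOn_mono (SetLike.coe_mono bot_le) (triv_CF ⊥).1))
        (Submodule.smul_mem _ _ (lin_on i))) fun y hy => by
        by_cases k : y = 1
        · simp [k, Res_one, h2]
        · simp [h3 y hy k, triv_of_not_mem (K := ⊥) k],
      dot_add_left, dot_smul_left, dot_smul_left, dot_lin, if_neg hj.symm, dot_def,
      Finset.sum_eq_single 1 (fun y _ k => by rw [triv_of_not_mem (K := ⊥) k, zero_mul]) (by simp), hK]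
    have : (q : ℂ) ≠ 0 := Nat.cast_ne_zero.2 hq.ne_zero
    simp [this]

theorem cj_lin (hq : q.Prime) (hK : ♯K = q) (hc : K ≤ 𝓝(C)) (h1 : g ∈ 𝓝(K)) (h2 : g ∈ 𝓝(C))
    {l : Lin (C ⊔ K)} (hl : C ≤ cfker (lin l)) : ∃ u : ℂ →+* ℂ, cj g (lin l) = aut u (lin l) ∧
      ∀ (G : Subgroup Γ), ∀ χ ∈ VC G, ∀ x, (orderOf x).Coprime q → u (χ x) = χ x := by
  obtain ⟨x, hx, hx1⟩ := exists_ne_one (ne_bot_of_prime (hK ▸ hq))
  obtain rfl := eq_zpowers_of_prime (hK ▸ hq) hx hx1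
  obtain ⟨k, hk⟩ := mem_powers_iff_mem_zpowers.2 (conj_mem_of_mem_norm h1 hx)
  replace hk : x ^ k = g * x * g⁻¹ := hk
  obtain ⟨u, hu, hu'⟩ := make_pi_cfAut hq.pos ((hq.coprime_iff_not_dvd.2 fun e => hx1 (by
    rw [← hK, Nat.card_zpowers, orderOf_dvd_iff_pow_eq_one, hk] at e
    simpa using e)).symm : k.Coprime q) Γ
  refine ⟨u, CF_ext (cj_CF (conj_iff_of_norm (norm_sup (zpowers_le.2 h2) (zpowers_le.2 h1)
    (mem_zpowers g))) (lin_CF l)).1 (aut_on u (lin_on l)) fun y hy => ?_, hu'⟩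
  obtain ⟨c, hc, y', hy', rfl⟩ := (mem_sup_norm' hc).1 hy
  clear hy
  rename' y' => y, hy' => hy
  rw [aut_apply, hl hc, (irr_char (lin_irr l)).aut_apply u (mem_sup_right hy) fun w hw => hu w (by
    obtain ⟨m, hm⟩ := orderOf_dvd_card_of_mem hy
    rw [← hK, hm, pow_mul, hw, one_pow]), cj_apply,
    show g * (c * y) * g⁻¹ = g * c * g⁻¹ * (g * y * g⁻¹) by group, hl (conj_mem_of_mem_norm h2 hc)]
  obtain ⟨i, rfl⟩ := hy
  rw [← conj_zpow, ← hk, ← zpow_natCast, ← zpow_natCast, ← zpow_mul, ← zpow_mul, mul_comm]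

theorem aut_fix {G P : Subgroup Γ} {u : ℂ →+* ℂ} (hN : Nrm N G) (hE : Nrm E P) (hEN : E ≤ N)
    (hG : G ≤ P ⊔ N) (hP : P ≤ G) (hχ : χ ∈ irr G) (h1 : Res (E : Set Γ) χ ∈ irr E)
    (h2 : Res (N : Set Γ) χ ∈ irr N) (h3 : aut u (Res (N : Set Γ) χ) = Res (N : Set Γ) χ)
    (h4 : ∀ x ∈ P, u (χ x) = χ x) : aut u χ = χ := by
  obtain ⟨β, k1, k2, k3⟩ := gall_surj hN (irr_char hχ) h2 (irr_aut u hχ) (by
    rw [← dot_Res_left (Res_on _ _), ← aut_Res, h3, dot_irr_self h2]; exact one_ne_zero)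
  have k4 : β 1 = 1 := mul_right_cancel₀ (irr_one_ne hχ) (by
    rw [one_mul, ← Pi.mul_apply, ← k3, aut_one_VC u (irr_VC hχ)])
  have k5 := gall_inj hE ((irr_char hχ).Res hP) (by rwa [Res_Res hE.le])
    (((irr_char k1).Res hP).irr_of_one (by rwa [Res_one])) (le_cfker_Res hE.le (hEN.trans k2))
    (triv_irr P) (by rw [cfker_triv]; exact hE.le) (by
      rw [← Res_mul, ← k3, triv_mul_of_on (Res_on _ _)]; exact Res_congr h4)
  rw [k3, (le_cfker_iff_triv k1).1 (hG.trans (sup_le ((le_cfker_Res_iff (irr_char k1) hP le_rfl).1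
    (by rw [k5, cfker_triv])) k2)), triv_mul_of_on (irr_on hχ)]

theorem base (h : XS z E) (hE : ¬ E ≤ zpowers z) (hq : q.Prime) (hq2 : q ≠ 2) (hK : ♯K = q)
    (hS : IsPi {2} S) (hKE : K ≤ 𝓝(E)) (hSE : S ≤ 𝓝(E)) (hSK : S ≤ 𝓝(K))
    (hd : E ⊓ (K ⊔ S) = ⊥) (hf : E ⊓ 𝓒(K) ≤ zpowers z) : ∃ η, Ex z E (E ⊔ S) η := by
  classical
  have := Fact.mk Nat.prime_two
  obtain ⟨θ, hθ, hs⟩ := h.exists_irr
  have hKq := isPi_of_card_eq hq hK
  have n1 : K ⊔ E ≤ 𝓝(E) := sup_le hKE le_normalizer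
  have hN : Nrm E (K ⊔ E) := nrm_of_le_normalizer le_sup_right n1
  obtain ⟨η, hη, r1, r2, r3, r4⟩ := exists_canon hN (by
    rw [relIndex_sup_norm hKE]
    exact h.two.nat.coprime ((hKq.ne hq2).relIndex E)) hθ (n1.trans (h.stab hθ hs))
  have r5 : ∀ u, aut u η = η := fun u => r3 _ (irr_aut u hη) (by rw [← aut_Res, r1, h.aut hθ hs])
    (by rwa [← detOrder_map u (mem_irr.1 hη).2] at r2)
  obtain ⟨j, a, ha, hj⟩ := odd_mult h hE hq hq2 hK hKE hf (h.ex le_sup_right n1 hη hθ hs r1)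
  obtain ⟨s, hs1, hs2⟩ := cyc_cent hq hK hSK
  set C := S ⊓ 𝓒(K)
  have c1 : K ≤ 𝓝(C) := norm_of_cent (cent_symm inf_le_right)
  have c2 : S ≤ 𝓝(C) := norm_inf le_normalizer (norm_cent hSK)
  have c3 : IsPi {2} C := hS.inf_left _
  have c4 : S ≤ 𝓝(K ⊔ E) := norm_sup hSK hSE
  have c5 : C ⊔ K ≤ 𝓝(K ⊔ E) := sup_le (inf_le_left.trans c4) (le_norm_of_le le_sup_left)
  have c6 : S ≤ 𝓝(C ⊔ K ⊔ (K ⊔ E)) := norm_sup (norm_sup c2 hSK) c4
  have c7 : (K ⊔ E) ⊓ (C ⊔ K) = K := by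
    rw [sup_inf_of_le_left hKE le_sup_right, BG.eq_bot_mono (inf_le_inf_left _
      (sup_le (inf_le_left.trans le_sup_right) le_sup_left)) hd, sup_bot_eq]
  have c8 : S ≤ stab η := fun g hg => r4 g (c4 hg) (hSE hg) (h.stab hθ hs (hSE hg))
  obtain ⟨l, hl, hl'⟩ := exists_lin_sdprod (L := C ⊔ K)
    ⟨c1, c3.inf_eq_bot (hKq.ne hq2), rfl⟩ j
  set G := C ⊔ K ⊔ (K ⊔ E)
  have g1 : Nrm (K ⊔ E) G := nrm_of_le_normalizer le_sup_right (sup_le c5 le_normalizer)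
  have g2 : G ≤ stab η := sup_le (sup_le (inf_le_left.trans c8) (le_sup_left.trans
    (le_stab (irr_CInv hη)))) (le_stab (irr_CInv hη))
  have g3 : (K ⊔ E).relIndex G = K.relIndex (C ⊔ K) := by
    rw [relIndex_sup_norm c5, ← inf_relIndex_right, c7]
  choose! e he using fun χ (k : χ ∈ irr G) => dot_char_over_nat g1.le (irr_char k) (irr_char hη)
  choose! m hm using fun χ (k : χ ∈ irr G) =>
    dot_char_over_nat (le_sup_left : C ⊔ K ≤ G) (irr_char k) (irr_char (lin_irr l))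
  have g4 : ∀ χ ∈ irr G, ¬ 2 ∣ e χ → Res (K ⊔ E : Subgroup Γ) χ = η := fun χ k k' => by
    have k1 : dot (K ⊔ E) χ η ≠ 0 := by
      rw [he χ k, Nat.cast_ne_zero]; rintro e0; exact k' (e0 ▸ dvd_zero 2)
    have k2 := clifford_stab g1 k hη k1 g2
    obtain ⟨b, k3, k4⟩ := exists_dvd_relIndex g1 k hη k1
    rw [← Res_one (K ⊔ E) χ, k2, he χ k, Pi.smul_apply, smul_eq_mul, mul_left_inj' (irr_one_ne hη),
      Nat.cast_inj] at k4
    rw [g3, relIndex_sup_norm (inf_le_left.trans hSK), ← k4] at k3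
    rw [k2, he χ k, ((c3.relIndex K).of_dvd k3).eq_one ((piNat_compl_iff Nat.prime_two).2 k'),
      Nat.cast_one, one_smul]
  have g5 : a = ∑ χ ∈ irr G, e χ * m χ := by
    have k1 := dot_expand_le (le_sup_left : C ⊔ K ≤ G) le_rfl (Ind_CF g1.le (irr_on hη)) (lin_on l)
    rw [Finset.sum_congr rfl fun χ k => by
      rw [dot_Ind_left _ _ (irr_CInv k), dot_comm_nat (he χ k), hm χ k], Ind_of_stab g1.le g2,
      dot_smul_left, g3] at k1
    have k2 := dot_change (C ⊔ K) K η (lin l)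
    rw [dot_congr_right (K := K) (irr_on hη) (ψ' := lin j) fun x hx => by
      by_cases k : x ∈ K
      exacts [hl' x k, (lin_on l x fun k' => k (c7.le ⟨hx, k'⟩)).trans (lin_on j x k).symm], hj,
      ← card_mul_relIndex (le_sup_right : K ≤ C ⊔ K), Nat.cast_mul, mul_assoc, k1,
      mul_right_inj' (cardC_ne K)] at k2
    exact_mod_cast k2.symm
  have g6 := sum_fixed (p := 2) (F := ZMod 2) rfl (hS.isPGroup Nat.prime_two) (X := irr G)
    (fun u hu φ k => irr_cj (conj_iff_of_norm (c6 hu)) k) (fun χ => ((e χ * m χ : ℕ) : ZMod 2))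
    fun g hg χ k => by
      have k1 := irr_cj (conj_iff_of_norm (c6 hg)) k
      have k2 : e (cj g χ) = e χ := by
        rw [← Nat.cast_inj (R := ℂ), ← he _ k1, ← he _ k, ← dot_cj _ g χ η, mem_stab.1 (c8 hg)]
      simp only [k2]
      by_cases k3 : 2 ∣ e χ
      · rw [Nat.cast_mul, Nat.cast_mul, (ZMod.natCast_eq_zero_iff _ _).2 k3, zero_mul, zero_mul]
      obtain ⟨u, k4, k5⟩ := cj_lin hq hK c1 (hSK (S.inv_mem hg)) (c2 (S.inv_mem hg)) hl
      have k6 : aut u χ = χ := aut_fix (P := C ⊔ E) g1 (nrm_of_le_normalizer le_sup_right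
        (sup_le (inf_le_left.trans hSE) le_normalizer)) le_sup_right
        (sup_le (sup_le (le_sup_left.trans le_sup_left) (le_sup_left.trans le_sup_right)) le_sup_right)
        (sup_le (le_sup_left.trans le_sup_left) (le_sup_right.trans le_sup_right)) k
        (by rwa [← Res_Res hN.le, g4 χ k k3, r1]) (by rwa [g4 χ k k3]) (by rw [g4 χ k k3, r5])
        fun x hx => k5 G χ (irr_VC k) x (((c3.sup h.two (inf_le_left.trans hSE)).orderOf hx).coprime
          (hK ▸ hKq.ne hq2))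
      rw [show m (cj g χ) = m χ by
        rw [← Nat.cast_inj (R := ℂ), ← hm _ k1, dot_cj_left, k4, ← k6, dot_aut u _ (irr_VC (lin_irr l)),
          hm χ k, map_natCast, k6]]
  rw [← Nat.cast_sum, ← g5, (ZMod.natCast_eq_one_iff_odd).2 ha] at g6
  obtain ⟨χ, k1, k2⟩ := Finset.exists_ne_zero_of_sum_ne_zero (g6 ▸ one_ne_zero)
  obtain ⟨k1, k3⟩ := Finset.mem_filter.1 k1
  have k4 := g4 χ k1 fun k => k2 ((ZMod.natCast_eq_zero_iff _ _).2 (k.mul_right _))
  obtain ⟨ξ, k5, k6⟩ := ext_cyc (S := G ⊔ zpowers s) (nrm_of_le_normalizer le_sup_left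
    (sup_le le_normalizer (zpowers_le.2 (c6 hs1)))) rfl k1
    (sup_le (le_stab (irr_CInv k1)) (zpowers_le.2 (k3 hs1)))
  have k7 : E ≤ G := le_sup_right.trans le_sup_right
  exact ⟨_, (h.ex (k7.trans le_sup_left) (sup_le (sup_le (sup_le (inf_le_left.trans hSE) hKE) n1)
    (zpowers_le.2 (hSE hs1))) k5 hθ hs (by rw [← Res_Res k7, k6, ← Res_Res hN.le, k4, r1])).Res
    (mem_sup_left h.mem) (sup_le (k7.trans le_sup_left) (hs2.trans (sup_le le_sup_right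
      (le_sup_left.trans (le_sup_left.trans le_sup_left)))))⟩

end CA.H10Dade2
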