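import Cfsg.Agent.Lib.Char.H10Dade2

/-!
# Dade's extension theorem for extraspecial 2-groups, third part
-/

set_option autoImplicit false
set_option linter.unusedSectionVars false
set_option linter.unusedVariables false

namespace CA.H10Dade3
open Cfsg CA.PF CA.OQuo CA.H12Gl CA.H12Gl2 CA.H12Gl3 CA.H12Gl4 CA.H12Tri CA.H12Berger CA.H10Dade
  CA.H10Dade2 Subgroup Function
open CA.BG hiding cj cj_one cj_mul cj_inv_cj cj_cj_inv mem_cent1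
open scoped ComplexConjugate commutatorElement

universe u

section
variable {Γ : Type*} [Group Γ] [Fintype Γ] {A B C D E K L M N S T U : Subgroup Γ}
  {χ η θ φ ψ : Γ → ℂ} {g t x y z : Γ} {q : ℕ}

theorem xs_sub (h : XS z E) (hD : D ≤ E) (hz : z ∈ D) (hc : 𝓩(D) ≤ zpowers z) : XS z D :=
  ⟨h.ord, h.two.of_le hD, (der_mono hD).trans h.der, hc.antisymm (le_inf (zpowers_le.2 hz)
    (cent_symm ((hD.trans le_normalizer).trans h.cent)))⟩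

theorem xs_sup (h : XS z E) (hA : XS z A) (hB : XS z B) (h1 : A ≤ E) (h2 : B ≤ E)
    (hc : A ≤ 𝓒(B)) : XS z (A ⊔ B) :=
  xs_sub h (sup_le h1 h2) (mem_sup_left hA.mem) (hA.cen ▸ le_inf (by
    refine (inf_le_inf_left _ (cent_anti le_sup_right)).trans ?_
    rw [sup_inf_of_le_left (norm_of_cent hc) hc, hB.cen]
    exact sup_le le_rfl hA.le) (inf_le_right.trans (cent_anti le_sup_left)))

theorem xs_inf (hA : XS z A) (hB : XS z B) (hc : A ≤ 𝓒(B)) : A ⊓ B = zpowers z :=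
  le_antisymm (hA.cen ▸ inf_le_inf_left _ (cent_symm hc)) (le_inf hA.le hB.le)

theorem xs_compl (h : XS z E) (hD : XS z D) (h1 : D ≤ E) :
    D ⊔ E ⊓ 𝓒(D) = E ∧ XS z (E ⊓ 𝓒(D)) := by
  have e := sup_cent_of_comm_le Nat.prime_two h1 hD.two (by rw [hD.cen, hD.card])
    (hD.cen ▸ le_normalizer.trans h.cent) (hD.cen ▸ (comm_le_der h1 le_rfl).trans h.der)
  refine ⟨e, xs_sub h inf_le_left ⟨h.mem, cent_symm (le_normalizer.trans hD.cent) (mem_zpowers z)⟩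
    (h.cen ▸ le_inf (inf_le_left.trans inf_le_left) ?_)⟩
  conv_rhs => rw [← e]
  exact le_cent_sup (inf_le_left.trans inf_le_right) inf_le_right

theorem comm_cent (h : XS z E) (hM : M ≤ 𝓝(E)) : ⁅E, M⁆ ≤ 𝓒(E ⊓ 𝓒(M)) :=
  three_subgroups ((comm_eq_bot_iff.2 (cent_symm inf_le_right)).le.trans bot_le)
    (((comm_le_der inf_le_left le_rfl).trans h.der).trans (cent_symm (hM.trans h.cent)))

theorem xs_cent (h : XS z E) (hM : M ≤ 𝓝(E)) (ho : IsPi {2}ᶜ M) : XS z (E ⊓ 𝓒(M)) :=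
  xs_sub h inf_le_left ⟨h.mem, cent_symm (hM.trans h.cent) (mem_zpowers z)⟩
    (h.cen ▸ le_inf (inf_le_left.trans inf_le_left) (by
      conv_rhs => rw [← coprime_cent_prod hM (h.two.coprime ho)
        (Or.inr (h.two.isSolvable Nat.prime_two))]
      exact le_cent_sup (inf_le_left.trans (cent_symm (comm_cent h hM))) inf_le_right))

theorem xs_cj (h : XS z E) (hD : XS z D) (hg : g ∈ 𝓝(E)) : XS z (BG.cj g D) := by
  have e : BG.cj g (zpowers z) = zpowers z := by rw [cj_zpowers, h.cjz hg]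
  exact ⟨h.ord, hD.two.cj g, by rw [← cj_comm, ← e]; exact cj_mono g hD.der,
    by rw [← cj_cent, ← cj_inf, hD.cen, e]⟩

/-- The hypotheses of the induction. -/
structure St (z : Γ) (E K S : Subgroup Γ) : Prop where
  xs : XS z E
  odd : IsPi {2}ᶜ K
  sol : Group.IsSolvable K
  two : IsPi {2} S
  nK : K ≤ 𝓝(E)
  nS : S ≤ 𝓝(E)
  nSK : S ≤ 𝓝(K)
  dis : E ⊓ (K ⊔ S) = ⊥
  fpf : E ⊓ 𝓒(K) ≤ zpowers z

theorem St.sub (h : St z E K S) (hD : XS z D) (h1 : D ≤ E) (h2 : L ≤ K) (h3 : T ≤ S)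
    (h4 : L ≤ 𝓝(D)) (h5 : T ≤ 𝓝(D)) (h6 : T ≤ 𝓝(L)) (h7 : D ⊓ 𝓒(L) ≤ zpowers z) : St z D L T :=
  ⟨hD, h.odd.of_le h2, solv_of_le h.sol h2, h.two.of_le h3, h4, h5, h6,
    BG.eq_bot_mono (inf_le_inf h1 (sup_le_sup h2 h3)) h.dis, h7⟩

theorem quo_cent (hE : E ≤ 𝓝(N)) (hA : A ≤ 𝓝(N)) (hd : E ⊓ N = ⊥) (hn : A ≤ 𝓝(E)) :
    E /ᵍ N ⊓ 𝓒(A /ᵍ N) ≤ (E ⊓ 𝓒(A)) /ᵍ N := fun q ⟨h1, h2⟩ => by
  obtain ⟨x, hx, rfl⟩ := (mem_mim_of_le hE).1 h1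
  have h3 := zpowers_le.2 hx
  refine mel_mem_mim _ ⟨hx, zpowers_le.1 (comm_eq_bot_iff.1 (BG.eq_bot_mono (le_inf
    ((comm_mono h3 le_rfl).trans (comm_le_left hn))
    ((quo_le_centralizer_iff (h3.trans hE) hA).1 ?_)) hd))⟩
  rw [mim_zpowers _ (hE hx)]
  exact zpowers_le.2 h2

theorem St.quo (h : St z E K S) (hN : N ≤ K) (h1 : E ≤ 𝓝(N)) (h2 : K ≤ 𝓝(N)) (h3 : S ≤ 𝓝(N))
    [Fintype (QT N)] : St (mel (qh N) z) (E /ᵍ N) (K /ᵍ N) (S /ᵍ N) ∧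
      ∀ η, Ex (mel (qh N) z) (E /ᵍ N) (E /ᵍ N ⊔ S /ᵍ N) η → ∃ η, Ex z E (E ⊔ S) η := by
  have hd : E ⊓ N = ⊥ := BG.eq_bot_mono (inf_le_inf_left _ (hN.trans le_sup_left)) h.dis
  have e := mim_zpowers (qh N) (h1 h.xs.mem)
  refine ⟨⟨⟨?_, h.xs.two.mim _, by rw [← quo_comm h1 h1, ← e]; exact quo_mono N h.xs.der, ?_⟩,
    h.odd.mim _, solv_quo N h.sol, h.two.mim _, mim_le_normalizer _ h.nK, mim_le_normalizer _ h.nS,
    mim_le_normalizer _ h.nSK, ?_, (quo_cent h1 h2 hd h.nK).trans (e ▸ quo_mono N h.fpf)⟩,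
    fun η k => ⟨infl (qh N) (E ⊔ S) η, infl_char _ (sup_le h1 h3) (by rw [quo_sup h1 h3]; exact k.1),
      by rw [infl_one, k.2.1, card_quo_of_disjoint h1 hd], fun x => ?_⟩⟩
  · rw [← Nat.card_zpowers, ← e, card_quo_of_disjoint (h.xs.le.trans h1)
      (BG.eq_bot_mono (inf_le_inf_right _ h.xs.le) hd), h.xs.card]
  · rw [← e, ← h.xs.cen]
    exact (quo_cent h1 h1 hd le_normalizer).antisymm (mim_center_le _ E)
  · rw [← quo_sup h2 h3, ← quo_inf_right E (sup_le h2 h3) (hN.trans le_sup_left), h.dis, mim_bot]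
  · have hz : z ∈ E ⊔ S := mem_sup_left h.xs.mem
    by_cases hx : x ∈ E ⊔ S
    · rw [infl_of_mem _ _ hx, infl_of_mem _ _ (mul_mem hz hx),
        mel_mul _ (h1 h.xs.mem) (sup_le h1 h3 hx), k.2.2]
    · rw [infl_of_not_mem _ _ hx, infl_of_not_mem _ _ fun k =>
        hx (((E ⊔ S).mul_mem_cancel_left hz).1 k), neg_zero]

theorem St.triv (h : St z E K S) (hE : E ≤ zpowers z) : ∃ η, Ex z E (E ⊔ S) η := by
  obtain ⟨θ, hθ, hs⟩ := h.xs.exists_irr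
  have e := hE.antisymm h.xs.le
  have hc : S ≤ 𝓒(E) := e ▸ h.nS.trans h.xs.cent
  obtain ⟨i, rfl⟩ := irr_exists_lin (comm_iff_le_cent.2 ((le_normalizer.trans h.xs.cent).trans (cent_anti hE))) hθ
  obtain ⟨l, -, hl⟩ := exists_lin_sdprod (L := E ⊔ S) ⟨norm_of_cent (cent_symm hc), inf_comm E S ▸
    BG.eq_bot_mono (inf_le_inf_left _ le_sup_right) h.dis, sup_comm _ _⟩ i
  exact ⟨_, h.xs.ex le_sup_left (sup_le le_normalizer h.nS) (lin_irr l) hθ hs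
    (CF_ext (Res_on _ _) (lin_on i) fun x hx => by rw [Res_of_mem _ hx, hl x hx])⟩

theorem swap (h : XS z E) (hD : XS z D) (ht : t ∈ 𝓝(E)) (h1 : T ≤ 𝓝(D)) (h2 : t ∈ 𝓝(T))
    (h3 : t ^ 2 ∈ T) (h4 : D ⊔ BG.cj t⁻¹ D = E) (h5 : D ≤ 𝓒(BG.cj t⁻¹ D)) (h6 : E ⊓ T = ⊥)
    (e : Ex z D (D ⊔ T) φ) : ∃ η, Ex z E (E ⊔ (T ⊔ zpowers t)) η := by
  have k1 : BG.cj t⁻¹ T = T := cj_of_mem_norm (inv_mem h2)
  have k2 : T ≤ 𝓝(BG.cj t⁻¹ D) := k1 ▸ norm_cj t⁻¹ h1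
  have k3 : T ≤ 𝓝(E) := h4 ▸ norm_sup h1 k2
  obtain ⟨η, e1, e2⟩ := prod (ψ := cj t φ) h.ord h5 h1 k2 (xs_inf hD (xs_cj h hD (inv_mem ht)) h5)
    (h4 ▸ h6) e ⟨by
      rw [← k1, ← cj_sup, show BG.cj t⁻¹ (D ⊔ T) = (D ⊔ T).comap (MulAut.conj t).toMonoidHom from
        Subgroup.ext fun x => mem_cj_inv]
      exact pb_char e.1, by rw [cj_apply_one, card_cj, e.2.1], fun x => by
      rw [cj_apply, cj_apply, ← e.2.2, show t * (z * x) * t⁻¹ = t * z * t⁻¹ * (t * x * t⁻¹) by group,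
        h.cjz ht]⟩
  have k4 : t ∈ stab η := mem_stab_of e1.1.1 (h4 ▸ norm_sup (zpowers_le.2 ht) (zpowers_le.2 h2)
    (mem_zpowers t)) fun y hy => by
      obtain ⟨a, ha, b, hb, s, hs, rfl⟩ := (mem_trip h5 h1 k2).1 hy
      have k5 : t * a * t⁻¹ ∈ BG.cj t⁻¹ D := mem_cj_inv.2 (by
        have := conj_mem_of_norm h1 h3 ha
        rwa [show t ^ 2 * a * (t ^ 2)⁻¹ = t * (t * a * t⁻¹) * t⁻¹ by rw [sq]; group] at this)
      rw [show t * (a * b * s) * t⁻¹ = t * b * t⁻¹ * (t * a * t⁻¹) * (t * s * t⁻¹) by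
        rw [← mem_cent.1 (h5 ha) b hb]; group, e2 _ (mem_cj_inv.1 hb) _ k5 _
        (conj_mem_of_mem_norm h2 hs), e2 a ha b hb s hs, mul_comm, cj_apply, cj_apply,
        ← CF_conj e.1.CF (mem_sup_right h3) (a * s)]
      rw [sq]
      congr 2 <;> group
  rw [h4] at e1
  have k5 := h.irr le_sup_left e1
  have k6 : η ∈ irr (E ⊔ T) := by
    obtain ⟨ψ, h1, h2⟩ := e1.1.exists_irr fun k => irr_ne_zero k5 (by rw [k, map_zero])
    have := e1.1.sub_irr h1 h2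
    rw [← add_sub_cancel ψ η, map_add] at k5
    have k := IsChar.eq_zero_of_add_irr ((irr_char h1).Res le_sup_left) (this.Res le_sup_left) k5
      fun k => irr_one_ne h1 (by rw [← Res_one E ψ, k]; rfl)
    rwa [sub_eq_zero.1 (this.eq_zero (by rw [← Res_one E (η - ψ), k]; rfl))]
  obtain ⟨ξ, k7, k8⟩ := ext_cyc (S := E ⊔ T ⊔ zpowers t) (nrm_of_le_normalizer le_sup_left
    (sup_le le_normalizer (norm_sup (zpowers_le.2 ht) (zpowers_le.2 h2)))) rfl k6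
    (sup_le (le_stab (irr_CInv k6)) (zpowers_le.2 k4))
  exact ⟨ξ, sup_assoc E T _ ▸ h.ex (le_sup_left.trans le_sup_left)
    (sup_le (sup_le le_normalizer k3) (zpowers_le.2 ht)) k7 k5 (e1.2.2.Res h.mem)
    (by rw [← k8, Res_Res (le_sup_left : E ≤ E ⊔ T)])⟩

/-- A subgroup whose conjugates commute. -/
def Pc (z : Γ) (E K S D : Subgroup Γ) : Prop :=
  D ≤ E ∧ XS z D ∧ ¬ D ≤ zpowers z ∧ K ≤ 𝓝(D) ∧ (∀ s ∈ S, s ∉ 𝓝(D) → BG.cj s D ≤ 𝓒(D)) ∧ ¬ S ≤ 𝓝(D)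

theorem St.exists_swap (h : St z E K S) (hD : Pc z E K S D)
    (hI : ∀ D ≤ E, XS z D → K ≤ 𝓝(D) → S ≤ 𝓝(D) → ¬ D ≤ zpowers z → D = E) :
    ∃ D t, Pc z E K S D ∧ t ∈ S ∧ t ∈ 𝓝(S ⊓ 𝓝(D)) ∧ t ^ 2 ∈ S ⊓ 𝓝(D) ∧ D ⊔ BG.cj t⁻¹ D = E ∧
      D ≤ 𝓒(BG.cj t⁻¹ D) ∧ S ⊓ 𝓝(D) ⊔ zpowers t = S := by
  have := Fact.mk Nat.prime_two
  obtain ⟨D, -, hD, hm⟩ := exists_maximal_ge hD
  obtain ⟨d1, d2, d3, d4, d5, d6⟩ := id hD
  obtain ⟨t, t1, t2, t3, t4⟩ := PGBasic.exists_mem_normalizer (h.two.isPGroup Nat.prime_two)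
    (inf_lt_left.2 d6)
  set T := S ⊓ 𝓝(D) ⊔ zpowers t
  have k1 : ∀ a ∈ S, ∀ b ∈ S, b⁻¹ * a ∉ 𝓝(D) → BG.cj a D ≤ 𝓒(BG.cj b D) := fun a ha b hb k => by
    have := cent_cj b (d5 _ (mul_mem (inv_mem hb) ha) k)
    rwa [← BG.cj_mul, mul_inv_cancel_left] at this
  have k2 : D ≤ 𝓒(BG.cj t⁻¹ D) := by
    simpa using k1 1 S.one_mem _ (inv_mem t1) fun k => t2 ⟨t1, by simpa using k⟩
  have k3 : BG.cj t⁻¹ D ≤ E := cj_of_mem_norm (inv_mem (h.nS t1)) ▸ cj_mono _ d1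
  have k4 := xs_sup h.xs d2 (xs_cj h.xs d2 (inv_mem (h.nS t1))) d1 k3 k2
  have k5 : ∀ s ∈ S, s ∉ T → BG.cj s (D ⊔ BG.cj t⁻¹ D) ≤ 𝓒(D ⊔ BG.cj t⁻¹ D) := fun s hs k => by
    have e : ∀ a ∈ T, ∀ b ∈ T, a ∈ S → b ∈ S → BG.cj (s * a) D ≤ 𝓒(BG.cj b D) :=
      fun a ha b hb ha' hb' => k1 _ (mul_mem hs ha') b hb' fun k' => k (by
        have := T.mul_mem (T.mul_mem hb (mem_sup_left (T := zpowers t)
          (⟨S.mul_mem (S.inv_mem hb') (S.mul_mem hs ha'), k'⟩ : _ ∈ S ⊓ 𝓝(D)))) (T.inv_mem ha)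
        simpa using this)
    have ht : t⁻¹ ∈ T := mem_sup_right (inv_mem (mem_zpowers t))
    rw [cj_sup, ← BG.cj_mul]
    exact sup_le (le_cent_sup (by simpa using e 1 T.one_mem 1 T.one_mem S.one_mem S.one_mem)
      (by simpa using e 1 T.one_mem _ ht S.one_mem (inv_mem t1)))
      (le_cent_sup (by simpa using e _ ht 1 T.one_mem (inv_mem t1) S.one_mem)
      (e _ ht _ ht (inv_mem t1) (inv_mem t1)))
  have k6 : T ≤ 𝓝(D ⊔ BG.cj t⁻¹ D) := sup_le (norm_sup inf_le_right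
    (cj_of_mem_norm (inv_mem t3) ▸ norm_cj t⁻¹ inf_le_right)) (zpowers_le.2 (mem_norm_iff_cj.2 (by
      rw [cj_sup, BG.cj_cj_inv, sup_comm, ← cj_of_mem_norm (inv_mem t4.2), ← BG.cj_mul,
        cj_of_mem_norm (inv_mem t4.2)]
      congr 2
      group)))
  have k7 : K ≤ 𝓝(D ⊔ BG.cj t⁻¹ D) :=
    norm_sup d4 (cj_of_mem_norm (inv_mem (h.nSK t1)) ▸ norm_cj t⁻¹ d4)
  have k8 : ¬ D ⊔ BG.cj t⁻¹ D ≤ zpowers z := fun k => d3 (le_sup_left.trans k)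
  have k9 := hI _ (sup_le d1 k3) k4 k7 (by_contra fun k => t2 ⟨t1, 𝓝(D).inv_mem_iff.1 (mem_norm_of_cj_le
    (le_sup_right.trans (hm _ ⟨sup_le d1 k3, k4, k8, k7, fun s hs k' => k5 s hs fun e => k' (k6 e), k⟩
      le_sup_left).le))⟩) k8
  refine ⟨D, t, hD, t1, t3, t4, k9, k2, (sup_le inf_le_left (zpowers_le.2 t1)).antisymm
    fun s hs => by_contra fun k => k8 ?_⟩
  have := k5 s hs k
  rw [k9, cj_of_mem_norm (h.nS hs)] at this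
  exact k9 ▸ h.xs.cen ▸ le_inf le_rfl this

end

theorem main (n : ℕ) : ∀ {Γ : Type u} [Group Γ] [Fintype Γ] {z : Γ} {E K S : Subgroup Γ},
    ♯E + ♯K = n → St z E K S → ∃ η, Ex z E (E ⊔ S) η := by
  induction n using Nat.strong_induction_on with | _ n ih =>
  intro Γ _ _ z E K S hn h
  subst hn
  by_cases hE : E ≤ zpowers z
  · exact h.triv hE
  have ih1 : ∀ {D T}, D < E → St z D K T → ∃ η, Ex z D (D ⊔ T) η := fun k k' =>
    ih _ (Nat.add_lt_add_right (card_lt_of_lt k) _) rfl k'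
  by_cases hI : ∀ D ≤ E, XS z D → K ≤ 𝓝(D) → S ≤ 𝓝(D) → ¬ D ≤ zpowers z → D = E
  swap
  · push Not at hI
    obtain ⟨D, d1, d2, d3, d4, d5, d6⟩ := hI
    obtain ⟨e1, e2⟩ := xs_compl h.xs d2 d1
    have k1 := norm_inf h.nS (norm_cent d4)
    obtain ⟨φ, hφ⟩ := ih1 (d1.lt_of_ne d6) (h.sub d2 d1 le_rfl le_rfl d3 d4 h.nSK
      ((inf_le_inf_right _ d1).trans h.fpf))
    obtain ⟨ψ, hψ⟩ := ih1 (inf_lt_left.2 fun k => d5 (h.xs.cen ▸ le_inf d1 (cent_symm k)))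
      (h.sub e2 inf_le_left le_rfl le_rfl (norm_inf h.nK (norm_cent d3)) k1 h.nSK
      ((inf_le_inf_right _ inf_le_left).trans h.fpf))
    obtain ⟨η, hη, -⟩ := prod h.xs.ord (cent_symm inf_le_right) d4 k1
      (xs_inf d2 e2 (cent_symm inf_le_right))
      (by rw [e1]; exact BG.eq_bot_mono (inf_le_inf_left _ le_sup_right) h.dis) hφ hψ
    exact ⟨η, by rwa [e1] at hη⟩
  by_cases hL : ∃ L < K, S ≤ 𝓝(L) ∧ E ⊓ 𝓒(L) ≤ zpowers z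
  · obtain ⟨L, l1, l2, l3⟩ := hL
    exact ih _ (Nat.add_lt_add_left (card_lt_of_lt l1) _) rfl
      (h.sub h.xs le_rfl l1.le le_rfl (l1.le.trans h.nK) h.nS l2 l3)
  by_cases hN : K ⊓ 𝓒(E) = ⊥
  swap
  · have k1 : E ≤ 𝓝(K ⊓ 𝓒(E)) := norm_of_cent (cent_symm inf_le_right)
    have k2 : K ≤ 𝓝(K ⊓ 𝓒(E)) := norm_inf le_normalizer (norm_cent h.nK)
    have := Fintype.ofFinite (QT (K ⊓ 𝓒(E)))
    obtain ⟨k3, k4⟩ := h.quo inf_le_left k1 k2 (norm_inf h.nSK (norm_cent h.nS))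
    obtain ⟨η, hη⟩ := ih _ (Nat.add_lt_add_of_le_of_lt (Nat.le_of_dvd (card_pos' E) (card_mim_dvd _ E))
      (card_quo_lt k2 (by rwa [← inf_assoc, inf_idem]))) rfl k3
    exact k4 η hη
  push Not at hL
  have h1 : ∀ L ≤ K, K ≤ 𝓝(L) → S ≤ 𝓝(E ⊓ 𝓒(L)) → ¬ E ⊓ 𝓒(L) ≤ zpowers z → L = ⊥ :=
    fun L l1 l2 l3 l4 => BG.eq_bot_mono (le_inf l1 (cent_symm ((hI _ inf_le_left
      (xs_cent h.xs (l1.trans h.nK) (h.odd.of_le l1)) (norm_inf h.nK (norm_cent l2)) l3 l4).ge.trans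
        inf_le_right))) hN
  have h2 : ∀ L < K, K ≤ 𝓝(L) → S ≤ 𝓝(L) → L = ⊥ := fun L l1 l2 l3 =>
    h1 L l1.le l2 (norm_inf h.nS (norm_cent l3)) (hL L l1 l3)
  have h3 : K ≠ ⊥ := by rintro rfl; exact hE (by simpa only [cent_bot, inf_top_eq] using h.fpf)
  have h4 := comm_iff_der_eq_bot.2 (h2 _ (der_lt_of_solv h.sol h3) (norm_comm le_normalizer le_normalizer)
    (norm_comm h.nSK h.nSK))
  obtain ⟨M, -, ⟨m1, m2⟩, m3⟩ := exists_maximal_ge (P := fun M => M ≤ K ∧ ¬ E ⊓ 𝓒(M) ≤ zpowers z)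
    (H := ⊥) ⟨bot_le, by simpa only [cent_bot, inf_top_eq] using hE⟩
  by_cases hM : S ≤ 𝓝(E ⊓ 𝓒(M))
  · obtain rfl := h1 M m1 (norm_of_comm h4 m1) hM m2
    have k1 : IsCyclic K := by_contra fun k => hE (coprime_abelian_gen_cent1 h4 k h.nK
      (h.xs.two.coprime h.odd) fun a ha k' => by_contra fun e => k' (zpowers_eq_bot.1
        (m3 _ ⟨zpowers_le.2 ha, by rwa [cent_zpowers]⟩ bot_le)))
    obtain ⟨X, x1, x2⟩ := exists_prime_card_le h3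
    obtain rfl : X = K := by_contra fun k => ne_bot_of_prime x2 (h2 X (x1.lt_of_ne k)
      (norm_of_comm h4 x1) (h.nSK.trans (norm_le_norm_of_cyc k1 x1)))
    exact base h.xs hE x2 (fun e => h.odd 2 Nat.prime_two e.symm.dvd rfl) rfl h.two h.nK h.nS h.nSK
      h.dis h.fpf
  obtain ⟨D, t, ⟨d1, d2, d3, d4, d5, d6⟩, t1, t2, t3, t4, t5, t6⟩ := h.exists_swap
    (D := E ⊓ 𝓒(M)) ⟨inf_le_left, xs_cent h.xs (m1.trans h.nK) (h.odd.of_le m1), m2,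
      norm_inf h.nK (norm_cent (norm_of_comm h4 m1)), fun s hs k => by
      have k1 : BG.cj s M ≤ K := cj_of_mem_norm (h.nSK hs) ▸ cj_mono s m1
      have k2 : E ⊓ 𝓒(M ⊔ BG.cj s M) ≤ zpowers z := by_contra fun e => k (norm_inf
        (zpowers_le.2 (h.nS hs)) (norm_cent (zpowers_le.2 (mem_norm_of_cj_le (le_sup_right.trans
        (m3 _ ⟨sup_le m1 k1, e⟩ le_sup_left).le)))) (mem_zpowers s))
      rw [cj_inf, cj_cent, cj_of_mem_norm (h.nS hs), ← coprime_cent_prod (A := M) (m1.trans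
        (norm_inf h.nK (norm_cent (norm_of_comm h4 k1)))) ((h.xs.two.inf_left _).coprime
        (h.odd.of_le m1)) (Or.inr ((h.xs.two.inf_left _).isSolvable Nat.prime_two))]
      refine sup_le ((comm_mono inf_le_left le_rfl).trans (comm_cent h.xs (m1.trans h.nK)))
        (le_trans ?_ (k2.trans (cent_symm ((inf_le_left.trans le_normalizer).trans h.xs.cent))))
      rw [cent_sup, inf_assoc, inf_comm 𝓒(M)], hM⟩ hI
  obtain ⟨φ, hφ⟩ := ih1 (d1.lt_of_ne fun e => d6 (e ▸ h.nS)) (h.sub d2 d1 le_rfl inf_le_left d4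
    inf_le_right (inf_le_left.trans h.nSK) ((inf_le_inf_right _ d1).trans h.fpf))
  exact t6 ▸ swap h.xs d2 (h.nS t1) inf_le_right t2 t3 t4 t5
    (BG.eq_bot_mono (inf_le_inf_left _ (inf_le_left.trans le_sup_right)) h.dis) hφ

end CA.H10Dade3
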