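import Cfsg.Agent.Lib.Char.H10Isa2
import Cfsg.Agent.Lib.Char.H10Gal

/-!
# The Isaacs correspondence: reduction to the central case
-/

set_option autoImplicit false
set_option linter.unusedSectionVars false
set_option linter.unusedVariables false

namespace CA.H10Isa3
open Cfsg CA.PF CA.OQuo CA.H12Gl CA.H12Gl2 CA.H12Tri CA.H10Isa CA.H10Isa2 CA.H10Gal Subgroup
  Function
open CA.BG hiding cj cj_one cj_mul cj_inv_cj cj_cj_inv mem_cent1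
open scoped ComplexConjugate commutatorElement

/-- The relation `R` is a bijection between `A` and `B`. -/
def Bij {α β : Type*} (A : Set α) (B : Set β) (R : α → β → Prop) : Prop :=
  (∀ a ∈ A, ∃ b ∈ B, R a b ∧ ∀ b' ∈ B, R a b' → b' = b) ∧
    ∀ b ∈ B, ∃ a ∈ A, R a b ∧ ∀ a' ∈ A, R a' b → a' = a

theorem Bij.trans {α β α' β' : Type*} {A : Set α} {B : Set β} {A' : Set α'} {B' : Set β'}
    {R : α → β → Prop} {R' : α' → β' → Prop} {r : α → α' → Prop} {t : β → β' → Prop}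
    (h1 : Bij A A' r) (h2 : Bij B B' t) (h3 : Bij A' B' R')
    (h : ∀ a ∈ A, ∀ a' ∈ A', ∀ b ∈ B, ∀ b' ∈ B', r a a' → t b b' → (R a b ↔ R' a' b')) :
    Bij A B R := by
  refine ⟨fun a ha => ?_, fun b hb => ?_⟩
  · obtain ⟨a', k1, k2, -⟩ := h1.1 a ha
    obtain ⟨b', k3, k4, k5⟩ := h3.1 a' k1
    obtain ⟨b, k6, k7, k8⟩ := h2.2 b' k3
    refine ⟨b, k6, (h a ha a' k1 b k6 b' k3 k2 k7).2 k4, fun c hc e => ?_⟩
    obtain ⟨c', k9, k10, -⟩ := h2.1 c hc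
    exact k8 c hc (k5 c' k9 ((h a ha a' k1 c hc c' k9 k2 k10).1 e) ▸ k10)
  · obtain ⟨b', k1, k2, -⟩ := h2.1 b hb
    obtain ⟨a', k3, k4, k5⟩ := h3.2 b' k1
    obtain ⟨a, k6, k7, k8⟩ := h1.2 a' k3
    refine ⟨a, k6, (h a k6 a' k3 b hb b' k1 k7 k2).2 k4, fun c hc e => ?_⟩
    obtain ⟨c', k9, k10, -⟩ := h1.1 c hc
    exact k8 c hc (k5 c' k9 ((h c hc c' k9 b hb b' k1 k10 k2).1 e) ▸ k10)

variable {Γ : Type*} [Group Γ] [Fintype Γ] {Z L K G H S X : Subgroup Γ}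
  {χ χ' θ φ ψ ξ ν : Γ → ℂ}

/-- The twisted character restricted to `H`. -/
noncomputable def TW (K H : Subgroup Γ) (ν χ : Γ → ℂ) : Γ → ℂ :=
  Res (H : Set Γ) fun g => ∑ k ∈ fs (K : Set Γ), conj (ν k) * χ (g * k)

theorem TW_on (χ : Γ → ℂ) : TW K H ν χ ∈ cfOn (H : Set Γ) := Res_on _ _

section amb
variable [Fintype G] [Fintype (K.subgroupOf G)] [Fintype (H.subgroupOf G)]

theorem tw_eq (hK : K ≤ G) (ν χ : Γ → ℂ) :
    (fun h : H.subgroupOf G => tw (K.subgroupOf G) (fun g : G => ν g) (fun g : G => χ g) h) =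
      fun h : H.subgroupOf G => TW K H ν χ ((h : G) : Γ) := funext fun h => by
  have := Fintype.ofFinite K
  rw [TW, Res_of_mem _ (show ((h : G) : Γ) ∈ (H : Set Γ) from h.2), ← sum_subgroup_fs]
  exact Fintype.sum_equiv (subgroupOfEquivOfLe hK).toEquiv _ _ fun k => rfl

theorem dot_eq' (hH : H ≤ G) (φ : Γ → ℂ) (h : ψ ∈ cfOn (H : Set Γ)) : dot H φ ψ =
    classInner (fun n : H.subgroupOf G => φ n) (fun n : H.subgroupOf G => ψ n) := by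
  rw [← dot_eq_sub hH, dot_Res_left h]

variable (D : Core (K.subgroupOf G) (H.subgroupOf G) (fun g : G => ν g)) (hK : K ≤ G) (hH : H ≤ G)
include D hK hH

theorem amb_orth (hχ : χ ∈ irr G) (hχ' : χ' ∈ irr G) (h : dot H (TW K H ν χ) (TW K H ν χ') ≠ 0) :
    χ = χ' := by
  by_contra hne
  rw [dot_eq' hH _ (TW_on χ'), ← tw_eq hK, ← tw_eq hK] at h
  exact h (D.orth (mem_irr.1 hχ).2 (mem_irr.1 hχ').2 fun e => hne
    (CF_ext (irr_on hχ) (irr_on hχ') fun x hx => congrFun e ⟨x, hx⟩))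

theorem amb_irr (hχ : χ ∈ irr G) (h0 : TW K H ν χ ≠ 0) : ∃ (a : ℂ) (ψ : Γ → ℂ), a ≠ 0 ∧
    ψ ∈ irr H ∧ TW K H ν χ = a • ψ ∧ ∀ ξ ∈ irr H, GR 2 H χ ξ ↔ ξ = ψ := by
  obtain ⟨a, ψ, h1, h2, h3, h4⟩ := D.exists_irr (mem_irr.1 hχ).2 (by
    rw [tw_eq hK]
    exact fun e => h0 (CF_ext (Res_on _ _) (zero_mem _) fun x hx => congrFun e ⟨⟨x, hH hx⟩, hx⟩))
  rw [tw_eq hK] at h3
  obtain ⟨ψ', h5, rfl⟩ : ∃ ψ' ∈ cfOn (H : Set Γ), ψ = fun n : H.subgroupOf G => ψ' n :=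
    ⟨extendByZero H fun h => ψ ⟨⟨h, hH h.2⟩, h.2⟩, ext_on _ _,
      funext fun n => by rw [CA.Ind.ext_of_mem H _ (show ((n : G) : Γ) ∈ H from n.2)]⟩
  refine ⟨a, ψ', h1, mem_irr.2 ⟨h5, (CA.Clif.so_irr_iff (θ := fun k : H => ψ' k) hH).1 h2⟩,
    CF_ext (Res_on _ _) (Submodule.smul_mem _ _ h5) fun x hx => congrFun h3 ⟨⟨x, hH hx⟩, hx⟩,
    fun ξ hξ => ?_⟩
  obtain ⟨m, hm⟩ := dot_char_over_nat hH (irr_char hχ) (irr_char hξ)
  have h6 := h4 _ (sub_irr hH hξ) m ((dot_eq' hH χ (irr_on hξ)).symm.trans hm)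
  rw [← Nat.not_even_iff_odd, even_iff_two_dvd] at h6
  refine ⟨fun ⟨n, h7, h8⟩ => CF_ext (irr_on hξ) h5 fun x hx => congrFun (h6.1 ?_) ⟨⟨x, hH hx⟩, hx⟩,
    fun e => ⟨m, hm, h6.2 (by rw [e])⟩⟩
  rwa [← Nat.cast_injective (R := ℂ) (h7.symm.trans hm)]

theorem amb_ne (h1 : ∀ x ∈ H, x ∈ K → φ x = ν x) (h2 : ∀ x ∈ H, x ∉ K → φ x = 0)
    (hψ : ψ ∈ cfOn (H : Set Γ)) (h : dot H φ ψ ≠ 0) :
    ∃ χ ∈ irr G, dot H (TW K H ν χ) ψ ≠ 0 := by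
  rw [dot_eq' hH _ hψ] at h
  obtain ⟨χ, h3, h4⟩ := D.exists_tw_ne (fun x hx => h1 _ x.2 hx) (fun x hx => h2 _ x.2 hx) h
  refine ⟨_, ext_mem_irr.2 h3, ?_⟩
  rwa [dot_eq' hH _ hψ, ← tw_eq hK, res_ext]

end amb

theorem cj_TW {s : Γ} (hK : s ∈ 𝓝(K)) (hH : s ∈ 𝓝(H)) (h : ∀ k ∈ K, ν (s * k * s⁻¹) = ν k)
    (χ : Γ → ℂ) : cj s (TW K H ν χ) = TW K H ν (cj s χ) := by
  rw [TW, cj_Res (conj_iff_of_norm hH), TW]
  refine congrArg _ (funext fun g => ?_)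
  rw [cj_apply, ← sum_fs_conj (conj_iff_of_norm hK)]
  refine Finset.sum_congr rfl fun k hk => ?_
  rw [h k (mem_fs.1 hk), cj_apply]; congr 2; group

/-- The hypotheses of the correspondence. -/
structure Hy (L K H G S : Subgroup Γ) : Prop where
  nL : Nrm L G
  nK : Nrm K G
  LK : L ≤ K
  HG : H ≤ G
  inf : ∀ x ∈ K, x ∈ H → x ∈ L
  sup : ∀ g ∈ G, ∃ h ∈ H, h⁻¹ * g ∈ K
  ab : ∀ a ∈ K, ∀ b ∈ K, ⁅a, b⁆ ∈ L
  SG : S ≤ 𝓝(G)
  SK : S ≤ 𝓝(K)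
  SL : S ≤ 𝓝(L)
  fix : ∀ g ∈ G, g ∈ H ↔ ∀ s ∈ S, s * g * s⁻¹ * g⁻¹ ∈ L
  cop : (L.relIndex S).Coprime (L.relIndex G)
  odd : ¬ 2 ∣ L.relIndex G

/-- The invariant irreducible characters over `φ`. -/
def IS (X S L : Subgroup Γ) (φ : Γ → ℂ) : Set (Γ → ℂ) :=
  {χ | χ ∈ irr X ∧ S ≤ stab χ ∧ dot L χ φ ≠ 0}

theorem relIndex_dvd (h1 : L ≤ K) (h2 : K ≤ G) : L.relIndex K ∣ L.relIndex G :=
  Dvd.intro _ (relIndex_mul_relIndex L K G h1 h2)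

theorem mem_of_pow_cop {x : Γ} {a b : ℕ} (h : a.Coprime b) (ha : x ^ a ∈ X) (hb : x ^ b ∈ X) :
    x ∈ X := by
  have := X.mul_mem (X.zpow_mem ha (a.gcdA b)) (X.zpow_mem hb (a.gcdB b))
  rwa [← zpow_natCast, ← zpow_natCast, ← zpow_mul, ← zpow_mul, ← zpow_add, ← Nat.gcd_eq_gcd_ab,
    h, Nat.cast_one, zpow_one] at this

theorem mul_of_over (hZ : ∀ z ∈ Z, ∀ g, z * g = g * z) (h : Z ≤ X) (hχ : χ ∈ irr X) {l : Lin Z}
    (hd : dot Z χ (lin l) ≠ 0) {z : Γ} (hz : z ∈ Z) (g : Γ) : χ (z * g) = lin l z * χ g := by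
  obtain ⟨l', hl⟩ := exists_lin_of_central hχ h ((comm_eq_bot_iff.2
    fun z hz => mem_cent.2 fun g _ => (hZ z hz g).symm).le.trans bot_le)
  rw [dot_congr_left (irr_on (lin_irr l)) (φ' := χ 1 • lin l') fun x hx => by
    rw [← mul_one x, hl x hx, mul_one, mul_comm]; rfl, dot_smul_left] at hd
  rw [hl z hz, irr_eq_of_dot_ne (lin_irr l') (lin_irr l) (right_ne_zero_of_mul hd)]

theorem over_of_under (hL : Nrm L G) (h1 : L ≤ X) (h2 : X ≤ G) (hφ : φ ∈ irr L) (hs : G ≤ stab φ)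
    (hχ : χ ∈ irr G) (hd : dot L χ φ ≠ 0) (hψ : ψ ∈ irr X) (hd' : dot X χ ψ ≠ 0) :
    dot L ψ φ ≠ 0 := by
  obtain ⟨θ, h3, h4⟩ := exists_irr_under h1 hψ
  have := mem_cfclass_of_common hL hχ hφ hd h3
    (dot_ne_trans h1 h2 (irr_char hχ) hψ (irr_char h3) hd' h4)
  rw [cfclass_of_stab hs] at this
  rwa [Finset.mem_singleton.1 this] at h4

namespace Hy
variable (D : Hy L K H G S)
include D

theorem LH : L ≤ H := fun x hx => (D.fix x (D.nL.le hx)).2 fun s hs =>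
  mul_mem (conj_mem_of_mem_norm (D.SL hs) hx) (inv_mem hx)

theorem SH : S ≤ 𝓝(H) := norm_of_conj fun s hs h hh => by
  simpa using mul_mem (D.LH ((D.fix h (D.HG hh)).1 hh s hs)) hh

theorem comm_mem {h s : Γ} (hh : h ∈ H) (hs : s ∈ S) : ⁅h, s⁆ ∈ L := by
  rw [← commutatorElement_inv]; exact inv_mem ((D.fix h (D.HG hh)).1 hh s hs)

theorem pow_mem_L {g : Γ} (hg : g ∈ G) : g ^ L.relIndex G ∈ L := pow_relIndex_mem D.nL hg

section central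
variable (hZ : ∀ z ∈ L, ∀ g, z * g = g * z)
include hZ

theorem core {l : Lin L} (h1 : ν 1 = 1) (h2 : ∀ z ∈ L, ∀ k ∈ K, ν (z * k) = lin l z * ν k)
    (h3 : ∀ x ∈ K, ∀ k ∈ K, ν (x * k * x) = ν x ^ 2 * ν k) (h4 : ∀ k ∈ K, ν k⁻¹ = conj (ν k))
    (h5 : ∀ k ∈ K, ν k * conj (ν k) = 1) (h6 : ∀ h ∈ H, ∀ k ∈ K, ν (h * k * h⁻¹) = ν k) :
    Core (K.subgroupOf G) (H.subgroupOf G) (fun g : G => ν g) := by
  refine ⟨D.nK.normal, fun g => ?_, fun k hk h hh => ?_, fun x hx k hk => h3 x hx k hk,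
    fun k hk => h4 k hk, fun k hk => h5 k hk, fun h hh k hk => h6 h hh k hk⟩
  · obtain ⟨h, h7, h8⟩ := D.sup g g.2
    refine ⟨g * ⟨h, D.HG h7⟩⁻¹, ?_, ⟨h, D.HG h7⟩, h7, inv_mul_cancel_right _ _⟩
    have := D.nK.conj (D.HG h7) h8
    rwa [mul_inv_cancel_left] at this
  · obtain ⟨m, hm⟩ : Odd (L.relIndex G) := Nat.not_even_iff_odd.1 (mt even_iff_two_dvd.1 D.odd)
    have h7 := D.pow_mem_L (k * h ^ 2).2
    have h8 := D.LK (D.pow_mem_L h.2)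
    obtain ⟨k', h9, h10⟩ := exists_mul_pow (K := K.subgroupOf G) (l := h ^ 2)
      (fun k hk => D.nK.normal.conj_mem k hk _) hk (m + 1)
    rw [hm] at h7 h8
    refine ⟨(k * h ^ 2) ^ (m + 1) * h⁻¹, ?_, ((k * h ^ 2) ^ (2 * m + 1))⁻¹, D.LK (inv_mem h7),
      fun g => Subtype.ext (hZ _ (inv_mem h7) g), fun k hk => ?_, ?_⟩
    · rw [h10, ← pow_mul, show 2 * (m + 1) = 2 * m + 1 + 1 by ring, pow_succ, ← mul_assoc,
        mul_inv_cancel_right]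
      exact mul_mem h9 h8
    · refine (h2 _ (inv_mem h7) k hk).trans (congrArg (· * _) ?_)
      rw [← mul_one (lin l _), ← h1, ← h2 _ (inv_mem h7) 1 K.one_mem, mul_one]; rfl
    · rw [show ((k * h ^ 2) ^ (2 * m + 1))⁻¹ * h = h * ((k * h ^ 2) ^ (2 * m + 1))⁻¹ from
        Subtype.ext (hZ _ (inv_mem h7) h), show k * h = k * h ^ 2 * h⁻¹ by group]
      generalize k * h ^ 2 = y
      group

theorem stab_under (hχ : χ ∈ irr G) (hs : S ≤ stab χ) (hθ : θ ∈ irr K) (hd : dot K χ θ ≠ 0) :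
    S ≤ stab θ := fun s hs' => by
  obtain ⟨g, hg, e⟩ := mem_cfclass.1 (mem_cfclass_of_common D.nK hχ hθ hd
    (irr_cj (conj_iff_of_norm (D.SK hs')) hθ) (by rwa [← mem_stab.1 (hs hs'), dot_cj]))
  obtain ⟨h, h1, h2⟩ := D.sup g⁻¹ (inv_mem hg)
  have h3 : K ≤ stab θ := le_stab (irr_CInv hθ)
  have h4 : s * h ∈ stab θ := by
    simpa [mul_assoc] using mul_mem (cj_eq_cj_iff.1 e) (inv_mem (h3 h2))
  have : L.Normal := ⟨fun z hz g => by rwa [← hZ z hz, mul_inv_cancel_right]⟩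
  have h5 : Commute (s : Γ ⧸ L) h := by
    rw [← commutatorElement_eq_one_iff_commute, ← commutatorElement_inv, inv_eq_one]
    exact (QuotientGroup.eq_one_iff _).2 (D.comm_mem h1 hs')
  refine mem_of_pow_cop D.cop (h3 (D.LK (Subgroup.pow_relIndex_mem L hs'))) ?_
  have h6 : (((s * h) ^ L.relIndex G : Γ) : Γ ⧸ L) = (s ^ L.relIndex G : Γ) := by
    rw [QuotientGroup.mk_pow, QuotientGroup.mk_mul, h5.mul_pow, ← QuotientGroup.mk_pow _ h,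
      (QuotientGroup.eq_one_iff _).2 (D.pow_mem_L (D.HG h1)), mul_one, QuotientGroup.mk_pow]
  simpa using mul_mem (pow_mem h4 (L.relIndex G)) (h3 (D.LK (QuotientGroup.eq.1 h6)))

theorem TW_ne {l : Lin L} (h5 : ∀ k ∈ K, ν k * conj (ν k) = 1)
    (h : ∀ R, L ≤ R → R ≤ K → S ≤ 𝓝(R) → ∀ μ : Lin R, (∀ z ∈ L, lin μ z = lin l z) →
        (∀ s ∈ S, ∀ r ∈ R, lin μ (s * r * s⁻¹) = lin μ r) → ∀ r ∈ R, lin μ r = ν r)
    (hχ : χ ∈ IS G S L (lin l)) : TW K H ν χ ≠ 0 := fun e => by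
  obtain ⟨h1, h2, h3⟩ := hχ
  have h4 := fun z (hz : z ∈ cfker (lin l)) => hZ z (irr_cfker_le (lin_irr l) hz)
  let R : Subgroup Γ :=
    { carrier := {r | r ∈ K ∧ ∀ k ∈ K, ⁅r, k⁆ ∈ cfker (lin l)}
      one_mem' := ⟨K.one_mem, fun k _ => by simp⟩
      mul_mem' := fun {a b} ha hb => ⟨mul_mem ha.1 hb.1, fun k hk => by
        rw [show ⁅a * b, k⁆ = a * ⁅b, k⁆ * a⁻¹ * ⁅a, k⁆ by simp only [commutatorElement_def]; group,
          ← h4 _ (hb.2 k hk), mul_inv_cancel_right]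
        exact mul_mem (hb.2 k hk) (ha.2 k hk)⟩
      inv_mem' := fun {a} ha => ⟨inv_mem ha.1, fun k hk => by
        rw [show ⁅a⁻¹, k⁆ = a⁻¹ * ⁅a, k⁆⁻¹ * a by simp only [commutatorElement_def]; group,
          ← h4 _ (inv_mem (ha.2 k hk)), inv_mul_cancel_right]
        exact inv_mem (ha.2 k hk)⟩ }
  have hRK : R ≤ K := fun r hr => hr.1
  have hLR : L ≤ R := fun z hz => ⟨D.LK hz, fun k _ => by
    rw [commutatorElement_eq_one_iff_mul_comm.2 (hZ z hz k)]; exact one_mem _⟩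
  have hSR : S ≤ 𝓝(R) := norm_of_conj fun s hs r hr =>
    ⟨conj_mem_of_mem_norm (D.SK hs) hr.1, fun k hk => by
      have := hr.2 _ (conj_mem_of_mem_norm (D.SK (inv_mem hs)) hk)
      rwa [show ⁅s * r * s⁻¹, k⁆ = s * ⁅r, s⁻¹ * k * s⁻¹⁻¹⁆ * s⁻¹ by
        simp only [commutatorElement_def]; group, ← h4 _ this, mul_inv_cancel_right]⟩
  have h6 : ∀ θ ∈ irr K, dot K χ θ ≠ 0 → ∀ k ∈ K, θ k = θ 1 * Res (R : Set Γ) ν k := by
    intro θ hθ hd k hk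
    have h7 := fun z hz => mul_of_over hZ D.LK hθ (over_of_under D.nL D.LK D.nK.le (lin_irr l)
      (fun g _ => cent_le_stab (irr_on (lin_irr l)) (mem_cent.2 fun z hz => hZ z hz g)) h1 h3 hθ hd)
      (z := z) hz
    have h8 : cfker (lin l) ≤ cfker θ := fun z hz y => by
      rw [h7 z (irr_cfker_le (lin_irr l) hz), cfker_apply hz, lin_apply_one, one_mul]
    by_cases hr : k ∈ R
    · obtain ⟨μ, h9⟩ := exists_lin_of_central hθ hRK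
        (commutator_le.2 fun r hr x hx => h8 (hr.2 x hx))
      have h10 : ∀ r ∈ R, θ r = lin μ r * θ 1 := fun r hr => by rw [← h9 r hr, mul_one]
      rw [Res_of_mem _ hr, ← h R hLR hRK hSR μ (fun z hz => mul_right_cancel₀ (irr_one_ne hθ) (by
        rw [← h9 z (hLR hz), h7 z hz])) (fun s hs r hr => mul_right_cancel₀ (irr_one_ne hθ) (by
          rw [← h10 _ hr, ← h10 _ (conj_mem_of_mem_norm (hSR hs) hr)]
          exact congrFun (D.stab_under hZ h1 h2 hθ hd hs) r)) k hr, h10 k hr, mul_comm]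
    · rw [Res_of_not_mem _ hr, mul_zero]
      by_contra h0
      refine hr ⟨hk, fun x hx => (irr_mem_cfker (lin_irr l)).2 (mul_right_cancel₀ h0 ?_)⟩
      rw [lin_apply_one, one_mul, ← CF_conj (irr_CF hθ) hx k, ← h7 _ (D.ab k hk x hx),
        CF_conj (irr_CF hθ) hx k]
      congr 1; simp only [commutatorElement_def]; group
  have h7 : ∀ k ∈ K, χ k = χ 1 * Res (R : Set Γ) ν k := fun k hk => by
    have h8 := Res_CF D.nK.le (irr_CF h1)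
    rw [← Res_of_mem χ hk, ← Res_one K χ, CF_expand_apply h8, CF_expand_apply h8, Finset.sum_mul]
    refine Finset.sum_congr rfl fun θ hθ => ?_
    rw [dot_Res_left (irr_on hθ)]
    by_cases hd : dot K χ θ = 0
    · simp [hd]
    · rw [h6 θ hθ hd k hk, mul_assoc]
  have h8 := congrFun e 1
  rw [TW, Res_one, sum_fs_subset hRK fun k hk hr => by
    rw [one_mul, h7 k hk, Res_of_not_mem _ hr, mul_zero, mul_zero],
    Finset.sum_congr rfl (g := fun _ => χ 1) fun k hk => by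
      rw [one_mul, h7 k (hRK (mem_fs.1 hk)), Res_of_mem _ (mem_fs.1 hk), mul_left_comm,
        mul_comm (conj _), h5 k (hRK (mem_fs.1 hk)), mul_one], Finset.sum_const, card_fs,
    nsmul_eq_mul] at h8
  exact mul_ne_zero (cardC_ne R) (irr_one_ne h1) h8

theorem central (hφ : φ ∈ irr L) : Bij (IS G S L φ) (IS H S L φ) (GR 2 H) := by
  obtain ⟨l, rfl⟩ := irr_exists_lin (comm_iff_le_cent.2 fun z hz =>
    mem_cent.2 fun g _ => (hZ z hz g).symm) hφ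
  obtain ⟨ν, h1, h2, h3, h4, h5, h6, h7, h8⟩ := exists_nu hZ D.LK D.ab
    (fun h => D.odd (h.trans (relIndex_dvd D.LK D.nK.le))) D.SK (D.HG.trans D.nK.le_normalizer)
    (fun h hh s hs => D.comm_mem hh hs) (D.cop.coprime_dvd_right (relIndex_dvd D.LK D.nK.le))
    (fun k hk h => D.inf k hk ((D.fix k (D.nK.le hk)).2 h)) l
  have C := D.core hZ h1 h2 h3 h4 h5 h6
  have := Fintype.ofFinite G
  have := Fintype.ofFinite (K.subgroupOf G)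
  have := Fintype.ofFinite (H.subgroupOf G)
  have hs : G ≤ stab (lin l) :=
    fun g _ => cent_le_stab (irr_on (lin_irr l)) (mem_cent.2 fun z hz => hZ z hz g)
  refine ⟨fun χ hχ => ?_, fun ψ hψ => ?_⟩
  · obtain ⟨a, ψ, -, k1, -, k2⟩ := amb_irr C D.nK.le D.HG hχ.1 (D.TW_ne hZ h5 h8 hχ)
    have k3 := (k2 ψ k1).2 rfl
    refine ⟨ψ, ⟨k1, fun s hs => (k2 _ (irr_cj (conj_iff_of_norm (D.SH hs)) k1)).1 ?_,
      over_of_under D.nL D.LH D.HG hφ hs hχ.1 hχ.2.2 k1 k3.ne⟩, k3, fun ξ hξ => (k2 ξ hξ.1).1⟩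
    exact mem_stab.1 (hχ.2.1 hs) ▸ k3.cj s
  · obtain ⟨χ, k1, k2⟩ := amb_ne C D.nK.le D.HG (φ := lin l) (fun x hx hx' => by
      rw [← mul_one x, h2 x (D.inf x hx' hx) 1 K.one_mem, h1, mul_one, mul_one])
      (fun x hx hx' => irr_on hφ x fun h => hx' (D.LK h)) (irr_on hψ.1) (fun e => hψ.2.2 (by
        have := dot_change H L (lin l) ψ
        rw [e, mul_zero, eq_comm, mul_eq_zero_iff_left (cardC_ne L)] at this
        exact dot_comm_zero this))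
    obtain ⟨a, ξ, k3, k4, k5, k6⟩ := amb_irr C D.nK.le D.HG k1 fun e => k2 (by
      rw [e, dot_zero_left])
    rw [k5, dot_smul_left] at k2
    obtain rfl := irr_eq_of_dot_ne k4 hψ.1 (right_ne_zero_of_mul k2)
    have k7 := (k6 ξ k4).2 rfl
    have k8 : ∀ χ' ∈ irr G, ∀ b ≠ (0 : ℂ), TW K H ν χ' = b • ξ → χ' = χ := fun χ' h b hb e =>
      amb_orth C D.nK.le D.HG h k1 (by
        rw [e, k5, dot_smul_left, dot_smul_right, dot_irr_self k4]; simp [hb, k3])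
    refine ⟨χ, ⟨k1, fun s hs => k8 _ (irr_cj (conj_iff_of_norm (D.SG hs)) k1) a k3 ?_,
      dot_ne_trans D.LH D.HG (irr_char k1) k4 (irr_char hφ) k7.ne hψ.2.2⟩, k7, fun χ' h e => ?_⟩
    · rw [← cj_TW (D.SK hs) (D.SH hs) (h7 s hs), k5, map_smul, mem_stab.1 (hψ.2.1 hs)]
    · obtain ⟨b, ξ', k9, -, k10, k11⟩ := amb_irr C D.nK.le D.HG h.1 (D.TW_ne hZ h5 h8 h)
      exact k8 _ h.1 b k9 ((k11 ξ k4).1 e ▸ k10)

end central

theorem supS [L.Normal] : Hy L K H G (S ⊔ L) :=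
  { D with
    SG := sup_le D.SG (D.nL.le.trans le_normalizer)
    SK := sup_le D.SK (D.LK.trans le_normalizer)
    SL := sup_le D.SL le_normalizer
    fix := fun g hg => ⟨fun h s hs => by
      obtain ⟨l, h1, t, h2, rfl⟩ := mem_sup_of_norm (K := L) (H := S)
        (fun x _ k hk => Normal.conj_mem inferInstance k hk x) (sup_comm S L ▸ hs)
      convert mul_mem (mul_mem h1 ((D.fix g hg).1 h t h2)) (D.nL.conj hg (inv_mem h1)) using 1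
      group,
      fun h => (D.fix g hg).2 fun s hs => h s (mem_sup_left hs)⟩
    cop := by rw [relIndex_sup_right]; exact D.cop }

theorem stab (hφ : φ ∈ irr L) (hs : S ≤ stab φ) :
    Hy L (K ⊓ stab φ) (H ⊓ stab φ) (G ⊓ stab φ) S := by
  have h1 : L ≤ PF.stab φ := le_stab (irr_CInv hφ)
  have h2 : ∀ X, S ≤ 𝓝(X) → S ≤ 𝓝((X ⊓ PF.stab φ : Subgroup Γ)) := fun X h =>
    norm_of_conj fun s hs' g hg => ⟨conj_mem_of_mem_norm (h hs') hg.1,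
      (PF.stab φ).mul_mem (mul_mem (hs hs') hg.2) (inv_mem (hs hs'))⟩
  have h3 := relIndex_dvd (le_inf D.nL.le h1) (inf_le_left : G ⊓ PF.stab φ ≤ G)
  refine ⟨D.nL.mono (le_inf D.nL.le h1) inf_le_left, nrm_inf D.nK _, le_inf D.LK h1,
    inf_le_inf_right _ D.HG, fun x hx hx' => D.inf x hx.1 hx'.1, fun g hg => ?_,
    fun a ha b hb => D.ab a ha.1 b hb.1, h2 G D.SG, h2 K D.SK, D.SL,
    fun g hg => (and_iff_left hg.2).trans (D.fix g hg.1), D.cop.coprime_dvd_right h3,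
    fun h => D.odd (h.trans h3)⟩
  obtain ⟨h, h4, h5⟩ := D.sup g hg.1
  have h6 := D.nK.le.trans D.nL.le_normalizer
  obtain ⟨c, h7, h8, h9⟩ := conj_mod h6 D.SL D.SK
    (D.cop.coprime_dvd_right (relIndex_dvd D.LK D.nK.le)) (Or.inr (solv_of_comm ((isMulCommutative_quo_iff h6).2 (commutator_le.2 D.ab)))) h1 hs h5 fun s hs' => by
      convert mul_mem (mul_mem (mul_mem ((PF.stab φ).inv_mem hg.2) (hs hs')) hg.2)
        (h1 (D.nL.conj' hg.1 ((D.fix h (D.HG h4)).1 h4 _ (inv_mem hs')))) using 1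
      group
  have h10 : h⁻¹ * g ∈ PF.stab φ := by
    simpa using mul_mem (h1 (D.inf c h7 ((D.fix c (D.nK.le h7)).2 h8))) h9
  exact ⟨h, ⟨h4, by simpa using (PF.stab φ).mul_mem hg.2 (inv_mem h10)⟩, h5, h10⟩

variable {E : Type*} [Group E] [Fintype E] {f : E →* Γ}

theorem comap (hG : G ≤ f.range) (hS : S ≤ f.range) :
    Hy (L.comap f) (K.comap f) (H.comap f) (G.comap f) (S.comap f) := by
  have h1 : ∀ {X : Subgroup Γ}, Nrm X G → Nrm (X.comap f) (G.comap f) := fun h =>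
    ⟨comap_mono h.le, fun x hx k hk => by simpa using h.conj hx hk⟩
  have h2 : ∀ {X : Subgroup Γ}, S ≤ 𝓝(X) → S.comap f ≤ 𝓝(X.comap f) := fun h =>
    (comap_mono h).trans (le_normalizer_comap f)
  refine ⟨h1 D.nL, h1 D.nK, comap_mono D.LK, comap_mono D.HG, fun x => D.inf (f x), fun g hg => ?_,
    fun a ha b hb => by simpa using D.ab _ ha _ hb, h2 D.SG, h2 D.SK, h2 D.SL, fun g hg =>
      (D.fix _ hg).trans ⟨fun h s hs => by simpa using h _ hs, fun h s hs => ?_⟩, ?_, ?_⟩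
  · obtain ⟨h, h3, h4⟩ := D.sup _ hg
    obtain ⟨h, rfl⟩ := hG (D.HG h3)
    exact ⟨h, h3, by simpa using h4⟩
  · obtain ⟨s, rfl⟩ := hS hs
    simpa using h s hs
  · rw [relIndex_comap, relIndex_comap, map_comap_eq_self hG, map_comap_eq_self hS]; exact D.cop
  · rw [relIndex_comap, map_comap_eq_self hG]; exact D.odd

omit D in
theorem of_comap (hf : Surjective f)
    (D : Hy (L.comap f) (K.comap f) (H.comap f) (G.comap f) (S.comap f)) : Hy L K H G S := by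
  have h0 : ∀ {X Y : Subgroup Γ}, X.comap f ≤ Y.comap f → X ≤ Y := (comap_le_comap_of_surjective hf).1
  have h1 : ∀ {X : Subgroup Γ}, Nrm (X.comap f) (G.comap f) → Nrm X G := fun h =>
    ⟨h0 h.le, hf.forall.2 fun x hx => hf.forall.2 fun k hk => by simpa using h.conj hx hk⟩
  have h2 : ∀ {X : Subgroup Γ}, S.comap f ≤ 𝓝(X.comap f) → S ≤ 𝓝(X) := fun h =>
    h0 (by rwa [comap_normalizer_eq_of_surjective _ hf])
  refine ⟨h1 D.nL, h1 D.nK, h0 D.LK, h0 D.HG, hf.forall.2 D.inf, hf.forall.2 fun g hg => ?_,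
    hf.forall.2 fun a ha => hf.forall.2 fun b hb => by simpa using D.ab _ ha _ hb, h2 D.SG,
    h2 D.SK, h2 D.SL, hf.forall.2 fun g hg => (D.fix _ hg).trans ⟨fun h => hf.forall.2 fun s hs =>
      by simpa using h _ hs, fun h s hs => by simpa using h _ hs⟩, relIndex_pb hf L S ▸
        relIndex_pb hf L G ▸ D.cop, relIndex_pb hf L G ▸ D.odd⟩
  obtain ⟨h, h3, h4⟩ := D.sup _ hg
  exact ⟨f h, h3, by simpa using h4⟩

end Hy

theorem bij_sub [Fintype G] (hX : X ≤ G) (hS : S ≤ G) (hL : L ≤ G) (hφ : φ ∈ cfOn (L : Set Γ)) :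
    Bij (IS X S L φ) (IS (X.subgroupOf G) (S.subgroupOf G) (L.subgroupOf G) (φ ∘ G.subtype))
      fun χ β => β = χ ∘ G.subtype := by
  refine ⟨fun χ ⟨h1, h2, h3⟩ => ⟨_, ⟨(sub_irr_iff hX (irr_on h1)).2 h1, stab_sub h2,
    by rwa [dot_sub hL _ (cfOn_mono hL hφ)]⟩, rfl, fun _ _ e => e⟩, fun ξ ⟨h1, h2, h3⟩ => ?_⟩
  obtain ⟨χ, h4, rfl⟩ : ∃ χ ∈ cfOn (X : Set Γ), ξ = χ ∘ G.subtype :=
    ⟨extendByZero G ξ, fun x hx => by
      by_cases h : x ∈ G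
      · rw [CA.Ind.ext_of_mem _ _ h]; exact irr_on h1 _ hx
      · exact ext_on G ξ x h, (res_ext G ξ).symm⟩
  refine ⟨χ, ⟨(sub_irr_iff hX h4).1 h1, fun s hs => mem_stab_of (cfOn_mono hX h4)
    (le_normalizer (hS hs)) fun y hy => congrFun (h2 (show (⟨s, hS hs⟩ : G) ∈ _ from hs)) ⟨y, hy⟩,
    by rwa [dot_sub hL _ (cfOn_mono hL hφ)] at h3⟩, rfl, fun χ' h e =>
      CF_ext (irr_on h.1) h4 fun x hx => (congrFun e ⟨x, hX hx⟩).symm⟩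

theorem bij_tri {E Q : Type*} [Group E] [Fintype E] [Group Q] [Fintype Q] {π : E →* Γ}
    {ρ : E →* Q} {η : E → ℂ} {lam : Q → ℂ} (T : Tri π ρ L φ η lam) (hX : L ≤ X) (hS : L ≤ S) :
    Bij (IS X S L φ) (IS (st π ρ X) (st π ρ S) (st π ρ L) lam)
      fun χ β => χ ∘ π = β ∘ ρ * η := by
  refine ⟨fun χ ⟨h1, h2, h3⟩ => ?_, fun β ⟨h1, h2, h3⟩ => ?_⟩
  · obtain ⟨β, h4, h5, h6⟩ := T.down hX h1 h3
    exact ⟨β, ⟨h4, T.sρ.forall.2 fun s hs => (T.mem_stab_iff h5 s).1 (h2 ((T.mem_st hS).1 hs)), h6⟩,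
      h5, fun γ _ e => T.inj (e.symm.trans h5)⟩
  · obtain ⟨χ, h4, h5, h6⟩ := T.up hX h1 h3
    exact ⟨χ, ⟨h4, T.sπ.forall.2 fun s hs => (T.mem_stab_iff h5 s).2 (h2 ((T.mem_st hS).2 hs)), h6⟩,
      h5, fun γ _ e => T.sπ.injective_comp_right (e.trans h5.symm)⟩

theorem bij_stab (hL : Nrm L X) (hX : S ≤ 𝓝(X)) (hφ : φ ∈ irr L) (hs : S ≤ stab φ) :
    Bij (IS X S L φ) (IS (X ⊓ stab φ) S L φ) fun χ η => χ = Ind X (X ⊓ stab φ) η := by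
  obtain ⟨h1, h2, h3⟩ := cfInd_sum_Inertia hL hφ
  refine ⟨fun χ ⟨k1, k2, k3⟩ => ?_, fun η ⟨k1, k2, k3⟩ => ⟨_, ⟨(h1 η k1 k3).1, fun s h => ?_,
    by rwa [(h1 η k1 k3).2]⟩, rfl, fun _ _ e => e⟩⟩
  · obtain ⟨η, k4, k5, rfl⟩ := h3 χ k1 k3
    refine ⟨η, ⟨k4, fun s h => h2 _ (irr_cj (fun x => and_congr (conj_iff_of_norm (hX h) x)
      (conj_mem_iff (hs h))) k4) _ k4 ?_ k5 ?_, k5⟩, rfl, fun η' h e => h2 _ h.1 _ k4 h.2.2 k5 e.symm⟩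
    · rwa [← mem_stab.1 (hs h), dot_cj]
    · rw [← cj_Ind (conj_iff_of_norm (hX h)), mem_stab.1 (k2 h)]
  · rw [mem_stab, cj_Ind (conj_iff_of_norm (hX h)), mem_stab.1 (k2 h)]

theorem dot_Ind_stab (hL : Nrm L G) (h1 : L ≤ H) (h2 : H ≤ G) (hφ : φ ∈ irr L)
    (hχ : χ ∈ irr (G ⊓ stab φ)) (hd : dot L χ φ ≠ 0) (hψ : ψ ∈ irr (H ⊓ stab φ))
    (hd' : dot L ψ φ ≠ 0) :
    dot H (Ind G (G ⊓ stab φ) χ) (Ind H (H ⊓ stab φ) ψ) = dot (H ⊓ stab φ) χ ψ := by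
  obtain ⟨h3, h4, -⟩ := cfInd_sum_Inertia hL hφ
  have h8 := (h3 χ hχ hd).1
  have h10 : H ⊓ stab φ ≤ G ⊓ stab φ := inf_le_inf_right _ h2
  rw [dot_Ind_right _ (CInv_mono h2 (irr_CInv h8)), dot_expand_le h10 inf_le_left (irr_CF h8)
    (irr_on hψ), Finset.sum_eq_single_of_mem _ hχ fun θ hθ hne => by
      by_contra h11
      have h12 := dot_ne_trans (le_inf h1 (le_stab (irr_CInv hφ))) h10 (irr_char hθ) hψ
        (irr_char hφ) (right_ne_zero_of_mul h11) hd'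
      exact hne (h4 _ hθ _ hχ h12 hd (corr_irr hL hφ hθ h12 h8 (left_ne_zero_of_mul h11)).1.symm),
    ← dot_Ind_right _ (irr_CInv h8), dot_irr_self h8, one_mul]

theorem IS_supS (h : L ≤ X) : IS X (S ⊔ L) L φ = IS X S L φ := Set.ext fun χ =>
  and_congr_right fun h1 => and_congr_left' (sup_le_iff.trans
    (and_iff_left (h.trans (le_stab (irr_CInv h1)))))

namespace Hy
variable (D : Hy L K H G S)
include D

theorem inv_top (hL : Nrm L ⊤) (hφ : φ ∈ irr L) (hs : ⊤ ≤ PF.stab φ) :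
    Bij (IS G S L φ) (IS H S L φ) (GR 2 H) := by
  have := hL.normal_of_top
  obtain ⟨E, _, _, Q, _, _, π, ρ, η, lam, T⟩ := exists_tri hL hφ hs
  have h1 : L ≤ S ⊔ L := le_sup_right
  have D' := D.supS.comap (f := π) (by simp [T.sπ]) (by simp [T.sπ])
  rw [← T.comap_st le_rfl, ← T.comap_st D.LK, ← T.comap_st D.LH, ← T.comap_st D.nL.le,
    ← T.comap_st h1] at D'
  rw [← IS_supS D.nL.le, ← IS_supS D.LH]
  refine (bij_tri T D.nL.le h1).trans (bij_tri T D.LH h1) ((of_comap T.sρ D').central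
    (fun z hz g => mem_cent.1 (T.central (mem_top g)) z hz) T.irrl) fun χ _ β _ ψ _ γ _ e e' => ?_
  rw [GR, GR, T.dot_eq D.LH e e']

theorem bij_over (hφ : φ ∈ irr L) (hs : S ≤ PF.stab φ) : Bij (IS G S L φ) (IS H S L φ) (GR 2 H) := by
  have D' := D.stab hφ hs
  refine (bij_stab D.nL D.SG hφ hs).trans (bij_stab (D.nL.mono D.LH D.HG) D.SH hφ hs)
    (R' := GR 2 (H ⊓ PF.stab φ)) ?_ fun _ _ χ hχ _ _ ψ hψ e e' => by
      rw [GR, GR, e, e', dot_Ind_stab D.nL D.LH D.HG hφ hχ.1 hχ.2.2 hψ.1 hψ.2.2]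
  set T := 𝓝(L) ⊓ PF.stab φ
  have := Fintype.ofFinite T
  have h1 : G ⊓ PF.stab φ ≤ T := inf_le_inf_right _ D.nL.le_normalizer
  have h2 : S ≤ T := le_inf D.SL hs
  have h3 := D'.nL.le.trans h1
  refine (bij_sub h1 h2 h3 (irr_on hφ)).trans (bij_sub (D'.HG.trans h1) h2 h3 (irr_on hφ))
    ((D'.comap (f := T.subtype) (by simpa) (by simpa)).inv_top ⟨le_top, fun x _ k hk =>
      conj_mem_of_mem_norm (K := L) x.2.1 hk⟩ ((sub_irr_iff h3 (irr_on hφ)).2 hφ)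
      fun x _ => stab_sub (inf_le_right : T ≤ _) x.2) fun χ _ β _ ψ hψ γ _ e e' => ?_
  rw [GR, GR, e, e', ← dot_sub (D'.HG.trans h1) _ (cfOn_mono (D'.HG.trans h1) (irr_on hψ.1))]; rfl

theorem main (hs : Group.IsSolvable G) :
    Bij {χ | χ ∈ irr G ∧ S ≤ PF.stab χ} {ψ | ψ ∈ irr H ∧ S ≤ PF.stab ψ} (GR 2 H) := by
  have h1 : Group.IsSolvable (G /ᵍ L) := solv_quo L hs
  have h2 : Group.IsSolvable (H /ᵍ L) := solv_quo L (solv_of_le hs D.HG)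
  have h3 := fun ψ (h : ψ ∈ irr H) => exists_inv_under (D.nL.mono D.LH D.HG) D.SL D.SH
    (D.cop.coprime_dvd_right (relIndex_dvd D.LH D.HG)) (Or.inr h2) h
  refine ⟨fun χ hχ => ?_, fun ψ hψ => ?_⟩
  · obtain ⟨φ, k1, k2, k3⟩ := exists_inv_under D.nL D.SL D.SG D.cop (Or.inr h1) hχ.1 hχ.2
    obtain ⟨ψ, k4, k5, k6⟩ := (D.bij_over k1 k2).1 χ ⟨hχ.1, hχ.2, k3⟩
    refine ⟨ψ, ⟨k4.1, k4.2.1⟩, k5, fun ξ hξ e => k6 ξ ⟨hξ.1, hξ.2, ?_⟩ e⟩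
    obtain ⟨φ', k7, k8, k9⟩ := h3 ξ hξ.1 hξ.2
    obtain ⟨c, k10, k11, rfl⟩ := inv_under_conj D.nL D.SL D.SG D.cop (Or.inr h1) k1 k2
      (mem_cfclass_of_common D.nL hχ.1 k1 k3 k7
        (dot_ne_trans D.LH D.HG (irr_char hχ.1) hξ.1 (irr_char k7) e.ne k9)) k8
    rwa [dot_cj_of_CInv (irr_CInv hξ.1) (inv_mem ((D.fix c k10).2 k11))] at k9
  · obtain ⟨φ, k1, k2, k3⟩ := h3 ψ hψ.1 hψ.2
    obtain ⟨χ, k4, k5, k6⟩ := (D.bij_over k1 k2).2 ψ ⟨hψ.1, hψ.2, k3⟩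
    exact ⟨χ, ⟨k4.1, k4.2.1⟩, k5, fun χ' h e => k6 χ' ⟨h.1, h.2,
      dot_ne_trans D.LH D.HG (irr_char h.1) hψ.1 (irr_char k1) e.ne k3⟩ e⟩

end Hy

theorem hy_of {C : Subgroup Γ} (hS : S ≤ 𝓝(G)) (hc : (♯G).Coprime ♯S) (hs : Group.IsSolvable G)
    (ho : Odd ♯G) (hC : C = G ⊓ 𝓒(S)) (hLK : L ≤ K) (hK : Nrm K G) (hL : Nrm L G)
    (hSK : S ≤ 𝓝(K)) (hSL : S ≤ 𝓝(L)) (hab : ∀ a ∈ K, ∀ b ∈ K, ⁅a, b⁆ ∈ L) (hG : K ⊔ C = G)
    (hH : H = L ⊔ C) : Hy (K ⊓ H) K H G S := by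
  have h1 : C ≤ G := hC ▸ inf_le_left
  have h2 : L ≤ H := hH ▸ le_sup_left
  have h3 : C ≤ H := hH ▸ le_sup_right
  have h4 : ∀ g ∈ H, ∀ s ∈ S, s * g * s⁻¹ * g⁻¹ ∈ L := fun g hg s hs' => by
    obtain ⟨l, k1, c, k2, rfl⟩ := mem_sup_of_norm (fun x hx k hk => hL.conj (h1 hx) hk) (hH ▸ hg)
    have k3 := mem_cent.1 (hC ▸ k2 : c ∈ G ⊓ 𝓒(S)).2 s hs'
    convert mul_mem (conj_mem_of_mem_norm (hSL hs') k1) (inv_mem k1) using 1
    calc _ = s * l * s⁻¹ * (s * c) * s⁻¹ * c⁻¹ * l⁻¹ := by group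
      _ = _ := by rw [k3]; group
  have h5 : S ≤ 𝓝(H) := norm_of_conj fun s hs h hh => by simpa using mul_mem (h2 (h4 h hh s hs)) hh
  have h6 : S ≤ 𝓝((K ⊓ H : Subgroup Γ)) := norm_of_conj fun s hs g hg =>
    ⟨conj_mem_of_mem_norm (hSK hs) hg.1, conj_mem_of_mem_norm (h5 hs) hg.2⟩
  have h7 : Nrm (K ⊓ H) G := nrm_of_le_normalizer (inf_le_left.trans hK.le) (hG ▸ sup_le
    (norm_of_conj fun x hx k hk => ⟨hK.conj (hK.le hx) hk.1, by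
      simpa [commutatorElement_def] using H.mul_mem (h2 (hab x hx k hk.1)) hk.2⟩)
    (norm_of_conj fun x hx k hk => ⟨hK.conj (h1 hx) hk.1,
      H.mul_mem (H.mul_mem (h3 hx) hk.2) (inv_mem (h3 hx))⟩))
  refine ⟨h7, hK, inf_le_left, hH ▸ sup_le hL.le h1, fun x hx hx' => ⟨hx, hx'⟩, fun g hg => ?_,
    fun a ha b hb => ⟨hLK (hab a ha b hb), h2 (hab a ha b hb)⟩, hS, hSK, h6,
    fun g hg => ⟨fun h s hs => ⟨hLK (h4 g h s hs), h2 (h4 g h s hs)⟩, fun h => ?_⟩,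
    (hc.symm.coprime_dvd_left (relIndex_dvd_card _ _)).coprime_dvd_right (relIndex_dvd_card _ _),
    fun h => (Nat.not_even_iff_odd.2 ho) (even_iff_two_dvd.2 (h.trans (relIndex_dvd_card _ _)))⟩
  · obtain ⟨k, k1, c, k2, rfl⟩ := mem_sup_of_norm (fun x hx k hk => hK.conj (h1 hx) hk) (hG ▸ hg)
    exact ⟨c, h3 k2, mul_assoc c⁻¹ k c ▸ hK.conj' (h1 k2) k1⟩
  · obtain ⟨c, k1, k2, k3⟩ := conj_mod (N := ⊥) (T := (K ⊓ H) ⊔ S) le_normalizer_of_normal le_normalizer_of_normal hS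
      (by simpa using hc.symm) (Or.inr (solv_quo _ hs)) bot_le le_sup_right hg fun s hs' => by
        convert mul_mem (mem_sup_left (h7.conj' hg (h s hs'))) (mem_sup_right hs') using 1
        group
    obtain ⟨l, k4, t, k5, e⟩ := mem_sup_of_norm
      (fun x hx k hk => conj_mem_of_mem_norm (h6 hx) hk) k3
    have k6 : t ∈ G ⊓ S := ⟨by
      simpa [e] using G.mul_mem (inv_mem (h7.le k4)) (G.mul_mem (inv_mem k1) hg), k5⟩
    rw [inf_eq_bot_of_cop hc, mem_bot] at k6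
    rw [k6, mul_one, inv_mul_eq_iff_eq_mul] at e
    refine e ▸ H.mul_mem (h3 (hC ▸ ⟨k1, mem_cent.2 fun s hs' => ?_⟩)) k4.2
    have := mem_bot.1 (k2 s hs')
    rwa [mul_inv_eq_one, mul_inv_eq_iff_eq_mul] at this

end CA.H10Isa3
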