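import Cfsg.Agent.Lib.Char.H10RP
import Cfsg.Agent.Lib.Char.H10Isa3

/-!
# Fixed point spaces on irreducible modules of solvable groups
-/

set_option autoImplicit false
set_option linter.unusedSectionVars false
set_option linter.unusedVariables false

namespace CA.H10Fix
open Subgroup

variable {G V : Type*} [Group G] [Fintype G] [CommGroup V] [Finite V] (φ : G →* MulAut V)

/-- The commutator map. -/
def dl (h : G) : V →* V := (φ h).toMonoidHom / MonoidHom.id V

theorem dl_apply (h : G) (v : V) : dl φ h v = φ h v / v := rfl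

/-- The stabilizer of a subgroup. -/
def stb (W : Subgroup V) : Subgroup G where
  carrier := {h | ∀ w ∈ W, φ h w ∈ W}
  one_mem' w hw := by simpa
  mul_mem' {a b} ha hb w hw := by rw [map_mul]; exact ha _ (hb w hw)
  inv_mem' {a} ha w hw := by
    have h : ∀ n : ℕ, φ (a ^ n) w ∈ W := fun n => by
      induction n with
      | zero => simpa
      | succ n ih => rw [pow_succ', map_mul]; exact ha _ ih
    have := h (orderOf a - 1)
    rwa [eq_inv_of_mul_eq_one_left (show a ^ (orderOf a - 1) * a = 1 by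
      rw [← pow_succ, Nat.sub_add_cancel (orderOf_pos a), pow_orderOf_eq_one])] at this

variable {φ} {A : Subgroup G} {U W X Y : Subgroup V} {g h : G}

theorem mem_of_stb (hh : h ∈ stb φ U) {w : V} (hw : φ h w ∈ U) : w ∈ U := by
  simpa using (stb φ U).inv_mem hh _ hw

theorem idx_mul_le (h1 : U ≤ Y) (h2 : X ≤ W) (h3 : Y ≤ W) (h : X ⊓ Y ≤ U) :
    U.relIndex X * U.relIndex Y ≤ U.relIndex W := by
  rw [← relIndex_mul_relIndex U Y W h1 h3, mul_comm]
  refine Nat.mul_le_mul_left _ (le_trans ?_ (relIndex_le_of_le_right h2 index_ne_zero_of_finite))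
  rw [← inf_relIndex_left X Y]
  exact relIndex_le_of_le_left h index_ne_zero_of_finite

theorem sec [hA : A.Normal] (hab : ∀ a ∈ A, ∀ b ∈ A, φ a * φ b = φ b * φ a) (hUW : U < W)
    (hU : A ≤ stb φ U) (hU' : g ∈ stb φ U) (hW : A ≤ stb φ W) (hW' : g ∈ stb φ W)
    (hi : ∀ Y, U ≤ Y → Y < W → A ≤ stb φ Y → g ∈ stb φ Y → Y = U)
    (hn : ∃ a ∈ A, ∃ w ∈ W, dl φ a w ∉ U) : ∃ b ∈ A, ∀ a ∈ A,
      U.relIndex (W ⊓ U.comap (dl φ (g * a))) * U.relIndex (W ⊓ U.comap (dl φ (g * (a * b)))) ≤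
        U.relIndex W := by
  have h0 : ∀ h ∈ stb φ U, U ≤ W ⊓ U.comap (dl φ h) := fun h hh =>
    le_inf hUW.le fun u hu => div_mem (hh u hu) hu
  obtain ⟨Y, h1, ⟨h2, h3⟩, h4⟩ :=
    CA.BG.exists_maximal_ge (P := fun Y => Y < W ∧ A ≤ stb φ Y) (H := U) ⟨hUW, hU⟩
  rcases h1.eq_or_lt with rfl | h5
  · obtain ⟨b, hb, w, hw, h5⟩ := hn
    have h6 := h4 (W ⊓ U.comap (dl φ b)) ⟨lt_of_le_of_ne inf_le_left fun e => h5 (e.ge hw).2,
      fun a ha v hv => ⟨hW ha v hv.1, by
        have := hU ha _ hv.2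
        rwa [dl_apply, map_div, ← MulAut.mul_apply, hab a ha b hb] at this⟩⟩ (h0 b (hU hb))
    refine ⟨b, hb, fun a ha => idx_mul_le (h0 _ (mul_mem hU' (hU (mul_mem ha hb)))) inf_le_left
      inf_le_left fun v hv => h6.le ⟨hv.1.1, mem_of_stb (mul_mem hU' (hU ha)) ?_⟩⟩
    have := U.div_mem (mem_comap.1 hv.2.2) (mem_comap.1 hv.1.2)
    rwa [dl_apply, dl_apply, div_div_div_cancel_right, ← mul_assoc, map_mul _ _ b, MulAut.mul_apply,
      ← map_div] at this
  · refine ⟨1, one_mem _, fun a ha => ?_⟩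
    rw [mul_one]
    have k0 : ∀ X, A ≤ stb φ X → g * a ∈ stb φ X → g ∈ stb φ X := fun X k1 k2 => by
      simpa using mul_mem k2 (inv_mem (k1 ha))
    have k1 := mul_mem hU' (hU ha)
    have k2 := mul_mem hW' (hW ha)
    generalize g * a = h at k0 k1 k2
    have k3 : W ⊓ U.comap (dl φ h) ⊓ Y ≤ U := fun w hw => by
      rw [← hi (⨅ n : ℕ, Y.comap (φ (h ^ n)).toMonoidHom)
        (le_iInf fun n u hu => h1 (pow_mem k1 n u hu))
        (lt_of_le_of_lt (fun v hv => by simpa using mem_iInf.1 hv 0) h2)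
        (fun a ha v hv => mem_iInf.2 fun n => by
          have := h3 (hA.conj_mem a ha (h ^ n)) _ (mem_iInf.1 hv n)
          simpa using this) (k0 _ (fun a ha v hv => mem_iInf.2 fun n => by
          have := h3 (hA.conj_mem a ha (h ^ n)) _ (mem_iInf.1 hv n)
          simpa using this) fun v hv => mem_iInf.2 fun n => by
            simpa [pow_succ] using mem_iInf.1 hv (n + 1))]
      refine mem_iInf.2 fun n => ?_
      induction n with
      | zero => simpa using hw.2
      | succ n ih =>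
        have := mul_mem (h1 (pow_mem k1 n _ hw.1.2)) ih
        simpa [dl_apply, pow_succ] using this
    have k4 : Y ⊔ Y.map (φ h).toMonoidHom = W := by
      by_contra e
      have k5 := h4 (Y ⊔ Y.map (φ h).toMonoidHom) ⟨lt_of_le_of_ne (sup_le h2.le
        (map_le_iff_le_comap.2 fun y hy => k2 y (h2.le hy))) e, fun a ha v hv => by
          obtain ⟨y, k5, _, ⟨z, k6, rfl⟩, rfl⟩ := mem_sup.1 hv
          rw [map_mul]
          refine mul_mem_sup (h3 ha y k5) ⟨_, h3 (hA.conj_mem' a ha h) z k6, by simp⟩⟩ le_sup_left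
      exact h5.ne' (hi Y h1 h2 h3 (k0 Y h3 fun y hy => k5.le (mem_sup_right ⟨y, hy, rfl⟩)))
    have k5 : U.relIndex (W ⊓ U.comap (dl φ h)) ≤ Y.relIndex W := by
      refine le_trans ?_ (relIndex_le_of_le_right (inf_le_left (b := U.comap (dl φ h)))
        index_ne_zero_of_finite)
      rw [← inf_relIndex_left _ Y]
      exact relIndex_le_of_le_left k3 index_ne_zero_of_finite
    rw [← relIndex_mul_relIndex U Y W h1 h2.le]
    refine Nat.mul_le_mul (k5.trans ?_) k5
    rw [← k4, relIndex_sup_left, ← relIndex_map_map_of_injective U Y (f := (φ h).toMonoidHom)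
      (φ h).injective]
    exact relIndex_le_of_le_left (map_le_iff_le_comap.2 fun u hu => h1 (k1 u hu))
      index_ne_zero_of_finite

theorem coset [A.Normal] [Fintype A] (hab : ∀ a ∈ A, ∀ b ∈ A, φ a * φ b = φ b * φ a)
    (hn : ∀ U W : Subgroup V, U < W → ∃ a ∈ A, ∃ w ∈ W, dl φ a w ∉ U) (W : Subgroup V) :
    A ≤ stb φ W → g ∈ stb φ W → ∏ a : A, Nat.card (W ⊓ (dl φ (g * a)).ker : Subgroup V) ^ 2 ≤
      Nat.card W ^ Fintype.card A := by
  induction W using WellFoundedLT.induction with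
  | ind W ih =>
    intro hW hW'
    rcases eq_or_ne W ⊥ with rfl | hb
    · simp
    obtain ⟨U, -, ⟨h1, h2, h3⟩, h4⟩ := CA.BG.exists_maximal_ge
      (P := fun Y => Y < W ∧ A ≤ stb φ Y ∧ g ∈ stb φ Y) (H := ⊥) ⟨bot_lt_iff_ne_bot.2 hb,
        fun a _ w hw => by simpa using hw, fun w hw => by simpa using hw⟩
    obtain ⟨b, hb, h5⟩ := sec hab h1 h2 h3 hW hW' (fun Y k1 k2 k3 k4 => h4 Y ⟨k2, k3, k4⟩ k1)
      (hn U W h1)
    have h6 : ∏ a : A, U.relIndex (W ⊓ U.comap (dl φ (g * a))) ^ 2 ≤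
        U.relIndex W ^ Fintype.card A := by
      rw [Finset.prod_pow, sq]
      nth_rewrite 2 [← Equiv.prod_comp (Equiv.mulRight (⟨b, hb⟩ : A))]
      rw [← Finset.prod_mul_distrib]
      exact Finset.prod_le_pow_card _ _ _ fun a _ => h5 a a.2
    have h7 : ∀ X Y : Subgroup V, Nat.card X = Nat.card (X ⊓ Y : Subgroup V) * Y.relIndex X :=
      fun X Y => by
        rw [← relIndex_bot_left, ← relIndex_bot_left, ← inf_relIndex_left X Y,
          relIndex_mul_relIndex _ _ _ bot_le inf_le_left]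
    rw [h7 W U, inf_of_le_right h1.le, mul_pow]
    refine le_trans ?_ (Nat.mul_le_mul (ih U h1 h2 h3) h6)
    rw [← Finset.prod_mul_distrib]
    refine Finset.prod_le_prod' fun a _ => ?_
    rw [← mul_pow, h7 _ U, inf_right_comm, inf_of_le_right h1.le]
    exact Nat.pow_le_pow_left (Nat.mul_le_mul_left _ (relIndex_le_of_le_right
      (inf_le_inf_left _ (ker_le_comap _ _)) index_ne_zero_of_finite)) 2

section irr
variable (hi : ∀ W, ⊤ ≤ stb φ W → W = ⊥ ∨ W = ⊤)
include hi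

theorem fix_or (A : Subgroup G) [hA : A.Normal] :
    (∀ v, (∀ a ∈ A, φ a v = v) → v = 1) ∨ ∀ a ∈ A, φ a = 1 := by
  refine (hi (⨅ a : A, (dl φ a).ker) fun g _ v hv => mem_iInf.2 fun a => ?_).imp
    (fun e v hv => mem_bot.1 (e.le (mem_iInf.2 fun a => div_eq_one.2 (hv a a.2))))
    fun e a ha => MulEquiv.ext fun v => div_eq_one.1 (mem_iInf.1 (e.ge (mem_top v)) ⟨a, ha⟩)
  have := congrArg (φ g) (div_eq_one.1 (mem_iInf.1 hv ⟨_, hA.conj_mem' a a.2 g⟩))
  exact div_eq_one.2 (by simpa using this)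

theorem triv_of_p {p : ℕ} [Fact p.Prime] (hp : p ∣ Nat.card V) (A : Subgroup G) [A.Normal]
    (h : ∀ a ∈ A, ∃ k, φ a ^ p ^ k = 1) : ∀ a ∈ A, φ a = 1 := by
  refine (fix_or hi A).resolve_left fun e => ?_
  have h1 : IsPGroup p (A.map φ) := by
    rintro ⟨_, a, ha, rfl⟩
    exact (h a ha).imp fun k hk => Subtype.ext hk
  obtain ⟨v, h2, h3⟩ := h1.exists_fixed_point_of_prime_dvd_card_of_fixed_point V hp (a := 1)
    fun σ => map_one σ.1
  exact h3 (e v fun a ha => h2 ⟨_, a, ha, rfl⟩).symm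

theorem pgroup {p : ℕ} [Fact p.Prime] (hp : p ∣ Nat.card V) : IsPGroup p V := by
  obtain ⟨v, hv⟩ := exists_prime_orderOf_dvd_card' p hp
  rcases hi (powMonoidHom p : V →* V).ker fun g _ w hw => by
    rw [MonoidHom.mem_ker, powMonoidHom_apply] at hw ⊢; rw [← map_pow, hw, map_one] with e | e
  · rw [mem_bot.1 (e.le (show v ^ p = 1 from hv ▸ pow_orderOf_eq_one v)), orderOf_one] at hv
    exact absurd hv.symm (Fact.out : p.Prime).ne_one
  · exact fun w => ⟨1, by rw [pow_one]; exact e.ge (mem_top w)⟩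

theorem prod_card_le (hs : Group.IsSolvable G) (h0 : ¬ ∀ g, φ g = 1) :
    ∏ g, Nat.card (dl φ g).ker ^ 2 ≤ Nat.card V ^ Fintype.card G := by
  classical
  have h1 : ∃ n, ∀ a ∈ derivedSeries G n, φ a = 1 :=
    hs.1.imp fun n hn a ha => by rw [hn, mem_bot] at ha; rw [ha, map_one]
  obtain ⟨n, hn⟩ := Nat.exists_eq_succ_of_ne_zero (n := Nat.find h1) fun e =>
    h0 fun g => Nat.find_spec h1 g (by rw [e]; trivial)
  set A := derivedSeries G n
  have h2 : ¬ ∀ a ∈ A, φ a = 1 := Nat.find_min h1 (hn ▸ n.lt_succ_self)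
  have hab : ∀ a ∈ A, ∀ b ∈ A, φ a * φ b = φ b * φ a := fun a ha b hb => by
    rw [← commutatorElement_eq_one_iff_mul_comm, ← map_commutatorElement]
    exact Nat.find_spec h1 _ (hn ▸ commutator_mem_commutator ha hb)
  have h3 := (fix_or hi A).resolve_right h2
  have hc : (Nat.card (A.map φ)).Coprime (Nat.card V) := by
    refine Nat.Coprime.symm (Nat.coprime_of_dvd fun p hp h4 h5 => ?_)
    have := Fact.mk hp
    obtain ⟨⟨_, a, ha, rfl⟩, h6⟩ := exists_prime_orderOf_dvd_card' p h5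
    let B : Subgroup G :=
      { carrier := {a | a ∈ A ∧ φ a ^ p = 1}
        one_mem' := ⟨one_mem _, by simp⟩
        mul_mem' := fun {a b} ha hb => ⟨mul_mem ha.1 hb.1, by
          rw [map_mul, Commute.mul_pow (hab a ha.1 b hb.1), ha.2, hb.2, one_mul]⟩
        inv_mem' := fun {a} ha => ⟨inv_mem ha.1, by rw [map_inv, inv_pow, ha.2, inv_one]⟩ }
    have : B.Normal := ⟨fun a ha g => ⟨Normal.conj_mem inferInstance a ha.1 g, by
      rw [map_mul, map_mul, map_inv, conj_pow, ha.2, mul_one, mul_inv_cancel]⟩⟩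
    rw [← orderOf_coe] at h6
    have h7 := triv_of_p hi h4 B (fun a ha => ⟨1, by rw [pow_one]; exact ha.2⟩) a
      ⟨ha, h6 ▸ pow_orderOf_eq_one _⟩
    simp only [h7, orderOf_one] at h6
    exact hp.ne_one h6.symm
  have := Fintype.ofFinite (A.map φ)
  have hn : ∀ U W : Subgroup V, U < W → ∃ a ∈ A, ∃ w ∈ W, dl φ a w ∉ U := fun U W h => by
    by_contra hc'
    push Not at hc'
    refine h.not_ge fun w hw => ?_
    have h4 : ∏ σ : A.map φ, σ.1 w = 1 := h3 _ fun a ha => by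
      rw [map_prod]
      exact Fintype.prod_equiv (Equiv.mulLeft (⟨_, a, ha, rfl⟩ : A.map φ)) _ _ fun σ => rfl
    have h5 : ∏ σ : A.map φ, σ.1 w / w ∈ U := prod_mem (by
      rintro ⟨_, a, ha, rfl⟩ -; exact hc' a ha w hw)
    rw [Finset.prod_div_distrib, h4, one_div, inv_mem_iff, Finset.prod_const, Finset.card_univ,
      ← Nat.card_eq_fintype_card] at h5
    have := Fintype.ofFinite V
    exact CA.H10Isa3.mem_of_pow_cop hc h5 (by rw [pow_card_eq_one']; exact one_mem _)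
  have := Fintype.ofFinite A
  refine (Nat.pow_le_pow_iff_left (n := Fintype.card A) Fintype.card_ne_zero).1 ?_
  calc _ = ∏ a : A, ∏ g, Nat.card (dl φ (g * a)).ker ^ 2 := by
        rw [← Finset.card_univ, ← Finset.prod_const]
        exact Finset.prod_congr rfl fun a _ => (Equiv.prod_comp (Equiv.mulRight (a : G)) _).symm
    _ ≤ ∏ g : G, Nat.card V ^ Fintype.card A := by
        rw [Finset.prod_comm]
        refine Finset.prod_le_prod' fun g _ => ?_
        simpa using coset (g := g) hab hn ⊤ (fun _ _ _ _ => trivial) fun _ _ => trivial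
    _ = _ := by rw [Finset.prod_const, Finset.card_univ, ← pow_mul, ← pow_mul, mul_comm]

theorem pow_dvd_prod (hs : Group.IsSolvable G) {e : ℕ} (he : e ^ 2 ∣ Nat.card V) :
    e ^ Fintype.card G ∣ ∏ g, (dl φ g).ker.index := by
  rcases eq_or_ne e 1 with rfl | h1
  · simp
  obtain ⟨p, hp, h2⟩ := Nat.exists_prime_and_dvd h1
  have := Fact.mk hp
  have h3 := (pow_dvd_pow_of_dvd h2 2).trans he
  obtain ⟨d, hd⟩ := IsPGroup.iff_card.1 (pgroup hi ((dvd_pow_self p two_ne_zero).trans h3))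
  by_cases h0 : ∀ g, φ g = 1
  · have : Nontrivial V := Finite.one_lt_card_iff_nontrivial.1
      ((Nat.one_lt_pow two_ne_zero hp.one_lt).trans_le (Nat.le_of_dvd Nat.card_pos h3))
    have : IsSimpleGroup V := ⟨fun W _ => hi W fun g _ w hw => by simpa [h0 g]⟩
    exact absurd (IsSimpleGroup.prime_card.squarefree p (sq p ▸ h3)) hp.prime.not_unit
  obtain ⟨a, -, rfl⟩ := (Nat.dvd_prime_pow hp).1 (hd ▸ (dvd_pow_self e two_ne_zero).trans he)
  obtain ⟨b, -, hb⟩ := (Nat.dvd_prime_pow hp (m := d * Fintype.card G)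
    (i := ∏ g, (dl φ g).ker.index)).1 (by
      rw [pow_mul, ← hd, ← Finset.card_univ, ← Finset.prod_const]
      exact Finset.prod_dvd_prod_of_dvd _ _ fun g _ => index_dvd_card _)
  have h4 : (∏ g, Nat.card (dl φ g).ker ^ 2) * (∏ g, (dl φ g).ker.index) ^ 2 =
      Nat.card V ^ Fintype.card G * Nat.card V ^ Fintype.card G := by
    rw [← Finset.prod_pow, ← Finset.prod_mul_distrib, ← mul_pow, ← Finset.card_univ,
      ← Finset.prod_const]
    exact Finset.prod_congr rfl fun g _ => by rw [← mul_pow, card_mul_index, sq]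
  have h5 := Nat.le_of_mul_le_mul_left (h4.ge.trans (Nat.mul_le_mul_right _ (prod_card_le hi hs h0)))
    (pow_pos Nat.card_pos _)
  have h6 := (Nat.pow_le_pow_left (Nat.le_of_dvd Nat.card_pos he) _).trans h5
  rw [hb, ← pow_mul, ← pow_mul, ← pow_mul, Nat.pow_le_pow_iff_right hp.one_lt] at h6
  rw [hb, ← pow_mul]
  exact pow_dvd_pow p (by nlinarith)

end irr

open Cfsg CA.PF CA.H12Gl CA.H12Gl2 CA.H12Deg
open CA.BG hiding cj cj_one cj_mul cj_inv_cj cj_cj_inv mem_cent1

theorem chief_step (hs : Group.IsSolvable G) {F L K : Subgroup G} [F.Normal]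
    (hF : Group.IsNilpotent F) (hc : ChiefFactor ⊤ L K) {e : ℕ} (he : e ^ 2 ∣ L.relIndex K) :
    ∃ c : G → ℕ, e ^ Fintype.card G ∣ ∏ g, c g ∧
      (∀ g, (𝓒₁(g)).relIndex L * c g ∣ (𝓒₁(g)).relIndex K) ∧
      ∀ r : ℕ, r.Prime → ∀ N : Subgroup G, N.Normal → (∀ n ∈ N, ∃ k, n ^ r ^ k ∈ F) → ∀ y ∈ N,
        ∀ g, (c (g * y)).factorization r = (c g).factorization r := by
  have : L.Normal := normalizer_eq_top_iff.1 (top_le_iff.1 hc.2.2.2.1)
  have : K.Normal := normalizer_eq_top_iff.1 (top_le_iff.1 hc.2.2.1)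
  obtain ⟨-, -, hab, -⟩ := sol_chief_abelem hc (solv_of_le (H := K) (K := ⊤) inferInstance le_top)
  let π := QuotientGroup.mk' L
  have hπ : Function.Surjective π := QuotientGroup.mk'_surjective L
  have : (K.map π).Normal := Normal.map inferInstance π hπ
  let _ : CommGroup (K.map π) := { (inferInstance : Group (K.map π)) with
    mul_comm := by
      rintro ⟨_, a, ha, rfl⟩ ⟨_, b, hb, rfl⟩
      refine Subtype.ext (commutatorElement_eq_one_iff_mul_comm.1 ?_)
      exact (map_commutatorElement π a b).symm.trans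
        ((QuotientGroup.eq_one_iff _).2 (hab (commutator_mem_commutator ha hb))) }
  let φ : G →* MulAut (K.map π) := MulAut.conjNormal.comp π
  have hφ : ∀ g k, (φ g (π.subgroupMap K k)).1 = π (g * k * g⁻¹) := fun g k => by
    simp [φ]
  have hs' := π.subgroupMap_surjective K
  have hcard : Nat.card (K.map π) = L.relIndex K := by
    rw [← relIndex_ker, QuotientGroup.ker_mk']
  have hi : ∀ W, ⊤ ≤ stb φ W → W = ⊥ ∨ W = ⊤ := fun W hW => by
    rcases hc.2.2.2.2 ((W.comap (π.subgroupMap K)).map K.subtype) (fun x hx => ⟨⟨x, hc.1.le hx⟩, by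
      rw [SetLike.mem_coe, mem_comap, show π.subgroupMap K ⟨x, hc.1.le hx⟩ = 1 from
        Subtype.ext ((QuotientGroup.eq_one_iff _).2 hx)]
      exact one_mem _, rfl⟩) (map_subtype_le _) (norm_of_conj (by
        rintro g - _ ⟨k, hk, rfl⟩
        refine ⟨⟨g * k * g⁻¹, Normal.conj_mem inferInstance _ k.2 g⟩, ?_, rfl⟩
        have := hW (mem_top g) _ hk
        rwa [show φ g _ = π.subgroupMap K ⟨g * k * g⁻¹, Normal.conj_mem inferInstance _ k.2 g⟩ from
          Subtype.ext (hφ g k)] at this)) with e | e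
    · exact Or.inl (eq_bot_iff.2 (hs'.forall.2 fun k hk =>
        Subtype.ext ((QuotientGroup.eq_one_iff _).2 (e.le ⟨k, hk, rfl⟩))))
    · refine Or.inr (eq_top_iff.2 (hs'.forall.2 fun k _ => ?_))
      obtain ⟨w, h1, h2⟩ := e.ge k.2
      exact (show w = k from Subtype.ext h2) ▸ h1
  refine ⟨fun g => (dl φ g).ker.index, pow_dvd_prod hi hs (hcard ▸ he), fun g => ?_,
    fun r hr N _ hN y hy g => ?_⟩
  · set M := (dl φ g).ker.comap (π.subgroupMap K)
    have h1 : (𝓒₁(g)).subgroupOf K ≤ M := fun k hk => div_eq_one.2 (Subtype.ext (by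
      refine (hφ g k).trans ?_
      rw [← show (k : G) * g = g * k from PF.mem_cent1.1 hk, mul_inv_cancel_right]; rfl))
    have h2 : L.subgroupOf K ≤ M := fun k hk => by
      rw [mem_comap, show π.subgroupMap K k = 1 from
        Subtype.ext ((QuotientGroup.eq_one_iff _).2 hk)]
      exact one_mem _
    simp only
    rw [← index_comap_of_surjective _ hs', relIndex, relIndex, ← relIndex_mul_index h1]
    refine mul_dvd_mul_right ?_ _
    have := CA.H10RP.relIndex_dvd_index (((𝓒₁(g)).subgroupOf K).subgroupOf M)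
      ((L.subgroupOf K).subgroupOf M)
    rwa [relIndex_subgroupOf h2, relIndex_subgroupOf hc.1.le] at this
  · by_cases h : r ∣ Nat.card (K.map π)
    · have := Fact.mk hr
      have h1 : ∀ f ∈ F, φ f = 1 := fun f hf => MulEquiv.ext (hs'.forall.2 fun k => Subtype.ext (by
        rw [hφ]
        exact QuotientGroup.eq_iff_div_mem.2 (div_eq_mul_inv _ k.1 ▸ comm_le_of_quo_cent
          le_normalizer_of_normal le_normalizer_of_normal (hc.minnormal_quo.cent_of_nil
            (quo_mono L le_top) (quo_mono L le_top) (norm_quo L le_normalizer_of_normal)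
            (nil_quo L hF)) (commutator_mem_commutator hf k.2))))
      have h2 := triv_of_p hi h N (fun n hn => (hN n hn).imp fun k hk => by
        rw [← map_pow, h1 _ hk]) y hy
      simp only [dl, map_mul, h2, mul_one]
    · rw [Nat.factorization_eq_zero_of_not_dvd fun h' => h (h'.trans (index_dvd_card _)),
        Nat.factorization_eq_zero_of_not_dvd fun h' => h (h'.trans (index_dvd_card _))]

/-- All constituents of restrictions to normal subgroups are invariant. -/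
def QP (χ : G → ℂ) : Prop := ∀ N, Nrm N ⊤ → ∀ θ ∈ irr N, dot N χ θ ≠ 0 → ⊤ ≤ stab θ

theorem qp_of_prim {χ : G → ℂ} (hχ : χ ∈ irr ⊤) (h : ¬ ∃ H : Subgroup G, H ≠ ⊤ ∧
    ∃ θ : H → ℂ, IsCharacter H θ ∧ indFun H θ = χ) : QP χ := fun N hN θ hθ hd => by
  obtain ⟨ψ, h1, -, h2⟩ := (cfInd_sum_Inertia hN hθ).2.2 χ hχ hd
  obtain ⟨ψ, rfl⟩ := exists_ext h1
  by_contra h3
  exact h ⟨⊤ ⊓ stab θ, fun e => h3 (e.ge.trans inf_le_right), ψ, CChar.CharFun.char_of_irr ψ.2,
    (h2.trans (Ind_top _ _)).symm⟩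

theorem exists_fun (hs : Group.IsSolvable G) {F : Subgroup G} [F.Normal]
    (hF : Group.IsNilpotent F) {χ : G → ℂ} (hχ : χ ∈ irr ⊤) (hq : QP χ) (K : Subgroup G) :
    Nrm K ⊤ → ∀ θ ∈ irr K, dot K χ θ ≠ 0 → ∃ c : G → ℕ,
      charDegree θ ^ Fintype.card G ∣ ∏ g, c g ∧ (∀ g, c g ∣ (𝓒₁(g)).relIndex K) ∧
      ∀ r : ℕ, r.Prime → ∀ N : Subgroup G, N.Normal → (∀ n ∈ N, ∃ k, n ^ r ^ k ∈ F) → ∀ y ∈ N,
        ∀ g, (c (g * y)).factorization r = (c g).factorization r := by
  induction K using WellFoundedLT.induction with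
  | ind K ih =>
    intro hK θ hθ hd
    rcases eq_or_ne K ⊥ with rfl | hb
    · refine ⟨fun _ => 1, ?_, fun _ => one_dvd _, fun _ _ _ _ _ _ _ _ => rfl⟩
      have := irr_one_dvd hθ (irr_deg hθ)
      rw [card_bot, Nat.dvd_one] at this
      simp [this]
    obtain ⟨L, -, hc⟩ := exists_chief_below (bot_lt_iff_ne_bot.2 hb) le_top
      (nrm_bot ⊤).le_normalizer hK.le_normalizer
    have hL : Nrm L ⊤ := nrm_of_le_normalizer le_top hc.2.2.2.1
    obtain ⟨φ, h1, h2⟩ := exists_irr_under hc.1.le hθ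
    have h3 := dot_ne_trans hc.1.le le_top (irr_char hχ) hθ (irr_char h1) hd h2
    obtain ⟨c, h4, h5, h6⟩ := ih L hc.1 hL φ h1 h3
    have h7 : K ≤ stab φ := le_top.trans (hq L hL φ h1 h3)
    obtain ⟨-, -, hab, -⟩ := sol_chief_abelem hc (solv_of_le (H := K) (K := ⊤) inferInstance le_top)
    obtain ⟨e, -, -, h8, h9⟩ := cfInd_central_Inertia (hL.mono hc.1.le le_top) h1
      (by rwa [inf_of_le_left h7])
    rw [inf_of_le_left h7] at h8
    obtain ⟨c', h10, h11, h12⟩ := chief_step hs hF hc (Dvd.intro _ h8)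
    have h13 : charDegree θ = charDegree φ * e := deg_eq (by
      rw [h9 θ (mem_constt.2 ⟨hθ, dot_Ind_ne (irr_CInv hθ) h2⟩), relIndex_eq_one.2 h7, irr_deg h1]
      push_cast; ring)
    have h14 := fun g => (mul_dvd_mul_right (h5 g) _).trans (h11 g)
    refine ⟨fun g => c g * c' g, by
      rw [h13, mul_pow, Finset.prod_mul_distrib]; exact mul_dvd_mul h4 h10, h14,
      fun r hr N k1 k2 y hy g => ?_⟩
    have k3 := fun g => ne_zero_of_dvd_ne_zero index_ne_zero_of_finite (h14 g)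
    simp only [Nat.factorization_mul (left_ne_zero_of_mul (k3 _)) (right_ne_zero_of_mul (k3 _)),
      Finsupp.add_apply, h6 r hr N k1 k2 y hy, h12 r hr N k1 k2 y hy]

theorem exists_le {n : ℕ} {c : G → ℕ} (h0 : ∀ g, c g ≠ 0) (h : n ^ Fintype.card G ∣ ∏ g, c g)
    (p : ℕ) : ∃ g, n.factorization p ≤ (c g).factorization p := by
  have h1 := Finset.prod_ne_zero_iff.2 fun g (_ : g ∈ Finset.univ) => h0 g
  have h2 := (Nat.factorization_le_iff_dvd (ne_zero_of_dvd_ne_zero h1 h) h1).2 h p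
  rw [Nat.factorization_pow, Nat.factorization_prod fun g _ => h0 g, Finsupp.finset_sum_apply,
    Finsupp.smul_apply, ← Finset.card_univ, ← Finset.sum_const] at h2
  obtain ⟨g, -, h3⟩ := Finset.exists_le_of_sum_le Finset.univ_nonempty h2
  exact ⟨g, h3⟩

theorem prim_fun (hs : Group.IsSolvable G) {F : Subgroup G} [F.Normal]
    (hF : Group.IsNilpotent F) (χ : IrrCharacter G) (h : ¬ ∃ H : Subgroup G, H ≠ ⊤ ∧
    ∃ θ : H → ℂ, IsCharacter H θ ∧ indFun H θ = χ.1) : ∃ c : G → ℕ,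
      (∀ p, ∃ g, (charDegree χ.1).factorization p ≤ (c g).factorization p) ∧
      (∀ g, c g ∣ (𝓒₁(g)).index) ∧
      ∀ r : ℕ, r.Prime → ∀ N : Subgroup G, N.Normal → (∀ n ∈ N, ∃ k, n ^ r ^ k ∈ F) → ∀ y ∈ N,
        ∀ g, (c (g * y)).factorization r = (c g).factorization r := by
  have h1 := mem_irr_top.2 χ.2
  obtain ⟨c, h2, h3, h4⟩ := exists_fun hs hF h1 (qp_of_prim h1 h) ⊤ (Nrm.refl _) _ h1
    (by rw [dot_irr_self h1]; exact one_ne_zero)
  simp only [relIndex_top_right] at h3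
  exact ⟨c, exists_le (fun g => ne_zero_of_dvd_ne_zero index_ne_zero_of_finite (h3 g)) h2, h3, h4⟩

theorem prim_le (hs : Group.IsSolvable G) (χ : IrrCharacter G) (h : ¬ ∃ H : Subgroup G, H ≠ ⊤ ∧
    ∃ θ : H → ℂ, IsCharacter H θ ∧ indFun H θ = χ.1) (p : ℕ) :
    ∃ g : G, (charDegree χ.1).factorization p ≤ (𝓒₁(g)).index.factorization p := by
  obtain ⟨c, h1, h2, -⟩ := prim_fun hs (F := ⊥) inferInstance χ h
  exact (h1 p).imp fun g hg => hg.trans ((Nat.factorization_le_iff_dvd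
    (ne_zero_of_dvd_ne_zero index_ne_zero_of_finite (h2 g)) index_ne_zero_of_finite).2 (h2 g) p)

end CA.H10Fix
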