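import Cfsg.Agent.Lib.Char.H10Fock7

/-! The hook length formula and `p`-adic valuations of degrees. -/

set_option autoImplicit false
set_option linter.unusedSectionVars false

namespace CA.H10Fock8
open MvPolynomial Equiv CA.H10Fock1 CA.H10Fock2 CA.H10Fock3 CA.H10Fock4 CA.H10Fock5 CA.H10Fock6
  Cfsg CChar.CharFun CChar.CharGen Finset

variable {N n p : ℕ}

lemma chi_one_mul {β : Fin N →₀ ℕ} (hd : dg β = dg (dl N) + n) :
    chi β (1 : Perm (Fin n)) * ∏ i, ((β i).factorial : ℂ) =
      n.factorial * ∏ i, ∏ j ∈ Ioi i, ((β j : ℂ) - β i) := by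
  have e1 : pp N (1 : Perm (Fin n)) = (∑ i, X i) ^ n := by
    simp [pp, Perm.parts_partition, pm, ps, psum]
  rw [← Matrix.det_vandermonde, Matrix.det_eval_matrixOfPolynomials_eq_det_vandermonde _
    (fun j : Fin N => descPochhammer ℂ j) (fun i => descPochhammer_natDegree ℂ i)
    (fun i => monic_descPochhammer ℂ i), Matrix.det_apply', chi, e1, vd, Alt_monomial, mul_sum,
    coeff_sum, sum_mul, mul_sum]
  refine sum_congr rfl fun π _ => ?_
  rw [mul_smul_comm, coeff_smul, coeff_mul_monomial', smul_eq_mul]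
  simp only [Matrix.of_apply, descPochhammer_eval_eq_descFactorial]
  have e2 : ∏ i : Fin N, (((β (π i)).descFactorial i : ℕ) : ℂ) =
      ∏ i, (((β i).descFactorial ((dl N).mapDomain π i) : ℕ) : ℂ) := by
    rw [← Equiv.prod_comp π (fun i => (((β i).descFactorial ((dl N).mapDomain π i) : ℕ) : ℂ))]
    simp [md_apply, dl_apply]
  rw [e2]
  have e3 := dg_md π (dl N)
  generalize (dl N).mapDomain π = s at *
  split_ifs with h
  · obtain ⟨t, rfl⟩ := exists_add_of_le h
    rw [dg_add] at hd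
    have e4 : ∑ i, t i = n := by change dg t = n; omega
    rw [add_tsub_cancel_left, coeff_sum_X_pow_of_fintype, if_pos
      (by rw [Finsupp.sum_fintype _ _ (fun _ => rfl)]; exact e4),
      Finsupp.multinomial_eq_of_support_subset (subset_univ _), ← e4, ← Nat.multinomial_spec]
    have e5 : ∀ i, (((s + t : Fin N →₀ ℕ) i).factorial : ℂ) =
        (t i).factorial * (((s + t : Fin N →₀ ℕ) i).descFactorial (s i) : ℕ) := fun i => by
      rw [← Nat.cast_mul, ← Nat.factorial_mul_descFactorial (k := s i) (by simp)]; simp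
    simp only [e5, prod_mul_distrib, sg]
    push_cast; ring
  · have : ∃ i, β i < s i := by
      by_contra hc; push Not at hc; exact h hc
    obtain ⟨i, hi⟩ := this
    rw [prod_eq_zero (f := fun i => (((β i).descFactorial (s i) : ℕ) : ℂ)) (mem_univ i)
      (by rw [Nat.descFactorial_of_lt hi, Nat.cast_zero])]
    simp

def HS (S : Finset ℕ) : ℕ := ∏ x ∈ S, ∏ y ∈ range x \ S, (x - y)
def wt (S : Finset ℕ) : ℕ := ∑ x ∈ S, (range x \ S).card

lemma HS_ne_zero (S : Finset ℕ) : HS S ≠ 0 :=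
  prod_ne_zero_iff.2 fun x _ => prod_ne_zero_iff.2 fun y hy => by
    have := mem_range.1 (mem_sdiff.1 hy).1; omega

lemma sdiff_insert_max {S : Finset ℕ} {x : ℕ} {y : ℕ} (hy : y ≤ x) :
    range y \ insert x S = range y \ S := by
  ext z; simp only [mem_sdiff, mem_range, mem_insert]
  constructor
  · rintro ⟨a, b⟩; exact ⟨a, fun c => b (Or.inr c)⟩
  · rintro ⟨a, b⟩; exact ⟨a, fun c => c.elim (fun d => by omega) b⟩

lemma HS_insert {S : Finset ℕ} {x : ℕ} (hx : ∀ y ∈ S, y < x) :
    HS (insert x S) = (∏ y ∈ range x \ S, (x - y)) * HS S := by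
  unfold HS
  rw [prod_insert (fun h => lt_irrefl _ (hx x h)), sdiff_insert_max le_rfl]
  congr 1
  exact prod_congr rfl fun y hy => by rw [sdiff_insert_max (hx y hy).le]

lemma wt_insert {S : Finset ℕ} {x : ℕ} (hx : ∀ y ∈ S, y < x) :
    wt (insert x S) + S.card = x + wt S := by
  unfold wt
  rw [sum_insert (fun h => lt_irrefl _ (hx x h)), sdiff_insert_max le_rfl,
    sum_congr rfl fun y hy => by rw [sdiff_insert_max (hx y hy).le]]
  have := card_sdiff_add_card_eq_card (s := S) (t := range x) fun y hy => mem_range.2 (hx y hy)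
  rw [card_range] at this
  omega

lemma sum_eq_wt (S : Finset ℕ) : ∑ x ∈ S, x = ∑ x ∈ range S.card, x + wt S := by
  induction S using Finset.induction_on_max with
  | empty => simp [wt]
  | insert x S hx ih =>
    have hn : x ∉ S := fun h => lt_irrefl _ (hx x h)
    have := wt_insert hx
    rw [card_insert_of_notMem hn, sum_insert hn, sum_range_succ]; omega

lemma HS_range (m : ℕ) : HS (range m) = 1 :=
  prod_eq_one fun x hx => by
    rw [sdiff_eq_empty_iff_subset.2 (range_mono (mem_range.1 hx).le), prod_empty]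
lemma wt_range (m : ℕ) : wt (range m) = 0 :=
  sum_eq_zero fun x hx => by
    rw [sdiff_eq_empty_iff_subset.2 (range_mono (mem_range.1 hx).le), card_empty]

lemma prod_Ico_sub (a d : ℕ) : ∏ y ∈ Ico a (a + d), (a + d - y) = d.factorial := by
  rw [prod_Ico_eq_prod_range, Nat.add_sub_cancel_left, ← Nat.descFactorial_self,
    Nat.descFactorial_eq_prod_range]
  exact prod_congr rfl fun y _ => by omega

noncomputable def emb (S : Finset ℕ) (h : S.card = N) : Fin N →₀ ℕ :=
  Finsupp.equivFunOnFinite.symm (S.orderEmbOfFin h)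

lemma emb_apply (S : Finset ℕ) (h : S.card = N) (i : Fin N) : emb S h i = S.orderEmbOfFin h i := by
  simp [emb]
lemma emb_inj (S : Finset ℕ) (h : S.card = N) : Function.Injective (emb S h) := fun i j e => by
  rw [emb_apply, emb_apply] at e; exact (S.orderEmbOfFin h).injective e
lemma image_emb (S : Finset ℕ) (h : S.card = N) : univ.image (emb S h) = S := by
  rw [← coe_inj, coe_image, coe_univ, Set.image_univ, ← range_orderEmbOfFin S h]
  congr 1

lemma dg_eq {γ : Fin N →₀ ℕ} (h : Function.Injective γ) : dg γ = ∑ x ∈ univ.image γ, x := by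
  rw [sum_image (fun a _ b _ e => h e)]; rfl
lemma dg_dl : dg (dl N) = ∑ x ∈ range N, x := by
  simp only [dg, dl_apply]; exact Fin.sum_univ_eq_sum_range (fun x => x) N

lemma hook_emb (S : Finset ℕ) (h : S.card = N) (hd : wt S = n) :
    chi (emb S h) (1 : Perm (Fin n)) * HS S = n.factorial := by
  have h1 := chi_one_mul (n := n) (β := emb S h)
    (by rw [dg_eq (emb_inj S h), image_emb, sum_eq_wt, h, dg_dl, hd])
  set β := emb S h with hβ
  have hm : ∀ i j, β i < β j ↔ i < j := fun i j => by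
    rw [hβ, emb_apply, emb_apply]; exact (S.orderEmbOfFin h).lt_iff_lt
  have e1 : ∏ i, ∏ j ∈ Ioi i, ((β j : ℂ) - β i) = ((∏ j, ∏ i ∈ Iio j, (β j - β i) : ℕ) : ℂ) := by
    rw [prod_comm' (t' := univ) (s' := fun j => Iio j) (by simp)]
    push_cast
    refine prod_congr rfl fun j _ => prod_congr rfl fun i hi => ?_
    rw [Nat.cast_sub ((hm i j).2 (mem_Iio.1 hi)).le]
  have e2 : ∏ i, (β i).factorial = (∏ j, ∏ i ∈ Iio j, (β j - β i)) * HS S := by
    rw [HS, ← image_emb S h, prod_image (fun a _ b _ e => emb_inj S h e), ← prod_mul_distrib]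
    refine prod_congr rfl fun j _ => ?_
    rw [← Nat.descFactorial_self, Nat.descFactorial_eq_prod_range,
      ← prod_inter_mul_prod_sdiff (range (β j)) (univ.image β)]
    congr 1
    symm
    refine prod_bij (fun i _ => β i) ?_ ?_ ?_ (fun _ _ => rfl)
    · intro i hi
      exact mem_inter.2 ⟨mem_range.2 ((hm i j).2 (mem_Iio.1 hi)), mem_image_of_mem _ (mem_univ _)⟩
    · intro a _ b _ e; exact emb_inj S h e
    · intro y hy
      obtain ⟨h1, h2⟩ := mem_inter.1 hy
      obtain ⟨i, -, rfl⟩ := mem_image.1 h2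
      exact ⟨i, mem_Iio.2 ((hm i j).1 (mem_range.1 h1)), rfl⟩
  have e3 : ((∏ j, ∏ i ∈ Iio j, (β j - β i) : ℕ) : ℂ) ≠ 0 := by
    rw [Nat.cast_ne_zero]
    exact prod_ne_zero_iff.2 fun j _ => prod_ne_zero_iff.2 fun i hi => by
      have := (hm i j).2 (mem_Iio.1 hi); omega
  rw [e1, ← Nat.cast_prod, e2, Nat.cast_mul] at h1
  apply mul_right_cancel₀ e3
  rw [← h1]; ring

lemma HS_dvd (S : Finset ℕ) : HS S ∣ (wt S).factorial := by
  have h := hook_emb S rfl rfl
  obtain ⟨m, hm⟩ := gen_apply_one (gen_chi (n := wt S) (emb S rfl))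
  rw [hm] at h
  have : m * HS S = (wt S).factorial := by exact_mod_cast h
  exact Int.natCast_dvd_natCast.1 (Dvd.intro_left _ this)

lemma degree_mul {ψ : Perm (Fin n) → ℂ} (hψ : IsIrrCharacter _ ψ) {γ : Fin N →₀ ℕ} {a : ℂ}
    (hγ : Function.Injective γ) (ha : a = 1 ∨ a = -1) (h : ∀ g, ψ g = a * chi γ g) :
    charDegree ψ * HS (univ.image γ) = n.factorial := by
  have hc : (univ.image γ).card = N := by rw [card_image_of_injective _ hγ]; simp
  obtain ⟨π, hπ⟩ := exists_md_of_range (γ := emb _ hc) hγ (fun j => by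
    have : γ j ∈ univ.image (emb _ hc) := by rw [image_emb]; exact mem_image_of_mem _ (mem_univ _)
    simpa using this)
  have hd : dg γ = dg (dl N) + n := dg_of_chi (g := 1) fun h0 =>
    irr_apply_one_ne_zero hψ (by rw [h, h0, mul_zero])
  rw [dg_eq hγ, sum_eq_wt, hc, dg_dl] at hd
  have h1 := hook_emb (n := n) _ hc (by omega)
  obtain ⟨m, m0, hm⟩ := irr_apply_one hψ
  have h2 : charDegree ψ = m := by simp [charDegree, hm]
  have h3 : (m : ℂ) * HS (univ.image γ) = (a * sg π) * n.factorial := by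
    rw [← hm, h, ← h1]
    nth_rewrite 1 [hπ]
    rw [chi_md]; ring
  rw [h2]
  have h4 : a * sg π = 1 ∨ a * sg π = -1 := by
    rcases ha with h | h <;> rcases sg_cases π with h' | h' <;> simp [h, h']
  rcases h4 with e | e <;> rw [e] at h3
  · exact_mod_cast h3.trans (one_mul _)
  · exfalso
    have : (m * HS (univ.image γ) + n.factorial : ℕ) = 0 := by
      have : ((m * HS (univ.image γ) + n.factorial : ℕ) : ℂ) = 0 := by
        push_cast; rw [h3]; ring
      exact_mod_cast this
    have := Nat.factorial_pos n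
    omega

/-- the beads on runner `t` -/
def rn (p t : ℕ) (S : Finset ℕ) : Finset ℕ := (S.filter (· % p = t)).image (· / p)

lemma mem_rn {t : ℕ} (ht : t < p) {S : Finset ℕ} {y : ℕ} : y ∈ rn p t S ↔ p * y + t ∈ S := by
  have hp : 0 < p := by omega
  simp only [rn, mem_image, mem_filter]
  constructor
  · rintro ⟨x, ⟨h1, rfl⟩, rfl⟩; rwa [Nat.div_add_mod]
  · intro h
    exact ⟨_, ⟨h, by rw [Nat.mul_add_mod, Nat.mod_eq_of_lt ht]⟩,
      by rw [Nat.mul_add_div hp, Nat.div_eq_of_lt ht, add_zero]⟩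

lemma sum_rn (hp : 0 < p) (S : Finset ℕ) (f : ℕ → ℕ) :
    ∑ x ∈ S, f x = ∑ t ∈ range p, ∑ y ∈ rn p t S, f (p * y + t) := by
  rw [← sum_fiberwise_of_maps_to (s := S) (t := range p) (g := (· % p))
    (fun x _ => mem_range.2 (Nat.mod_lt _ hp))]
  refine sum_congr rfl fun t _ => ?_
  rw [rn, sum_image]
  · exact sum_congr rfl fun x hx => by rw [← (mem_filter.1 hx).2, Nat.div_add_mod]
  · intro a ha b hb e
    have h1 := (mem_filter.1 ha).2
    have h2 := (mem_filter.1 hb).2
    rw [← Nat.div_add_mod a p, ← Nat.div_add_mod b p, h1, h2, show a / p = b / p from e]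

lemma card_rn {γ : Fin N →₀ ℕ} (h : Function.Injective γ) (t : ℕ) :
    (rn p t (univ.image γ)).card = (univ.filter fun i => γ i % p = t).card := by
  rw [rn, filter_image, image_image, card_image_of_injOn]
  intro a ha b hb e
  have h1 := (mem_filter.1 ha).2
  have h2 := (mem_filter.1 hb).2
  refine h ?_
  rw [← Nat.div_add_mod (γ a) p, ← Nat.div_add_mod (γ b) p, h1, h2, show γ a / p = γ b / p from e]

lemma fact_HS (S : Finset ℕ) :
    (HS S).factorization p = ∑ x ∈ S, ∑ y ∈ range x \ S, (x - y).factorization p := by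
  have : ∀ x, ∀ y ∈ range x \ S, x - y ≠ 0 := fun x y hy => by
    have := mem_range.1 (mem_sdiff.1 hy).1; omega
  rw [HS, Nat.factorization_prod (fun x _ => prod_ne_zero_iff.2 (this x)), Finsupp.finsetSum_apply]
  exact sum_congr rfl fun x _ => by rw [Nat.factorization_prod (this x), Finsupp.finsetSum_apply]

lemma val_HS (hp : p.Prime) (S : Finset ℕ) : (HS S).factorization p =
    ∑ t ∈ range p, wt (rn p t S) + ∑ t ∈ range p, (HS (rn p t S)).factorization p := by
  rw [fact_HS, sum_rn hp.pos, ← sum_add_distrib]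
  refine sum_congr rfl fun t ht => ?_
  rw [mem_range] at ht
  rw [fact_HS, wt, ← sum_add_distrib]
  refine sum_congr rfl fun x _ => ?_
  rw [sum_rn hp.pos, sum_eq_single t]
  · have e : rn p t (range (p * x + t) \ S) = range x \ rn p t S := by
      ext y
      rw [mem_rn ht, mem_sdiff, mem_sdiff, mem_rn ht, mem_range, mem_range, add_lt_add_iff_right,
        Nat.mul_lt_mul_left hp.pos]
    rw [e, card_eq_sum_ones, ← sum_add_distrib]
    refine sum_congr rfl fun y hy => ?_
    have := mem_range.1 (mem_sdiff.1 hy).1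
    rw [Nat.add_sub_add_right, ← Nat.mul_sub, Nat.factorization_mul hp.ne_zero (by omega)]
    simp [hp.factorization_self]
  · intro t' ht' hne
    rw [mem_range] at ht'
    refine sum_eq_zero fun y hy => Nat.factorization_eq_zero_of_not_dvd fun hd => hne ?_
    have h1 := mem_range.1 (mem_sdiff.1 ((mem_rn ht').1 hy)).1
    have h2 := (Nat.modEq_iff_dvd' h1.le).2 hd
    unfold Nat.ModEq at h2
    rwa [Nat.mul_add_mod, Nat.mul_add_mod, Nat.mod_eq_of_lt ht, Nat.mod_eq_of_lt ht'] at h2
  · intro h; exact absurd (mem_range.2 ht) h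

lemma sum_eq_rn (hp : 0 < p) (S : Finset ℕ) : ∑ x ∈ S, x = p * ∑ t ∈ range p, wt (rn p t S) +
    ∑ t ∈ range p, (p * ∑ y ∈ range (rn p t S).card, y + t * (rn p t S).card) := by
  rw [sum_rn hp S (fun x => x), mul_sum, ← sum_add_distrib]
  refine sum_congr rfl fun t _ => ?_
  rw [sum_add_distrib, ← mul_sum, sum_eq_wt, sum_const, smul_eq_mul]; ring

lemma wt_rn_gr {κ : Fin N →₀ ℕ} (hκ : Gr p κ) {t : ℕ} (ht : t < p) :
    wt (rn p t (univ.image κ)) = 0 := by
  refine sum_eq_zero fun x hx => ?_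
  rw [card_eq_zero, sdiff_eq_empty_iff_subset]
  intro y hy
  rw [mem_rn ht] at hx ⊢
  obtain ⟨i, -, hi⟩ := mem_image.1 hx
  obtain ⟨j, hj⟩ := gr_desc' hκ (i := i) (y := p * y + t)
    (by rw [hi]; have := Nat.mul_le_mul_left p (mem_range.1 hy).le; omega)
    (by rw [hi, Nat.mul_add_mod, Nat.mul_add_mod])
  exact mem_image.2 ⟨j, mem_univ _, hj⟩

lemma dg_eq_wt (hp : 0 < p) {γ κ : Fin N →₀ ℕ} (hγ : Function.Injective γ)
    (hκi : Function.Injective κ) (hκ : Gr p κ)
    (hc : ∀ t < p, (rn p t (univ.image γ)).card = (rn p t (univ.image κ)).card) :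
    dg γ = dg κ + p * ∑ t ∈ range p, wt (rn p t (univ.image γ)) := by
  have e : ∑ t ∈ range p, (p * ∑ y ∈ range (rn p t (univ.image γ)).card, y +
      t * (rn p t (univ.image γ)).card) = ∑ t ∈ range p,
      (p * ∑ y ∈ range (rn p t (univ.image κ)).card, y + t * (rn p t (univ.image κ)).card) :=
    sum_congr rfl (fun t ht => by rw [hc t (mem_range.1 ht)])
  rw [dg_eq hγ, dg_eq hκi, sum_eq_rn hp, sum_eq_rn hp (univ.image κ),
    sum_eq_zero (s := range p) (f := fun t => wt (rn p t (univ.image κ)))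
      (fun t ht => wt_rn_gr hκ (mem_range.1 ht)), e]
  ring

lemma val_bounds (hp : p.Prime) {γ κ : Fin N →₀ ℕ} (hγ : Function.Injective γ)
    (hκi : Function.Injective κ) (hκ : Gr p κ) (hr : ∀ i, γ i % p = κ i % p) {w : ℕ}
    (hd : dg γ = dg κ + p * w) : w ≤ (HS (univ.image γ)).factorization p ∧
      (HS (univ.image γ)).factorization p ≤ w + w.factorial.factorization p := by
  have h1 := dg_eq_wt hp.pos hγ hκi hκ (fun t _ => by rw [card_rn hγ, card_rn hκi]; simp only [hr])
  have h2 : ∑ t ∈ range p, wt (rn p t (univ.image γ)) = w :=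
    Nat.eq_of_mul_eq_mul_left hp.pos (by omega)
  rw [val_HS hp, h2]
  refine ⟨by omega, Nat.add_le_add_left ?_ _⟩
  have h3 : ∏ t ∈ range p, HS (rn p t (univ.image γ)) ∣ w.factorial := by
    rw [← h2]
    exact (prod_dvd_prod_of_dvd _ _ fun t _ => HS_dvd _).trans
      (Nat.prod_factorial_dvd_factorial_sum _ _)
  have h4 := (Nat.factorization_le_iff_dvd (prod_ne_zero_iff.2 fun t _ => HS_ne_zero _)
    (Nat.factorial_ne_zero w)).2 h3 p
  rwa [Nat.factorization_prod (fun t _ => HS_ne_zero _), Finsupp.finsetSum_apply] at h4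

lemma sameCt_of_card (hp : 0 < p) {β γ : Fin N →₀ ℕ}
    (h : ∀ t < p, (univ.filter fun i => β i % p = t).card = (univ.filter fun i => γ i % p = t).card) :
    SameCt p β γ := by
  have e : ∀ t, {i // β i % p = t} ≃ {i // γ i % p = t} := fun t => by
    refine Fintype.equivOfCardEq ?_
    rw [Fintype.card_subtype, Fintype.card_subtype]
    by_cases ht : t < p
    · exact h t ht
    · rw [filter_eq_empty_iff.2, filter_eq_empty_iff.2] <;> intro i _ e <;>
        exact ht (e ▸ Nat.mod_lt _ hp)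
  exact ⟨Equiv.ofFiberEquiv e, fun i => Equiv.ofFiberEquiv_map e i⟩

lemma exists_irr (hN : n ≤ N) {γ : Fin N →₀ ℕ} (hγ : Function.Injective γ)
    (hd : dg γ = dg (dl N) + n) : ∃ (ψ : IrrCharacter (Perm (Fin n))) (a : ℂ),
      (a = 1 ∨ a = -1) ∧ ∀ g, ψ.1 g = a * chi γ g := by
  have hc : (univ.image γ).card = N := by rw [card_image_of_injective _ hγ]; simp
  obtain ⟨π, hπ⟩ := exists_md_of_range (γ := emb _ hc) hγ (fun j => by
    have : γ j ∈ univ.image (emb _ hc) := by rw [image_emb]; exact mem_image_of_mem _ (mem_univ _)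
    simpa using this)
  rw [dg_eq hγ, sum_eq_wt, hc, dg_dl] at hd
  have h1 := hook_emb (n := n) _ hc (by omega)
  have h2 : (chi γ : Perm (Fin n) → ℂ) ≠ 0 := fun h0 => by
    have := congrFun h0 1
    rw [hπ, chi_md, Pi.zero_apply, mul_eq_zero] at this
    rw [this.resolve_left (sg_ne_zero π), zero_mul] at h1
    exact Nat.factorial_ne_zero n (by exact_mod_cast h1.symm)
  obtain ⟨ψ, hψ⟩ : ∃ ψ : IrrCharacter (Perm (Fin n)), classInner ψ.1 (chi γ) ≠ 0 := by
    by_contra hc
    push Not at hc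
    exact h2 (CChar.CharOrth.eq_zero_of_inner_irr_eq_zero (gen_classFun (gen_chi γ)) fun ψ hψ =>
      inner_eq_zero_comm.1 (hc ⟨ψ, hψ⟩))
  obtain ⟨β, a, hβ, ha, hT, hc⟩ := exists_beta hN ψ.2
  rw [← coeff_T, hT, coeff_smul, smul_eq_mul] at hψ
  obtain ⟨σ, hσ⟩ := coeff_Alt_ne (right_ne_zero_of_mul hψ)
  refine ⟨ψ, a * sg σ, ?_, fun g => ?_⟩
  · rcases ha with h | h <;> rcases sg_cases σ with h' | h' <;> simp [h, h']
  · rw [hc, hσ, chi_md, mul_assoc, ← mul_assoc (sg σ), sg_sq, one_mul]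

/-- characters with prescribed quotient -/
theorem exists_special (hN : n ≤ N) (hp : p.Prime) {κ : Fin N →₀ ℕ} (hκi : Function.Injective κ)
    (hκ : Gr p κ) {w : ℕ} (hd : dg (dl N) + n = dg κ + p * w) (T : ℕ → Finset ℕ)
    (hT : ∀ t < p, (T t).card = (univ.filter fun i => κ i % p = t).card)
    (hw : ∑ t ∈ range p, wt (T t) = w) :
    ∃ (ψ : IrrCharacter (Perm (Fin n))) (γ : Fin N →₀ ℕ) (a : ℂ), Lab p κ ψ.1 ∧
      Function.Injective γ ∧ (∀ g, ψ.1 g = a * chi γ g) ∧
      (∀ t < p, ∀ y, y ∈ T t ↔ ∃ i, γ i = p * y + t) ∧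
      (charDegree ψ.1).factorization p + (w + ∑ t ∈ range p, (HS (T t)).factorization p) =
        n.factorial.factorization p := by
  set S := (range p).biUnion fun t => (T t).image fun y => p * y + t with hS
  have e1 : ∀ t < p, rn p t S = T t := fun t ht => by
    ext y
    rw [mem_rn ht, hS, mem_biUnion]
    constructor
    · rintro ⟨t', ht', h⟩
      obtain ⟨y', hy', e⟩ := mem_image.1 h
      rw [mem_range] at ht'
      have a1 := congrArg (· % p) e
      simp only [Nat.mul_add_mod, Nat.mod_eq_of_lt ht, Nat.mod_eq_of_lt ht'] at a1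
      subst a1
      rwa [← Nat.eq_of_mul_eq_mul_left hp.pos (Nat.add_right_cancel e)]
    · exact fun h => ⟨t, mem_range.2 ht, mem_image_of_mem _ h⟩
  have hc : S.card = N := by
    rw [card_eq_sum_ones, sum_rn hp.pos]
    conv_rhs => rw [← Fintype.card_fin N, ← card_univ, card_eq_sum_card_fiberwise
      (f := fun i => κ i % p) (t := range p) (fun x _ => mem_range.2 (Nat.mod_lt _ hp.pos))]
    exact sum_congr rfl fun t ht => by
      rw [← card_eq_sum_ones, e1 t (mem_range.1 ht), hT t (mem_range.1 ht)]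
  have hγ := emb_inj S hc
  have e2 : ∀ t < p, (rn p t (univ.image (emb S hc))).card = (rn p t (univ.image κ)).card :=
    fun t ht => by rw [image_emb, e1 t ht, hT t ht, card_rn hκi]
  have e3 : ∑ t ∈ range p, wt (rn p t S) = w := by
    rw [← hw]; exact sum_congr rfl fun t ht => by rw [e1 t (mem_range.1 ht)]
  have h1 := dg_eq_wt hp.pos hγ hκi hκ e2
  rw [image_emb, e3, ← hd] at h1
  obtain ⟨ψ, a, ha, hψ⟩ := exists_irr hN hγ h1
  refine ⟨ψ, emb S hc, a, lab_of_sameCt hγ ha hψ (sameCt_of_card hp.pos fun t ht => ?_), hγ, hψ,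
    fun t ht y => ?_, ?_⟩
  · rw [← card_rn hκi, ← card_rn hγ, e2 t ht]
  · rw [← e1 t ht, mem_rn ht]
    conv_lhs => rw [← image_emb S hc]
    simp
  · have h2 := degree_mul ψ.2 hγ ha hψ
    have h3 : charDegree ψ.1 ≠ 0 := fun h => Nat.factorial_ne_zero n (by rw [← h2, h, zero_mul])
    rw [← h2, Nat.factorization_mul h3 (HS_ne_zero _), Finsupp.add_apply, image_emb, val_HS hp, e3]
    congr 2
    exact sum_congr rfl fun t ht => by rw [e1 t (mem_range.1 ht)]

def row (m d : ℕ) : Finset ℕ := insert (m + d) (range m)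

lemma row_lt (m d : ℕ) : ∀ y ∈ range m, y < m + d := fun y hy => by have := mem_range.1 hy; omega
lemma card_row (m d : ℕ) : (row m d).card = m + 1 := by
  rw [row, card_insert_of_notMem (by simp), card_range]
lemma wt_row (m d : ℕ) : wt (row m d) = d := by
  have := wt_insert (row_lt m d)
  rw [card_range, wt_range] at this
  rw [row]; omega
lemma HS_row (m d : ℕ) : HS (row m d) = d.factorial := by
  rw [row, HS_insert (row_lt m d), HS_range, mul_one, ← prod_Ico_sub m d]
  congr 1
  ext y; simp only [mem_sdiff, mem_range, mem_Ico]; omega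

def hookS (m d : ℕ) : Finset ℕ := insert (m + 2 + d) (row m 1)

lemma hookS_lt (m d : ℕ) : ∀ y ∈ row m 1, y < m + 2 + d := fun y hy => by
  simp only [row, mem_insert, mem_range] at hy; omega
lemma card_hookS (m d : ℕ) : (hookS m d).card = m + 2 := by
  rw [hookS, card_insert_of_notMem (fun h => lt_irrefl _ (hookS_lt m d _ h)), card_row]
lemma wt_hookS (m d : ℕ) : wt (hookS m d) = d + 2 := by
  have := wt_insert (hookS_lt m d)
  rw [card_row, wt_row] at this
  rw [hookS]; omega
lemma HS_hookS (m d : ℕ) : HS (hookS m d) = (d + 2) * d.factorial := by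
  rw [hookS, HS_insert (hookS_lt m d), HS_row, Nat.factorial_one, mul_one,
    ← prod_Ico_sub (m + 2) d, show range (m + 2 + d) \ row m 1 = insert m (Ico (m + 2) (m + 2 + d)) by
      ext y; simp only [row, mem_sdiff, mem_range, mem_Ico, mem_insert]; omega,
    prod_insert (by simp)]
  congr 1; omega

lemma fact_fact (hp : p.Prime) (a : ℕ) {r : ℕ} (hr : r < p) :
    (p * a + r).factorial.factorization p = a + a.factorial.factorization p := by
  haveI := Fact.mk hp
  rw [Nat.factorization_def _ hp, Nat.factorization_def _ hp, padicValNat_factorial_mul_add a hr,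
    padicValNat_factorial_mul, add_comm]

lemma fact_small (hp : p.Prime) {r : ℕ} (hr : r < p) : r.factorial.factorization p = 0 := by
  simpa using fact_fact hp 0 hr

lemma fact_succ (hp : p.Prime) {a : ℕ} (h : ¬ p ∣ a + 1) :
    (a + 1).factorial.factorization p = a.factorial.factorization p := by
  rw [Nat.factorial_succ, Nat.factorization_mul (by omega) (Nat.factorial_ne_zero _),
    Finsupp.add_apply, Nat.factorization_eq_zero_of_not_dvd h, zero_add]

def AA (p w : ℕ) : Prop := ∃ k l, k + l = w ∧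
  w.factorial.factorization p = k.factorial.factorization p + l.factorial.factorization p + 1

lemma AA1 (hp : p.Prime) {a r : ℕ} (h : ¬ p ∣ a + 1) (hr : r + 1 < p) : AA p (p * (a + 1) + r) := by
  refine ⟨r + 1, p * a + (p - 1), by rw [mul_add]; omega, ?_⟩
  rw [fact_fact hp _ (by omega), fact_small hp hr, fact_fact hp _ (by omega), fact_succ hp h]
  omega

lemma AA2 (hp : p.Prime) {a r : ℕ} (h : AA p a) (hr : r < p) : AA p (p * a + r) := by
  obtain ⟨k, l, rfl, h⟩ := h
  refine ⟨p * k + 0, p * l + r, by ring, ?_⟩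
  rw [fact_fact hp _ hr, fact_fact hp _ hr, fact_fact hp _ hp.pos, h]
  omega

lemma AA3 (hp : p.Prime) (a : ℕ) : AA p (p * (a + 1)) := by
  induction a using Nat.strong_induction_on with
  | _ a ih =>
    by_cases h : p ∣ a + 1
    · obtain ⟨b, hb⟩ := h
      obtain ⟨b, rfl⟩ : ∃ b', b = b' + 1 := ⟨b - 1, by rcases b with _ | b <;> simp_all⟩
      have := AA2 hp (ih b (by nlinarith [hp.two_le])) hp.pos
      rwa [add_zero, ← hb] at this
    · exact AA1 (r := 0) hp h (by have := hp.two_le; omega)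

lemma AA_or (hp : p.Prime) {w : ℕ} (hw : p ≤ w) :
    AA p w ∨ ∃ a, ¬ p ∣ a + 1 ∧ w = p * (a + 1) + (p - 1) := by
  obtain ⟨a, ha⟩ : ∃ a, w / p = a + 1 := ⟨w / p - 1, by have := Nat.div_pos hw hp.pos; omega⟩
  have e := Nat.div_add_mod w p
  have hr := Nat.mod_lt w hp.pos
  rw [ha] at e
  by_cases h : p ∣ a + 1
  · left
    obtain ⟨b, hb⟩ := h
    obtain ⟨b, rfl⟩ : ∃ b', b = b' + 1 := ⟨b - 1, by rcases b with _ | b <;> simp_all⟩
    rw [← e, hb]; exact AA2 hp (AA3 hp b) hr
  · by_cases h2 : w % p + 1 < p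
    · left; rw [← e]; exact AA1 hp h h2
    · right; exact ⟨a, h, by omega⟩

end CA.H10Fock8
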