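import Cfsg.Agent.Lib.Char.H10Fock8
import Cfsg.Agent.Lib.Char.CharMisc

/-! Linking blocks through a centralizer; characters of degree `p` of Sylow subgroups of
symmetric groups. -/

set_option autoImplicit false
set_option linter.unusedSectionVars false

namespace CA.H10Fock9
open Equiv Cfsg CChar.CharFun CChar.CharOrth CChar.CharInt CChar.CharGen CA.Clif CA.BlkCore
  CA.BlkDefect CA.BlkInd CA.H13Span CA.BlkReg CA.H12Cover CA.H11Sec Subgroup
open CA.BlkBas (tr tr_apply tr_classFun)

section general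
variable {p : ℕ} {G : Type*} [Group G] [Fintype G] [Fact p.Prime] {M : Ideal AlgInt}

lemma exists_cov_ind (hM : IsPModular p M) {u : G} (hu : ∃ k, orderOf u = p ^ k) {H : Subgroup G}
    [Fintype H] (hH : H = centralizer {u}) {K : Subgroup H} [Fintype K] (ψ : IrrCharacter G)
    (θ : IrrCharacter K)
    (h : classInner (fun s : K => pRegularPart p (tr H u ψ.1) s) θ.1 ≠ 0) :
    ∃ b, IsInducedBlock M H b (blockOf M ψ.1) ∧ IsPBlock M b ∧ Cov K b (blockOf M θ.1) := by
  classical
  rw [← sum_sp (p := p) (H := H) (u := u) hM hH.le (irr_classFun ψ.2)] at h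
  have e : (fun s : K => (∑ b ∈ blocks M H, sp p b u ψ.1) s) =
      ∑ b ∈ blocks M H, fun s : K => sp p b u ψ.1 s := by
    ext s; simp [Finset.sum_apply]
  rw [e, inner_sum_left] at h
  obtain ⟨b, hb, hne⟩ := Finset.exists_ne_zero_of_sum_ne_zero h
  rw [mem_blocks] at hb
  refine ⟨b, ?_, hb, ?_⟩
  · by_contra hnot
    apply hne
    rw [sp_eq_zero_of_not_ind hM hu hH (isPBlock_blockOf ψ) hb hnot
      (inSpan_irr (self_mem_blockOf hM ψ))]
    exact CChar.CharFun.inner_zero_left _
  · rw [CA.BlkHeight.inner_res_eq_sum (fun s : K => (s : H)) (sp_classFun _)] at hne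
    obtain ⟨ξ, -, hξ⟩ := Finset.exists_ne_zero_of_sum_ne_zero hne
    refine cov_iff.2 ⟨ξ, ?_, θ, self_mem_blockOf hM θ, right_ne_zero_of_mul hξ⟩
    by_contra hn
    exact left_ne_zero_of_mul hξ ((inSpan_sp hM (isSat_of_isPBlock hM hb) ψ.1).2 ξ hn)

lemma link (hM : IsPModular p M) {u : G} (hu : ∃ k, orderOf u = p ^ k) {H : Subgroup G}
    (hH : H = centralizer {u}) {K : Subgroup H}
    (hK : ∀ b, IsPBlock M b → ∀ g ∉ K, (eB M b).coeff g = 0) (ψ : IrrCharacter G)
    (h0 : ψ.1 u ≠ 0) :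
    (∀ (ψ' : IrrCharacter G) (c : ℂ), c ≠ 0 → (∀ s ∈ K, ψ'.1 (u * s) = c * ψ.1 (u * s)) →
      ψ' ∈ blockOf M ψ.1) ∧ ∀ Q : Subgroup H, IsPGroup p Q → (∀ s ∈ K, s ∈ centralizer (Q : Set H)) →
        ∀ D, IsDefectGroup p M (blockOf M ψ.1) D → ∃ x : G, ∀ a ∈ Q, x * a * x⁻¹ ∈ D := by
  classical
  have h1 : (fun s : K => pRegularPart p (tr H u ψ.1) s) ≠ 0 := fun h => by
    have := congrFun h 1
    simp only [pRegularPart] at this
    rw [if_pos (by simp [IsPRegular, (Fact.out : p.Prime).ne_one])] at this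
    exact h0 (by simpa using this)
  obtain ⟨θ, hθ, h2⟩ := exists_irr_inner_ne_zero (classFun_restrict
    (classFun_pRegularPart (p := p) (tr_classFun hH.le (irr_classFun ψ.2))) K) h1
  obtain ⟨b, i1, b1, c1⟩ := exists_cov_ind hM hu hH ψ ⟨θ, hθ⟩ h2
  refine ⟨fun ψ' c hc h => ?_, fun Q hQ hKQ D hD => ?_⟩
  · have e : (fun s : K => pRegularPart p (tr H u ψ'.1) s) =
        c • fun s : K => pRegularPart p (tr H u ψ.1) s := by
      ext s
      by_cases hs : p ∣ orderOf (s : H) <;> simp [pRegularPart, IsPRegular, hs, h s s.2, -orderOf_coe]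
    obtain ⟨b', i2, b2, c2⟩ := exists_cov_ind hM hu hH ψ' ⟨θ, hθ⟩ (by
      rw [e, CChar.CharFun.inner_smul_left]; exact mul_ne_zero hc h2)
    rw [← eq_of_cov_of_supp hM b1 b2 (isPBlock_blockOf _) c1 c2 (hK b b1)] at i2
    rw [induced_unique hM i1 i2]
    exact self_mem_blockOf hM ψ'
  · have h3 : CA.BlkAlg.trunc (centralizer (Q : Set H)) (eB M b) ≠ 0 := by
      rw [trunc_ne_zero_iff]
      by_contra hc
      push Not at hc
      refine eB_ne_zero hM b1 (CA.BlkAlg.ext_coeff fun g => ?_)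
      by_cases hg : g ∈ K
      · exact hc g (hKQ g hg)
      · exact hK b b1 g hg
    obtain ⟨x, hx⟩ := (br_eB_ne_zero_iff hM (isPBlock_blockOf ψ) hD (hQ.map _)).1
      (br_ne_zero_of_induced hM i1 hQ h3)
    exact ⟨x, fun a ha => hx ⟨a, ⟨a, ha, rfl⟩, rfl⟩⟩

lemma deg_cases {A : Subgroup G} [A.Normal] [Fintype A] (hA : A.index = 2) {χ : G → ℂ}
    (hχ : IsIrrCharacter G χ) {θ : A → ℂ} (hθ : IsIrrCharacter A θ)
    (h : classInner (fun n : A => χ n) θ ≠ 0) : charDegree χ = charDegree θ ∨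
      (charDegree χ = 2 * charDegree θ ∧ ∀ g ∉ A, χ g = 0) := by
  obtain ⟨e, he⟩ := inner_char_char (char_restrict (char_of_irr hχ) A) (char_of_irr hθ)
  have h1 := apply_one_eq hχ hθ h
  rw [he, irr_apply_one_eq hχ, irr_apply_one_eq hθ] at h1
  have h2 : charDegree χ = e * (inertia θ).index * charDegree θ := by exact_mod_cast h1
  have h3 := CChar.CharMisc.degree_le_index_mul hχ A (char_of_irr hθ) h (irr_apply_one_eq hχ)
    (irr_apply_one_eq hθ)
  have h4 := charDegree_pos hχ
  have h5 := charDegree_pos hθ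
  rw [hA, h2] at h3
  generalize e * (inertia θ).index = m at h2 h3
  have h6 : m ≤ 2 := Nat.le_of_mul_le_mul_right h3 h5
  have h7 : m ≠ 0 := by rintro rfl; omega
  have : m = 1 ∨ m = 2 := by omega
  rcases this with rfl | rfl
  · exact Or.inl (by omega)
  refine Or.inr ⟨h2, fun g hg => ?_⟩
  rw [← eq_of_inner_ne_zero_of_apply_one (CA.MatRep.isCharacter_indFun A (char_of_irr hθ)) hχ ?_ ?_]
  · exact CA.Ind.indFun_normal_of_not_mem A θ hg
  · rwa [Ne, inner_eq_zero_comm, CA.Ind.inner_ind_right A θ (irr_classFun hχ)]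
  · rw [CA.Ind.indFun_one, hA, irr_apply_one_eq hχ, irr_apply_one_eq hθ, h2]; simp

/-- has an irreducible character of degree `p` -/
def HasP (p : ℕ) (D : Type*) [Group D] : Prop := ∃ φ : IrrCharacter D, charDegree φ.1 = p

lemma HasP.of_surj {D D' : Type*} [Group D] [Group D'] (h : HasP p D') (f : D →* D')
    (hf : Function.Surjective f) : HasP p D := by
  obtain ⟨φ, h⟩ := h
  exact ⟨⟨_, irr_comp_of_surjective φ.2 f hf⟩, by simpa [charDegree] using h⟩

lemma hasP_of_index {D : Type*} [Group D] [Finite D] (hD : IsPGroup p D) {H : Subgroup D}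
    (hH : H.index = p) {h x : D} (hh : h ∈ H)
    (hx : ∀ y ∈ commutator H, (y : D) ≠ x * h * x⁻¹ * h⁻¹) : HasP p D := by
  have hp : p.Prime := Fact.out
  haveI := Fintype.ofFinite D
  obtain ⟨k, hk⟩ := IsPGroup.iff_card.1 hD
  have hk0 : k ≠ 0 := by
    rintro rfl
    have := H.index_dvd_card
    rw [hH, hk, pow_zero, Nat.dvd_one] at this
    exact hp.ne_one this
  haveI hn : H.Normal := normal_of_index_eq_minFac_card (by rw [hH, hk, hp.pow_minFac hk0])
  set a : H := ⟨x * h * x⁻¹, hn.conj_mem h hh x⟩ with ha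
  have h1 : Abelianization.of (a * (⟨h, hh⟩ : H)⁻¹) ≠ 1 := fun e =>
    hx _ ((QuotientGroup.eq_one_iff _).1 e) rfl
  haveI : NeZero (Monoid.exponent (Abelianization H) : ℂ) :=
    ⟨Nat.cast_ne_zero.2 Monoid.exponent_ne_zero_of_finite⟩
  obtain ⟨l, hl⟩ := CommGroup.exists_apply_ne_one_of_hasEnoughRootsOfUnity (Abelianization H) ℂ h1
  have hirr := irr_of_unitsHom (l.comp Abelianization.of)
  have hne : inertia (fun g : H => ((l.comp Abelianization.of g : ℂˣ) : ℂ)) ≠ ⊤ := fun e => by
    have := congrFun (inertia_eq_top_iff.1 e x) ⟨h, hh⟩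
    rw [cj_apply, Units.val_inj] at this
    apply hl
    rw [map_mul, map_inv, map_mul, map_inv, mul_inv_eq_one]
    exact this
  have hle := le_inertia (irr_classFun hirr)
  have h2 : inertia (fun g : H => ((l.comp Abelianization.of g : ℂˣ) : ℂ)) ≤ H := by
    have h3 := relIndex_mul_index hle
    rw [hH] at h3
    rcases (Nat.dvd_prime hp).1 (Dvd.intro _ h3) with h4 | h4
    · exact relIndex_eq_one.1 h4
    · rw [h4] at h3
      exact absurd (index_eq_one.1 (Nat.eq_of_mul_eq_mul_left hp.pos (by rw [h3, mul_one]))) hne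
  refine ⟨⟨_, (irr_indFun_iff hirr).2 h2⟩, charDegree_eq ?_⟩
  simp [CA.Ind.indFun_one, hH]

end general

section perm
open Equiv.Perm.OnCycleFactors CA.H10Fock8
variable {p : ℕ} [Fact p.Prime] {α : Type} [DecidableEq α] [Fintype α]

lemma exists_E' {u : Perm α} {w : ℕ} (hu : u.cycleType = Multiset.replicate w p) :
    ∃ E : Subgroup (Perm α), E ≤ Subgroup.centralizer {u} ∧
      (∀ c ∈ Subgroup.centralizer {u}, ∀ a ∈ E, c * a * c⁻¹ ∈ E) ∧
      (∀ a ∈ E, ∀ b ∈ E, a * b = b * a) ∧ (∀ a ∈ E, a ^ p = 1) ∧ p ^ w ≤ Nat.card E ∧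
      ∀ c ∈ u.cycleFactorsFinset, c ∈ E := by
  have hord : ∀ c ∈ u.cycleFactorsFinset, orderOf c = p := fun c hc => by
    rw [(Perm.mem_cycleFactorsFinset_iff.1 hc).1.orderOf]
    refine Multiset.eq_of_mem_replicate (n := w) ?_
    rw [← hu, Perm.cycleType_def]
    exact Multiset.mem_map_of_mem _ hc
  have hcard : u.cycleFactorsFinset.card = w := by
    have := congrArg Multiset.card hu
    rwa [Perm.cycleType_def, Multiset.card_map, Multiset.card_replicate] at this
  have hc : ∀ a ∈ Subgroup.closure (u.cycleFactorsFinset : Set (Perm α)),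
      ∀ b ∈ Subgroup.closure (u.cycleFactorsFinset : Set (Perm α)), Commute a b := by
    intro a ha b hb
    induction ha, hb using Subgroup.closure_induction₂ with
    | mem x y hx hy => exact Perm.cycleFactorsFinset_mem_commute' u hx hy
    | one_left => exact Commute.one_left _
    | one_right => exact Commute.one_right _
    | mul_left x y z _ _ _ h1 h2 => exact h1.mul_left h2
    | mul_right x y z _ _ _ h1 h2 => exact h1.mul_right h2
    | inv_left x y _ _ h => exact h.inv_left
    | inv_right x y _ _ h => exact h.inv_right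
  refine ⟨Subgroup.closure (u.cycleFactorsFinset : Set (Perm α)), ?_, ?_, hc, ?_, ?_,
    fun c hc => Subgroup.subset_closure hc⟩
  · rw [Subgroup.closure_le]
    intro c hc
    exact Subgroup.mem_centralizer_singleton_iff.2 (Perm.self_mem_cycle_factors_commute hc)
  · intro c hc a ha
    induction ha using Subgroup.closure_induction with
    | mem x hx =>
      refine Subgroup.subset_closure ?_
      have := (Perm.mem_cycleFactorsFinset_conj u c x).2 hx
      rwa [Subgroup.mem_centralizer_singleton_iff.1 hc, mul_inv_cancel_right] at this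
    | one => simp
    | mul x y _ _ hx hy => rw [← conj_mul]; exact mul_mem hx hy
    | inv x _ hx => rw [← conj_inv]; exact inv_mem hx
  · intro a ha
    induction ha using Subgroup.closure_induction with
    | mem x hx => rw [← hord x hx, pow_orderOf_eq_one]
    | one => simp
    | mul x y hx hy h1 h2 => rw [(hc x hx y hy).mul_pow, h1, h2, mul_one]
    | inv x _ hx => rw [inv_pow, hx, inv_one]
  · have hmem : ∀ v : (c : u.cycleFactorsFinset) → Subgroup.zpowers c.val,
        Perm.OnCycleFactors.kerParam u (1, v) ∈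
          Subgroup.closure (u.cycleFactorsFinset : Set (Perm α)) := fun v => by
      rw [Perm.OnCycleFactors.kerParam, MonoidHom.noncommCoprod_apply, map_one, one_mul]
      have : Subgroup.noncommPiCoprod u.pairwise_commute_of_mem_zpowers v ∈
          (Subgroup.noncommPiCoprod u.pairwise_commute_of_mem_zpowers).range := ⟨v, rfl⟩
      rw [Subgroup.noncommPiCoprod_range] at this
      have hle : (⨆ c : u.cycleFactorsFinset, Subgroup.zpowers c.val) ≤
          Subgroup.closure (u.cycleFactorsFinset : Set (Perm α)) :=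
        iSup_le fun c => (Subgroup.zpowers_le).2 (Subgroup.subset_closure c.2)
      exact hle this
    have hle := Nat.card_le_card_of_injective
      (fun v : (c : u.cycleFactorsFinset) → Subgroup.zpowers c.val =>
        (⟨_, hmem v⟩ : Subgroup.closure (u.cycleFactorsFinset : Set (Perm α))))
      (fun v v' h => by
        have := Perm.OnCycleFactors.kerParam_injective u (congrArg Subtype.val h)
        exact (Prod.ext_iff.1 this).2)
    rw [Nat.card_pi] at hle
    simp only [Nat.card_zpowers] at hle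
    rwa [Finset.prod_congr rfl (fun c _ => hord c.1 c.2), Finset.prod_const, Finset.card_univ,
      Fintype.card_coe, hcard] at hle

variable {u : Perm α} {w : ℕ}

lemma card_cyc (hu : u.cycleType = Multiset.replicate w p) :
    Fintype.card u.cycleFactorsFinset = w := by
  have := congrArg Multiset.card hu
  rw [Perm.cycleType_def, Multiset.card_map, Multiset.card_replicate] at this
  rw [Fintype.card_coe]; exact this

lemma supp_cyc (hu : u.cycleType = Multiset.replicate w p) {c : Perm α}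
    (hc : c ∈ u.cycleFactorsFinset) : c.support.card = p := by
  refine Multiset.eq_of_mem_replicate (n := w) ?_
  rw [← hu, Perm.cycleType_def]
  exact Multiset.mem_map_of_mem _ hc

lemma f_surj (hu : u.cycleType = Multiset.replicate w p) : Function.Surjective (toPermHom u) :=
  fun τ => mem_range_toPermHom_iff.2 fun c => by rw [supp_cyc hu (τ c).2, supp_cyc hu c.2]

lemma val_card_C (hu : u.cycleType = Multiset.replicate w p) :
    (Nat.card (centralizer ({u} : Set (Perm α)))).factorization p =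
      (Fintype.card α - p * w).factorial.factorization p + (w + w.factorial.factorization p) := by
  have hp : p.Prime := Fact.out
  have e : ∏ n ∈ (Multiset.replicate w p).toFinset,
      ((Multiset.replicate w p).count n).factorial = w.factorial := by
    rw [Multiset.toFinset_replicate]
    split_ifs with h
    · simp [h]
    · simp
  rw [Perm.nat_card_centralizer, hu, e, Multiset.sum_replicate, Multiset.prod_replicate,
    Nat.factorization_mul (mul_ne_zero (Nat.factorial_ne_zero _) (pow_ne_zero _ hp.ne_zero))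
      (Nat.factorial_ne_zero _), Nat.factorization_mul (Nat.factorial_ne_zero _)
      (pow_ne_zero _ hp.ne_zero), smul_eq_mul, mul_comm w p]
  simp [hp.factorization_pow, add_assoc]

lemma cyc_mem (hu : u.cycleType = Multiset.replicate w p)
    (T : Sylow p (centralizer ({u} : Set (Perm α)))) {c : Perm α} (hc : c ∈ u.cycleFactorsFinset) :
    ∃ h ∈ (T : Subgroup (centralizer ({u} : Set (Perm α)))), (h : Perm α) = c := by
  obtain ⟨E, e1, e2, -, e4, -, e6⟩ := exists_E' hu
  haveI : (E.subgroupOf (centralizer {u})).Normal := ⟨fun a ha c => e2 c c.2 a ha⟩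
  have hE : IsPGroup p E := fun a => ⟨1, Subtype.ext (by simpa using e4 a a.2)⟩
  have := (hE.of_equiv (subgroupOfEquivOfLe e1).symm).le_sylow_of_normal T
  exact ⟨⟨c, e1 (e6 c hc)⟩, this (e6 c hc), rfl⟩

lemma apply_eq_zpow {c a : Perm α} (hc : c.IsCycle) (h : Commute a c) {y : α}
    (hy : y ∈ c.support) : ∃ i : ℤ, (c ^ i) y = a y := by
  refine hc.exists_zpow_eq (Perm.mem_support.1 hy) fun e => Perm.mem_support.1 hy ?_
  rw [← Perm.mul_apply, ← h.eq, Perm.mul_apply] at e
  exact a.injective e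

lemma hasP_small (hu : u.cycleType = Multiset.replicate w p)
    {D : Subgroup (centralizer ({u} : Set (Perm α)))} (hD : IsPGroup p D)
    (h1 : ∀ c ∈ u.cycleFactorsFinset, ∀ c1 ∈ u.cycleFactorsFinset, c ≠ c1 → ∃ h ∈ D,
      (∀ y ∈ c1.support, h.1 y = y) ∧ ∃ y ∈ c.support, h.1 y ≠ y)
    {x : centralizer ({u} : Set (Perm α))} (hx : x ∈ D) (hx1 : toPermHom u x ≠ 1) (hw : w < p ^ 2) :
    HasP p D := by
  have hp : p.Prime := Fact.out
  obtain ⟨c, hc⟩ : ∃ c, toPermHom u x c ≠ c := by
    by_contra h; push Not at h; exact hx1 (Equiv.ext h)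
  set c1 := toPermHom u x c with hc1
  have e1 : (c1 : Perm α) = x * c * (x : Perm α)⁻¹ := rfl
  obtain ⟨h, hh, a1, y, hy, a2⟩ := h1 c c.2 c1 c1.2 fun e => hc (Subtype.ext e.symm)
  have hm : ∀ a : D, a ∈ MulAction.stabilizer D c1 ↔ Commute a.1.1 c1.1 := fun a => by
    rw [MulAction.mem_stabilizer_iff, Subtype.ext_iff, commute_iff_eq, ← mul_inv_eq_iff_eq_mul]
    rfl
  have hcyc := (Perm.mem_cycleFactorsFinset_iff.1 c1.2).1
  refine hasP_of_index hD (H := MulAction.stabilizer D c1) (h := ⟨h, hh⟩) (x := ⟨x, hx⟩) ?_ ?_ ?_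
  · obtain ⟨k, hk⟩ := hD.index (MulAction.stabilizer D c1)
    have h2 : p ^ k < p ^ 2 := by
      rw [← hk, MulAction.index_stabilizer]
      refine lt_of_le_of_lt ?_ hw
      rw [← card_cyc hu, ← Nat.card_eq_fintype_card, ← Set.ncard_univ]
      exact Set.ncard_le_ncard (Set.subset_univ _)
    have h3 := (Nat.pow_lt_pow_iff_right hp.one_lt).1 h2
    have h4 : k ≠ 0 := by
      rintro rfl
      rw [pow_zero, index_eq_one] at hk
      have h5 : (⟨x, hx⟩ : D) ∈ MulAction.stabilizer D c1 := by rw [hk]; trivial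
      exact hc ((toPermHom u x).injective h5)
    rw [hk, show k = 1 by omega, pow_one]
  · rw [hm]
    refine Perm.Disjoint.commute fun z => ?_
    by_cases hz : z ∈ c1.1.support
    · exact Or.inl (a1 z hz)
    · exact Or.inr (Perm.notMem_support.1 hz)
  · have hy1 : x.1 y ∈ c1.1.support := by
      rw [e1, Perm.support_conj]; exact Finset.mem_map_of_mem _ hy
    let F : Subgroup (MulAction.stabilizer D c1) :=
      { carrier := {g | ∀ z ∈ c1.1.support, g.1.1.1 z = z}
        one_mem' := fun _ _ => rfl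
        mul_mem' := fun {a b} ha hb z hz => by
          change a.1.1.1 (b.1.1.1 z) = z
          rw [hb z hz, ha z hz]
        inv_mem' := fun {a} ha z hz => by
          change a.1.1.1⁻¹ z = z
          rw [Perm.inv_eq_iff_eq, ha z hz] }
    have hF : commutator (MulAction.stabilizer D c1) ≤ F := by
      rw [commutator_def, commutator_le]
      intro a _ b _ z hz
      have ca := (hm a.1).1 a.2
      have cb := (hm b.1).1 b.2
      obtain ⟨i, hi⟩ := apply_eq_zpow hcyc ca.inv_left hz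
      obtain ⟨j, hj⟩ := apply_eq_zpow hcyc cb.inv_left hz
      change a.1.1.1 (b.1.1.1 (a.1.1.1⁻¹ (b.1.1.1⁻¹ z))) = z
      rw [← hj, ← Perm.mul_apply _ (c1.1 ^ j), (ca.inv_left.zpow_right j).eq, Perm.mul_apply,
        ← hi, ← Perm.mul_apply (c1.1 ^ j), ← zpow_add, add_comm, zpow_add, Perm.mul_apply, hj,
        ← Perm.mul_apply (c1.1 ^ i), ← (cb.inv_left.zpow_right i).eq, Perm.mul_apply, hi]
      simp
    intro g hg e
    have h5 := hF hg _ hy1
    have h6 : g.1.1.1 = x.1 * h.1 * x.1⁻¹ * h.1⁻¹ := congrArg (fun t : D => t.1.1) e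
    have h7 : h.1⁻¹ (x.1 y) = x.1 y := by rw [Perm.inv_eq_iff_eq, a1 _ hy1]
    rw [h6, Perm.mul_apply, h7] at h5
    simp at h5
    exact a2 h5

lemma hasP_aux (hu : u.cycleType = Multiset.replicate w p)
    {D : Subgroup (centralizer ({u} : Set (Perm α)))} (hD : IsPGroup p D)
    (h1 : ∀ c ∈ u.cycleFactorsFinset, ∀ c1 ∈ u.cycleFactorsFinset, c ≠ c1 → ∃ h ∈ D,
      (∀ y ∈ c1.support, h.1 y = y) ∧ ∃ y ∈ c.support, h.1 y ≠ y)
    (S : Sylow p (Perm u.cycleFactorsFinset)) (hS : D.map (toPermHom u) = S) (hw : p ≤ w)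
    (ih : p ^ 2 ≤ w → HasP p S) : HasP p D := by
  have hp : p.Prime := Fact.out
  rcases lt_or_ge w (p ^ 2) with h | h
  · have h2 : (S : Subgroup (Perm u.cycleFactorsFinset)) ≠ ⊥ := S.ne_bot_of_dvd_card (by
      rw [Nat.card_eq_fintype_card, Fintype.card_perm, card_cyc hu]
      exact hp.dvd_factorial.2 hw)
    rw [← hS] at h2
    obtain ⟨⟨_, x, hx, rfl⟩, h3⟩ := ne_bot_iff_exists_ne_one.1 h2
    exact hasP_small hu hD h1 hx (fun e => h3 (Subtype.ext e)) h
  · have := ih h
    rw [← hS] at this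
    exact this.of_surj _ (MonoidHom.subgroupMap_surjective _ _)

lemma cyc_sep (hc : ∀ c ∈ u.cycleFactorsFinset, c ≠ 1) {c c1 : Perm α} (h : c ∈ u.cycleFactorsFinset)
    (h1 : c1 ∈ u.cycleFactorsFinset) (hne : c ≠ c1) :
    (∀ y ∈ c1.support, c y = y) ∧ ∃ y ∈ c.support, c y ≠ y := by
  refine ⟨fun y hy => ((Perm.cycleFactorsFinset_pairwise_disjoint u h h1 hne) y).resolve_right
    (Perm.mem_support.1 hy), ?_⟩
  obtain ⟨y, hy⟩ := (Perm.mem_cycleFactorsFinset_iff.1 h).1.nonempty_support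
  exact ⟨y, hy, Perm.mem_support.1 hy⟩

theorem hasP_sylow (m : ℕ) : ∀ (α : Type) [DecidableEq α] [Fintype α], Fintype.card α = m →
    p ^ 2 ≤ m → ∀ S : Sylow p (Perm α), HasP p S := by
  have hp : p.Prime := Fact.out
  induction m using Nat.strong_induction_on with
  | _ m ih =>
  intro α _ _ hm h2 S
  have hw : p ≤ m / p := (Nat.le_div_iff_mul_le hp.pos).2 (by rw [← sq]; exact h2)
  obtain ⟨u, hu⟩ := (Perm.exists_with_cycleType_iff α (m := Multiset.replicate (m / p) p)).2 ⟨by
      rw [Multiset.sum_replicate, hm, smul_eq_mul]; exact Nat.div_mul_le_self m p,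
      fun a ha => by rw [Multiset.eq_of_mem_replicate ha]; exact hp.two_le⟩
  obtain ⟨T⟩ : Nonempty (Sylow p (centralizer ({u} : Set (Perm α)))) := inferInstance
  have h3 : HasP p T := hasP_aux hu T.2 (fun c hc c1 hc1 hne => by
      obtain ⟨h, hh, rfl⟩ := cyc_mem hu T hc
      exact ⟨h, hh, cyc_sep (fun c hc => (Perm.mem_cycleFactorsFinset_iff.1 hc).1.ne_one) hc hc1 hne⟩)
    (T.mapSurjective (f_surj hu)) rfl hw
    (fun h => ih _ (Nat.div_lt_self (by nlinarith [hp.pos]) hp.one_lt) _ (card_cyc hu) h _)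
  have h4 : Nat.card ((T : Subgroup (centralizer ({u} : Set (Perm α)))).map (Subgroup.subtype _)) =
      p ^ (Nat.card (Perm α)).factorization p := by
    rw [card_subtype, T.card_eq_multiplicity, val_card_C hu, Nat.card_eq_fintype_card,
      Fintype.card_perm, hm, ← Nat.mod_def, fact_small hp (Nat.mod_lt _ hp.pos), zero_add,
      ← fact_fact hp _ (Nat.mod_lt m hp.pos), Nat.div_add_mod]
  exact h3.of_surj (((S.equiv (Sylow.ofCard _ h4)).trans
    (equivMapOfInjective _ _ (subtype_injective _)).symm).toMonoidHom) (MulEquiv.surjective _)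

lemma fix_of_comm {c g : Perm α} (hc : c.IsCycle) (hcp : c ^ p = 1) (h : Commute g c)
    (hg : ¬ p ∣ orderOf g) {y : α} (hy : y ∈ c.support) : g y = y := by
  obtain ⟨i, hi⟩ := apply_eq_zpow hc h hy
  have h1 : ((c ^ i)⁻¹ * g) y = y := by rw [Perm.mul_apply, ← hi]; simp
  have h2 := Perm.pow_apply_eq_self_of_apply_eq_self h1 p
  rw [(h.zpow_right i).inv_right.symm.mul_pow, inv_pow, ← zpow_natCast (c ^ i), ← zpow_mul,
    mul_comm i, zpow_mul, zpow_natCast, hcp, one_zpow, inv_one, one_mul] at h2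
  obtain ⟨m, hm⟩ := exists_pow_eq_self_of_coprime
    (((Fact.out : p.Prime).coprime_iff_not_dvd).2 hg)
  rw [← hm]
  exact Perm.pow_apply_eq_self_of_apply_eq_self h2 m

lemma supp_block {M : Ideal AlgInt} (hM : IsPModular p M)
    (hu : u.cycleType = Multiset.replicate w p)
    {b : Set (IrrCharacter (centralizer ({u} : Set (Perm α))))} (hb : IsPBlock M b)
    {g : centralizer ({u} : Set (Perm α))} (hg : (eB M b).coeff g ≠ 0) {y : α}
    (hy : y ∈ u.support) : g.1 y = y := by
  obtain ⟨E, e1, e2, -, e4, -, e6⟩ := exists_E' hu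
  haveI : (E.subgroupOf (centralizer {u})).Normal := ⟨fun a ha c => e2 c c.2 a ha⟩
  have hE : IsPGroup p E := fun a => ⟨1, Subtype.ext (by simpa using e4 a a.2)⟩
  have hs := isSat_of_isPBlock hM hb
  have h1 : ¬ p ∣ orderOf g := fun h => hg (coeff_eB_eq_zero_of_dvd hM hs h)
  have h2 : g ∈ centralizer ((E.subgroupOf (centralizer {u}) : Subgroup _) :
      Set (centralizer ({u} : Set (Perm α)))) := by
    by_contra h
    exact hg (coeff_eB_eq_zero_of_normal hM hs (hE.of_equiv (subgroupOfEquivOfLe e1).symm) h)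
  have hc : u.cycleOf y ∈ u.cycleFactorsFinset :=
    Perm.cycleOf_mem_cycleFactorsFinset_iff.2 hy
  refine fix_of_comm (Perm.mem_cycleFactorsFinset_iff.1 hc).1 (e4 _ (e6 _ hc)) ?_
    (by rwa [orderOf_coe]) (Perm.mem_support_cycleOf_iff.2 ⟨Perm.SameCycle.refl _ _, hy⟩)
  exact (congrArg Subtype.val (h2 ⟨_, e1 (e6 _ hc)⟩ (e6 _ hc))).symm

end perm

section sym
open MvPolynomial CA.H10Fock1 CA.H10Fock2 CA.H10Fock3 CA.H10Fock5 CA.H10Fock8 CA.BlkHeight
variable {N n p : ℕ} [Fact p.Prime] {M : Ideal AlgInt}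

lemma coeff_us {κ γ : Fin N →₀ ℕ} (hκi : Function.Injective κ) (hκ : Gr p κ)
    (hγ : Function.Injective γ) (hr : ∀ i, γ i % p = κ i % p) {w : ℕ} (hd : dg γ = dg κ + p * w) :
    ∃ c : ℂ, c ≠ 0 ∧ ∀ G : Poly N, Antisym G → coeff γ (ps p ^ w * G) = c * coeff κ G := by
  have hp : p.Prime := Fact.out
  obtain ⟨κ', w', a, b, c, d⟩ := exists_gr hp.pos hγ
  obtain ⟨π, -, hπ⟩ := gr_perm b hκ a hκi (fun i => by rw [← c.1, hr])
  obtain ⟨m, hm, h⟩ := pos hp.pos b w γ hγ c (by rw [hd, hπ, dg_md])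
  refine ⟨m * sg π, mul_ne_zero (Nat.cast_ne_zero.2 hm.ne') (sg_ne_zero π), fun G hG => ?_⟩
  rw [h G hG, hπ, hG.coeff_md, mul_assoc]

lemma lab_us {κ : Fin N →₀ ℕ} (hκi : Function.Injective κ) (hκ : Gr p κ) {w : ℕ}
    (hd : dg (dl N) + n = dg κ + p * w) {u : Perm (Fin n)}
    (hu : u.cycleType = Multiset.replicate w p) {ψ : IrrCharacter (Perm (Fin n))}
    (h : Lab p κ ψ.1) : ∃ c : ℂ, c ≠ 0 ∧ ∀ s, Perm.Disjoint u s → ψ.1 (u * s) = c * coeff κ
      (pm (s.cycleType + Multiset.replicate (n - (u * s).support.card) 1) * vd N) := by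
  obtain ⟨γ, a, hγ, hr, ha, hc⟩ := h
  have hd' : dg γ = dg (dl N) + n :=
    dg_of_chi (g := 1) (fun h => irr_apply_one_ne_zero ψ.2 (by rw [hc, h, mul_zero]))
  obtain ⟨c, h0, h⟩ := coeff_us hκi hκ hγ hr (hd'.trans hd)
  refine ⟨a * c, mul_ne_zero (by rcases ha with h | h <;> simp [h]) h0, fun s hs => ?_⟩
  rw [hc, mul_assoc, ← h _ (antisym_vd.pm_mul _), chi, pp, Perm.parts_partition, hs.cycleType_mul,
    hu, Fintype.card_fin, add_assoc, pm_add, mul_assoc]
  simp [pm]

theorem sn_struct (hM : IsPModular p M) {B : Set (IrrCharacter (Perm (Fin n)))}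
    (hB : IsPBlock M B) {P : Subgroup (Perm (Fin n))} (hP : IsDefectGroup p M B P)
    {κ : Fin N →₀ ℕ} (hκi : Function.Injective κ) (hκ : Gr p κ) {w : ℕ}
    (hd : dg (dl N) + n = dg κ + p * w) (hl : ∀ ψ ∈ B, Lab p κ ψ.1) :
    (∀ ψ : IrrCharacter (Perm (Fin n)), Lab p κ ψ.1 → ψ ∈ B) ∧
      blockDefect p B = w + w.factorial.factorization p ∧
      ∃ (α : Type) (_ : DecidableEq α) (_ : Fintype α) (u : Perm α)
        (T : Sylow p (centralizer ({u} : Set (Perm α))))
        (j : centralizer ({u} : Set (Perm α)) →* Perm (Fin n)),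
        u.cycleType = Multiset.replicate w p ∧ Function.Injective j ∧
          (∀ g, Perm.sign (j g) = Perm.sign g.1) ∧ T.1.map j = P := by
  have hp : p.Prime := Fact.out
  obtain ⟨χ, hχ, h0⟩ := exists_height_zero (p := p) (block_nonempty hM hB)
  obtain ⟨γ, a, hγ, hr, ha, hc⟩ := hl χ hχ
  have hd' : dg γ = dg (dl N) + n :=
    dg_of_chi (g := 1) (fun h => irr_apply_one_ne_zero χ.2 (by rw [hc, h, mul_zero]))
  obtain ⟨h1, h2⟩ := chi_ne_zero hp hκi hκ hγ hr hd hd'
  have hdle : blockDefect p B ≤ w + w.factorial.factorization p := by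
    have e1 := factorization_add_blockDefect (p := p) hχ
    have e2 := congrArg (fun m => m.factorization p) (degree_mul χ.2 hγ ha hc)
    simp only [Nat.factorization_mul (charDegree_pos χ.2).ne' (HS_ne_zero _), Finsupp.add_apply] at e2
    have e3 := (val_bounds hp hγ hκi hκ hr (hd'.trans hd)).2
    rw [Nat.card_eq_fintype_card, Fintype.card_perm, Fintype.card_fin, h0] at e1
    omega
  have hα : Fintype.card {i : Fin n // i < p * w} = p * w := Fintype.card_fin_lt_of_le h1
  obtain ⟨v, hv⟩ := (Perm.exists_with_cycleType_iff {i : Fin n // i < p * w}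
    (m := Multiset.replicate w p)).2 ⟨by rw [Multiset.sum_replicate, hα, smul_eq_mul, mul_comm],
      fun a ha => by rw [Multiset.eq_of_mem_replicate ha]; exact hp.two_le⟩
  have hvs : v.support = Finset.univ := Finset.eq_univ_of_card _ (by
    rw [← Perm.sum_cycleType, hv, Multiset.sum_replicate, hα, smul_eq_mul, mul_comm])
  set u := Perm.ofSubtype v with hu'
  have hu : u.cycleType = Multiset.replicate w p := by rw [hu', Perm.cycleType_ofSubtype, hv]
  have hus : ∀ x : Fin n, x ∈ u.support ↔ (x : ℕ) < p * w := fun x => by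
    rw [Perm.mem_support]
    refine ⟨fun h => ?_, fun h e => ?_⟩
    · by_contra hx; exact h (Perm.ofSubtype_apply_of_not_mem v hx)
    · rw [hu', Perm.ofSubtype_apply_of_mem v h] at e
      exact Perm.mem_support.1 (hvs ▸ Finset.mem_univ (⟨x, h⟩ : {i : Fin n // i < p * w}))
        (Subtype.ext e)
  have hord : ∃ k, orderOf u = p ^ k := by
    have : orderOf u ∣ p ^ 1 := by
      rw [← Perm.lcm_cycleType, hu, pow_one]
      exact Multiset.lcm_dvd.2 fun b hb => by rw [Multiset.eq_of_mem_replicate hb]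
    obtain ⟨k, -, hk⟩ := (Nat.dvd_prime_pow hp).1 this
    exact ⟨k, hk⟩
  let K : Subgroup (centralizer ({u} : Set (Perm (Fin n)))) :=
    { carrier := {g | ∀ z ∈ u.support, g.1 z = z}
      one_mem' := fun _ _ => rfl
      mul_mem' := fun {a b} ha hb z hz => by
        change a.1 (b.1 z) = z
        rw [hb z hz, ha z hz]
      inv_mem' := fun {a} ha z hz => by
        change a.1⁻¹ z = z
        rw [Perm.inv_eq_iff_eq, ha z hz] }
  have hχu : χ.1 u ≠ 0 := by
    rw [hc]; exact mul_ne_zero (by rcases ha with h | h <;> simp [h]) (h2 u hu)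
  obtain ⟨l1, l2⟩ := link hM hord rfl (K := K) (fun b hb g hg => by
    by_contra h; exact hg fun z hz => supp_block hM hu hb h hz) χ hχu
  rw [← eq_blockOf_of_mem hM hB hχ] at l1 l2
  have hdis : ∀ s ∈ K, ∀ t : Perm {i : Fin n // i < p * w}, Perm.Disjoint (Perm.ofSubtype t) s.1 :=
    fun s hs t z => by
      by_cases hz : (z : ℕ) < p * w
      · exact Or.inr (hs z ((hus z).2 hz))
      · exact Or.inl (Perm.ofSubtype_apply_of_not_mem t hz)
  obtain ⟨T⟩ : Nonempty (Sylow p (centralizer ({v} : Set (Perm {i : Fin n // i < p * w})))) :=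
    inferInstance
  let j0 : centralizer ({v} : Set (Perm {i : Fin n // i < p * w})) →*
      centralizer ({u} : Set (Perm (Fin n))) :=
    (Perm.ofSubtype.comp (Subgroup.subtype _)).codRestrict _ fun g => by
      rw [mem_centralizer_singleton_iff, hu', MonoidHom.comp_apply, ← map_mul, ← map_mul]
      exact congrArg _ (mem_centralizer_singleton_iff.1 g.2)
  obtain ⟨x, hx⟩ := l2 (T.1.map j0) (T.2.map _) (fun s hs => by
    rintro _ ⟨t, -, rfl⟩
    exact Subtype.ext (hdis s hs t.1).commute.eq) P hP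
  let j : centralizer ({v} : Set (Perm {i : Fin n // i < p * w})) →* Perm (Fin n) :=
    (MulAut.conj x).toMonoidHom.comp (Perm.ofSubtype.comp (Subgroup.subtype _))
  have hj : Function.Injective j :=
    (MulAut.conj x).injective.comp (Perm.ofSubtype_injective.comp (subtype_injective _))
  have hle : T.1.map j ≤ P := by
    rintro _ ⟨t, ht, rfl⟩
    exact hx (j0 t) ⟨t, ht, rfl⟩
  have hcT : Nat.card (T.1.map j) = p ^ (w + w.factorial.factorization p) := by
    rw [card_map_of_injective hj, T.card_eq_multiplicity, val_card_C hv, hα]; simp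
  have hcP := card_defectGroup hM hB hP
  have hde : blockDefect p B = w + w.factorial.factorization p := by
    have := card_le_of_le hle
    rw [hcT, hcP, Nat.pow_le_pow_iff_right hp.one_lt] at this
    omega
  refine ⟨fun ψ hψ => ?_, hde, _, inferInstance, inferInstance, v, T, j, hv, hj, fun g => ?_,
    eq_of_le_of_card_ge hle (by rw [hcT, hcP, hde])⟩
  · obtain ⟨c, c0, e⟩ := lab_us hκi hκ hd hu (hl χ hχ)
    obtain ⟨c', c0', e'⟩ := lab_us hκi hκ hd hu hψ
    refine l1 ψ (c' * c⁻¹) (mul_ne_zero c0' (inv_ne_zero c0)) fun s hs => ?_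
    rw [e _ (hdis s hs v), e' _ (hdis s hs v), mul_assoc, inv_mul_cancel_left₀ c0]
  · change Perm.sign (x * Perm.ofSubtype g.1 * x⁻¹) = _
    rw [map_mul, map_mul, map_inv, mul_inv_cancel_comm, Perm.sign_ofSubtype]

end sym

end CA.H10Fock9
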