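import Cfsg.Agent.Lib.Char.CharProd
import Cfsg.Agent.Lib.Char.Ind
import Cfsg.Agent.Lib.Char.Cons

/-!
# An involution commuting with a complement: the analytic core of the Isaacs correspondence
-/

set_option autoImplicit false
set_option linter.unusedSectionVars false
set_option linter.unusedVariables false

namespace CA.H10Isa
open Cfsg CChar.CharRep CChar.CharFun CChar.CharOrth CChar.CharInt CChar.CharGen CChar.CharProd
  Subgroup
open scoped ComplexConjugate

variable {G : Type*} [Group G] [Fintype G]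

theorem char_half {V : Type*} [AddCommGroup V] [Module ℂ V] [FiniteDimensional ℂ V]
    (ρ : Representation ℂ G V) {u : Module.End ℂ V} (hu : u * u = 1) (hc : ∀ g, Commute (ρ g) u) :
    IsCharacter G (fun g => (ρ.character g - LinearMap.trace ℂ V (ρ g * u)) / 2) := by
  let f : ℤˣ →* Module.End ℂ V :=
    { toFun := fun a => if a = 1 then 1 else u
      map_one' := by simp
      map_mul' := fun a b => by
        rcases Int.units_eq_one_or a with rfl | rfl <;> rcases Int.units_eq_one_or b with rfl | rfl <;>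
          simp [hu] }
  have h : ∀ g a, Commute (ρ g) (f a) := fun g a => by
    rcases Int.units_eq_one_or a with rfl | rfl
    · simp
    · exact hc g
  have := char_inner_snd (isCharacter_character (MonoidHom.noncommCoprod ρ f h))
    (char_of_unitsHom (Units.map (Int.castRingHom ℂ).toMonoidHom))
  simpa [inner_units_int, sub_eq_add_neg, Representation.character, f] using this

/-- The data of the central situation. -/
structure Core (K H : Subgroup G) (ν : G → ℂ) : Prop where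
  nK : K.Normal
  sup : ∀ g, ∃ k ∈ K, ∃ h ∈ H, k * h = g
  cov : ∀ k ∈ K, ∀ h ∈ H, ∃ x ∈ K, ∃ z ∈ K, (∀ g, z * g = g * z) ∧
    (∀ k ∈ K, ν (z * k) = ν z * ν k) ∧ k * h = x * (z * h) * x
  sq : ∀ x ∈ K, ∀ k ∈ K, ν (x * k * x) = ν x ^ 2 * ν k
  inv : ∀ k ∈ K, ν k⁻¹ = conj (ν k)
  unit : ∀ k ∈ K, ν k * conj (ν k) = 1
  cj : ∀ h ∈ H, ∀ k ∈ K, ν (h * k * h⁻¹) = ν k

/-- The twisted character. -/
noncomputable def tw (K : Subgroup G) [Fintype K] (ν χ : G → ℂ) (g : G) : ℂ :=
  ∑ k : K, conj (ν k) * χ (g * k)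

variable {K H : Subgroup G} [Fintype K] [Fintype H] {ν χ χ' : G → ℂ}

namespace Core
variable (D : Core K H ν)
include D

theorem tw_sq (hχ : IsClassFunction G χ) {x : G} (hx : x ∈ K) (g : G) :
    tw K ν χ (x * g * x) = ν x ^ 2 * tw K ν χ g := by
  rw [tw, tw, Finset.mul_sum]
  refine Fintype.sum_equiv ((Equiv.mulLeft ⟨x, hx⟩).trans (Equiv.mulRight ⟨x, hx⟩)) _ _ fun k => ?_
  change _ = ν x ^ 2 * (conj (ν (x * k * x)) * χ (g * (x * k * x)))
  rw [D.sq x hx k k.2, ← hχ (g * (x * k * x)) x, map_mul, map_pow,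
    show x * (g * (x * k * x)) * x⁻¹ = x * g * x * k by group]
  linear_combination (-(conj (ν k) * χ (x * g * x * k)) * (ν x * conj (ν x) + 1)) * D.unit x hx

theorem tw_cen {z : G} (hz : z ∈ K) (h1 : ∀ g, z * g = g * z) (h2 : ∀ k ∈ K, ν (z * k) = ν z * ν k)
    (g : G) : tw K ν χ (z * g) = ν z * tw K ν χ g := by
  rw [tw, tw, Finset.mul_sum]
  refine Fintype.sum_equiv (Equiv.mulLeft ⟨z, hz⟩) _ _ fun k => ?_
  change _ = ν z * (conj (ν (z * k)) * χ (g * (z * k)))
  rw [h2 k k.2, map_mul, h1, mul_assoc g]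
  linear_combination (-(conj (ν k) * χ (g * (z * k)))) * D.unit z hz

theorem inner_res (hχ : IsClassFunction G χ) (hχ' : IsClassFunction G χ') :
    classInner (fun h : H => tw K ν χ h) (fun h : H => tw K ν χ' h) =
      classInner (tw K ν χ) (tw K ν χ') := by
  classical
  haveI := Fintype.ofFinite (G ⧸ H)
  have h1 : ∀ k ∈ K, ∀ h ∈ H, tw K ν χ (k * h) * conj (tw K ν χ' (k * h)) =
      tw K ν χ h * conj (tw K ν χ' h) := fun k hk h hh => by
    obtain ⟨x, hx, z, hz, a, b, e⟩ := D.cov k hk h hh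
    rw [e, D.tw_sq hχ hx, D.tw_sq hχ' hx, D.tw_cen hz a b, D.tw_cen hz a b]
    simp only [map_mul, map_pow]
    have := D.unit x hx
    have := D.unit z hz
    grind
  rw [ci_def, ci_def, CA.Ind.sum_eq_sum_quotient H]
  have h2 : ∀ q : G ⧸ H, ∑ h : H, tw K ν χ (q.out * h) * conj (tw K ν χ' (q.out * h)) =
      ∑ h : H, tw K ν χ h * conj (tw K ν χ' h) := fun q => by
    obtain ⟨k, hk, t, ht, e⟩ := D.sup q.out
    refine Fintype.sum_equiv (Equiv.mulLeft ⟨t, ht⟩) _ _ fun h => ?_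
    rw [← e, mul_assoc, h1 k hk _ (mul_mem ht h.2)]; rfl
  simp only [h2]
  rw [Finset.sum_const, Finset.card_univ, ← Nat.card_eq_fintype_card, nsmul_eq_mul,
    card_eq_card_quotient_mul_card_subgroup H]
  have := CA.Ind.card_ne_zero H
  have : (Nat.card (G ⧸ H) : ℂ) ≠ 0 := Nat.cast_ne_zero.2 Nat.card_pos.ne'
  push_cast; field_simp

open Classical in
theorem inner_tw (hχ : IsIrrCharacter G χ) (hχ' : IsIrrCharacter G χ') :
    classInner (tw K ν χ) (tw K ν χ') = if χ = χ' then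
      (∑ j : K, ∑ k : K, conj (ν j) * conj (ν k) * χ (j * k)) / χ 1 else 0 := by
  have h1 : ∀ j k : K, ∑ g, χ (g * k) * conj (χ' (g * (j⁻¹ : K))) =
      if χ = χ' then Nat.card G * χ (j * k) / χ 1 else 0 := fun j k => by
    rw [← sum_irr_inv_mul_irr_mul hχ hχ']
    refine Fintype.sum_equiv (Equiv.mulRight ((j : G)⁻¹)) _ _ fun g => ?_
    simp [mul_comm, mul_assoc]
  have h2 : ∑ g, tw K ν χ g * conj (tw K ν χ' g) = ∑ j : K, ∑ k : K, conj (ν j) * conj (ν k) *
      ∑ g, χ (g * k) * conj (χ' (g * (j⁻¹ : K))) := by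
    simp only [tw, map_sum, Finset.mul_sum, Finset.sum_mul]
    rw [Finset.sum_comm]
    refine Fintype.sum_equiv (Equiv.inv K) _ _ fun j => ?_
    rw [Finset.sum_comm]
    refine Finset.sum_congr rfl fun k _ => Finset.sum_congr rfl fun g _ => ?_
    simp only [Equiv.inv_apply, inv_inv, InvMemClass.coe_inv, D.inv j j.2, map_mul]
    ring
  rw [ci_def, h2]
  simp only [h1]
  have := CA.Ind.card_ne_zero G
  split_ifs
  · rw [Finset.sum_div, Finset.mul_sum]
    refine Finset.sum_congr rfl fun j _ => ?_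
    rw [Finset.sum_div, Finset.mul_sum]
    refine Finset.sum_congr rfl fun k _ => ?_
    field_simp
  · simp

theorem orth (hχ : IsIrrCharacter G χ) (hχ' : IsIrrCharacter G χ') (h : χ ≠ χ') :
    classInner (fun h : H => tw K ν χ h) (fun h : H => tw K ν χ' h) = 0 := by
  rw [D.inner_res (irr_classFun hχ) (irr_classFun hχ'), D.inner_tw hχ hχ', if_neg h]

theorem exists_irr (hχ : IsIrrCharacter G χ) (h0 : (fun h : H => tw K ν χ h) ≠ 0) :
    ∃ (a : ℂ) (ψ : H → ℂ), a ≠ 0 ∧ IsIrrCharacter H ψ ∧ (fun h : H => tw K ν χ h) = a • ψ ∧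
      ∀ ξ, IsIrrCharacter H ξ → ∀ m : ℕ, classInner (fun h : H => χ h) ξ = m →
        (Odd m ↔ ξ = ψ) := by
  classical
  have h1 := D.inner_res (irr_classFun hχ) (irr_classFun hχ)
  rw [D.inner_tw hχ hχ, if_pos rfl] at h1
  have hne := irr_apply_one_ne_zero hχ
  obtain ⟨n, ρ, hρ, rfl⟩ := hχ
  obtain ⟨A, hA⟩ : ∃ A, A = ∑ k : K, conj (ν k) • ρ k := ⟨_, rfl⟩
  have h2 : ∀ g, LinearMap.trace ℂ _ (ρ g * A) = tw K ν ρ.character g := fun g => by
    simp [hA, tw, Finset.mul_sum, Representation.character]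
  have h3 : ∀ h ∈ H, Commute (ρ h) A := fun h hh => by
    haveI := D.nK
    rw [commute_iff_eq, hA, Finset.mul_sum, Finset.sum_mul]
    refine Fintype.sum_equiv (MulAut.conjNormal (H := K) h).toEquiv _ _ fun k => ?_
    change _ = conj (ν (h * k * h⁻¹)) • ρ (h * k * h⁻¹) * ρ h
    rw [D.cj h hh k k.2, mul_smul_comm, smul_mul_assoc, ← map_mul, ← map_mul, inv_mul_cancel_right]
  have h4 : ∀ x ∈ K, A * ρ x = ν x ^ 2 • (ρ x⁻¹ * A) := fun x hx => by
    rw [hA, Finset.mul_sum, Finset.sum_mul, Finset.smul_sum]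
    refine Fintype.sum_equiv ((Equiv.mulLeft ⟨x, hx⟩).trans (Equiv.mulRight ⟨x, hx⟩)) _ _
      fun k => ?_
    change _ = ν x ^ 2 • (ρ x⁻¹ * conj (ν (x * k * x)) • ρ (x * k * x))
    rw [D.sq x hx k k.2, mul_smul_comm, smul_mul_assoc, ← map_mul, ← map_mul, smul_smul,
      show x⁻¹ * (x * k * x) = k * x by group, map_mul (starRingEnd ℂ), map_pow]
    congr 1
    linear_combination (-(conj (ν k)) * (ν x * conj (ν x) + 1)) * D.unit x hx
  obtain ⟨c, hc⟩ := exists_eq_smul_of_commute ρ (A * A) fun g => by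
    obtain ⟨k, hk, h, hh, rfl⟩ := D.sup g
    have : A * A * ρ k = ρ k * (A * A) := by
      rw [mul_assoc, h4 k hk, mul_smul_comm, ← mul_assoc, h4 _ (inv_mem hk), inv_inv,
        smul_mul_assoc, smul_smul, D.inv k hk, ← mul_pow, D.unit k hk, one_pow, one_smul, mul_assoc]
    rw [map_mul, ← mul_assoc, this, mul_assoc, ← ((h3 h hh).mul_right (h3 h hh)).eq, mul_assoc]
  have h5 : ∑ j : K, ∑ k : K, conj (ν j) * conj (ν k) * ρ.character (j * k) =
      c * ρ.character 1 := by
    have := congrArg (LinearMap.trace ℂ _) hc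
    rw [map_smul, smul_eq_mul, ← map_one ρ] at this
    rw [Representation.character, ← this, hA, Finset.sum_mul_sum]
    simp [Representation.character, mul_assoc, mul_left_comm]
  rw [h5, mul_div_cancel_right₀ _ hne] at h1
  have h6 := ci_self_re_pos h0
  obtain ⟨r, hr⟩ : ∃ r : ℝ, r = √(classInner (fun h : H => tw K ν ρ.character h)
    (fun h : H => tw K ν ρ.character h)).re := ⟨_, rfl⟩
  have hr0 : (r : ℂ) ≠ 0 := by exact_mod_cast (hr ▸ Real.sqrt_pos.2 h6).ne'
  have hr2 : (r : ℂ) * r = c := by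
    rw [← Complex.ofReal_mul, hr, Real.mul_self_sqrt h6.le, ← h1]
    exact Complex.ext rfl (ci_self_im _).symm
  have h7 := char_half (ρ.comp H.subtype) (u := (r : ℂ)⁻¹ • A) (by
    rw [smul_mul_smul_comm, hc, smul_smul, ← hr2, ← mul_inv, inv_mul_cancel₀ (mul_ne_zero hr0 hr0),
      one_smul]) fun h => (h3 h h.2).smul_right _
  obtain ⟨β, hβ⟩ : ∃ β : H → ℂ, β = fun h : H =>
      (ρ.character h - (r : ℂ)⁻¹ * tw K ν ρ.character h) / 2 := ⟨_, rfl⟩
  have h8 : IsCharacter H β := by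
    convert h7 using 2 with h
    rw [hβ, mul_smul_comm, map_smul, smul_eq_mul]
    exact congrArg (fun t => (ρ.character h - (r : ℂ)⁻¹ * t) / 2) (h2 h).symm
  have h9 := char_restrict (isCharacter_character ρ) H
  have h10 : (r : ℂ)⁻¹ • (fun h : H => tw K ν ρ.character h) =
      (fun h : H => ρ.character h) - (β + β) := by
    funext h; simp only [hβ, Pi.smul_apply, Pi.sub_apply, Pi.add_apply, smul_eq_mul]; ring
  obtain ⟨ε, hε, ψ, h11, h12⟩ := gen_norm_one' (θ := (r : ℂ)⁻¹ • fun h : H => tw K ν ρ.character h)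
    ⟨_, _, h9, char_add h8 h8, h10⟩ (by
      rw [ci_smul_left, ci_smul_right, h1, ← hr2, map_inv₀, Complex.conj_ofReal]; field_simp)
  refine ⟨r * ε, ψ, mul_ne_zero hr0 (by rcases hε with rfl | rfl <;> simp), h11, by
    rw [mul_smul, ← h12, smul_smul, mul_inv_cancel₀ hr0, one_smul], fun ξ hξ m hm => ?_⟩
  obtain ⟨b, hb⟩ := inner_char_char h8 (char_of_irr hξ)
  have h13 := congrArg (classInner · ξ) (h12.symm.trans h10)
  simp only [ci_smul_left, ci_sub_left, ci_add_left, hm, hb] at h13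
  by_cases e : ξ = ψ
  · rw [e, inner_irr_self h11, mul_one] at h13
    refine iff_of_true ?_ e
    rcases hε with rfl | rfl
    · have : (1 : ℤ) = m - (b + b) := by exact_mod_cast h13
      exact ⟨b, by omega⟩
    · have : (-1 : ℤ) = m - (b + b) := by exact_mod_cast h13
      exact ⟨b - 1, by omega⟩
  · rw [inner_irr_of_ne h11 hξ (Ne.symm e), mul_zero] at h13
    refine iff_of_false (Nat.not_odd_iff_even.2 ?_) e
    have : (0 : ℤ) = m - (b + b) := by exact_mod_cast h13
    exact ⟨b, by omega⟩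

theorem exists_tw_ne {f ψ : H → ℂ} (h1 : ∀ x : H, (x : G) ∈ K → f x = ν x)
    (h2 : ∀ x : H, (x : G) ∉ K → f x = 0) (h : classInner f ψ ≠ 0) :
    ∃ χ, IsIrrCharacter G χ ∧ classInner (fun h : H => tw K ν χ h) ψ ≠ 0 := by
  by_contra hc
  push Not at hc
  have e : (Nat.card G : ℂ) • f = ∑ χ : IrrCharacter G, χ.1 1 • fun h : H => tw K ν χ.1 h := by
    funext x
    simp only [Finset.sum_apply, Pi.smul_apply, smul_eq_mul, tw, Finset.mul_sum]
    rw [Finset.sum_comm]
    simp only [mul_left_comm _ (conj _), ← Finset.mul_sum, sum_degree_mul_apply]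
    by_cases hx : (x : G) ∈ K
    · rw [Finset.sum_eq_single ⟨(x : G)⁻¹, inv_mem hx⟩, mul_inv_cancel, regChar_one, D.inv _ hx,
        Complex.conj_conj, h1 x hx, mul_comm]
      · intro k _ hk
        rw [regChar_of_ne fun e => hk (Subtype.ext (eq_inv_of_mul_eq_one_right e)), mul_zero]
      · simp
    · rw [h2 x hx, mul_zero, eq_comm]
      refine Finset.sum_eq_zero fun k _ => ?_
      rw [regChar_of_ne fun e => hx ?_, mul_zero]
      rw [eq_inv_of_mul_eq_one_left e]; exact inv_mem k.2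
  have := congrArg (classInner · ψ) e
  simp only [ci_smul_left, ci_sum_left, fun χ : IrrCharacter G => hc χ.1 χ.2, mul_zero,
    Finset.sum_const_zero] at this
  exact mul_ne_zero (CA.Ind.card_ne_zero G) h this

end Core

end CA.H10Isa
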