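import Cfsg.Agent.Lib.Char.H10Isa
import Cfsg.Agent.Lib.Char.H12Tri

/-!
# The Isaacs correspondence: the central case
-/

set_option autoImplicit false
set_option linter.unusedSectionVars false
set_option linter.unusedVariables false

namespace CA.H10Isa2
open Cfsg CA.PF CA.OQuo CA.H12Gl CA.H12Gl2 CA.H12Tri CA.H10Isa Subgroup Function
open CA.BG hiding cj cj_one cj_mul cj_inv_cj cj_cj_inv mem_cent1
open scoped ComplexConjugate commutatorElement

/-- Data for Baer's construction: class two, commutators of odd order. -/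
structure Dat (H : Type*) [Group H] where
  m : ℕ
  cen : ∀ a b c : H, Commute ⁅a, b⁆ c
  half : ∀ a b : H, ⁅a, b⁆ ^ m * ⁅a, b⁆ ^ m = ⁅a, b⁆

section baer
variable {H : Type*} [Group H]

theorem cl (h : ∀ a b c : H, Commute ⁅a, b⁆ c) (a b c : H) : ⁅a * b, c⁆ = ⁅a, c⁆ * ⁅b, c⁆ := by
  have : ⁅a * b, c⁆ = a * ⁅b, c⁆ * a⁻¹ * ⁅a, c⁆ := by simp only [commutatorElement_def]; group
  rw [this, ← (h b c a).eq, mul_inv_cancel_right, (h b c _).eq]

theorem cr (h : ∀ a b c : H, Commute ⁅a, b⁆ c) (a b c : H) : ⁅a, b * c⁆ = ⁅a, b⁆ * ⁅a, c⁆ := by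
  have : ⁅a, b * c⁆ = ⁅a, b⁆ * (b * ⁅a, c⁆ * b⁻¹) := by simp only [commutatorElement_def]; group
  rw [this, ← (h a c b).eq, mul_inv_cancel_right]

theorem cl_pow (h : ∀ a b c : H, Commute ⁅a, b⁆ c) (a b : H) (n : ℕ) : ⁅a ^ n, b⁆ = ⁅a, b⁆ ^ n := by
  induction n with
  | zero => simp
  | succ n ih => rw [pow_succ, cl h, ih, pow_succ]

variable (D : Dat H)

/-- The underlying type. -/
def Ab (_ : Dat H) : Type _ := H

/-- The identity map to the abelian group. -/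
def mk (x : H) : Ab D := x
/-- The identity map from the abelian group. -/
def out (x : Ab D) : H := x

theorem op_comm (x y : H) : x * y * ⁅y, x⁆ ^ D.m = y * x * ⁅x, y⁆ ^ D.m := by
  have h1 : y * x = x * y * ⁅y, x⁆ := by
    rw [← (D.cen y x _).eq, commutatorElement_def]; group
  have h2 : ⁅x, y⁆ = ⁅y, x⁆⁻¹ := (commutatorElement_inv y x).symm
  rw [h1, h2, inv_pow, mul_assoc (x * y)]
  congr 1
  rw [eq_mul_inv_iff_mul_eq, D.half]

theorem op_assoc (x y z : H) :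
    x * y * ⁅y, x⁆ ^ D.m * z * ⁅z, x * y * ⁅y, x⁆ ^ D.m⁆ ^ D.m =
      x * (y * z * ⁅z, y⁆ ^ D.m) * ⁅y * z * ⁅z, y⁆ ^ D.m, x⁆ ^ D.m := by
  have h1 : ⁅z, ⁅y, x⁆ ^ D.m⁆ = 1 :=
    commutatorElement_eq_one_iff_commute.2 ((D.cen y x z).pow_left _).symm
  have h2 : ⁅⁅z, y⁆ ^ D.m, x⁆ = 1 :=
    commutatorElement_eq_one_iff_commute.2 ((D.cen z y x).pow_left _)
  rw [cr D.cen, cr D.cen, cl D.cen, cl D.cen, h1, h2, mul_one, mul_one, (D.cen z x _).mul_pow,
    (D.cen y x _).mul_pow, mul_assoc (x * y), ((D.cen y x z).pow_left _).eq]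
  have c1 : Commute (⁅z, y⁆ ^ D.m) (⁅y, x⁆ ^ D.m * ⁅z, x⁆ ^ D.m) := (D.cen z y _).pow_left _
  simp only [mul_assoc]
  rw [c1.eq, mul_assoc]

instance : CommGroup (Ab D) where
  mul x y := mk D (out D x * out D y * ⁅out D y, out D x⁆ ^ D.m)
  one := mk D 1
  inv x := mk D (out D x)⁻¹
  mul_assoc x y z := op_assoc D _ _ _
  one_mul x := by
    change (1 : H) * out D x * ⁅out D x, (1 : H)⁆ ^ D.m = out D x
    simp
  mul_one x := by
    change out D x * (1 : H) * ⁅(1 : H), out D x⁆ ^ D.m = out D x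
    simp
  inv_mul_cancel x := by
    change (out D x)⁻¹ * out D x * ⁅out D x, (out D x)⁻¹⁆ ^ D.m = (1 : H)
    simp [commutatorElement_def]
  mul_comm x y := op_comm D _ _

theorem out_mul (x y : Ab D) : out D (x * y) = out D x * out D y * ⁅out D y, out D x⁆ ^ D.m := rfl

theorem out_mul' {x y : Ab D} (h : Commute (out D x) (out D y)) :
    out D (x * y) = out D x * out D y := by
  rw [out_mul, commutatorElement_eq_one_iff_commute.2 h.symm, one_pow, mul_one]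

theorem out_pow (x : Ab D) (n : ℕ) : out D (x ^ n) = out D x ^ n := by
  induction n with
  | zero => rw [pow_zero, pow_zero]; rfl
  | succ n ih => rw [pow_succ, out_mul' D (ih ▸ (Commute.refl _).pow_left n), ih, pow_succ]

theorem out_sq (x k : Ab D) : out D (x * k * x) = out D x * out D k * out D x := by
  rw [out_mul, out_mul, cr D.cen, cr D.cen, commutatorElement_self,
    commutatorElement_eq_one_iff_commute.2 ((D.cen _ _ _).pow_left _).symm, one_mul, mul_one,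
    mul_assoc (out D x * out D k), ((D.cen _ _ _).pow_left _).eq, mul_assoc, mul_assoc (out D x),
    ← commutatorElement_inv (out D x), inv_pow, inv_mul_cancel_right, mul_assoc]

/-- automorphisms of the group are automorphisms of the abelian group -/
def act (f : MulAut H) : Ab D →* Ab D :=
  MonoidHom.mk' (fun x => mk D (f (out D x))) fun x y => by
    change f (out D x * out D y * ⁅out D y, out D x⁆ ^ D.m) =
      f (out D x) * f (out D y) * ⁅f (out D y), f (out D x)⁆ ^ D.m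
    rw [map_mul, map_mul, map_pow, map_commutatorElement]

theorem act_mul (f g : MulAut H) (x : Ab D) : act D (f * g) x = act D f (act D g x) := rfl

end baer

variable {Γ : Type*} [Group Γ] [Fintype Γ] {Z K G H S R : Subgroup Γ} {χ χ' θ ψ ξ ν : Γ → ℂ}

theorem exists_nu (hZ : ∀ z ∈ Z, ∀ g, z * g = g * z) (hZK : Z ≤ K)
    (hab : ∀ a ∈ K, ∀ b ∈ K, ⁅a, b⁆ ∈ Z) (ho : ¬ 2 ∣ Z.relIndex K) (hS : S ≤ 𝓝(K))
    (hH : H ≤ 𝓝(K)) (hHS : ∀ h ∈ H, ∀ s ∈ S, ⁅h, s⁆ ∈ Z)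
    (hc : (Z.relIndex S).Coprime (Z.relIndex K))
    (hfix : ∀ k ∈ K, (∀ s ∈ S, s * k * s⁻¹ * k⁻¹ ∈ Z) → k ∈ Z) (l : Lin Z) :
    ∃ ν : Γ → ℂ, ν 1 = 1 ∧ (∀ z ∈ Z, ∀ k ∈ K, ν (z * k) = lin l z * ν k) ∧
      (∀ x ∈ K, ∀ k ∈ K, ν (x * k * x) = ν x ^ 2 * ν k) ∧ (∀ k ∈ K, ν k⁻¹ = conj (ν k)) ∧
      (∀ k ∈ K, ν k * conj (ν k) = 1) ∧ (∀ h ∈ H, ∀ k ∈ K, ν (h * k * h⁻¹) = ν k) ∧
      (∀ h ∈ S, ∀ k ∈ K, ν (h * k * h⁻¹) = ν k) ∧
      ∀ R, Z ≤ R → R ≤ K → S ≤ 𝓝(R) → ∀ μ : Lin R, (∀ z ∈ Z, lin μ z = lin l z) →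
        (∀ s ∈ S, ∀ r ∈ R, lin μ (s * r * s⁻¹) = lin μ r) → ∀ r ∈ R, lin μ r = ν r := by
  classical
  have hN : Nrm Z K := ⟨hZK, fun g _ z hz => by rwa [← hZ z hz, mul_inv_cancel_right]⟩
  have hcen : ∀ a b c : K, Commute ⁅a, b⁆ c := fun a b c =>
    Subtype.ext (hZ _ (hab a a.2 b b.2) c)
  obtain ⟨m, hm⟩ := Nat.not_even_iff_odd.1 fun h => ho h.two_dvd
  obtain ⟨e, he⟩ : ∃ e, e = Z.relIndex K := ⟨_, rfl⟩
  have hpe : ∀ k : K, ((k ^ e : K) : Γ) ∈ Z := fun k => he ▸ pow_relIndex_mem hN k.2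
  let D : Dat K := ⟨m + 1, hcen, fun a b => by
    rw [← pow_add, show m + 1 + (m + 1) = (2 * m + 1) + 1 by ring, pow_succ, ← hm, ← he,
      ← cl_pow hcen, commutatorElement_eq_one_iff_commute.2 (Subtype.ext (hZ _ (hpe a) b)),
      one_mul]⟩
  let φ := K.normalizerMonoidHom
  let A := (S.subgroupOf 𝓝(K)).map φ
  haveI := Fintype.ofFinite A
  have hA : (Nat.card A).Coprime e := by
    refine Nat.Coprime.coprime_dvd_left ?_ (he ▸ hc)
    rw [← relIndex_ker, ← relIndex_subgroupOf hS]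
    refine relIndex_dvd_of_le_left _ fun z hz => MulEquiv.ext fun k => Subtype.ext ?_
    change (z : Γ) * k * (z : Γ)⁻¹ = k
    rw [hZ z hz, mul_inv_cancel_right]
  let Z' : Subgroup (Ab D) :=
    { carrier := {x | (out D x).1 ∈ Z}
      one_mem' := Z.one_mem
      mul_mem' := fun {a b} ha hb => by
        change (out D (a * b)).1 ∈ Z
        rw [out_mul' D (Subtype.ext (hZ _ ha _))]; exact Z.mul_mem ha hb
      inv_mem' := fun {a} ha => Z.inv_mem ha }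
  have hfz : ∀ (g : 𝓝(K)), ∀ x ∈ Z', act D (φ g) x = x := fun g x hx => Subtype.ext (by
    change (g : Γ) * (out D x).1 * (g : Γ)⁻¹ = (out D x).1
    rw [← hZ _ hx, mul_inv_cancel_right])
  let N : Ab D →* Ab D := ∏ σ : A, act D σ
  have hN1 : ∀ x, N x = ∏ σ : A, act D σ x := fun x => MonoidHom.finsetProd_apply _ _ _
  have hN2 : ∀ x, N x ∈ Z' := fun x => hfix _ (out D (N x)).2 fun s hs => by
    have : act D (φ ⟨s, hS hs⟩) (N x) = N x := by
      rw [hN1, map_prod]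
      exact Fintype.prod_equiv (Equiv.mulLeft (⟨φ ⟨s, hS hs⟩, _, hs, rfl⟩ : A)) _ _ fun σ => rfl
    have h1 : s * (out D (N x)).1 * s⁻¹ = (out D (N x)).1 := congrArg Subtype.val this
    rw [h1, mul_inv_cancel]; exact Z.one_mem
  have hN3 : ∀ s (hs : s ∈ S) x, N (act D (φ ⟨s, hS hs⟩) x) = N x := fun s hs x => by
    rw [hN1, hN1]
    exact Fintype.prod_equiv (Equiv.mulRight (⟨φ ⟨s, hS hs⟩, _, hs, rfl⟩ : A)) _ _ fun σ => rfl
  have hN4 : ∀ h (hh : h ∈ H) x, N (act D (φ ⟨h, hH hh⟩) x) = N x := fun h hh x => by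
    rw [← hfz ⟨h, hH hh⟩ _ (hN2 x), hN1, hN1, map_prod]
    refine Finset.prod_congr rfl ?_
    rintro ⟨_, s, hs, rfl⟩ -
    refine Subtype.ext ?_
    change (s : Γ) * (h * (out D x).1 * h⁻¹) * (s : Γ)⁻¹ = h * (s * (out D x).1 * (s : Γ)⁻¹) * h⁻¹
    have := hZ _ (hHS h hh s hs) (s * (h * (out D x).1 * h⁻¹) * (s : Γ)⁻¹)
    calc _ = ⁅h, (s : Γ)⁆ * (s * (h * (out D x).1 * h⁻¹) * (s : Γ)⁻¹) * ⁅h, (s : Γ)⁆⁻¹ := by
          rw [this, mul_inv_cancel_right]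
      _ = _ := by simp only [commutatorElement_def]; group
  have hN5 : ∀ x ∈ Z', N x = x ^ Nat.card A := fun x hx => by
    rw [hN1, Finset.prod_congr rfl (g := fun _ => x), Finset.prod_const, Finset.card_univ,
      Nat.card_eq_fintype_card]
    rintro ⟨_, s, hs, rfl⟩ -
    exact hfz s x hx
  have hpe' : ∀ x, x ^ e ∈ Z' := fun x => by
    change (out D (x ^ e)).1 ∈ Z
    rw [out_pow]; exact hpe _
  obtain ⟨a, c, hac⟩ : ∃ a c : ℤ, e * a + Nat.card A * c = 1 :=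
    ⟨_, _, by rw [← Nat.gcd_eq_gcd_ab, hA.symm]; rfl⟩
  let π : Ab D →* Ab D := (zpowGroupHom a).comp (powMonoidHom e) * (zpowGroupHom c).comp N
  have hπ : ∀ x, π x = (x ^ e) ^ a * N x ^ c := fun x => rfl
  have hπ1 : ∀ x, π x ∈ Z' := fun x => mul_mem (zpow_mem (hpe' x) a) (zpow_mem (hN2 x) c)
  have hπ2 : ∀ x ∈ Z', π x = x := fun x hx => by
    rw [hπ, hN5 x hx, ← zpow_natCast, ← zpow_natCast, ← zpow_mul, ← zpow_mul, ← zpow_add, hac,
      zpow_one]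
  let n : Ab D →* ℂ :=
    { toFun := fun x => lin l (out D (π x)).1
      map_one' := by rw [map_one]; exact lin_apply_one l
      map_mul' := fun x y => by
        rw [map_mul, out_mul' D (Subtype.ext (hZ _ (hπ1 x) _))]
        exact lin_apply_mul l (hπ1 x) _ }
  have hn : ∀ x, n x = lin l (out D (π x)).1 := fun x => rfl
  have hnz : ∀ x ∈ Z', n x = lin l (out D x).1 := fun x hx => by rw [hn, hπ2 x hx]
  have hu : ∀ x, n x * conj (n x) = 1 := fun x => lin_mul_conj l (hπ1 x)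
  have hν : ∀ k (hk : k ∈ K), extendByZero K (fun k => n (mk D k)) k = n (mk D ⟨k, hk⟩) :=
    fun k hk => CA.Ind.ext_of_mem K _ hk
  have hcj : ∀ (g : 𝓝(K)), (∀ x, N (act D (φ g) x) = N x) → ∀ k ∈ K,
      extendByZero K (fun k => n (mk D k)) (g * k * (g : Γ)⁻¹) =
        extendByZero K (fun k => n (mk D k)) k := fun g hg k hk => by
    rw [hν _ hk, hν _ (conj_mem_of_mem_norm g.2 hk)]
    change n (act D (φ g) (mk D ⟨k, hk⟩)) = _
    rw [hn, hn, hπ, hπ, hg, ← map_pow, hfz g _ (hpe' _)]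
  refine ⟨extendByZero K fun k => n (mk D k), by rw [hν 1 K.one_mem]; exact map_one n,
    fun z hz k hk => ?_, fun x hx k hk => ?_, fun k hk => ?_, fun k hk => ?_,
    fun h hh => hcj ⟨h, hH hh⟩ (hN4 h hh), fun s hs => hcj ⟨s, hS hs⟩ (hN3 s hs),
    fun R h1 h2 h3 μ h4 h5 r hr => ?_⟩
  · rw [hν _ hk, hν _ (mul_mem (hZK hz) hk), ← show n _ = lin l z from hnz (mk D ⟨z, hZK hz⟩) hz,
      ← map_mul]
    exact congrArg n (out_mul' D (x := mk D ⟨z, hZK hz⟩) (y := mk D ⟨k, hk⟩)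
      (Subtype.ext (hZ z hz k))).symm
  · rw [hν _ hk, hν _ hx, hν _ (mul_mem (mul_mem hx hk) hx), sq, mul_right_comm, ← map_mul,
      ← map_mul]
    exact congrArg n (out_sq D (mk D ⟨x, hx⟩) (mk D ⟨k, hk⟩)).symm
  · rw [hν _ hk, hν _ (inv_mem hk)]
    change n (mk D ⟨k, hk⟩)⁻¹ = _
    rw [map_inv, inv_eq_of_mul_eq_one_right (hu _)]
  · rw [hν _ hk]; exact hu _
  · rw [hν _ (h2 hr)]
    have h6 : ∀ x y : Ab D, (out D x).1 ∈ R → (out D y).1 ∈ R → (out D (x * y)).1 ∈ R ∧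
        lin μ (out D (x * y)).1 = lin μ (out D x).1 * lin μ (out D y).1 := fun x y hx hy => by
      have h7 : (out D (x * y)).1 = (out D x).1 * ((out D y).1 * ⁅(out D y).1, (out D x).1⁆ ^ D.m) := by
        rw [out_mul, mul_assoc]; rfl
      have h8 := commutator_mem_commutator hy hx
      rw [h7, lin_apply_mul μ hx, lin_apply_mul μ hy,
        cfker_apply (pow_mem (der_le_cfker_lin μ h8) _), lin_apply_one, mul_one]
      exact ⟨mul_mem hx (mul_mem hy (pow_mem (der_le R h8) _)), rfl⟩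
    have h7 : ∀ s : Finset A, (out D (∏ σ ∈ s, act D σ (mk D ⟨r, h2 hr⟩))).1 ∈ R ∧
        lin μ (out D (∏ σ ∈ s, act D σ (mk D ⟨r, h2 hr⟩))).1 = lin μ r ^ s.card := fun s => by
      induction s using Finset.induction_on with
      | empty => exact ⟨R.one_mem, by rw [Finset.card_empty, pow_zero]; exact lin_apply_one μ⟩
      | insert σ s hσ ih =>
        obtain ⟨_, t, ht, rfl⟩ := σ
        have := h6 (act D (φ t) (mk D ⟨r, h2 hr⟩)) _ (conj_mem_of_mem_norm (h3 ht) hr) ih.1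
        rw [Finset.prod_insert hσ, Finset.card_insert_of_notMem hσ, pow_succ', this.2, ih.2]
        exact ⟨this.1, congrArg (· * _) (h5 t ht r hr)⟩
    have h8 : lin μ r ^ Nat.card A = n (mk D ⟨r, h2 hr⟩) ^ Nat.card A := by
      have h9 : n (N (mk D ⟨r, h2 hr⟩)) = n (mk D ⟨r, h2 hr⟩) ^ Nat.card A := by
        rw [hN1, map_prod, Finset.prod_congr rfl (g := fun _ => n (mk D ⟨r, h2 hr⟩)),
          Finset.prod_const, Finset.card_univ, Nat.card_eq_fintype_card]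
        rintro ⟨_, s, hs, rfl⟩ -
        rw [hn, hn, hπ, hπ, hN3 s hs, ← map_pow, hfz s _ (hpe' _)]
      rw [← h9, hnz _ (hN2 _), ← h4 _ (hN2 _), hN1, (h7 _).2, Finset.card_univ,
        Nat.card_eq_fintype_card]
    have h9 : lin μ r ^ e = n (mk D ⟨r, h2 hr⟩) ^ e := by
      rw [← map_pow, hnz _ (hpe' _), ← h4 _ (hpe' _), out_pow, ← lin_apply_pow μ hr]; rfl
    have h10 := lin_ne_zero μ hr
    have h11 : n (mk D ⟨r, h2 hr⟩) ≠ 0 := left_ne_zero_of_mul_eq_one (hu _)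
    rw [← zpow_one (lin μ r), ← zpow_one (n _), ← hac, zpow_add₀ h10, zpow_add₀ h11, zpow_mul,
      zpow_mul, zpow_mul, zpow_mul, zpow_natCast, zpow_natCast, zpow_natCast, zpow_natCast, h8, h9]

end CA.H10Isa2
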