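import Cfsg.Agent.Lib.Char.H10TI

/-! Faithful characters of small degree and Sylow subgroups with `C(x) = C(P)`. -/

set_option autoImplicit false
set_option linter.unusedSectionVars false

namespace CA.H10Leo
open Cfsg CA.PF CA.H12Mon CA.H12Deg CA.H10Bli CA.H10TI Subgroup
open CA.BG hiding cj_one cj_mul cj_inv_cj cj_cj_inv cj
open scoped ComplexConjugate commutatorElement

variable {Γ : Type*} [Group Γ] [Fintype Γ] {G H K L M N U A C P Q : Subgroup Γ}
  {χ β θ φ ψ μ : Γ → ℂ} {p q n : ℕ} {x y z g : Γ}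

theorem TI.le_norm (h : TI p P ⊤) (hχ : IsCharacter Γ χ) (hf : ∀ g, χ g = χ 1 → g = 1)
    (hd : charDegree χ ^ 2 ≤ ♯P) (hM : IsPi {p}ᶜ M) (hn : P ≤ 𝓝(M)) : M ≤ 𝓝(P) := by
  rcases eq_or_ne P ⊥ with rfl | h0
  · exact le_top.trans norm_bot.ge
  obtain ⟨z, hz, hz1⟩ := exists_ne_one (h.syl.pi.center_ne_bot h0)
  have h1 := h.mono (le_sup_left : P ≤ P ⊔ M) le_top
  have h2 : (P ⊔ M) ⊓ 𝓝(P) ≤ 𝓒₁(z) := by
    rw [sup_inf_of_le_left hn le_normalizer]
    refine sup_le (le_cent1_iff.2 hz.2) (le_trans ?_ (cent_le_cent1 hz.1))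
    exact cent_of_norm_cop inf_le_right (norm_inf hn (le_norm_of_le le_normalizer))
      ((hM.inf_left _).coprime' h.syl.pi)
  intro g hg
  have hg' : g ∈ P ⊔ M := mem_sup_right hg
  have h3 : ⁅z, g⁆ = 1 := eq_one_of_constt hχ hf (K := P ⊔ M)
    (comm_le_of_le le_rfl le_rfl (commutator_mem_commutator (mem_sup_left hz.1) hg')) fun ψ hψ e =>
      cent_of_Res_irr inf_le_left hψ (h1.Res_irr le_rfl inf_le_left hψ ((Nat.pow_le_pow_left
        (deg_le le_top (isChar_top.2 hχ) hψ e) 2).trans hd))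
        ⟨mem_sup_left hz.1, le_normalizer hz.1⟩ h2 hg'
  refine h.ti g trivial z hz.1 hz1 ?_
  rw [← commutatorElement_eq_one_iff_mul_comm.1 h3, mul_inv_cancel_right]
  exact hz.1

theorem TI.normal_of_psolv (h : TI p P ⊤) (hs : IsPSolvable p Γ) (hχ : IsCharacter Γ χ)
    (hf : ∀ g, χ g = χ 1 → g = 1) (hd : charDegree χ ^ 2 ≤ ♯P) : P.Normal := by
  by_contra hP
  obtain ⟨n, H, h0, h1, h2, h3, h4⟩ := hs
  suffices h6 : ∀ i, IsPi {p}ᶜ (H i) by
    refine hP ?_
    rw [h.syl.eq_bot (h1 ▸ h6 (Fin.last n))]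
    infer_instance
  intro i
  induction i using Fin.induction with
  | zero => exact h0 ▸ isPi_bot _
  | succ i ih =>
    have hN := (@nrm_top _ _ _ (h3 i.castSucc)).le_normalizer
    have hM := (@nrm_top _ _ _ (h3 i.succ)).le_normalizer
    have hle : H i.castSucc ≤ H i.succ := h2 i.castSucc_lt_succ.le
    rcases h4 i with ⟨m, hm⟩ | h8
    swap
    · exact IsPi.of_relIndex (ih.inf_left _) ((piNat_compl_iff_coprime h.prime).2 h8)
    have h5 := h.syl.inf_normal le_top (le_top.trans hM)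
    have h6 := h5.sup_of_idx hle (hm ▸ piNat_pow h.prime m)
    have h7 : ⊤ ≤ 𝓝(P ⊓ H i.succ) := hM.trans (h5.norm_of_normal (h6.ge.trans (sup_le le_normalizer
      (norm_inf (TI.le_norm h hχ hf hd ih (le_top.trans hN)) (le_top.trans hM)))))
    by_cases e : P ⊓ H i.succ = ⊥
    · exact (e ▸ h5).isPi_compl_of_eq_bot
    obtain ⟨x, hx, hx1⟩ := exists_ne_one e
    exact absurd (normalizer_eq_top_iff.1 (eq_top_iff.2 fun g hg =>
      h.ti g hg x hx.1 hx1 (conj_mem_of_norm h7 hg hx).1)) hP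

/-- `C_G(x) = C_G(P)` for all `x ∈ P^#`. -/
structure St (p : ℕ) (P G : Subgroup Γ) : Prop where
  prime : p.Prime
  syl : Syl p P G
  cent : ∀ x ∈ P, x ≠ 1 → G ⊓ 𝓒₁(x) ≤ 𝓒(P)

theorem St.mono (h : St p P G) (h1 : P ≤ L) (h2 : L ≤ G) : St p P L :=
  ⟨h.prime, h.syl.of_le h1 h2, fun x hx e => (inf_le_inf_right _ h2).trans (h.cent x hx e)⟩

theorem St.comm (h : St p P G) : IsMulCommutative P := comm_iff_le_cent.2 fun x hx => by
  rcases eq_or_ne x 1 with rfl | e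
  · exact one_mem _
  · exact h.cent x hx e ⟨h.syl.le hx, mem_cent1_self x⟩

theorem St.ti (h : St p P G) : TI p P G := ⟨h.prime, h.syl, fun g hg x hx e e' => by
  have h1 := h.syl.cj_mem hg
  refine mem_norm_of_cj_le (h.syl.le_of_norm h1.pi h1.le (norm_of_cent (le_trans (le_inf h1.le ?_)
    (h.cent _ e' (by simpa using e)))))
  rw [← cj_cent1]
  exact cj_mono g ((comm_iff_le_cent.1 h.comm).trans (cent_le_cent1 hx))⟩

theorem St.dprod (h : St p P G) : DProd P 𝓞({p}ᶜ, G ⊓ 𝓒(P)) (G ⊓ 𝓒(P)) ∧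
    Hall {p}ᶜ 𝓞({p}ᶜ, G ⊓ 𝓒(P)) (G ⊓ 𝓒(P)) := by
  have h1 := h.syl.of_le (le_inf h.syl.le (comm_iff_le_cent.1 h.comm)) inf_le_left
  have h2 := burnside_hasPC h.prime h1 (inf_le_left.trans inf_le_right)
  exact ⟨⟨(core_le _ _).trans inf_le_right, h.syl.pi.inf_eq_bot (core_pi _ _), h2.sup_syl h1⟩, h2⟩

theorem St.nrm (_ : St p P G) : Nrm (G ⊓ 𝓒(P)) (G ⊓ 𝓝(P)) :=
  nrm_of_le_normalizer (inf_le_inf_left _ (cent_le_norm P))
    (norm_inf (le_norm_of_le inf_le_left) (norm_cent inf_le_right))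

theorem St.Ind_irr (h : St p P G) (hK : DProd P K (G ⊓ 𝓒(P))) (hn : G ⊓ 𝓝(P) ≤ 𝓝(K))
    (hμ : μ ∈ irr K) {i : Lin P} (hi : i ≠ 1) :
    Ind (G ⊓ 𝓝(P)) (G ⊓ 𝓒(P)) (conv (lin i) μ) ∈ irr (G ⊓ 𝓝(P)) := by
  refine (inertia_Ind_irr_iff h.nrm (conv_irr hK (lin_irr i) hμ)).2 fun x hx => ?_
  have h1 := mem_stab.1 hx.2
  rw [cj_conv] at h1
  obtain ⟨y, hy, hy1, e⟩ := (exists_fixed_irr_iff hx.1.2).1 ⟨lin i, lin_irr i,
    fun e => hi (lin_injective (e.trans (lin_one P).symm)),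
    (conv_inj hK (irr_cj (conj_iff_of_norm hx.1.2) (lin_irr i))
      (irr_cj (conj_iff_of_norm (hn hx.1)) hμ) (lin_irr i) hμ h1).1⟩
  exact ⟨hx.1.1, h.cent y hy hy1 ⟨hx.1.1, BG.mem_cent1.2 e⟩⟩

theorem Res_conv_lin (hK : DProd P K C) (hμ : μ ∈ irr K) (i : Lin P) :
    Res (P : Set Γ) (conv (lin i) μ) = charDegree μ • lin i :=
  CF_ext (Res_on _ _) (nsmul_mem (lin_on i) _) fun x hx => by
    rw [Res_of_mem _ hx, ← mul_one x, conv_apply hK.disj (lin_on i) (irr_on hμ) hx (one_mem _),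
      mul_one, irr_deg hμ, Pi.smul_apply, nsmul_eq_mul, mul_comm]

theorem ml_conv_lin (hK : DProd P K C) (hμ : μ ∈ irr K) (i : Lin P) :
    ml P (conv (lin i) μ) (lin i) = charDegree μ := ml_eq (by
  rw [← dot_Res_left (lin_on i), Res_conv_lin hK hμ, dot_nsmul_left, dot_irr_self (lin_irr i), mul_one])

theorem sq_sum_ge {ι : Type*} (s : Finset ι) (f : ι → ℕ) : ∑ i ∈ s, f i ^ 2 ≤ (∑ i ∈ s, f i) ^ 2 :=
  Finset.sum_sq_le_sq_sum_of_nonneg fun _ _ => Nat.zero_le _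

open Classical in
theorem lower (hN : N ≤ G) (hP : P ≤ N) (hφ : IsChar G φ)
    (hO : ∀ ψ ∈ irr G, P ≤ cfker ψ → ψ = triv G) :
    ml G φ φ + ∑ η ∈ irrK N P, ml N φ η ^ 2 ≤
      ml N φ (Res (N : Set Γ) φ) + ml G φ (triv G) ^ 2 := by
  have h1 := ml_Res le_rfl hφ hφ
  rw [Res_eq_self hφ.1, ← Finset.add_sum_erase _ _ (triv_irr G)] at h1
  rw [h1, ml_Res hN hφ hφ, ← Finset.sum_filter_add_sum_filter_not (irr N) (fun η => P ≤ cfker η)]
  simp only [← sq]
  suffices ∑ ψ ∈ (irr G).erase (triv G), ml G φ ψ ^ 2 ≤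
      ∑ η ∈ irr N with ¬ P ≤ cfker η, ml N φ η ^ 2 by
    rw [irrK]
    omega
  refine le_trans ?_ (Finset.sum_le_sum fun η hη => (sq_sum_ge _ _).trans
    (by rw [← ml_trans hN le_rfl hφ (irr_char (Finset.mem_filter.1 hη).1)]))
  rw [Finset.sum_comm]
  refine (Finset.sum_le_sum fun ψ hψ => ?_).trans
    (Finset.sum_le_sum_of_subset (Finset.erase_subset (triv G) _))
  have h2 := irr_char (Finset.mem_of_mem_erase hψ)
  obtain ⟨η, hη, h3, h4⟩ : ∃ η ∈ irr N, dot N (Res (N : Set Γ) ψ) η ≠ 0 ∧ ¬ P ≤ cfker η := by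
    by_contra hc
    push Not at hc
    exact Finset.ne_of_mem_erase hψ (hO ψ (Finset.mem_of_mem_erase hψ)
      ((le_cfker_Res_iff h2 hN hP).1 (le_cfker_of_constt (h2.Res hN) hc)))
  rw [dot_Res_left (irr_on hη), ← ml_ne_zero hN h2 (irr_char hη)] at h3
  refine le_trans ?_ (Finset.single_le_sum (f := fun η => (ml G φ ψ * ml N ψ η) ^ 2)
    (fun _ _ => Nat.zero_le _) (Finset.mem_filter.2 ⟨hη, h4⟩))
  exact Nat.pow_le_pow_left (Nat.le_mul_of_pos_right _ (Nat.pos_of_ne_zero h3)) 2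

theorem ml_triv_eq_sum (hN : N ≤ G) (hP : Nrm P N) (hφ : IsChar G φ) :
    ml P φ (triv P) = ∑ η ∈ irrK N P, ml N φ η * charDegree η := by
  classical
  rw [ml_trans hP.le hN hφ (triv_char P), irrK, Finset.sum_filter]
  refine Finset.sum_congr rfl fun η hη => ?_
  split_ifs with e
  · rw [ml_triv_of_le hP.le (irr_char hη) e]
  · rw [ml_triv_of_not_le hP hη e, mul_zero]

theorem ml_mul_star (φ ψ : Γ → ℂ) : ml K (φ * star ψ) (triv K) = ml K φ (Res (K : Set Γ) ψ) := by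
  rw [ml, dot_mul_star, ml]

/-- `[F_P, χ_P] = χ(1) [F_P, l]` for `l` a linear constituent of `χ_P`. -/
theorem ml_Res_eq (hP : Nrm P N) (hχ : χ ∈ irr N) (hφ : IsChar N φ) {i : Lin P}
    (hd : dot P χ (lin i) ≠ 0) :
    ml P φ (Res (P : Set Γ) χ) = charDegree χ * ml P φ (lin i) := ml_eq (by
  have h1 := clifford_one hP hχ (lin_irr i) hd
  rw [clifford hP hχ (lin_irr i) hd, dot_smul_right, dot_sum_right,
    Finset.sum_congr rfl (g := fun _ => dot P φ (lin i)) fun ψ hψ => by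
      obtain ⟨g, hg, rfl⟩ := mem_cfclass.1 hψ
      exact dot_cj_of_CInv hφ.CF.2 hg _, Finset.sum_const, card_cfclass, Nat.cast_mul, ← irr_deg hχ,
    h1, ml_cast hP.le (irr_char hχ) (irr_char (lin_irr i)), ml_cast hP.le hφ (irr_char (lin_irr i))]
  simp [mul_assoc])

theorem St.main (h : St p P G) (hχ : χ ∈ irr G) (h0 : χ ≠ triv G) (hd : charDegree χ ^ 2 + 1 < ♯P)
    (hO : ∀ ψ ∈ irr G, P ≤ cfker ψ → ψ = triv G) : charDegree χ = 1 ∧ G ⊓ 𝓝(P) ≤ 𝓒(P) := by
  classical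
  have hT := h.ti
  obtain ⟨hK, hK'⟩ := h.dprod
  have hC := h.nrm
  have hI := fun μ hμ i hi => h.Ind_irr (μ := μ) (i := i) hK (norm_core _ hC.le_normalizer) hμ hi
  set K := 𝓞({p}ᶜ, G ⊓ 𝓒(P))
  set C := G ⊓ 𝓒(P)
  set N := G ⊓ 𝓝(P)
  have hNG : N ≤ G := inf_le_left
  have hP : Nrm P N := nrm_of_le_normalizer (hK.le_left.trans hC.le) inf_le_right
  have hc := irr_char hχ
  have h1 := hT.Res_irr le_rfl hNG hχ (by omega)
  obtain ⟨φ, hφ, h2⟩ := exists_irr_under hC.le h1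
  obtain ⟨a, ha, μ, hμ, rfl⟩ := exists_conv hK hφ
  obtain ⟨l, rfl⟩ := irr_exists_lin h.comm ha
  have hm := deg_pos hμ
  have hl0 : dot P (Res (N : Set Γ) χ) (lin l) ≠ 0 :=
    CA.H12Gl2.dot_ne_trans hK.le_left hC.le (irr_char h1) hφ (irr_char ha) h2
      ((ml_ne_zero hK.le_left (irr_char hφ) (irr_char ha)).1 (by rw [ml_conv_lin hK hμ]; omega))
  have hl : l ≠ 1 := by
    rintro rfl
    refine h0 (hO χ hχ ((le_cfker_Res_iff hc hNG hP.le).1
      ((sub_cfker_constt hP.le hP.le_normalizer le_rfl h1 ha hl0).1 ?_)))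
    rw [lin_one, cfker_triv]
  have h3 := eq_Ind_of_over hC.le h1 hφ h2 (hI μ hμ l hl)
  have hX : ∀ i : Lin P, ∃ ψ, i ≠ 1 → ψ ∈ irr G ∧ Res (N : Set Γ) ψ = Ind N C (conv (lin i) μ) ∧
      ∀ g, ¬ p ∣ orderOf g → ψ g = χ g := fun i => by
    by_cases hi : i = 1
    · exact ⟨0, fun e => absurd hi e⟩
    obtain ⟨ψ, h4, h5⟩ := hT.exists_lift hχ h1 (hI μ hμ i hi) fun g hg => by
      rw [h3, Ind_apply', Ind_apply']
      refine congrArg _ (Finset.sum_congr rfl fun x _ => ?_)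
      by_cases e : x * g * x⁻¹ ∈ C
      · have := hK'.mem_of_normal (le_norm_core _ _) e
          ((piNat_compl_iff h.prime).2 (by rwa [orderOf_conj']))
        rw [← one_mul (x * g * x⁻¹), conv_apply hK.disj (lin_on _) (irr_on hμ) (one_mem _) this,
          conv_apply hK.disj (lin_on _) (irr_on hμ) (one_mem _) this, lin_apply_one, lin_apply_one]
      · rw [irr_on hφ _ e, conv_on' hK (lin_on _) (irr_on hμ) _ e]
    exact ⟨ψ, fun _ => ⟨h4, h5⟩⟩
  choose X hX using hX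
  set e := C.relIndex N with he
  set m := charDegree μ with hm'
  have he0 : 0 < e := Nat.pos_of_ne_zero (relIndex_ne_zero' _ _)
  have hdeg : charDegree χ = e * m := by
    rw [← deg_Res N, h3, deg_Ind hC.le (irr_char hφ), ← deg_Res P, Res_conv_lin hK hμ,
      deg_eq (χ := _ • lin l) (n := m) (by simp [hm'])]
  have hA := hc.mul hc.star
  -- the lower bound
  have hlow := lower hNG hP.le hA hO
  rw [ml_mul_star, Res_eq_self hc.1, ml_irr_self hχ] at hlow
  have hη : ∀ η ∈ irrK N C, ml N (χ * star χ) η = charDegree η := fun η hη => ml_eq (by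
    obtain ⟨h4, h5⟩ := mem_irrK.1 hη
    rw [dot_mul_left, star_star, ← dot_Res_left (cfOn_mul_right (irr_on h4) _), h3,
      ← mul_Res_of_on (irr_on h4), dot_Ind_left _ _ (CInv_mul (irr_CInv h4) (irr_CInv h1)),
      dot_congr_right (irr_on hφ) (ψ' := η 1 • Res (N : Set Γ) χ) fun x hx => by
        rw [Pi.mul_apply, cfker_apply (h5 hx)]; rfl, dot_smul_right, conj_irr_one h4, h3,
      ← dot_Ind_left _ _ (Ind_CInv _ _ _), dot_irr_self (hI μ hμ l hl), mul_one, irr_deg h4])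
  have hsub : irrK N C ⊆ irrK N P := fun η hη =>
    mem_irrK.2 ⟨(mem_irrK.1 hη).1, hK.le_left.trans (mem_irrK.1 hη).2⟩
  have hs1 : ∑ η ∈ irrK N C, charDegree η ^ 2 = e := sum_degK_sq hC
  have hs2 := ml_triv_eq_sum hNG hP hA
  have hml : m ≤ ml P χ (lin l) := by
    rw [ml_trans hK.le_left (hC.le.trans hNG) hc (irr_char ha)]
    refine le_trans ?_ (Finset.single_le_sum (f := fun ψ => ml C χ ψ * ml P ψ (lin l))
      (fun _ _ => Nat.zero_le _) hφ)
    rw [ml_conv_lin hK hμ]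
    refine Nat.le_mul_of_pos_left _ (Nat.pos_of_ne_zero ((ml_ne_zero (hC.le.trans hNG) hc
      (irr_char hφ)).2 ?_))
    rwa [dot_Res_left (cfOn_mono hC.le (irr_on hφ))] at h2
  have hRR : ∀ F, IsChar G F → ml P F (Res (P : Set Γ) χ) = e * m * ml P F (lin l) := fun F hF => by
    have := ml_Res_eq hP h1 (hF.Res hNG) hl0
    rwa [Res_Res hP.le, deg_Res, hdeg, ml_Res_left (cfOn_mono hP.le (Res_on _ _)),
      ml_Res_left (cfOn_mono hP.le (lin_on _))] at this
  rw [ml_mul_star, hRR χ hc, ← Finset.sum_sdiff hsub, Finset.sum_congr rfl (s₁ := irrK N C)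
    (g := fun η => charDegree η ^ 2) fun η h => by rw [hη η h, sq], hs1] at hs2
  rw [← Finset.sum_sdiff hsub, Finset.sum_congr rfl (s₁ := irrK N C)
    (g := fun η => charDegree η ^ 2) fun η h => by rw [hη η h], hs1] at hlow
  -- divisibility
  have hcard : (Finset.univ.erase (1 : Lin P)).card + 1 = ♯P := by
    rw [Finset.card_erase_add_one (Finset.mem_univ _), Finset.card_univ, card_Lin_comm h.comm]
  have hinj : ∀ ν ∈ irr K, Function.Injective fun i : Lin P => conv (lin i) ν := fun ν hν i j e =>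
    lin_injective (conv_inj hK (lin_irr i) hν (lin_irr j) hν e).1
  have hdvd : e ∣ (Finset.univ.erase (1 : Lin P)).card := by
    rw [← Finset.card_image_of_injective _ (hinj _ (triv_irr K))]
    refine Dvd.intro _ (card_imset_Ind_irr hC (fun θ hθ => ?_) (fun θ hθ => ?_) fun θ hθ g hg => ?_).symm
    all_goals obtain ⟨i, hi, rfl⟩ := Finset.mem_image.1 hθ
    · exact conv_irr hK (lin_irr i) (triv_irr K)
    · exact hI _ (triv_irr K) i (Finset.ne_of_mem_erase hi)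
    · obtain ⟨j, hj⟩ := irr_exists_lin h.comm (hP.irr_cj hg (lin_irr i))
      refine Finset.mem_image.2 ⟨j, Finset.mem_erase.2 ⟨?_, Finset.mem_univ _⟩, ?_⟩
      · rintro rfl
        exact Finset.ne_of_mem_erase hi (lin_injective (cj_injective g (by
          rw [hj, lin_one, cj_triv fun _ => hP.conj_iff hg])))
      · rw [cj_conv, hj, cj_triv (conj_iff_of_norm (norm_core _ hC.le_normalizer hg))]
  -- the upper bound
  have hup : ∀ j ≠ 1, ∀ c, ml G (χ * star χ) (χ * star χ) + c ≤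
      ml N (χ * star χ) (Res (N : Set Γ) (χ * star χ)) →
      e * m * ml P (χ * X j) (lin l) + m * (c * (Finset.univ.erase (1 : Lin P)).card + 1) ≤
        (e * m) ^ 3 := fun j hj c hcc => by
    have h4 := irr_char (hX j hj).1
    have hB := (hc.mul h4).mul hc.star
    have h5 := deg_eq_sum h.syl.le hB
    rw [deg_mul (hc.mul h4) hc.star, deg_mul hc h4, deg_star hc,
      deg_congr ((hX j hj).2.2 1 (by simpa using h.prime.ne_one)), hdeg, irr_eq_image_lin h.comm,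
      Finset.sum_image fun _ _ _ _ e => lin_injective e,
      ← Finset.add_sum_erase _ _ (Finset.mem_univ 1), lin_one, ml_mul_star, hRR _ (hc.mul h4),
      deg_eq (n := 1) (by simp), mul_one] at h5
    have h6 : ∀ i ∈ Finset.univ.erase (1 : Lin P), m * (c + ml G (χ * X j * star χ) (X i)) ≤
        ml P (χ * X j * star χ) (lin i) * charDegree (lin i) := fun i hi => by
      obtain ⟨h7, h8, h9⟩ := hX i (Finset.ne_of_mem_erase hi)
      have h10 := conv_irr hK (lin_irr i) hμ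
      have h11 := hT.dot_sub hB.CF (irr_CF h7) hA.CF hA.CF fun g hg => by
        simp only [Pi.mul_apply, Pi.star_apply, h9 g hg, (hX j hj).2.2 g hg, map_mul,
          RCLike.star_def, Complex.conj_conj]
        ring
      rw [ml_cast hNG hA (hA.Res hNG), ml_cast le_rfl hA hA, ml_cast le_rfl hB (irr_char h7), h8,
        dot_Ind_right _ (CInv_mono hNG hB.CF.2), ml_cast (hC.le.trans hNG) hB (irr_char h10)] at h11
      norm_cast at h11
      rw [deg_eq (n := 1) (by simp), mul_one, ml_trans hK.le_left (hC.le.trans hNG) hB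
        (irr_char (lin_irr i))]
      refine le_trans ?_ (Finset.single_le_sum (f := fun ψ => ml C _ ψ * ml P ψ (lin i))
        (fun _ _ => Nat.zero_le _) h10)
      rw [ml_conv_lin hK hμ, mul_comm]
      exact Nat.mul_le_mul_right _ (by omega)
    have h7 := Finset.sum_le_sum h6
    rw [← Finset.mul_sum, Finset.sum_add_distrib, Finset.sum_const, smul_eq_mul] at h7
    have h8 : 1 ≤ ∑ i ∈ Finset.univ.erase (1 : Lin P), ml G (χ * X j * star χ) (X i) := by
      refine le_trans ?_ (Finset.single_le_sum (f := fun i => ml G (χ * X j * star χ) (X i))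
        (fun _ _ => Nat.zero_le _) (Finset.mem_erase.2 ⟨hj, Finset.mem_univ _⟩))
      refine Nat.pos_of_ne_zero ((ml_ne_zero le_rfl hB h4).2 ?_)
      rw [mul_right_comm, dot_mul_left]
      refine dot_ne_zero_of_common hA (h4.mul h4.star) (triv_irr G) ?_ ?_
      · rw [dot_mul_star, Res_eq_self hc.1, dot_irr_self hχ]; simp
      · rw [dot_mul_star, Res_eq_self h4.1, dot_irr_self (hX j hj).1]; simp
    have h9 := Nat.mul_le_mul_left m (Nat.add_le_add_left h8 ((Finset.univ.erase (1 : Lin P)).card * c))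
    calc _ ≤ e * m * (e * m) * (e * m) := by rw [h5, mul_comm c]; omega
      _ = _ := by ring
  obtain ⟨t, ht⟩ := hdvd
  rw [ht] at hup hcard
  have ht' : e * m ^ 2 + 1 ≤ t := Nat.lt_of_mul_lt_mul_left (a := e) (by
    rw [hdeg] at hd
    calc _ = (e * m) ^ 2 := by ring
      _ < _ := by omega)
  have hm1 : m = 1 := by
    by_contra hm1
    have h4 : ∑ η ∈ irrK N P \ irrK N C, ml N (χ * star χ) η ^ 2 ≠ 0 := fun h4 => by
      rw [Finset.sum_eq_zero fun η hη => by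
        rw [pow_eq_zero_iff two_ne_zero |>.1 (Finset.sum_eq_zero_iff.1 h4 η hη), zero_mul]] at hs2
      have : 2 * 2 ≤ m * ml P χ (lin l) := Nat.mul_le_mul (by omega) (by omega)
      nlinarith
    have h5 := hup l hl e (by omega)
    have h6 := Nat.mul_le_mul_left (m * e * e) ht'
    nlinarith [Nat.mul_pos (Nat.mul_pos hm he0) he0]
  suffices C = N from ⟨by rw [hdeg, hm1, he, this, relIndex_self], this ▸ inf_le_right⟩
  by_contra hne
  obtain ⟨a, ha1, ha2⟩ := SetLike.exists_of_lt (lt_of_le_of_ne hC.le hne)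
  obtain ⟨j, hj⟩ := irr_exists_lin h.comm (hP.irr_cj ha1 (lin_irr l))
  have hj1 : l * j⁻¹ ≠ 1 := fun e => ha2 (by
    obtain ⟨y, hy, hy1, e⟩ := (exists_fixed_irr_iff ha1.2).1 ⟨lin l, lin_irr l,
      fun e => hl (lin_injective (e.trans (lin_one P).symm)), by rw [mem_stab, hj, mul_inv_eq_one.1 e]⟩
    exact ⟨ha1.1, h.cent y hy hy1 ⟨ha1.1, BG.mem_cent1.2 e⟩⟩)
  obtain ⟨h4, h5, -⟩ := hX _ hj1
  have h6 : ml P (χ * X (l * j⁻¹)) (lin l) ≠ 0 := by
    refine (ml_ne_zero h.syl.le (hc.mul (irr_char h4)) (irr_char ha)).2 ?_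
    rw [mul_comm, dot_mul_left, ← mul_Res_of_on (lin_on l), ← dot_Res_left
      (cfOn_mul_right (lin_on l) _)]
    refine dot_ne_zero_of_common ((irr_char h4).Res h.syl.le)
      ((irr_char ha).mul (hc.star.Res h.syl.le)) (lin_irr (l * j⁻¹)) ?_ ?_
    · have h7 := conv_irr hK (lin_irr (l * j⁻¹)) hμ
      rw [dot_Res_left (lin_on _)]
      refine CA.H12Gl2.dot_ne_trans hK.le_left (hC.le.trans hNG) (irr_char h4) h7
        (irr_char (lin_irr _)) ?_ ((ml_ne_zero hK.le_left (irr_char h7) (irr_char (lin_irr _))).1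
        (by rw [ml_conv_lin hK hμ]; omega))
      rw [← dot_Res_left (cfOn_mono hC.le (irr_on h7)), h5, ← dot_Ind_right _ (Ind_CInv _ _ _),
        dot_irr_self (hI μ hμ _ hj1)]
      simp
    · rw [mul_comm, dot_mul_left, ← lin_inv, ← lin_mul, mul_inv_cancel_comm, lin_inv,
        dot_Res_left (cfOn_star (lin_on j)), dot_star, ← hj, dot_cj_of_CInv hc.CF.2 ha1.1]
      rw [dot_Res_left (cfOn_mono hP.le (lin_on l))] at hl0
      simpa using hl0
  obtain ⟨c, hc'⟩ : ∃ c, e = c + 1 := ⟨e - 1, by omega⟩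
  have h7 := hup _ hj1 c (by omega)
  rw [hm1] at h7 ht'
  have h8 := Nat.mul_le_mul_left (c * e) ht'
  have h9 := Nat.le_mul_of_pos_right e (Nat.pos_of_ne_zero h6)
  rw [hc'] at h7 h8 h9
  nlinarith

theorem St.normal_or (h : St p P G) (hχ : χ ∈ irr G) (h0 : χ ≠ triv G)
    (hd : charDegree χ ^ 2 + 1 < ♯P) :
    (∃ K, Nrm K G ∧ K ≠ G ∧ P ≤ K) ∨ (HasPC p G ∧ charDegree χ = 1) := by
  refine or_iff_not_imp_left.2 fun hc => ?_
  have := h.main hχ h0 hd fun ψ hψ e => (le_cfker_iff_triv hψ).1 (ge_of_eq (by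
    by_contra e'
    exact hc ⟨_, cfker_nrm (irr_CF hψ) (irr_ne_zero hψ), e', e⟩))
  exact ⟨burnside_hasPC h.prime h.syl this.2, this.1⟩

theorem St.le_norm (h : St p P G) (hχ : IsCharacter Γ χ) (hf : ∀ g, χ g = χ 1 → g = 1)
    (hd : charDegree χ ^ 2 + 1 < ♯P) : G ≤ 𝓝(P) := by
  induction G using (measure fun K : Subgroup Γ => ♯K).wf.induction with | _ G ih => ?_
  by_cases hc : ∃ K, Nrm K G ∧ K ≠ G ∧ P ≤ K
  · obtain ⟨K, h1, h2, h3⟩ := hc
    have h4 := h.mono h3 h1.le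
    exact h1.le_normalizer.trans (h4.syl.norm_of_normal
      (ih K (card_lt_of_lt (lt_of_le_of_ne h1.le h2)) h4))
  refine norm_of_comm (comm_iff_der_eq_bot.2 (eq_bot_iff.2 fun x hx =>
    eq_one_of_constt hχ hf (der_le G hx) fun ψ hψ e => (irr_one_eq_one_iff hψ).1 ?_ hx)) h.syl.le
  rcases eq_or_ne ψ (triv G) with rfl | h0
  · simp
  · exact (deg_eq_one_iff hψ).1 ((h.normal_or hψ h0 (lt_of_le_of_lt (Nat.succ_le_succ
      (Nat.pow_le_pow_left (deg_le le_top (isChar_top.2 hχ) hψ e) 2)) hd)).resolve_left hc).2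

end CA.H10Leo
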