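import Cfsg.Agent.Lib.Char.H12Gl4

/-!
# The Glauberman correspondence relative to a normal Sylow subgroup
-/

set_option autoImplicit false
set_option linter.unusedSectionVars false
set_option linter.unusedVariables false

namespace CA.H12Rel
open Cfsg CA.PF CA.OQuo CA.H12Gl CA.H12Gl2 CA.H12Gl3 Subgroup CA.BlkVal
open CA.BG hiding cj cj_one cj_mul cj_inv_cj cj_cj_inv mem_cent1
open scoped ComplexConjugate

variable {Γ : Type*} [Group Γ] [Fintype Γ] {K Q P C D X Y : Subgroup Γ}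
  {χ χ' ξ ξ' θ η φ ψ : Γ → ℂ}

/-- Multiplication by an extension preserves inner products of inflated functions. -/
theorem dot_mul_ext (hQ : Nrm Q D) (hη : IsChar D (Res (D : Set Γ) η))
    (h : Res (Q : Set Γ) η ∈ irr Q) (hφ : Q ≤ cfker φ) (hψ : Q ≤ cfker ψ)
    (hψ' : ψ ∈ cfOn (D : Set Γ)) : dot D (φ * η) (ψ * η) = dot D φ ψ := by
  rw [dot_eq_sum_right D _ (cfOn_mul_right hψ' η), dot_eq_sum_right D _ hψ']
  congr 1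
  refine mul_left_cancel₀ (cardC_ne Q) ?_
  have h1 : ∀ q ∈ fs (Q : Set Γ), ∑ x ∈ fs (D : Set Γ), (φ * η) x * conj ((ψ * η) x) =
      ∑ x ∈ fs (D : Set Γ), φ x * conj (ψ x) * (η (q * x) * conj (η (q * x))) := fun q hq => by
    rw [← sum_fs_mul_left (hQ.le (mem_fs.1 hq))]
    refine Finset.sum_congr rfl fun x _ => ?_
    rw [Pi.mul_apply, Pi.mul_apply, hφ (mem_fs.1 hq), hψ (mem_fs.1 hq), map_mul]
    ring
  rw [← card_fs, ← nsmul_eq_mul, ← Finset.sum_const, Finset.sum_congr rfl h1, Finset.sum_comm,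
    Finset.mul_sum]
  refine Finset.sum_congr rfl fun x hx => ?_
  have h2 := coset_self hQ hη (by rwa [Res_Res hQ.le]) (mem_fs.1 hx)
  rw [inv_mul_eq_one₀ (cardC_ne Q), Finset.sum_congr rfl fun q hq => by
    rw [Res_of_mem _ (D.mul_mem (hQ.le (mem_fs.1 hq)) (mem_fs.1 hx))]] at h2
  rw [← Finset.mul_sum, ← h2, card_fs, mul_comm]

/-- Clifford and Gallagher correspondents. -/
noncomputable def lift (Q : Subgroup Γ) (θ η : Γ → ℂ) (X : Subgroup Γ) (β : QT Q → ℂ) : Γ → ℂ :=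
  Ind X (X ⊓ stab θ) (infl (qh Q) (X ⊓ stab θ) β * η)

section lift
variable [Fintype (QT Q)] {β γ : QT Q → ℂ} (hQ : Nrm Q K) (hθ : θ ∈ irr Q)
  (hη : η ∈ irr (K ⊓ stab θ)) (hr : Res (Q : Set Γ) η = θ)
include hQ hθ hη hr

omit hη hr in
theorem nrm_T (h1 : Q ≤ X) (h2 : X ≤ K) : Nrm Q (X ⊓ stab θ) :=
  hQ.mono (le_inf h1 (le_stab (irr_CInv hθ))) (inf_le_left.trans h2)

omit hη hr in
theorem ker_infl (h1 : Q ≤ X) (h2 : X ≤ K) (β : QT Q → ℂ) :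
    Q ≤ cfker (infl (qh Q) (X ⊓ stab θ) β) :=
  (le_inf (nrm_T hQ hθ h1 h2).le (mker_qh Q).ge).trans
    (le_cfker_infl (qh Q) (nrm_T hQ hθ h1 h2).le_normalizer β)

theorem pre_irr (h1 : Q ≤ X) (h2 : X ≤ K) (hβ : β ∈ irr ((X ⊓ stab θ) /ᵍ Q)) :
    infl (qh Q) (X ⊓ stab θ) β * η ∈ irr (X ⊓ stab θ) ∧
      dot Q (infl (qh Q) (X ⊓ stab θ) β * η) θ ≠ 0 := by
  have h3 := nrm_T hQ hθ h1 h2
  have h4 := infl_irr (qh Q) h3.le_normalizer hβ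
  refine ⟨?_, ?_⟩
  · rw [← mul_Res_of_on (irr_on h4)]
    exact gall_irr h3 ((irr_char hη).Res (inf_le_inf_right _ h2)) (by rwa [Res_Res h3.le, hr]) h4
      (ker_infl hQ hθ h1 h2 β)
  · have h5 := dot_gall (ker_infl hQ hθ h1 h2 β) (η := η) (by rwa [hr])
    rw [hr] at h5
    exact h5 ▸ irr_one_ne h4

theorem lift_irr (h1 : Q ≤ X) (h2 : X ≤ K) (hβ : β ∈ irr ((X ⊓ stab θ) /ᵍ Q)) :
    lift Q θ η X β ∈ irr X ∧ dot Q (lift Q θ η X β) θ ≠ 0 := by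
  obtain ⟨h3, h4⟩ := pre_irr hQ hθ hη hr h1 h2 hβ
  obtain ⟨h5, h6⟩ := (cfInd_sum_Inertia (hQ.mono h1 h2) hθ).1 _ h3 h4
  exact ⟨h5, h6 ▸ h4⟩

theorem lift_surj (h1 : Q ≤ X) (h2 : X ≤ K) (hχ : χ ∈ irr X) (hd : dot Q χ θ ≠ 0) :
    ∃ β ∈ irr ((X ⊓ stab θ) /ᵍ Q), χ = lift Q θ η X β := by
  obtain ⟨ψ, h3, h4, rfl⟩ := (cfInd_sum_Inertia (hQ.mono h1 h2) hθ).2.2 χ hχ hd
  have h5 := nrm_T hQ hθ h1 h2
  obtain ⟨b, h6, h7, rfl⟩ := gall_surj h5 ((irr_char hη).Res (inf_le_inf_right _ h2))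
    (by rwa [Res_Res h5.le, hr]) h3 (by rwa [Res_Res h5.le, hr])
  obtain ⟨β, h8, rfl⟩ := exists_infl_irr (qh Q) h5.le_normalizer h6
    (inf_le_right.trans ((mker_qh Q).le.trans h7))
  exact ⟨β, h8, by rw [mul_Res_of_on (irr_on h6), lift]⟩

theorem dot_lift (h1 : Q ≤ X) (h2 : X ≤ Y) (h3 : Y ≤ K) (hβ : β ∈ irr ((Y ⊓ stab θ) /ᵍ Q))
    (hγ : γ ∈ irr ((X ⊓ stab θ) /ᵍ Q)) :
    dot X (lift Q θ η Y β) (lift Q θ η X γ) = dot ((X ⊓ stab θ) /ᵍ Q) β γ := by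
  obtain ⟨h4, h5⟩ := pre_irr hQ hθ hη hr (h1.trans h2) h3 hβ
  obtain ⟨h6, h7⟩ := pre_irr hQ hθ hη hr h1 (h2.trans h3) hγ
  obtain ⟨h8, -⟩ := lift_irr hQ hθ hη hr (h1.trans h2) h3 hβ
  have h9 := nrm_T hQ hθ h1 (h2.trans h3)
  have h10 : X ⊓ stab θ ≤ Y ⊓ stab θ := inf_le_inf_right _ h2
  refine (dot_Ind_right _ (CInv_mono h2 (irr_CInv h8)) _).trans ?_
  rw [dot_expand_le h10 inf_le_left (irr_CF h8) (irr_on h6),
    Finset.sum_eq_single_of_mem _ h4 fun φ hφ hne => by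
      by_contra h11
      have h12 := dot_ne_trans h9.le h10 (irr_char hφ) h6 (irr_char hθ) (right_ne_zero_of_mul h11)
        h7
      exact hne ((cfInd_sum_Inertia (hQ.mono (h1.trans h2) h3) hθ).2.1 _ hφ _ h4 h12 h5
        (corr_irr (hQ.mono (h1.trans h2) h3) hθ hφ h12 h8 (left_ne_zero_of_mul h11)).1.symm),
    ← dot_Ind_right _ (irr_CInv h8), ← lift, dot_irr_self h8, one_mul,
    dot_mul_ext h9 ((irr_char hη).Res (inf_le_inf_right _ (h2.trans h3))) (by rwa [hr])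
      (ker_infl hQ hθ (h1.trans h2) h3 β) (ker_infl hQ hθ h1 (h2.trans h3) γ) (infl_on _ _ _),
    ← dot_Res_left (infl_on _ _ _), Res_infl _ h10, ← infl_Res _ h9.le_normalizer,
    dot_infl _ h9.le_normalizer (Res_on _ _), dot_Res_left (irr_on hγ)]

theorem lift_inj (h1 : Q ≤ X) (h2 : X ≤ K) (hβ : β ∈ irr ((X ⊓ stab θ) /ᵍ Q))
    (hγ : γ ∈ irr ((X ⊓ stab θ) /ᵍ Q)) (e : lift Q θ η X β = lift Q θ η X γ) : β = γ :=
  irr_eq_of_dot_ne hβ hγ (by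
    rw [← dot_lift hQ hθ hη hr h1 le_rfl h2 hβ hγ, e,
      dot_irr_self (lift_irr hQ hθ hη hr h1 h2 hγ).1]
    exact one_ne_zero)

theorem cj_lift (h1 : Q ≤ X) (h2 : X ≤ K) {g : Γ} (hg : g ∈ 𝓝(X)) (hgQ : g ∈ 𝓝(Q))
    (hgθ : g ∈ stab θ) (hgη : g ∈ stab η) (β : QT Q → ℂ) :
    cj g (lift Q θ η X β) = lift Q θ η X (cj (mel (qh Q) g) β) := by
  rw [lift, cj_Ind (conj_iff_of_norm hg), PF.cj_mul, mem_stab.1 hgη, cj_infl _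
    (nrm_T hQ hθ h1 h2).le_normalizer hgQ (conj_iff_of_norm (norm_inf (zpowers_le.2 hg)
      ((zpowers_le.2 hgθ).trans le_normalizer) (mem_zpowers g))), lift]

theorem stab_lift (h1 : Q ≤ X) (h2 : X ≤ K) (hP : P ≤ 𝓝(X)) (hPQ : P ≤ 𝓝(Q)) (hPθ : P ≤ stab θ)
    (hPη : P ≤ stab η) (hβ : β ∈ irr ((X ⊓ stab θ) /ᵍ Q)) :
    P ≤ stab (lift Q θ η X β) ↔ P /ᵍ Q ≤ stab β := by
  refine ⟨fun h q hq => ?_, fun h g hg => ?_⟩
  · obtain ⟨g, hg, rfl⟩ := (mem_mim_of_le hPQ).1 hq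
    refine lift_inj hQ hθ hη hr h1 h2 (irr_cj (conj_iff_of_norm (norm_quo Q (norm_inf hP
      (hPθ.trans le_normalizer)) hq)) hβ) hβ ?_
    rw [← cj_lift hQ hθ hη hr h1 h2 (hP hg) (hPQ hg) (hPθ hg) (hPη hg), mem_stab.1 (h hg)]
  · rw [mem_stab, cj_lift hQ hθ hη hr h1 h2 (hP hg) (hPQ hg) (hPθ hg) (hPη hg),
      mem_stab.1 (h (mel_mem_mim _ hg))]

end lift

/-- The hypotheses of the relative correspondence. -/
structure Hyp (p : ℕ) (P K Q C : Subgroup Γ) : Prop where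
  pP : IsPGroup p P
  nK : P ≤ 𝓝(K)
  nrm : Nrm Q K
  pQ : IsPGroup p Q
  idx : ¬ p ∣ Q.relIndex K
  mem : ∀ k, k ∈ C ↔ k ∈ K ∧ ∀ x ∈ P, x * k * x⁻¹ * k⁻¹ ∈ Q

namespace Hyp
variable {p : ℕ} [hp : Fact p.Prime] (H : Hyp p P K Q C)
include H

theorem syl : Syl p Q K := Syl.mk'' hp.out H.nrm.le (isPi_of_isPGroup hp.out H.pQ) H.idx

theorem nQ : P ≤ 𝓝(Q) := H.nK.trans (H.syl.norm_of_normal H.nrm.le_normalizer)

theorem leK : C ≤ K := fun k hk => ((H.mem k).1 hk).1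

theorem leC : Q ≤ C := fun k hk => (H.mem k).2 ⟨H.nrm.le hk, fun x hx =>
  Q.mul_mem (conj_mem_of_mem_norm (H.nQ hx) hk) (Q.inv_mem hk)⟩

theorem nC : P ≤ 𝓝(C) := norm_of_conj fun x hx c hc => by
  have := C.mul_mem (H.leC (((H.mem c).1 hc).2 x hx)) hc
  rwa [inv_mul_cancel_right] at this

theorem cop (h : X ≤ K) : (Q.relIndex P).Coprime (Q.relIndex X) :=
  ((isPi_of_isPGroup hp.out H.pP).relIndex Q).coprime
    (H.syl.idx.of_dvd (relIndex_dvd_of_norm H.nrm.le_normalizer h))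

theorem under (h1 : Q ≤ X) (h2 : X ≤ K) (h3 : P ≤ 𝓝(X)) (h : χ ∈ irr X) (hs : P ≤ stab χ) :
    ∃ θ ∈ irr Q, P ≤ stab θ ∧ dot Q χ θ ≠ 0 :=
  exists_inv_under (H.nrm.mono h1 h2) H.nQ h3 (H.cop h2)
    (Or.inl (solv_quo Q ((isPi_of_isPGroup hp.out H.pP).isSolvable hp.out))) h hs

theorem common (h : χ ∈ irr K) (hξ : ξ ∈ irr C) (hs : P ≤ stab ξ) (hθ : θ ∈ irr Q)
    (hs' : P ≤ stab θ) (hd : dot Q χ θ ≠ 0) (hd' : dot C χ ξ ≠ 0) : dot Q ξ θ ≠ 0 := by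
  obtain ⟨φ, h1, h2, h3⟩ := H.under H.leC H.leK H.nC hξ hs
  obtain ⟨c, h4, h5, rfl⟩ := inv_under_conj H.nrm H.nQ H.nK (H.cop le_rfl)
    (Or.inl (solv_quo Q ((isPi_of_isPGroup hp.out H.pP).isSolvable hp.out))) hθ hs'
    (mem_cfclass_of_common H.nrm h hθ hd h1
      (dot_ne_trans H.leC H.leK (irr_char h) hξ (irr_char h1) hd' h3)) h2
  rwa [dot_cj_of_CInv (irr_CInv hξ) (C.inv_mem ((H.mem c).2 ⟨h4, h5⟩))] at h3

theorem canon (hθ : θ ∈ irr Q) (hs : P ≤ stab θ) :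
    ∃ η ∈ irr (K ⊓ stab θ), Res (Q : Set Γ) η = θ ∧ P ≤ stab η := by
  have := Fintype.ofFinite (QT Q)
  have h1 := nrm_T H.nrm hθ H.nrm.le le_rfl
  obtain ⟨η, h2, h3, -, -, h4⟩ := exists_canon h1 (H.syl.of_le h1.le inf_le_left).coprime hθ
    inf_le_right
  exact ⟨η, h2, h3, fun g hg => h4 g (norm_inf H.nK (hs.trans le_normalizer) hg) (H.nQ hg) (hs hg)⟩

theorem quo_eq (T : Subgroup Γ) (hT : Q ≤ T) :
    (C ⊓ T) /ᵍ Q = (K ⊓ T) /ᵍ Q ⊓ 𝓒(P /ᵍ Q) := by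
  have h1 := H.nrm.le_normalizer
  refine le_antisymm (le_inf (quo_mono Q (inf_le_inf_right _ H.leK)) (cent_symm
    (quo_cent_of_comm_le H.nQ (inf_le_left.trans (H.leK.trans h1)) (commutator_le.2
      fun x hx c hc => ((H.mem c).1 hc.1).2 x hx)))) fun q hq => ?_
  obtain ⟨k, hk, rfl⟩ := (mem_mim_of_le (inf_le_left.trans h1)).1 hq.1
  refine mel_mem_mim _ ⟨(H.mem k).2 ⟨hk.1, fun x hx => ?_⟩, hk.2⟩
  exact comm_le_of_quo_cent H.nQ (zpowers_le.2 (h1 hk.1)) (cent_symm (by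
    rw [mim_zpowers _ (h1 hk.1)]; exact zpowers_le.2 hq.2))
    (commutator_mem_commutator hx (mem_zpowers k))

theorem quo_hyp (hθ : θ ∈ irr Q) (hs : P ≤ stab θ) : IsPGroup p (P /ᵍ Q) ∧
    P /ᵍ Q ≤ 𝓝((K ⊓ stab θ) /ᵍ Q) ∧ ¬ p ∣ ♯((K ⊓ stab θ) /ᵍ Q) ∧
      (C ⊓ stab θ) /ᵍ Q = (K ⊓ stab θ) /ᵍ Q ⊓ 𝓒(P /ᵍ Q) :=
  ⟨isPGroup_mim _ H.pP, norm_quo Q (norm_inf H.nK (hs.trans le_normalizer)), fun h => H.idx (by
    rw [card_quo (inf_le_left.trans H.nrm.le_normalizer)] at h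
    exact h.trans (relIndex_dvd_of_norm H.nrm.le_normalizer inf_le_left)),
    H.quo_eq _ (le_stab (irr_CInv hθ))⟩

theorem rel_exists (h : χ ∈ irr K) (hs : P ≤ stab χ) : ∃ ξ ∈ irr C, P ≤ stab ξ ∧ GR p C χ ξ ∧
    (∀ m : ℕ, dot C χ ξ = m → (m : ℤ) ≡ 1 [ZMOD p] ∨ (m : ℤ) ≡ -1 [ZMOD p]) ∧
    ∀ ξ' ∈ irr C, P ≤ stab ξ' → GR p C χ ξ' → ξ' = ξ := by
  have := Fintype.ofFinite (QT Q)
  obtain ⟨θ, h1, h2, h3⟩ := H.under H.nrm.le le_rfl H.nK h hs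
  obtain ⟨η, h4, h5, h6⟩ := H.canon h1 h2
  obtain ⟨a, b, c, d⟩ := H.quo_hyp h1 h2
  obtain ⟨β, h7, rfl⟩ := lift_surj H.nrm h1 h4 h5 H.nrm.le le_rfl h h3
  have h8 := (stab_lift H.nrm h1 h4 h5 H.nrm.le le_rfl H.nK H.nQ h2 h6 h7).1 hs
  obtain ⟨γ, h9, h10⟩ := gr_exists a b c d h7 h8
  have h11 := dot_lift H.nrm h1 h4 h5 H.leC H.leK le_rfl h7 h9
  refine ⟨lift Q θ η C γ, (lift_irr H.nrm h1 h4 h5 H.leC H.leK h9).1,
    (stab_lift H.nrm h1 h4 h5 H.leC H.leK H.nC H.nQ h2 h6 h9).2 fun q hq =>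
      cent_le_stab (irr_on h9) (cent_symm (d ▸ inf_le_right) hq), by rwa [GR, h11],
    fun m hm => ?_, fun ξ' h12 h13 h14 => ?_⟩
  · obtain ⟨m', h12, h13⟩ := h10
    rw [h11] at hm
    exact gr_sign a b c d h7 h8 h9 hm (by rwa [Nat.cast_injective (hm.symm.trans h12)])
  · obtain ⟨γ', h15, rfl⟩ := lift_surj H.nrm h1 h4 h5 H.leC H.leK h12
      (H.common h h12 h13 h1 h2 h3 h14.ne)
    rw [GR, dot_lift H.nrm h1 h4 h5 H.leC H.leK le_rfl h7 h15] at h14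
    rw [gr_unique a b c d h7 h8 h15 h9 h14 h10]

theorem rel_surj (h : ξ ∈ irr C) (hs : P ≤ stab ξ) : ∃ χ ∈ irr K, P ≤ stab χ ∧ GR p C χ ξ ∧
    ∀ χ' ∈ irr K, P ≤ stab χ' → GR p C χ' ξ → χ' = χ := by
  have := Fintype.ofFinite (QT Q)
  obtain ⟨θ, h1, h2, h3⟩ := H.under H.leC H.leK H.nC h hs
  obtain ⟨η, h4, h5, h6⟩ := H.canon h1 h2
  obtain ⟨a, b, c, d⟩ := H.quo_hyp h1 h2
  obtain ⟨γ, h7, rfl⟩ := lift_surj H.nrm h1 h4 h5 H.leC H.leK h h3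
  obtain ⟨β, h8, h9, h10⟩ := gr_surj a b c d h7
  refine ⟨lift Q θ η K β, (lift_irr H.nrm h1 h4 h5 H.nrm.le le_rfl h8).1,
    (stab_lift H.nrm h1 h4 h5 H.nrm.le le_rfl H.nK H.nQ h2 h6 h8).2 h9,
    by rwa [GR, dot_lift H.nrm h1 h4 h5 H.leC H.leK le_rfl h8 h7], fun χ' h11 h12 h13 => ?_⟩
  obtain ⟨β', h14, rfl⟩ := lift_surj H.nrm h1 h4 h5 H.nrm.le le_rfl h11
    (dot_ne_trans H.leC H.leK (irr_char h11) h (irr_char h1) h13.ne h3)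
  rw [GR, dot_lift H.nrm h1 h4 h5 H.leC H.leK le_rfl h14 h7] at h13
  rw [gr_inj a b c d h14 ((stab_lift H.nrm h1 h4 h5 H.nrm.le le_rfl H.nK H.nQ h2 h6 h14).1 h12)
    h8 h9 h7 h13 h10]

theorem deg (h : χ ∈ irr K) (hs : P ≤ stab χ) (hξ : ξ ∈ irr C) (hs' : P ≤ stab ξ)
    (hu : ∀ ξ' ∈ irr C, P ≤ stab ξ' → GR p C χ ξ' → ξ' = ξ) {m : ℕ} (hm : dot C χ ξ = m) :
    (charDegree χ : ZMod p) = m * charDegree ξ := by
  classical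
  obtain ⟨n, h1, h2⟩ := ((irr_char h).Res H.leK).expand
  have h0 : ∀ φ ∈ irr C, dot C χ φ = n φ := fun φ hφ => by
    rw [← h1 φ hφ, dot_Res_left (irr_on hφ)]
  have h3 : charDegree χ = ∑ φ ∈ irr C, n φ * charDegree φ := H12Gl4.deg_eq (by
    rw [← Res_one C χ, h2, Finset.sum_apply, Nat.cast_sum]
    refine Finset.sum_congr rfl fun φ hφ => ?_
    obtain ⟨d, -, hd⟩ := irr_one_pos hφ
    rw [H12Gl4.deg_eq hd, Pi.smul_apply, hd, nsmul_eq_mul, Nat.cast_mul])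
  rw [h3, Nat.cast_sum, sum_fixed (ZMod.natCast_self p) H.pP
    (fun u hu φ hφ => irr_cj (conj_iff_of_norm (H.nC hu)) hφ)
    (fun φ => ((n φ * charDegree φ : ℕ) : ZMod p)) fun u hu φ hφ => by
      have h4 := h0 _ (irr_cj (conj_iff_of_norm (H.nC hu)) hφ)
      rw [← mem_stab.1 (hs hu), dot_cj, h0 φ hφ] at h4
      rw [← Nat.cast_injective h4, charDegree, charDegree, cj_apply_one],
    Finset.sum_eq_single_of_mem ξ (Finset.mem_filter.2 ⟨hξ, hs'⟩) fun φ hφ hne => by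
      obtain ⟨h4, h5⟩ := Finset.mem_filter.1 hφ
      rw [Nat.cast_mul, (ZMod.natCast_eq_zero_iff _ _).2 (not_not.1 fun h6 =>
        hne (hu φ h4 h5 ⟨_, h0 φ h4, h6⟩)), zero_mul],
    Nat.cast_mul, Nat.cast_injective ((h0 ξ hξ).symm.trans hm)]

end Hyp

end CA.H12Rel
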