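import Cfsg.Agent.Lib.Char.H10RP
import Cfsg.Agent.Lib.Char.H10Real
import Cfsg.Agent.Lib.Char.H12Rel

/-!
# Real characters of `p'`-degree of a group and of its Sylow normalizer
-/

set_option autoImplicit false
set_option linter.unusedSectionVars false
set_option linter.unusedVariables false

namespace CA.H10RP2
open Cfsg CA.PF CA.OQuo CA.H12Gl CA.H12Gl2 CA.H12Deg CA.H12Rel CA.H10Real Subgroup Function
open CA.BG hiding cj cj_one cj_mul cj_inv_cj cj_cj_inv mem_cent1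
open scoped ComplexConjugate commutatorElement

theorem real_over0 {G : Type*} [Group G] [Fintype G] {N : Subgroup G} [N.Normal] [Fintype N]
    (ho : Odd N.index) {θ : N → ℂ} (hθ : IsIrrCharacter N θ) (hr : ∀ n, (θ n).im = 0) :
    ∃ χ, IsIrrCharacter G χ ∧ (∀ g, (χ g).im = 0) ∧ classInner (fun n : N => χ n) θ = 1 := by
  classical
  have hT := CA.Clif.le_inertia (CChar.CharFun.irr_classFun hθ)
  have ho' : Odd (N.subgroupOf (CA.Clif.inertia θ)).index :=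
    ho.of_dvd_nat (Subgroup.relIndex_dvd_index_of_le hT)
  obtain ⟨η, a, b, c⟩ := CA.H10FS.ext_real ho' ((CA.Clif.so_irr_iff hT).2 hθ)
    (CA.Ext.inertia_so_eq_top hT le_rfl) fun _ => hr _
  have e : (fun n : N => η ⟨n, hT n.2⟩) = θ := funext fun n => b ⟨⟨n, hT n.2⟩, n.2⟩
  have e1 : classInner (fun n : N => η ⟨n, hT n.2⟩) θ = 1 := by
    rw [e]; exact CChar.CharFun.inner_irr_self hθ
  obtain ⟨h1, h2⟩ := CA.Clif.corr_irr hT hθ rfl a (by rw [e1]; exact one_ne_zero)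
  refine ⟨_, h1, CChar.CharProd.conj_eq_iff_im.1 ?_, h2.trans e1⟩
  rw [← CA.Ind.indFun_conj, CChar.CharProd.conj_eq_iff_im.2 c]

variable {Γ : Type*} [Group Γ] [Fintype Γ] {K N U S T P Q C : Subgroup Γ}
  {χ χ' ξ ξ' β θ φ ψ : Γ → ℂ} {p : ℕ}

theorem star_iff (h : χ ∈ cfOn (K : Set Γ)) : star χ = χ ↔ ∀ k : K, (χ k).im = 0 :=
  ⟨fun e k => Complex.conj_eq_iff_im.1 (congrFun e k), fun e => funext fun x => by
    by_cases hx : x ∈ K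
    · exact Complex.conj_eq_iff_im.2 (e ⟨x, hx⟩)
    · simp [h x hx]⟩

theorem real_over (hN : Nrm N K) (ho : ¬ 2 ∣ N.relIndex K) (hθ : θ ∈ irr N) (hr : star θ = θ) :
    ∃ χ ∈ irr K, star χ = χ ∧ dot N χ θ = 1 ∧
      ∀ ψ ∈ irr K, star ψ = ψ → dot N ψ θ ≠ 0 → ψ = χ := by
  classical
  haveI := Fintype.ofFinite K
  haveI := Fintype.ofFinite (N.subgroupOf K)
  haveI : (N.subgroupOf K).Normal := normal_subgroupOf_of_le_normalizer hN.le_normalizer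
  have ho' : Odd (N.subgroupOf K).index := Nat.not_even_iff_odd.1 fun h => ho h.two_dvd
  have h1 := res_irr hN.le (η := θ) (by rwa [Res_eq_self (irr_on hθ)])
  have h2 : ∀ n : N.subgroupOf K, (θ n).im = 0 := fun n => Complex.conj_eq_iff_im.1 (congrFun hr n)
  obtain ⟨χ, a, b, c⟩ := real_over0 ho' h1 h2
  have e : ∀ φ, dot N φ θ = classInner (fun n : N.subgroupOf K => φ n)
      (fun n : N.subgroupOf K => θ n) := fun φ => by
    rw [← dot_eq_sub hN.le, dot_Res_left (irr_on hθ)]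
  refine ⟨extendByZero K χ, ext_mem_irr.2 a, (star_iff (ext_on K χ)).2 fun k => by
    rw [CA.Ind.ext_coe]; exact b k, ?_, fun ψ d f g => ?_⟩
  · rw [e, ← c]; simp only [CA.Ind.ext_coe]
  · rw [← ext_res_of_on (irr_on d)]
    congr 1
    exact CA.H10FS.real_unique ho' h1 h2 (mem_irr.1 d).2 a ((star_iff (irr_on d)).1 f) b
      (by rwa [e] at g) (by rw [c]; exact one_ne_zero)

theorem conj_norm (hp : p.Prime) (hK : Nrm K U) (hS : Syl p S U) (hχ : χ ∈ irr U)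
    (h4 : θ ∈ irr K) (h5 : S ≤ stab θ) (h6 : dot K χ θ ≠ 0) (h7 : φ ∈ irr K) (h8 : S ≤ stab φ)
    (h9 : dot K χ φ ≠ 0) : ∃ g ∈ U ⊓ 𝓝(S), φ = cj g θ := by
  obtain ⟨g, hg, rfl⟩ := mem_cfclass.1 (mem_cfclass_of_common hK hχ h4 h6 h7 h9)
  obtain ⟨t, ht, h10⟩ := Hall.syl_conj ((hS.cj_mem hg).of_le (le_inf (hS.cj_mem hg).le
    fun _ ⟨x, hx, e⟩ => e ▸ mem_stab_cj.1 (h8 hx)) inf_le_left) hp
    (hS.of_le (le_inf hS.le h5) inf_le_left)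
  exact ⟨t * g, ⟨mul_mem ht.1 hg, mem_norm_iff_cj.2 (by rw [CA.BG.cj_mul, h10])⟩,
    by rw [← cj_cj, mem_stab.1 ht.2]⟩

theorem exists_inv (hp : p.Prime) (hK : Nrm K U) (hS : Syl p S U) (hχ : χ ∈ irr U)
    (hd : ¬ p ∣ charDegree χ) : ∃ θ ∈ irr K, S ≤ stab θ ∧ dot K χ θ ≠ 0 := by
  obtain ⟨θ, h5, h6⟩ := exists_irr_under hK.le hχ
  obtain ⟨T, hT⟩ := syl_exists hp (U ⊓ stab θ)
  obtain ⟨g, hg, h7⟩ := hS.syl_conj hp (hT.of_idx inf_le_left ((piNat_compl_iff hp).2 fun h =>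
    hd ((inf_relIndex_left U (stab θ) ▸ h).trans ((dvd_mul_right _ _).trans
      (relIndex_stab_dvd hK hχ h5 h6)))))
  exact ⟨_, hK.irr_cj hg h5, fun x hx =>
    mem_stab_cj.2 (hT.le (h7 ▸ conj_mem_cj.2 hx)).2, by rwa [dot_cj_of_CInv (irr_CInv hχ) hg]⟩

theorem norm_idx [hp : Fact p.Prime] (hS : Syl p S U) : ((𝓝(S).relIndex U : ℕ) : ZMod p) = 1 := by
  let S' : Sylow p U := (hS.pi.isPGroup hp.out).comap_subtype.toSylow (hS.not_dvd hp.out)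
  have h1 := card_sylow_modEq_one p U
  rw [S'.card_eq_index_normalizer] at h1
  have e : 𝓝((S' : Subgroup U)) = 𝓝(S).subgroupOf U := (subgroupOf_normalizer_eq hS.le).symm
  rw [relIndex, ← e]
  exact_mod_cast (ZMod.natCast_eq_natCast_iff _ _ _).2 h1

theorem idx_congr [hp : Fact p.Prime] (hS : Syl p S ⊤) (hT : S ≤ T) :
    ((T.relIndex ⊤ : ℕ) : ZMod p) = T.relIndex 𝓝(S) := by
  have a := relIndex_mul_relIndex (T ⊓ 𝓝(S)) T ⊤ inf_le_left le_top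
  have b := relIndex_mul_relIndex (T ⊓ 𝓝(S)) 𝓝(S) ⊤ inf_le_right le_top
  rw [inf_relIndex_left, ← b, inf_relIndex_right] at a
  have := congrArg (Nat.cast : ℕ → ZMod p) a
  rwa [Nat.cast_mul, Nat.cast_mul, norm_idx hS, norm_idx (hS.of_le hT le_top), one_mul,
    mul_one] at this

/-- The correspondence. -/
def Rel (p : ℕ) (P K : Subgroup Γ) (χ ξ : Γ → ℂ) : Prop :=
  ∃ θ ∈ irr K, ∃ β ∈ irr (K ⊓ 𝓝(P)), star θ = θ ∧ star β = β ∧ P ≤ stab θ ∧ P ≤ stab β ∧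
    GR p (K ⊓ 𝓝(P)) θ β ∧ dot K χ θ ≠ 0 ∧ dot (K ⊓ 𝓝(P)) ξ β ≠ 0

section main
variable [hp : Fact p.Prime] (hK : Nrm K ⊤) (ho : ¬ 2 ∣ K.relIndex ⊤) (hP : Syl p P ⊤)
  (hn : Nrm (K ⊓ P) K)
include hK hP hn

theorem hyp : Hyp p P K (K ⊓ P) (K ⊓ 𝓝(P)) where
  pP := hP.pi.isPGroup hp.out
  nK := le_top.trans hK.le_normalizer
  nrm := hn
  pQ := (hP.pi.isPGroup hp.out).to_inf_right
  idx := by
    haveI : K.Normal := ⟨fun a ha g => hK.2 g trivial a ha⟩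
    rw [inf_relIndex_left]
    exact fun h => hP.not_dvd hp.out (h.trans
      (relIndex_top_right P ▸ CA.H10RP.relIndex_dvd_index P K))
  mem k := by
    refine ⟨fun ⟨h1, h2⟩ => ⟨h1, fun x hx => ⟨mul_mem (hK.2 x trivial k h1) (K.inv_mem h1), ?_⟩⟩,
      fun ⟨h1, h2⟩ => ⟨h1, ?_⟩⟩
    · have := mul_mem hx (conj_mem_of_mem_norm h2 (inv_mem hx))
      simpa [mul_assoc] using this
    · refine mem_normalizer_fintype fun x hx => ?_
      have := mul_mem hx (h2 x⁻¹ (inv_mem hx)).2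
      simpa [mul_assoc] using this

omit hP hn in
theorem nrmC : Nrm (K ⊓ 𝓝(P)) 𝓝(P) := by
  have := nrm_inf hK 𝓝(P)
  rwa [top_inf_eq] at this

omit hP hn in
include ho in
theorem oddC : ¬ 2 ∣ (K ⊓ 𝓝(P)).relIndex 𝓝(P) := by
  haveI : K.Normal := ⟨fun a ha g => hK.2 g trivial a ha⟩
  rw [inf_relIndex_right]
  exact fun h => ho (h.trans (relIndex_top_right K ▸ relIndex_dvd_index_of_normal K _))

omit hP hn in
theorem stab_norm {g : Γ} (hg : g ∈ 𝓝(P)) (h : P ≤ stab θ) : P ≤ stab (cj g θ) := fun x hx =>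
  mem_stab_cj.2 (h (conj_mem_of_mem_norm hg hx))

theorem gr_left (h1 : θ ∈ irr K) (h2 : P ≤ stab θ) (h3 : φ ∈ irr K) (h4 : P ≤ stab φ)
    (h5 : β ∈ irr (K ⊓ 𝓝(P))) (h6 : P ≤ stab β) (e : GR p (K ⊓ 𝓝(P)) θ β)
    (e' : GR p (K ⊓ 𝓝(P)) φ β) : θ = φ := by
  obtain ⟨_, -, -, -, h⟩ := (hyp hK hP hn).rel_surj h5 h6
  rw [h _ h1 h2 e, h _ h3 h4 e']

theorem gr_right (h1 : θ ∈ irr K) (h2 : P ≤ stab θ) (h3 : β ∈ irr (K ⊓ 𝓝(P))) (h4 : P ≤ stab β)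
    (h5 : φ ∈ irr (K ⊓ 𝓝(P))) (h6 : P ≤ stab φ) (e : GR p (K ⊓ 𝓝(P)) θ β)
    (e' : GR p (K ⊓ 𝓝(P)) θ φ) : β = φ := by
  obtain ⟨_, -, -, -, -, h⟩ := (hyp hK hP hn).rel_exists h1 h2
  rw [h _ h3 h4 e, h _ h5 h6 e']

omit hK hP hn in
theorem stab_star (h : P ≤ stab θ) : P ≤ stab (star θ) := fun x hx => by
  rw [mem_stab, cj_star, mem_stab.1 (h hx)]

include ho

theorem rel_exists (hχ : χ ∈ irr (⊤ : Subgroup Γ)) (hr : star χ = χ) (hd : ¬ p ∣ charDegree χ) :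
    ∃ ξ ∈ irr 𝓝(P), star ξ = ξ ∧ Rel p P K χ ξ ∧ ((charDegree ξ : ZMod p) = charDegree χ ∨
      (charDegree ξ : ZMod p) = -charDegree χ) := by
  obtain ⟨θ, h1, h2, h3⟩ := exists_inv hp.out hK hP hχ hd
  have h4 := real_under hK hχ hr h1 h3 fun h =>
    ho (h.trans (relIndex_dvd_of_le_left _ (le_stab (irr_CInv h1))))
  obtain ⟨β, h5, h6, h7, h8, h9⟩ := (hyp hK hP hn).rel_exists h1 h2
  have h10 : star β = β := h9 _ (irr_star h5) (stab_star h6) (by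
    have := h7.aut (starRingEnd ℂ) h5
    rwa [aut_conj, aut_conj, h4] at this)
  obtain ⟨ξ, h11, h12, h13, -⟩ := real_over (nrmC hK) (oddC hK ho) h5 h10
  refine ⟨ξ, h11, h12, ⟨θ, h1, β, h5, h4, h10, h2, h6, h7, h3, by rw [h13]; exact one_ne_zero⟩, ?_⟩
  obtain ⟨χ', h14, -, h15, h16⟩ := real_over hK ho h1 h4
  obtain rfl := h16 χ hχ hr h3
  have e1 := clifford_one hK hχ h1 h3
  have e2 := clifford_one (nrmC hK) h11 h5 (by rw [h13]; exact one_ne_zero)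
  rw [h15, one_mul, irr_deg hχ, irr_deg h1] at e1
  rw [h13, one_mul, irr_deg h11, irr_deg h5] at e2
  have e3 : (stab β).relIndex 𝓝(P) = (stab θ).relIndex 𝓝(P) := by
    rw [← inf_relIndex_right (stab β), ← inf_relIndex_right (stab θ)]
    congr 1
    ext g
    refine and_congr_left fun hg => ⟨fun h => ?_, fun h => ?_⟩
    · exact gr_left hK hP hn (hK.irr_cj trivial h1) (stab_norm hK hg h2) h1 h2 h5 h6
        (mem_stab.1 h ▸ h7.cj g) h7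
    · exact h9 _ ((nrmC hK).irr_cj hg h5) (stab_norm hK hg h6) (mem_stab.1 h ▸ h7.cj g)
  obtain ⟨m, hm, -⟩ := id h7
  have e4 := (hyp hK hP hn).deg h1 h2 h5 h6 h9 hm
  have e1' : charDegree χ = (stab θ).relIndex ⊤ * charDegree θ := by exact_mod_cast e1
  have e2' : charDegree ξ = (stab β).relIndex 𝓝(P) * charDegree β := by exact_mod_cast e2
  rw [e1', e2', e3, Nat.cast_mul, Nat.cast_mul, idx_congr hP h2, e4]
  rcases h8 m hm with h | h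
  · have : (m : ZMod p) = 1 := by exact_mod_cast (ZMod.intCast_eq_intCast_iff _ _ _).2 h
    simp [this]
  · have : (m : ZMod p) = -1 := by exact_mod_cast (ZMod.intCast_eq_intCast_iff _ _ _).2 h
    simp [this]

theorem rel_surj (hξ : ξ ∈ irr 𝓝(P)) (hr : star ξ = ξ) (hd : ¬ p ∣ charDegree ξ) :
    ∃ χ ∈ irr (⊤ : Subgroup Γ), star χ = χ ∧ Rel p P K χ ξ := by
  obtain ⟨β, h1, h2, h3⟩ := exists_inv hp.out (nrmC hK) (hP.of_le le_normalizer le_top) hξ hd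
  have h4 := real_under (nrmC hK) hξ hr h1 h3 fun h =>
    oddC hK ho (h.trans (relIndex_dvd_of_le_left _ (le_stab (irr_CInv h1))))
  obtain ⟨θ, h5, h6, h7, h9⟩ := (hyp hK hP hn).rel_surj h1 h2
  have h10 : star θ = θ := h9 _ (irr_star h5) (stab_star h6) (by
    have := h7.aut (starRingEnd ℂ) h1
    rwa [aut_conj, aut_conj, h4] at this)
  obtain ⟨χ, h11, h12, h13, -⟩ := real_over hK ho h5 h10
  exact ⟨χ, h11, h12, θ, h5, β, h1, h10, h4, h6, h2, h7, by rw [h13]; exact one_ne_zero, h3⟩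

theorem rel_left (hξ : ξ ∈ irr 𝓝(P)) (hχ : χ ∈ irr (⊤ : Subgroup Γ)) (hr : star χ = χ)
    (hχ' : χ' ∈ irr (⊤ : Subgroup Γ)) (hr' : star χ' = χ') (h : Rel p P K χ ξ)
    (h' : Rel p P K χ' ξ) : χ = χ' := by
  obtain ⟨θ, a1, β, a2, a3, a4, a5, a6, a7, a8, a9⟩ := h
  obtain ⟨θ', b1, β', b2, b3, b4, b5, b6, b7, b8, b9⟩ := h'
  obtain ⟨g, hg, rfl⟩ := mem_cfclass.1 (mem_cfclass_of_common (nrmC hK) hξ a2 a9 b2 b9)
  obtain rfl := gr_left hK hP hn (hK.irr_cj trivial a1) (stab_norm hK hg a5) b1 b5 b2 b6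
    (a7.cj g) b7
  obtain ⟨_, -, -, -, h⟩ := real_over hK ho a1 a3
  rw [h _ hχ hr a8, h _ hχ' hr' (by rwa [dot_cj_of_CInv (irr_CInv hχ') trivial] at b8)]

theorem rel_right (hχ : χ ∈ irr (⊤ : Subgroup Γ)) (hξ : ξ ∈ irr 𝓝(P)) (hr : star ξ = ξ)
    (hξ' : ξ' ∈ irr 𝓝(P)) (hr' : star ξ' = ξ') (h : Rel p P K χ ξ)
    (h' : Rel p P K χ ξ') : ξ = ξ' := by
  obtain ⟨θ, a1, β, a2, a3, a4, a5, a6, a7, a8, a9⟩ := h
  obtain ⟨θ', b1, β', b2, b3, b4, b5, b6, b7, b8, b9⟩ := h'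
  obtain ⟨g, ⟨-, hg⟩, rfl⟩ := conj_norm hp.out hK hP hχ a1 a5 a8 b1 b5 b8
  obtain rfl := gr_right hK hP hn b1 b5 ((nrmC hK).irr_cj hg a2) (stab_norm hK hg a6) b2 b6
    (a7.cj g) b7
  obtain ⟨_, -, -, -, h⟩ := real_over (nrmC hK) (oddC hK ho) a2 a4
  rw [h _ hξ hr a9, h _ hξ' hr' (by rwa [dot_cj_of_CInv (irr_CInv hξ') hg] at b9)]

/-- The bijection between the real characters of `p'`-degree. -/
theorem exists_bij (hR : CA.H10RP.RP p Γ) : ∃ f : {χ : IrrCharacter Γ // ∀ g, (χ.1 g).im = 0} →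
    {ξ : IrrCharacter 𝓝(P) // (∀ g, (ξ.1 g).im = 0) ∧ ¬ p ∣ charDegree ξ.1}, Bijective f ∧
    ∀ χ, (charDegree (f χ).1.1 : ZMod p) = charDegree χ.1.1 ∨
      (charDegree (f χ).1.1 : ZMod p) = -charDegree χ.1.1 := by
  have h0 : ∀ (χ : 𝓝(P) → ℂ), charDegree (extendByZero 𝓝(P) χ) = charDegree χ :=
    fun χ => deg_congr (CA.Ind.ext_one _ _)
  have h1 : ∀ {χ : Γ → ℂ}, star χ = χ ↔ ∀ g, (χ g).im = 0 := fun {χ} =>
    ⟨fun e k => Complex.conj_eq_iff_im.1 (congrFun e k), fun e => funext fun x =>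
      Complex.conj_eq_iff_im.2 (e x)⟩
  have h2 : ∀ {χ : 𝓝(P) → ℂ}, star (extendByZero 𝓝(P) χ) = extendByZero 𝓝(P) χ ↔
      ∀ g, (χ g).im = 0 := fun {χ} => by
    rw [star_iff (ext_on _ χ)]; simp only [CA.Ind.ext_coe]
  have key : ∀ χ : {χ : IrrCharacter Γ // ∀ g, (χ.1 g).im = 0},
      ∃ ξ : {ξ : IrrCharacter 𝓝(P) // (∀ g, (ξ.1 g).im = 0) ∧ ¬ p ∣ charDegree ξ.1},
      Rel p P K χ.1.1 (extendByZero _ ξ.1.1) ∧ ((charDegree ξ.1.1 : ZMod p) = charDegree χ.1.1 ∨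
        (charDegree ξ.1.1 : ZMod p) = -charDegree χ.1.1) := fun χ => by
    obtain ⟨ξ, a, b, c, d⟩ := rel_exists hK ho hP hn (mem_irr_top.2 χ.1.2) (h1.2 χ.2) (hR _ χ.2)
    obtain ⟨ξ, rfl⟩ := exists_ext a
    rw [h0] at d
    refine ⟨⟨ξ, h2.1 b, fun h => hR _ χ.2 ?_⟩, c, d⟩
    rw [← ZMod.natCast_eq_zero_iff] at h ⊢
    rcases d with d | d
    · rw [← d, h]
    · rw [← neg_eq_zero, ← d, h]
  choose f h3 h4 using key
  refine ⟨f, ⟨fun χ χ' e => ?_, fun ξ => ?_⟩, h4⟩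
  · have h5 := h3 χ'
    rw [← e] at h5
    exact Subtype.ext (Subtype.ext (rel_left hK ho hP hn
      (ext_mem_irr.2 (f χ).1.2) (mem_irr_top.2 χ.1.2) (h1.2 χ.2) (mem_irr_top.2 χ'.1.2)
      (h1.2 χ'.2) (h3 χ) h5))
  obtain ⟨χ, a, b, c⟩ := rel_surj hK ho hP hn (ext_mem_irr.2 ξ.1.2) (h2.2 ξ.2.1)
    (by rw [h0]; exact ξ.2.2)
  obtain ⟨χ', h5⟩ : ∃ χ' : {χ : IrrCharacter Γ // ∀ g, (χ.1 g).im = 0}, χ'.1.1 = χ :=
    ⟨⟨⟨χ, mem_irr_top.1 a⟩, h1.1 b⟩, rfl⟩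
  have h6 := h3 χ'
  rw [h5] at h6
  have h7 := rel_right hK ho hP hn a (ext_mem_irr.2 (f χ').1.2) (h2.2 (f χ').2.1)
    (ext_mem_irr.2 ξ.1.2) (h2.2 ξ.2.1) h6 c
  exact ⟨χ', Subtype.ext (Subtype.ext (ext_injective _ h7))⟩

end main

theorem odd_K2 : ¬ 2 ∣ (CA.H10RP.K2 Γ).relIndex ⊤ := by
  haveI : Fact (Nat.Prime 2) := ⟨Nat.prime_two⟩
  obtain ⟨S⟩ : Nonempty (Sylow 2 Γ) := inferInstance
  rw [relIndex_top_right]
  refine fun h => S.not_dvd_index (h.trans (index_dvd_of_le fun x hx => subset_closure ?_))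
  obtain ⟨k, hk⟩ := IsPGroup.iff_orderOf.1 S.isPGroup' ⟨x, hx⟩
  exact ⟨k, by rw [← hk, ← orderOf_coe]⟩

theorem nrm_inf_K2 [hp : Fact p.Prime]
    (hs : Group.IsSolvable (closure {g : Γ | ∃ k : ℕ, orderOf g = p ^ k})) (hR : CA.H10RP.RP p Γ)
    (P : Sylow p Γ) : (CA.H10RP.K2 Γ ⊓ P).Normal := by
  haveI := CA.H10RP.normal_closure_pow (G := Γ) 2
  refine CA.H10RP.normal_aux _ Γ rfl hR (CA.H10RP.K2 Γ) _ _ this
    (fun u hu => ⟨0, by simpa using hu⟩) inf_le_left P.isPGroup'.to_inf_right ?_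
    (CA.H10RP.normal_closure_pow p) hs fun x hx => subset_closure ?_
  · rw [inf_relIndex_left]
    exact fun h => P.not_dvd_index (h.trans (CA.H10RP.relIndex_dvd_index _ _))
  · obtain ⟨k, hk⟩ := IsPGroup.iff_orderOf.1 P.isPGroup' ⟨x, hx.2⟩
    exact ⟨k, by rw [← hk, ← orderOf_coe]⟩

end CA.H10RP2
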