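import Cfsg.Agent.Lib.Char.H12Misc
import Cfsg.Agent.Lib.Char.Clif
import Cfsg.Agent.Lib.Char.Cons
import Cfsg.Agent.Lib.Char.BPerm
import Cfsg.Agent.Lib.Grp.PGBasic

/-! Gagola characters: irreducible characters nonzero on exactly two classes. -/

set_option autoImplicit false
set_option linter.unusedSectionVars false
open Cfsg

namespace CA.H12Gag

open CChar.CharRep CChar.CharFun CChar.CharOrth CChar.CharKer CChar.CharInt CChar.CharGen
  CChar.CharMisc CChar.CharProd CA.H12Misc Subgroup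
open scoped ComplexConjugate commutatorElement

variable {G : Type*} [Group G] [Finite G] {χ ψ : G → ℂ} {x g : G} {N : Subgroup G}

/-- `χ` is nonzero exactly at `1` and on the class of `x`. -/
structure Gag (χ : G → ℂ) (x : G) : Prop where
  irr : IsIrrCharacter G χ
  big : 2 < Nat.card G
  ne : x ≠ 1
  iff : ∀ g, χ g ≠ 0 ↔ g = 1 ∨ IsConj x g

theorem exists_gag (hG : 2 < Nat.card G) (χ : IrrCharacter G)
    (h : Nat.card {C : ConjClasses G // ∃ g ∈ C.carrier, (χ : G → ℂ) g ≠ 0} = 2) :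
    ∃ x, Gag χ.1 x := by
  let o : {C : ConjClasses G // ∃ g ∈ C.carrier, (χ : G → ℂ) g ≠ 0} :=
    ⟨ConjClasses.mk 1, 1, ConjClasses.mem_carrier_mk, irr_apply_one_ne_zero χ.2⟩
  obtain ⟨⟨C, x, hx, h0⟩, h1, h2⟩ := (Nat.card_eq_two_iff' o).1 h
  obtain rfl := ConjClasses.mem_carrier_iff_mk_eq.1 hx
  refine ⟨x, χ.2, hG, fun e => h1 (Subtype.ext (by simp [o, e])), fun g => ⟨fun hg => ?_, ?_⟩⟩
  · by_cases e : g = 1
    · exact Or.inl e
    · have := h2 ⟨ConjClasses.mk g, g, ConjClasses.mem_carrier_mk, hg⟩ fun e' => e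
        (isConj_one_left.1 (ConjClasses.mk_eq_mk_iff_isConj.1 (congrArg Subtype.val e')))
      exact Or.inr (ConjClasses.mk_eq_mk_iff_isConj.1 (congrArg Subtype.val this)).symm
  · rintro (rfl | e)
    · exact irr_apply_one_ne_zero χ.2
    · rwa [← classFun_of_isConj (irr_classFun χ.2) e]

namespace Gag

variable (H : Gag χ x)
include H

theorem sum_eq [Fintype G] {f : G → ℂ} (hf : IsClassFunction G f) :
    ∑ g, f g * conj (χ g) = f 1 * conj (χ 1) + (centralizer {x}).index * (f x * conj (χ x)) := by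
  classical
  rw [← Finset.add_sum_erase _ _ (Finset.mem_univ 1), ← card_class_eq_index, ← nsmul_eq_mul,
    ← Finset.sum_const]
  congr 1
  symm
  refine (Finset.sum_congr rfl fun g hg => ?_).trans (Finset.sum_subset (fun g hg => ?_)
    fun g h1 h2 => ?_)
  · have := (Finset.mem_filter.1 hg).2
    rw [classFun_of_isConj hf this, classFun_of_isConj (irr_classFun H.irr) this]
  · refine Finset.mem_erase.2 ⟨?_, Finset.mem_univ _⟩
    rintro rfl
    exact H.ne (isConj_one_left.1 (Finset.mem_filter.1 hg).2)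
  · have : χ g = 0 := by
      by_contra h
      rcases (H.iff g).1 h with e | e
      · exact (Finset.mem_erase.1 h1).1 e
      · exact h2 (Finset.mem_filter.2 ⟨Finset.mem_univ _, e⟩)
    simp [this]

theorem ne_one : χ ≠ fun _ => 1 := by
  classical
  have := Fintype.ofFinite G
  intro e
  have h := H.sum_eq (f := fun _ => 1) (classFun_const 1)
  simp only [e, map_one, mul_one, Finset.sum_const, Finset.card_univ, nsmul_eq_mul,
    ← Nat.card_eq_fintype_card] at h
  have h1 : Nat.card G = 1 + (centralizer {x}).index := by exact_mod_cast h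
  have h2 := index_dvd_card (centralizer ({x} : Set G))
  rw [h1] at h2
  have := Nat.le_of_dvd one_pos ((Nat.dvd_add_left dvd_rfl).1 h2)
  have := H.big
  omega

theorem rel : χ 1 + (centralizer {x}).index * χ x = 0 := by
  have := Fintype.ofFinite G
  have h := H.sum_eq (f := fun _ => 1) (classFun_const 1)
  have h2 := congrArg conj (sum_irr_eq_zero H.irr H.ne_one)
  simp only [one_mul, map_sum, map_zero] at h h2
  simpa using congrArg conj (h.symm.trans h2)

theorem mem_ker (hψ : IsIrrCharacter G ψ) (h : ψ ≠ χ) : x ∈ charKer ψ := by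
  have := Fintype.ofFinite G
  have h1 := card_mul_inner ψ χ
  rw [inner_irr_of_ne hψ H.irr h, H.sum_eq (irr_classFun hψ)] at h1
  have h2 := congrArg conj H.rel
  simp only [map_add, map_mul, map_natCast, map_zero] at h2
  have h3 : conj (χ 1) ≠ 0 := by simpa using irr_apply_one_ne_zero H.irr
  refine (mem_charKer (char_of_irr hψ)).2 (mul_right_cancel₀ h3 ?_)
  linear_combination h1 + ψ x * h2

theorem ne_zero_of (h : ∀ ψ, IsIrrCharacter G ψ → ψ ≠ χ → g ∈ charKer ψ) : χ g ≠ 0 := by
  classical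
  have := Fintype.ofFinite G
  intro h0
  have hg : g ≠ 1 := fun e => irr_apply_one_ne_zero H.irr (e ▸ h0)
  have h1 := sum_degree_mul_apply g
  rw [regChar_of_ne hg, ← Finset.add_sum_erase _ _ (Finset.mem_univ ⟨χ, H.irr⟩)] at h1
  have h2 : ∑ ψ ∈ Finset.univ.erase (⟨χ, H.irr⟩ : IrrCharacter G), ψ.1 1 * ψ.1 g =
      ((∑ ψ ∈ Finset.univ.erase (⟨χ, H.irr⟩ : IrrCharacter G), charDegree ψ.1 ^ 2 : ℕ) : ℂ) := by
    push_cast
    refine Finset.sum_congr rfl fun ψ hψ => ?_
    rw [apply_of_mem_charKer (h ψ.1 ψ.2 fun e => (Finset.mem_erase.1 hψ).1 (Subtype.ext e)),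
      irr_apply_one_eq ψ.2, sq]
  simp only [h0, mul_zero, zero_add, h2, Nat.cast_eq_zero, Finset.sum_eq_zero_iff] at h1
  exact (pow_pos (charDegree_pos (irrOne G).2) 2).ne' (h1 (irrOne G) (Finset.mem_erase.2
    ⟨fun e => H.ne_one (congrArg Subtype.val e).symm, Finset.mem_univ _⟩))

theorem exists_N : ∃ N : Subgroup G, N.Normal ∧ ∀ g, g ∈ N ↔ χ g ≠ 0 := by
  refine ⟨⨅ ψ : {ψ : G → ℂ // IsIrrCharacter G ψ ∧ ψ ≠ χ}, charKer ψ.1,
    normal_iInf_normal fun _ => inferInstance, fun g => ⟨fun h => H.ne_zero_of fun ψ h1 h2 =>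
      mem_iInf.1 h ⟨ψ, h1, h2⟩, fun h => mem_iInf.2 fun ψ => ?_⟩⟩
  rcases (H.iff g).1 h with rfl | e
  · exact one_mem _
  · obtain ⟨c, rfl⟩ := isConj_iff.1 e
    exact Normal.conj_mem inferInstance _ (H.mem_ker ψ.2.1 ψ.2.2) c

theorem ker_eq : charKer χ = ⊥ := by
  refine (eq_bot_iff_forall _).2 fun g hg => ?_
  have h0 : χ g ≠ 0 := by rw [apply_of_mem_charKer hg]; exact irr_apply_one_ne_zero H.irr
  rcases (H.iff g).1 h0 with e | e
  · exact e
  · refine absurd (eq_one_of_forall_irr fun ψ hψ => apply_of_mem_charKer ?_) H.ne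
    by_cases e' : ψ = χ
    · obtain ⟨c, rfl⟩ := isConj_iff.1 e.symm
      exact e' ▸ Normal.conj_mem inferInstance _ hg c
    · exact H.mem_ker hψ e'

theorem mem_of_ne_bot (K : Subgroup G) [K.Normal] (hK : K ≠ ⊥) : x ∈ K := by
  by_contra h
  obtain ⟨ψ, h1, h2, h3⟩ := exists_irr_of_not_mem h
  by_cases e : ψ = χ
  · exact hK (le_bot_iff.1 (H.ker_eq ▸ e ▸ h2))
  · exact h3 (H.mem_ker h1 e)

theorem eq_of_faithful (hψ : IsIrrCharacter G ψ) (h : charKer ψ = ⊥) : ψ = χ := by
  by_contra e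
  exact H.ne (mem_bot.1 (h ▸ H.mem_ker hψ e))

variable (hN : ∀ g, g ∈ N ↔ χ g ≠ 0)
include hN

theorem mem_N : x ∈ N := (hN x).2 ((H.iff x).2 (Or.inr (IsConj.refl x)))

theorem isConj_of (h : g ∈ N) (h1 : g ≠ 1) : IsConj x g :=
  ((H.iff g).1 ((hN g).1 h)).resolve_left h1

theorem N_le (K : Subgroup G) [K.Normal] (hK : K ≠ ⊥) : N ≤ K := fun g hg => by
  by_cases e : g = 1
  · exact e ▸ one_mem _
  · obtain ⟨c, rfl⟩ := isConj_iff.1 (H.isConj_of hN hg e)
    exact Normal.conj_mem inferInstance _ (H.mem_of_ne_bot K hK) c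

theorem N_le_ker (hψ : IsIrrCharacter G ψ) (h : ψ ≠ χ) : N ≤ charKer ψ :=
  H.N_le hN _ fun e => h (H.eq_of_faithful hψ e)

theorem N_ne : N ≠ ⊥ := fun e => H.ne (mem_bot.1 (e ▸ H.mem_N hN))

theorem card_N : Nat.card N = 1 + (centralizer {x}).index := by
  classical
  have := Fintype.ofFinite G
  rw [← card_class_eq_index, Nat.card_eq_fintype_card, Fintype.card_subtype,
    show Finset.univ.filter (· ∈ N) = insert 1 (Finset.univ.filter (IsConj x)) from
      Finset.ext fun g => by simp only [Finset.mem_filter, Finset.mem_univ, true_and,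
        Finset.mem_insert, hN, H.iff], Finset.card_insert_of_notMem, add_comm]
  simpa using H.ne

theorem exists_prime : ∃ p : ℕ, p.Prime ∧ ∀ a ∈ N, a ^ p = 1 := by
  have h1 : orderOf x ≠ 1 := by simpa using H.ne
  obtain ⟨p, hp, k, hk⟩ := Nat.exists_prime_and_dvd h1
  have hk0 : k ≠ 0 := by rintro rfl; exact (orderOf_pos x).ne' hk
  have h2 : x ^ k ≠ 1 := fun e => by
    have := Nat.le_of_dvd (Nat.pos_of_ne_zero hk0) (orderOf_dvd_of_pow_eq_one e)
    have := hp.two_le
    nlinarith [Nat.pos_of_ne_zero hk0]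
  have h3 : (x ^ k) ^ p = 1 := by rw [← pow_mul, mul_comm, ← hk, pow_orderOf_eq_one]
  refine ⟨p, hp, fun a ha => ?_⟩
  by_cases e : a = 1
  · rw [e, one_pow]
  · obtain ⟨c, rfl⟩ := isConj_iff.1 ((H.isConj_of hN (pow_mem (H.mem_N hN) k) h2).symm.trans
      (H.isConj_of hN ha e))
    rw [conj_pow, h3]; simp

theorem comm [N.Normal] {p : ℕ} [Fact p.Prime] (hp : IsPGroup p N) : IsMulCommutative N := by
  have := hp.isNilpotent
  have := (nontrivial_iff_ne_bot N).2 (H.N_ne hN)
  have h1 : (center N).map N.subtype ≠ ⊥ := fun e => (Group.IsNilpotent.center_ne_bot N)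
    ((map_eq_bot_iff_of_injective _ N.subtype_injective).1 e)
  have h2 := H.N_le hN _ h1
  refine PGBasic.isMulCommutative_iff.2 fun a ha b hb => ?_
  obtain ⟨z, hz, rfl⟩ := h2 hb
  exact congrArg Subtype.val (mem_center_iff.1 hz ⟨a, ha⟩)

theorem card_eq : Nat.card G * (centralizer {x}).index = charDegree χ ^ 2 * Nat.card N := by
  have := Fintype.ofFinite G
  have h1 := H.sum_eq (irr_classFun H.irr)
  rw [sum_irr_mul_conj_self H.irr] at h1
  have h2 := H.rel
  have h3 := congrArg conj h2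
  rw [irr_apply_one_eq H.irr] at h1 h2 h3
  simp only [map_add, map_mul, map_natCast, map_zero] at h1 h3
  rw [H.card_N hN]
  have : ((Nat.card G * (centralizer {x}).index : ℕ) : ℂ) =
      (charDegree χ ^ 2 * (1 + (centralizer {x}).index) : ℕ) := by
    push_cast
    linear_combination (centralizer {x}).index * h1 + ((centralizer {x}).index * conj (χ x)) * h2
      - charDegree χ * h3
  exact_mod_cast this

theorem card_cent {p : ℕ} [hp : Fact p.Prime] (hNp : IsPGroup p N) :
    Nat.card (centralizer ({x} : Set G)) = p ^ (Nat.card G).factorization p := by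
  obtain ⟨k, hk⟩ := IsPGroup.iff_card.1 hNp
  have hC := card_mul_index (centralizer ({x} : Set G))
  have hn : (centralizer ({x} : Set G)).index ≠ 0 := index_ne_zero_of_finite
  have hc : Nat.card (centralizer ({x} : Set G)) ≠ 0 := Nat.card_pos.ne'
  have hk0 : k ≠ 0 := by
    rintro rfl
    exact H.N_ne hN (card_eq_one.1 (by simpa using hk))
  have h1 : ¬ p ∣ (centralizer ({x} : Set G)).index := fun h => by
    have : p ∣ 1 + (centralizer ({x} : Set G)).index := by
      rw [← H.card_N hN, hk]; exact dvd_pow_self p hk0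
    exact hp.out.one_lt.ne' (Nat.dvd_one.1 ((Nat.dvd_add_left h).1 this))
  have h2 : ∀ q, q.Prime → q ∣ Nat.card (centralizer ({x} : Set G)) → q = p := fun q hq hd => by
    by_contra hne
    have := Fact.mk hq
    obtain ⟨Q⟩ : Nonempty (Sylow q G) := inferInstance
    obtain ⟨m, hm⟩ := card_dvd_degree_of_vanish (char_of_irr H.irr) Q.1 fun g hg h1 => by
      by_contra h0
      obtain ⟨a, ha⟩ := (IsPGroup.iff_orderOf.1 hNp) ⟨g, (hN g).2 h0⟩
      obtain ⟨b, hb⟩ := (IsPGroup.iff_orderOf.1 Q.isPGroup') ⟨g, hg⟩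
      rw [orderOf_mk] at ha hb
      have := Nat.Coprime.pow a b ((Nat.coprime_primes hp.out hq).2 (Ne.symm hne))
      rw [← ha, ← hb, Nat.coprime_self, orderOf_eq_one_iff] at this
      exact h1 this
    have hm' : charDegree χ = Nat.card Q.1 * m := charDegree_eq (by exact_mod_cast hm)
    have hm0 : m ≠ 0 := by rintro rfl; exact (charDegree_pos H.irr).ne' hm'
    have e1 := congrArg (fun n => n.factorization q) (H.card_eq hN)
    have e2 := congrArg (fun n => n.factorization q) hC
    have e3 := hq.factorization_pos_of_dvd hc hd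
    simp only [hm', hk, Q.card_eq_multiplicity] at e1
    rw [Nat.factorization_mul Nat.card_pos.ne' hn, Nat.factorization_mul (by positivity [hq.pos])
      (pow_ne_zero _ hp.out.ne_zero), Nat.factorization_pow, Nat.factorization_mul
      (pow_ne_zero _ hq.ne_zero) hm0, hq.factorization_pow, hp.out.factorization_pow] at e1
    rw [Nat.factorization_mul hc hn] at e2
    simp [Ne.symm hne] at e1 e2
    omega
  have h3 := Nat.eq_prime_pow_of_unique_prime_dvd hc fun {q} hq hd => h2 q hq hd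
  rw [← hC, Nat.factorization_mul hc hn, h3, hp.out.factorization_pow]
  simp [Nat.factorization_eq_zero_of_not_dvd h1]

theorem card_cent_quo [N.Normal] (hg : g ∉ N) :
    Nat.card (centralizer ({g} : Set G)) = Nat.card (centralizer ({(g : G ⧸ N)} : Set (G ⧸ N))) := by
  classical
  have h1 := sum_irr_norm_sq g
  have h2 := sum_irr_norm_sq (g : G ⧸ N)
  have h3 := sum_irr_quotient N fun f => ‖f g‖ ^ 2
  have h0 : χ g = 0 := by by_contra h; exact hg ((hN g).2 h)
  rw [h2, Finset.sum_filter_of_ne, h1] at h3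
  · exact_mod_cast h3.symm
  · exact fun ψ _ h => H.N_le_ker hN ψ.2 fun e => h (by simp [e, h0])

theorem card_le [N.Normal] {p : ℕ} [hp : Fact p.Prime] (hNp : IsPGroup p N) (P : Sylow p G)
    (y : P.1) (hy : (y : G) ∉ N) :
    Nat.card N ≤ (centralizer ({y} : Set P.1)).index := by
  have h1 : Nat.card (centralizer ({y} : Set P.1)) ∣ Nat.card (centralizer ({(y : G)} : Set G)) := by
    rw [← card_map_of_injective (K := centralizer ({y} : Set P.1)) P.1.subtype_injective]
    refine card_dvd_of_le ?_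
    rintro _ ⟨c, hc, rfl⟩
    exact mem_centralizer_singleton_iff.2 (congrArg Subtype.val (mem_centralizer_singleton_iff.1 hc))
  rw [H.card_cent_quo hN hy] at h1
  have h2 := (h1.trans (card_subgroup_dvd_card _))
  obtain ⟨a, ha⟩ := IsPGroup.iff_card.1 hNp
  obtain ⟨b, hb⟩ := IsPGroup.iff_card.1 (P.isPGroup'.to_subgroup (centralizer ({y} : Set P.1)))
  have h3 : p ^ (b + a) ∣ Nat.card G := by
    rw [pow_add, ← ha, ← hb, card_eq_card_quotient_mul_card_subgroup N]
    exact Nat.mul_dvd_mul_right h2 _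
  have h4 := Nat.le_of_dvd Nat.card_pos ((pow_dvd_pow p
    ((hp.out.pow_dvd_iff_le_factorization Nat.card_pos.ne').1 h3)).trans
      P.card_eq_multiplicity.symm.dvd)
  rw [← card_mul_index (centralizer ({y} : Set P.1)), pow_add, ← ha, ← hb] at h4
  exact Nat.le_of_mul_le_mul_left h4 Nat.card_pos

end Gag

omit [Finite G] in
theorem index_cent_le [Finite G] {Z : Subgroup G} {y : G} (h : ∀ g, y * g * y⁻¹ * g⁻¹ ∈ Z) :
    (centralizer ({y} : Set G)).index ≤ Nat.card Z := by
  rw [← natCard_class_eq_index]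
  refine Nat.card_le_card_of_injective (fun c => (⟨y * c.1⁻¹, ?_⟩ : Z)) fun c d e => ?_
  · obtain ⟨u, hu⟩ := isConj_iff.1 c.2
    rw [← hu]
    simpa [mul_assoc] using h u
  · exact Subtype.ext (by simpa using e)

end CA.H12Gag
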