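import Cfsg.Agent.Lib.Char.H19Tab2

/-! Class multiplication coefficients from the character table of a Suzuki group. -/

set_option autoImplicit false
set_option linter.unusedSectionVars false

namespace CA.H19Tor

open Subgroup Cfsg CChar.CharFun CChar.CharOrth CA.TorusCount Finset
open scoped ComplexConjugate Classical

variable {G : Type*} [Group G] [Fintype G]

theorem bd {S : Finset (IrrCharacter G)} {x g : G} {d b N : ℝ} (hd : 0 < d) (h1 : ∀ χ ∈ S, χ.1 1 = d)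
    (h2 : ∀ χ ∈ S, ‖χ.1 g‖ ≤ b) (h3 : ∑ χ ∈ S, ‖χ.1 x‖ ^ 2 = N) :
    -(N * b / d) ≤ (∑ χ ∈ S, χ.1 x * χ.1 x * conj (χ.1 g) / χ.1 1).re := by
  refine le_trans (neg_le_neg ?_) (neg_le_of_abs_le (Complex.abs_re_le_norm _))
  refine (norm_sum_le _ _).trans ?_
  rw [← h3, sum_mul, sum_div]
  refine sum_le_sum fun χ h => ?_
  rw [h1 χ h, norm_div, norm_mul, norm_mul, Complex.norm_conj, Complex.norm_real, Real.norm_of_nonneg hd.le, sq]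
  gcongr
  exact h2 χ h

theorem le_of_sum {S : Finset (IrrCharacter G)} {x : G} {b N : ℝ} (h : ∑ χ ∈ S, ‖χ.1 x‖ ^ 2 = N) (hb : 0 ≤ b)
    (h2 : N ≤ b ^ 2) : ∀ χ ∈ S, ‖χ.1 x‖ ≤ b := fun χ hχ =>
  (pow_le_pow_iff_left₀ (norm_nonneg _) hb two_ne_zero).1
    (((single_le_sum (f := fun χ : IrrCharacter G => ‖χ.1 x‖ ^ 2) (fun _ _ => sq_nonneg _) hχ).trans h.le).trans h2)

namespace Tab
variable {r : ℕ} {D : Data G r} (t : Tab D)

theorem col (x : G) : 1 + ‖D.St.1 x‖ ^ 2 + ‖t.W1.1 x‖ ^ 2 + ‖t.W2.1 x‖ ^ 2 + ∑ χ ∈ t.X, ‖χ.1 x‖ ^ 2 +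
    ∑ χ ∈ t.Y, ‖χ.1 x‖ ^ 2 + ∑ χ ∈ t.Z, ‖χ.1 x‖ ^ 2 = Nat.card (centralizer ({x} : Set G)) := by
  have := t.sum fun χ => ((‖χ.1 x‖ ^ 2 : ℝ) : ℂ)
  rw [← Complex.ofReal_sum, sum_irr_norm_sq, irrOne_apply, norm_one, one_pow] at this
  exact_mod_cast this.symm

theorem z1 {x : G} (h : x ∈ Cls D.T1) : ∀ χ ∈ t.X, χ.1 x = 0 := fun χ hχ => by
  rw [t.vX χ hχ x (D.a0 h), D.Sta x h, add_neg_cancel]

theorem z2 {x : G} (h : x ∈ Cls D.T2) : ∀ χ ∈ t.X, χ.1 x = 0 := fun χ hχ => by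
  rw [t.vX χ hχ x (D.b0 h), D.Stb x h, add_neg_cancel]

theorem col0 {x : G} (h : x ∈ Cls D.T0) : ∑ χ ∈ t.X, ‖χ.1 x‖ ^ 2 = 2 * r ^ 2 - 3 := by
  have := t.col x
  have k : (Nat.card D.T0 : ℝ) + 1 = 2 * r ^ 2 := by exact_mod_cast D.k0
  rw [card_cent_of_cls D.c0 h, D.St0 x h, (t.vW _ (.inl rfl)).2.2.1 x h, (t.vW _ (.inr rfl)).2.2.1 x h,
    sum_eq_zero (s := t.Y) fun χ hχ => by simp [(t.vY χ hχ).2.2.2.1 x h],
    sum_eq_zero (s := t.Z) fun χ hχ => by simp [(t.vZ χ hχ).2.2.2.1 x h]] at this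
  simp only [norm_one, norm_zero] at this
  linarith

theorem col1 {x : G} (h : x ∈ Cls D.T1) : ∑ χ ∈ t.Y, ‖χ.1 x‖ ^ 2 = 2 * r ^ 2 + 2 * r - 3 := by
  have := t.col x
  have k : (Nat.card D.T1 : ℝ) = 2 * r ^ 2 + 2 * r + 1 := by exact_mod_cast D.k1
  rw [card_cent_of_cls D.c1 h, D.Sta x h, (t.vW _ (.inl rfl)).2.2.2.1 x h, (t.vW _ (.inr rfl)).2.2.2.1 x h,
    sum_eq_zero (s := t.X) fun χ hχ => by simp [t.z1 h χ hχ],
    sum_eq_zero (s := t.Z) fun χ hχ => by simp [(t.vZ χ hχ).2.2.2.2 x h]] at this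
  simp only [norm_one, norm_neg] at this
  linarith

theorem col2 {x : G} (h : x ∈ Cls D.T2) : ∑ χ ∈ t.Z, ‖χ.1 x‖ ^ 2 = 2 * r ^ 2 - 2 * r - 3 := by
  have := t.col x
  have k : (Nat.card D.T2 : ℝ) + 2 * r = 2 * r ^ 2 + 1 := by exact_mod_cast D.k2
  rw [card_cent_of_cls D.c2 h, D.Stb x h, (t.vW _ (.inl rfl)).2.2.2.2 x h, (t.vW _ (.inr rfl)).2.2.2.2 x h,
    sum_eq_zero (s := t.X) fun χ hχ => by simp [t.z2 h χ hχ],
    sum_eq_zero (s := t.Y) fun χ hχ => by simp [(t.vY χ hχ).2.2.2.2 x h]] at this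
  simp only [norm_one, norm_neg] at this
  linarith

theorem atu {g : G} (h : IsConj D.u g ∨ IsConj D.u⁻¹ g) : D.St.1 g = 0 ∧ (∀ χ ∈ t.X, χ.1 g = 1) ∧
    (∀ χ ∈ t.Y, χ.1 g = -1) ∧ (∀ χ ∈ t.Z, χ.1 g = -1) ∧
    ∃ v : ℝ, v ^ 2 = r ^ 2 ∧ t.W1.1 g = v * Complex.I ∧ t.W2.1 g = -(v * Complex.I) := by
  have hx : ∀ χ ∈ t.X, χ.1 D.u = 1 := fun χ hχ => by rw [t.vX χ hχ _ D.u0, D.Stu, add_zero]
  rcases h with h | h
  · have e : ∀ χ : IrrCharacter G, χ.1 g = χ.1 D.u := fun χ => (classFun_of_isConj (irr_classFun χ.2) h).symm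
    simp only [e]
    exact ⟨D.Stu, hx, fun χ hχ => (t.vY χ hχ).2.2.1, fun χ hχ => (t.vZ χ hχ).2.2.1, t.v, t.hv, t.vW1, t.vW2⟩
  · have e : ∀ χ : IrrCharacter G, χ.1 g = conj (χ.1 D.u) := fun χ =>
      (classFun_of_isConj (irr_classFun χ.2) h).symm.trans (char_apply_inv (char_of_irr χ.2) _)
    simp only [e]
    exact ⟨by simp [D.Stu], fun χ hχ => by simp [hx χ hχ], fun χ hχ => by simp [(t.vY χ hχ).2.2.1],
      fun χ hχ => by simp [(t.vZ χ hχ).2.2.1], -t.v, by simp [t.hv], by simp [t.vW1], by simp [t.vW2]⟩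

theorem gb {g : G} (hg : g ≠ 1) : ‖D.St.1 g‖ ≤ 1 ∧ (∀ χ ∈ t.X, ‖χ.1 g‖ ≤ 2 * r) ∧ (∀ χ ∈ t.Y, ‖χ.1 g‖ ≤ 2 * r - 1) ∧
    (∀ χ ∈ t.Z, ‖χ.1 g‖ ≤ 2 * r + 1) ∧ ∃ w : ℝ, conj (t.W1.1 g) + conj (t.W2.1 g) = w ∧
      ((w = -(2 * r) ∧ ∀ χ ∈ t.Y, χ.1 g = (2 * r - 1 : ℝ)) ∨ (-2 ≤ w ∧ w ≤ 0) ∨ (w = 2 ∧ ∀ χ ∈ t.X, χ.1 g = 0)) := by
  have hr : (2 : ℝ) ≤ r := by exact_mod_cast D.hr
  have w1 := t.vW _ (.inl rfl)
  have w2 := t.vW _ (.inr rfl)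
  rcases D.cases g hg with h | h | h | h | h | h
  · have e : ∀ χ : IrrCharacter G, χ.1 g = χ.1 D.s := fun χ => (classFun_of_isConj (irr_classFun χ.2) h).symm
    have y : ∀ χ ∈ t.Y, χ.1 D.s = (2 * r - 1 : ℝ) := fun χ hχ => by simp [(t.vY χ hχ).2.1]
    simp only [e]
    refine ⟨by simp [D.Sts], fun χ hχ => ?_, fun χ hχ => ?_, fun χ hχ => ?_, _, ?_, .inl ⟨rfl, y⟩⟩
    · rw [t.vX χ hχ _ D.s0, D.Sts, add_zero, norm_one]; linarith
    · rw [y χ hχ, Complex.norm_real, Real.norm_of_nonneg (by linarith)]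
    · rw [(t.vZ χ hχ).2.1, norm_neg, show (2 * r + 1 : ℂ) = (2 * r + 1 : ℝ) by simp, Complex.norm_real,
        Real.norm_of_nonneg (by linarith)]
    · simp [w1.2.1, w2.2.1]; ring
  iterate 2
    obtain ⟨a, b, c, d, v, -, e, f⟩ := t.atu (g := g) (by tauto)
    refine ⟨by simp [a], fun χ hχ => ?_, fun χ hχ => ?_, fun χ hχ => ?_, 0, by simp [e, f], .inr (.inl (by simp))⟩
    · rw [b χ hχ, norm_one]; linarith
    · rw [c χ hχ, norm_neg, norm_one]; linarith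
    · rw [d χ hχ, norm_neg, norm_one]; linarith
  · refine ⟨by simp [D.St0 g h], le_of_sum (t.col0 h) (by linarith) (by nlinarith), fun χ hχ => ?_, fun χ hχ => ?_, 0,
      by simp [w1.2.2.1 g h, w2.2.2.1 g h], .inr (.inl (by simp))⟩
    · rw [(t.vY χ hχ).2.2.2.1 g h, norm_zero]; linarith
    · rw [(t.vZ χ hχ).2.2.2.1 g h, norm_zero]; linarith
  · have hr3 : (r : ℝ) = 2 ∨ (3 : ℝ) ≤ r := by
      have := D.hr
      rcases (by omega : r = 2 ∨ 3 ≤ r) with h | h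
      · exact .inl (by exact_mod_cast h)
      · exact .inr (by exact_mod_cast h)
    refine ⟨by simp [D.Sta g h], fun χ hχ => ?_, le_of_sum (t.col1 h) (by linarith) (by nlinarith), fun χ hχ => ?_, 2,
      by simp [w1.2.2.2.1 g h, w2.2.2.2.1 g h]; norm_num, .inr (.inr ⟨rfl, t.z1 h⟩)⟩
    · rw [t.z1 h χ hχ, norm_zero]; linarith
    · rw [(t.vZ χ hχ).2.2.2.2 g h, norm_zero]; linarith
  · refine ⟨by simp [D.Stb g h], fun χ hχ => ?_, fun χ hχ => ?_, le_of_sum (t.col2 h) (by linarith) (by nlinarith), -2,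
      by simp [w1.2.2.2.2 g h, w2.2.2.2.2 g h]; norm_num, .inr (.inl (by simp))⟩
    · rw [t.z2 h χ hχ, norm_zero]; linarith
    · rw [(t.vY χ hχ).2.2.2.2 g h, norm_zero]; linarith

set_option maxHeartbeats 1000000 in
include t in
theorem sum_ne {x g : G} (hx : x ≠ 1) (hs : ¬ IsConj D.s x) (hg : g ≠ 1) :
    ∑ χ : IrrCharacter G, χ.1 x * χ.1 x * conj (χ.1 g) / χ.1 1 ≠ 0 := fun h0 => by
  obtain ⟨k, hk⟩ : ∃ k : ℝ, (r : ℝ) = k + 2 := ⟨r - 2, by ring⟩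
  have k0 : 0 ≤ k := by
    have : (2 : ℝ) ≤ r := by exact_mod_cast D.hr
    linarith
  have k2 := pow_nonneg k0 2
  have k3 := pow_nonneg k0 3
  have k4 := pow_nonneg k0 4
  obtain ⟨g1, gX, gY, gZ, w, hw, gw⟩ := t.gb hg
  have w1 := t.vW _ (.inl rfl)
  have w2 := t.vW _ (.inr rfl)
  have dX : ∀ χ ∈ t.X, χ.1 1 = (1 + (2 * r ^ 2) ^ 2 : ℝ) := fun χ h => by
    rw [t.vX χ h 1 fun h => h.1 rfl, D.St1]; simp
  have dY : ∀ χ ∈ t.Y, χ.1 1 = ((2 * r ^ 2 - 1) * (2 * r ^ 2 - 2 * r + 1) : ℝ) := fun χ h => by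
    rw [(t.vY χ h).1]; simp
  have dZ : ∀ χ ∈ t.Z, χ.1 1 = ((2 * r ^ 2 - 1) * (2 * r ^ 2 + 2 * r + 1) : ℝ) := fun χ h => by
    rw [(t.vZ χ h).1]; simp
  have pX : (0 : ℝ) < 1 + (2 * r ^ 2) ^ 2 := by positivity
  have pY : (0 : ℝ) < (2 * r ^ 2 - 1) * (2 * r ^ 2 - 2 * r + 1) := by rw [hk]; nlinarith only [k0, k2, k3, k4]
  have pZ : (0 : ℝ) < (2 * r ^ 2 - 1) * (2 * r ^ 2 + 2 * r + 1) := by rw [hk]; nlinarith only [k0, k2, k3, k4]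
  have pW : (0 : ℝ) < r * (2 * r ^ 2 - 1) := by rw [hk]; nlinarith only [k0, k2, k3, k4]
  have bS : -(1 / 64) ≤ (D.St.1 x * D.St.1 x * conj (D.St.1 g) / D.St.1 1).re := by
    have := bd (S := {D.St}) (x := x) (g := g) (d := (2 * r ^ 2) ^ 2) (b := 1) (by rw [hk]; positivity)
      (by simp [D.St1]) (by simpa using g1) (sum_singleton _ _)
    rw [sum_singleton] at this
    refine le_trans (neg_le_neg ?_) this
    have h1 : ‖D.St.1 x‖ ^ 2 ≤ 1 := pow_le_one₀ (norm_nonneg _) (t.gb hx).1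
    rw [div_le_iff₀ (by rw [hk]; positivity), hk]
    nlinarith only [k0, k2, k3, k4, h1]
  have key : ∀ κ : ℝ, t.W1.1 x * t.W1.1 x = κ → t.W2.1 x * t.W2.1 x = κ →
      63 / 64 + κ * w / (r * (2 * r ^ 2 - 1)) + (∑ χ ∈ t.X, χ.1 x * χ.1 x * conj (χ.1 g) / χ.1 1).re +
        (∑ χ ∈ t.Y, χ.1 x * χ.1 x * conj (χ.1 g) / χ.1 1).re +
        (∑ χ ∈ t.Z, χ.1 x * χ.1 x * conj (χ.1 g) / χ.1 1).re ≤ 0 := fun κ a b => by
    rw [t.sum, add_assoc (_ + _) (_ / t.W1.1 1), a, b, w1.1, w2.1, ← add_div, ← mul_add, hw] at h0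
    have h1 := congrArg Complex.re h0
    rw [show (κ : ℂ) * w / (r * (2 * r ^ 2 - 1)) = (κ * w / (r * (2 * r ^ 2 - 1)) : ℝ) by simp] at h1
    simp only [Complex.add_re, Complex.ofReal_re, irrOne_apply, map_one, mul_one, div_one, Complex.one_re,
      Complex.zero_re] at h1
    linarith
  have zero : ∀ S : Finset (IrrCharacter G), (∀ χ ∈ S, χ.1 x = 0) →
      (∑ χ ∈ S, χ.1 x * χ.1 x * conj (χ.1 g) / χ.1 1).re = 0 := fun S h => by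
    rw [sum_eq_zero fun χ hχ => by simp [h χ hχ], Complex.zero_re]
  have bw : -(2 * r) ≤ w := by
    rcases gw with h | h | h <;> linarith [h.1]
  have bw' : -(2 / 7) ≤ 1 * w / (r * (2 * r ^ 2 - 1)) := by
    rw [le_div_iff₀ pW]
    rw [hk] at bw ⊢
    nlinarith only [k0, k2, k3, k4, bw]
  have cX : (t.X.card : ℝ) + 1 = r ^ 2 := by exact_mod_cast t.cX
  have cY : 2 * (t.Y.card : ℝ) = r ^ 2 + r := by exact_mod_cast t.cY
  have cZ : 2 * (t.Z.card : ℝ) + r = r ^ 2 := by exact_mod_cast t.cZ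
  rcases (D.cases x hx).resolve_left hs with h | h | h | h | h
  iterate 2
    obtain ⟨-, b, c, d, v, hv, e, f⟩ := t.atu (g := x) (by tauto)
    have hv' : (v : ℂ) * Complex.I * (v * Complex.I) = (-r ^ 2 : ℝ) := by
      rw [← hv]; push_cast; linear_combination (v : ℂ) ^ 2 * Complex.I_mul_I
    have h1 := key _ (by rw [e, hv']) (by rw [f, neg_mul_neg, hv'])
    have h2 := bd pX dX gX (x := x) (N := r ^ 2 - 1) (by
      rw [sum_congr rfl (g := fun _ => (1 : ℝ)) fun χ hχ => by simp [b χ hχ]]; simp; linarith)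
    have h3 := bd pY dY gY (x := x) (N := (r ^ 2 + r) / 2) (by
      rw [sum_congr rfl (g := fun _ => (1 : ℝ)) fun χ hχ => by simp [c χ hχ]]; simp; linarith)
    have h4 := bd pZ dZ gZ (x := x) (N := (r ^ 2 - r) / 2) (by
      rw [sum_congr rfl (g := fun _ => (1 : ℝ)) fun χ hχ => by simp [d χ hχ]]; simp; linarith)
    have h5 : (r ^ 2 - 1) * (2 * r) / (1 + (2 * r ^ 2) ^ 2 : ℝ) ≤ 1 / 4 := by
      rw [div_le_iff₀ pX, hk]; nlinarith only [k0, k2, k3, k4]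
    have h6 : (r ^ 2 + r) / 2 * (2 * r - 1) / ((2 * r ^ 2 - 1) * (2 * r ^ 2 - 2 * r + 1) : ℝ) ≤ 2 / 7 := by
      rw [div_le_iff₀ pY, hk]; nlinarith only [k0, k2, k3, k4]
    have h7 : (r ^ 2 - r) / 2 * (2 * r + 1) / ((2 * r ^ 2 - 1) * (2 * r ^ 2 + 2 * r + 1) : ℝ) ≤ 1 / 10 := by
      rw [div_le_iff₀ pZ, hk]; nlinarith only [k0, k2, k3, k4]
    by_cases h8 : w ≤ 0
    · have : 0 ≤ -r ^ 2 * w / (r * (2 * r ^ 2 - 1)) :=
        div_nonneg (mul_nonneg_of_nonpos_of_nonpos (by simp) h8) pW.le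
      linarith
    · obtain ⟨rfl, h9⟩ : w = 2 ∧ ∀ χ ∈ t.X, χ.1 g = 0 := by
        rcases gw with h | h | h
        · linarith [h.1]
        · linarith [h.2]
        · exact h
      rw [sum_eq_zero (s := t.X) fun χ hχ => by simp [h9 χ hχ], Complex.zero_re] at h1
      have : -(4 / 7) ≤ -r ^ 2 * 2 / (r * (2 * r ^ 2 - 1) : ℝ) := by
        rw [le_div_iff₀ pW, hk]; nlinarith only [k0, k2, k3, k4]
      linarith
  · have h1 := key 0 (by simp [w1.2.2.1 x h]) (by simp [w2.2.2.1 x h])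
    rw [zero t.Y fun χ hχ => (t.vY χ hχ).2.2.2.1 x h, zero t.Z fun χ hχ => (t.vZ χ hχ).2.2.2.1 x h, zero_mul,
      zero_div] at h1
    have h2 := bd pX dX gX (t.col0 h)
    have h5 : (2 * r ^ 2 - 3) * (2 * r) / (1 + (2 * r ^ 2) ^ 2 : ℝ) ≤ 1 / 2 := by
      rw [div_le_iff₀ pX, hk]; nlinarith only [k0, k2, k3, k4]
    linarith
  · have h1 := key 1 (by simp [w1.2.2.2.1 x h]) (by simp [w2.2.2.2.1 x h])
    rw [zero t.X (t.z1 h), zero t.Z fun χ hχ => (t.vZ χ hχ).2.2.2.2 x h] at h1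
    by_cases h8 : -2 ≤ w
    · have h2 := bd pY dY gY (t.col1 h)
      have h5 : (2 * r ^ 2 + 2 * r - 3) * (2 * r - 1) / ((2 * r ^ 2 - 1) * (2 * r ^ 2 - 2 * r + 1) : ℝ) ≤ 4 / 5 := by
        rw [div_le_iff₀ pY, hk]; nlinarith only [k0, k2, k3, k4]
      have : -(1 / 7) ≤ 1 * w / (r * (2 * r ^ 2 - 1)) := by
        rw [le_div_iff₀ pW, hk]; nlinarith only [k0, k2, k3, k4, h8]
      linarith
    · obtain ⟨-, h9⟩ : w = -(2 * r) ∧ ∀ χ ∈ t.Y, χ.1 g = (2 * r - 1 : ℝ) := by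
        rcases gw with h | h | h
        · exact h
        · linarith [h.1]
        · linarith [h.1]
      have h2 := sum_irr_mul_conj x x⁻¹
      simp only [char_apply_inv (char_of_irr (Subtype.property _)), Complex.conj_conj] at h2
      rw [t.sum, D.Sta x h, w1.2.2.2.1 x h, w2.2.2.2.1 x h, irrOne_apply,
        sum_eq_zero (s := t.X) fun χ hχ => by simp [t.z1 h χ hχ],
        sum_eq_zero (s := t.Z) fun χ hχ => by simp [(t.vZ χ hχ).2.2.2.2 x h]] at h2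
      have h3 : -4 ≤ (∑ χ ∈ t.Y, χ.1 x * χ.1 x).re := by
        have h4 := congrArg Complex.re h2
        have : (0 : ℝ) ≤ Nat.card (centralizer ({x} : Set G)) := Nat.cast_nonneg _
        split_ifs at h4 <;> simp only [Complex.add_re, mul_one, neg_mul_neg, Complex.one_re, Complex.zero_re,
          Complex.natCast_re] at h4 <;> linarith
      rw [sum_congr rfl (g := fun χ => (((2 * r - 1) / ((2 * r ^ 2 - 1) * (2 * r ^ 2 - 2 * r + 1)) : ℝ) : ℂ) *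
        (χ.1 x * χ.1 x)) fun χ hχ => by rw [h9 χ hχ, dY χ hχ, Complex.conj_ofReal, Complex.ofReal_div]; ring,
        ← mul_sum, Complex.re_ofReal_mul] at h1
      have h5 : (2 * r - 1) / ((2 * r ^ 2 - 1) * (2 * r ^ 2 - 2 * r + 1) : ℝ) ≤ 1 / 10 := by
        rw [div_le_iff₀ pY, hk]; nlinarith only [k0, k2, k3, k4]
      have h6 : 0 ≤ (2 * r - 1) / ((2 * r ^ 2 - 1) * (2 * r ^ 2 - 2 * r + 1) : ℝ) := div_nonneg (by linarith) pY.le
      nlinarith only [h1, h3, h5, h6, bw']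
  · have h1 := key 1 (by simp [w1.2.2.2.2 x h]) (by simp [w2.2.2.2.2 x h])
    rw [zero t.X (t.z2 h), zero t.Y fun χ hχ => (t.vY χ hχ).2.2.2.2 x h] at h1
    have h2 := bd pZ dZ gZ (t.col2 h)
    have h5 : (2 * r ^ 2 - 2 * r - 3) * (2 * r + 1) / ((2 * r ^ 2 - 1) * (2 * r ^ 2 + 2 * r + 1) : ℝ) ≤ 1 / 2 := by
      rw [div_le_iff₀ pZ, hk]; nlinarith only [k0, k2, k3, k4]
    linarith

end Tab

end CA.H19Tor
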