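import Mathlib
import Cfsg.Agent.Lib.Comp.CNet

/-! Enumeration of class equations: pairs (element order, centralizer order). -/

set_option autoImplicit false

namespace CA.H7Kc

open CA.CNet

scoped instance (priority := high) natBEq : BEq ℕ := ⟨Nat.beq⟩

scoped instance (priority := high) natLawful : LawfulBEq ℕ where
  rfl := Nat.beq_refl _
  eq_of_beq := Nat.eq_of_beq_eq_true

def PR : List ℕ := [2, 3, 5, 7, 11, 13, 17, 19, 23, 29, 31, 37, 41, 43, 47, 53, 59, 61, 67, 71]

def DS : List ℕ := [2, 3, 4, 5, 6, 7, 8, 9, 11, 12, 13, 16, 17, 18, 19, 24, 27, 32, 64]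

theorem PR_prime : ∀ p ∈ PR, p.Prime := by
  simp only [PR, List.forall_mem_cons, List.not_mem_nil, IsEmpty.forall_iff, implies_true, and_true]
  norm_num

/-- The number of elements in the classes satisfying `f`. -/
def tot (ps : List (ℕ × ℕ)) (n : ℕ) (f : ℕ → Bool) : ℕ :=
  ((ps.filter fun q => f q.1).map fun q => n / q.2).sum

/-- The arithmetic conditions on the non-trivial classes of a simple group of order `n`. -/
structure Data (k : ℕ) (ps : List (ℕ × ℕ)) (n : ℕ) : Prop where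
  sum : ((ps.map Prod.snd).map fun c : ℕ => (1 / c : ℚ)).sum + 1 / n = 1
  srt : (ps.map Prod.snd).Pairwise (· ≤ ·)
  five : ∀ q ∈ ps, 5 ≤ q.2 ∧ 5 * q.2 ≤ n ∧ q.2 ∣ n ∧ q.1 ∣ q.2 ∧ q.1 ≠ 1
  even : 2 ∣ n
  pr : ∀ q ∈ ps, q.2.Prime → (∀ r ∈ ps, q.2 ∣ r.2 → r.2 = q.2 ∧ r.1 = q.2) ∧
    2 * (ps.map Prod.snd).count q.2 ≤ q.2 - 1
  r3 : ∀ p : ℕ, p.Prime → p ∣ n → ∃ q ∈ ps, q.1 = p ∧ Nat.gcd n (p ^ 40) ∣ q.2
  r1 : ∀ q ∈ ps, ∀ p : ℕ, p.Prime → p ∣ q.1 → q.1 ≠ p → ∃ r ∈ ps, r.1 * p = q.1 ∧ q.2 ∣ r.2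
  r2 : ∀ q ∈ ps, ∀ p : ℕ, p.Prime → p ∣ q.2 → ¬ p ∣ q.1 → ∃ r ∈ ps, r.1 = q.1 * p ∧ r.2 ∣ q.2
  r8 : ∀ q ∈ ps, q.1.Prime → q.1 * q.1 ∣ n → q.1 * q.1 ∣ q.2
  inv : tot ps n (· == 2) * tot ps n (· == 2) ≤ k * n
  frob : ∀ d, d ∣ n → d ∣ 1 + tot ps n fun o => d % o == 0

noncomputable def allB (f : ℕ → Bool) (hi : ℕ) (k : ℕ) : ℕ → Bool :=
  Nat.rec (motive := fun _ => ℕ → Bool) (fun a => Nat.blt hi a || f a)
    (fun k ih a => Nat.blt hi a || (ih a && force (Nat.add a (Nat.pow 2 k)) ih)) k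

theorem allB_spec {f : ℕ → Bool} {hi : ℕ} : ∀ (k a : ℕ), allB f hi k a = true →
    ∀ x, a ≤ x → x < a + 2 ^ k → x ≤ hi → f x = true
  | 0, a, h, x, h1, h2, h3 => by
    obtain rfl : x = a := by omega
    simp only [allB, Nat.rec_zero, Bool.or_eq_true, Nat.blt_eq] at h
    exact h.resolve_left (by omega)
  | k + 1, a, h, x, h1, h2, h3 => by
    have e : allB f hi (k + 1) a =
        (Nat.blt hi a || (allB f hi k a && force (a + 2 ^ k) (allB f hi k))) := rfl
    simp only [e, Bool.or_eq_true, Nat.blt_eq, Bool.and_eq_true, force_eq] at h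
    obtain ⟨h4, h5⟩ := h.resolve_left (by omega)
    by_cases h6 : x < a + 2 ^ k
    · exact allB_spec k a h4 x h1 h6 h3
    · exact allB_spec k _ h5 x (by omega) (by rw [pow_succ] at h2; omega) h3

noncomputable def allR (f : ℕ → Bool) (lo hi : ℕ) : Bool :=
  force lo fun lo => force hi fun hi => force (Nat.log2 (hi - lo) + 1) fun k => allB f hi k lo

theorem allR_spec {f : ℕ → Bool} {lo hi : ℕ} (h : allR f lo hi = true) (x : ℕ) (h1 : lo ≤ x)
    (h2 : x ≤ hi) : f x = true := by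
  simp only [allR, force_eq] at h
  have := @Nat.lt_log2_self (hi - lo)
  exact allB_spec _ _ h x h1 (by omega) h2

noncomputable def dv (c s : ℕ) : List ℕ → List ℕ :=
  Nat.rec (motive := fun _ => List ℕ → List ℕ) id
    (fun d ih l => bif Nat.beq (Nat.mod c d.succ) 0 then force (d + 1) fun e => force (c / e) fun e' =>
      ih (bif e == e' then e :: l else bif Nat.blt e e' then e :: e' :: l else l) else ih l) s

theorem dv_succ (c d : ℕ) (l : List ℕ) : dv c (d + 1) l = if c % (d + 1) = 0 then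
    dv c d (if d + 1 = c / (d + 1) then (d + 1) :: l else if d + 1 < c / (d + 1) then
      (d + 1) :: (c / (d + 1)) :: l else l) else dv c d l := by
  have e : dv c (d + 1) l = bif c % (d + 1) == 0 then force (d + 1) fun e => force (c / e) fun e' =>
      dv c d (bif e == e' then e :: l else bif Nat.blt e e' then e :: e' :: l else l)
      else dv c d l := rfl
  simp only [e, force_eq, Bool.cond_eq_ite, beq_iff_eq, Nat.blt_eq]

/-- The divisors of `c`. -/
noncomputable def dvs (c : ℕ) : List ℕ := force (2 ^ (Nat.log2 c / 2 + 1)) fun s => dv c s []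

theorem mem_dvs {c o : ℕ} (hc : 0 < c) (h : o ∣ c) : o ∈ dvs c := by
  have key : ∀ (s : ℕ) (l : List ℕ), (o ∈ l ∨ ∃ e, 0 < e ∧ e ≤ s ∧ e ∣ c ∧ e ≤ c / e ∧
      (o = e ∨ o = c / e)) → o ∈ dv c s l := by
    intro s
    induction s with
    | zero => rintro l (h | ⟨e, h1, h2, -⟩); exacts [h, by omega]
    | succ d ih =>
      intro l hl
      rw [dv_succ]
      split_ifs with h1 h2 h3
      all_goals apply ih
      all_goals rcases hl with hl | ⟨e, e1, e2, e3, e4, e5⟩
      all_goals first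
        | (left; simp [hl]; done)
        | skip
      all_goals by_cases e6 : e = d + 1
      all_goals first
        | exact Or.inr ⟨e, e1, by omega, e3, e4, e5⟩
        | skip
      all_goals subst e6
      · left; rcases e5 with e5 | e5 <;> simp [e5, ← h2]
      · left; rcases e5 with e5 | e5 <;> simp [e5]
      · omega
      · exact absurd (Nat.mod_eq_zero_of_dvd e3) h1
  unfold dvs
  rw [force_eq]
  obtain ⟨m, rfl⟩ := h
  have ho : 0 < o := Nat.pos_of_mul_pos_right hc
  have hm : 0 < m := Nat.pos_of_mul_pos_left hc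
  have h1 := @Nat.lt_log2_self (o * m)
  have h2 : o * m < 2 ^ ((o * m).log2 / 2 + 1) * 2 ^ ((o * m).log2 / 2 + 1) := by
    rw [← pow_add]
    exact h1.trans_le (Nat.pow_le_pow_right two_pos (by omega))
  refine key _ _ (Or.inr ?_)
  rcases le_total o m with e | e
  · exact ⟨o, ho, (Nat.mul_self_lt_mul_self_iff.1 ((Nat.mul_le_mul_left o e).trans_lt h2)).le,
      dvd_mul_right _ _, by rwa [Nat.mul_div_cancel_left _ ho], .inl rfl⟩
  · exact ⟨m, hm, (Nat.mul_self_lt_mul_self_iff.1 ((Nat.mul_le_mul_right m e).trans_lt h2)).le,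
      dvd_mul_left _ _, by rwa [Nat.mul_div_cancel _ hm],
      .inr (by rw [Nat.mul_div_cancel _ hm])⟩

noncomputable def isP (p : ℕ) : Bool := Nat.blt 1 p && (dvs p).all fun d => d == 1 || d == p

theorem isP_prime {p : ℕ} (h : isP p = true) : p.Prime := by
  simp only [isP, Bool.and_eq_true, Nat.blt_eq, List.all_eq_true, Bool.or_eq_true, beq_iff_eq] at h
  exact Nat.prime_def.2 ⟨h.1, fun m hm => h.2 m (mem_dvs (by omega) hm)⟩

/-- Unary conditions for the order `o` of a class with centralizer order `c`. -/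
def un (k : ℕ) (cs : List ℕ) (n c : ℕ) (P : List ℕ) (o : ℕ) : Bool :=
  o != 1 && (o != 2 || Nat.ble n (k * c * c)) && P.all fun p =>
    bif o % p == 0 then
      bif o == p then n % (p * p) != 0 || c % (p * p) == 0
      else Nat.ble 2 (cs.countP fun x => x % c == 0)
    else c % p != 0 || Nat.ble 2 (cs.countP fun x => x % (p * o) == 0 && c % x == 0)

def full (k : ℕ) (ps : List (ℕ × ℕ)) (n : ℕ) : Bool :=
  (PR.all fun p => n % p != 0 || ps.any fun q => q.1 == p && q.2 % Nat.gcd n (p ^ 40) == 0) &&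
  (ps.all fun q => PR.all fun p =>
    bif q.1 % p == 0 then q.1 == p || ps.any fun r => r.1 * p == q.1 && r.2 % q.2 == 0
    else q.2 % p != 0 || ps.any fun r => r.1 == q.1 * p && q.2 % r.2 == 0) &&
  Nat.ble (tot ps n (· == 2) * tot ps n (· == 2)) (k * n) &&
  DS.all fun d => n % d != 0 || (1 + tot ps n fun o => d % o == 0) % d == 0

def pre (k : ℕ) (cs : List ℕ) (n : ℕ) : Bool :=
  (cs.all fun c => n % c == 0) && n % 2 == 0 &&
  (cs.any fun c => c % Nat.gcd n (2 ^ 40) == 0 && Nat.ble n (k * c * c)) &&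
  cs.all fun p => !PR.contains p || (1 + cs.count p * (n / p)) % p == 0

/-- Lists of candidate orders, or `none` if some class has no candidate. -/
noncomputable def cand (k : ℕ) (cs : List ℕ) (n : ℕ) (l : List ℕ) :
    (List (List ℕ × ℕ) → Bool) → Bool :=
  List.rec (motive := fun _ => (List (List ℕ × ℕ) → Bool) → Bool) (fun F => F [])
    (fun c _ ih F => List.rec (motive := fun _ => Bool) true
      (fun a A _ => ih fun L => F ((a :: A, c) :: L))
      ((dvs c).filter (un k cs n c ((dvs c).filter isP)))) l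

noncomputable def ass (F : List (ℕ × ℕ) → Bool) (L : List (List ℕ × ℕ)) : List (ℕ × ℕ) → Bool :=
  List.rec (motive := fun _ => List (ℕ × ℕ) → Bool) F
    (fun A _ ih acc => A.1.all fun o => ih ((o, A.2) :: acc)) L

noncomputable def leaf (k : ℕ) (sp : List ℕ → ℕ → Bool) (cs : List ℕ) (n : ℕ) : Bool :=
  sp cs n || !pre k cs n || cand k cs n cs fun L => ass (fun ps => !full k ps n) L []

def prune (x : ℕ) (cs : List ℕ) : Bool :=
  cs.any fun c => x % c == 0 && PR.contains c && (x != c || Nat.blt (c - 1) (2 * (cs.count c + 1)))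

def pr (m i : ℕ) : List ℕ → Bool
  | [] => false
  | x :: cs => prune x cs || (cs.length == 4 && (x + cs.sum) % m != i)

noncomputable def go (m i : ℕ) (lf : List ℕ → ℕ → Bool) (d : ℕ) : ℕ → ℕ → ℕ → List ℕ → Bool :=
  Nat.rec (motive := fun _ => ℕ → ℕ → ℕ → List ℕ → Bool)
    (fun a b _ cs => bif Nat.beq (Nat.mod b a) 0 then pr m i cs || force (b / a) (lf cs) else true)
    (fun d ih a b lo cs => pr m i cs || allR (fun x => force (Nat.sub (Nat.mul a x) b) fun a' =>
      force (Nat.mul b x) fun b' => ih a' b' x (x :: cs)) (max lo (b / a + 1))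
        ((5 * d + 6) * b / (5 * a))) d

end CA.H7Kc
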