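import Cfsg.Agent.Lib.Char.H7Kca

/-! Soundness of the class equation enumeration. -/

set_option autoImplicit false
namespace CA.H7Kc
open CA.CNet
variable {k n m i : ℕ} {ps : List (ℕ × ℕ)}

theorem two_le {α : Type*} {l : List α} {f : α → Bool} {a b : α} (ha : a ∈ l) (hb : b ∈ l)
    (h : a ≠ b) (fa : f a = true) (fb : f b = true) : 2 ≤ l.countP f := by
  classical
  rw [List.countP_eq_length_filter]
  refine le_trans ?_ (List.toFinset_card_le _)
  rw [← Finset.card_pair h]
  exact Finset.card_le_card fun x hx => by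
    rcases Finset.mem_insert.1 hx with rfl | hx
    · simp [ha, fa]
    · rw [Finset.mem_singleton.1 hx]; simp [hb, fb]

theorem le_tot {q : ℕ × ℕ} (hq : q ∈ ps) {f : ℕ → Bool} (h : f q.1 = true) :
    n / q.2 ≤ tot ps n f :=
  List.single_le_sum (fun _ _ => Nat.zero_le _) _
    (List.mem_map.2 ⟨q, List.mem_filter.2 ⟨hq, h⟩, rfl⟩)

theorem Data.perm {ps' : List (ℕ × ℕ)} (D : Data k ps n) (h : ps'.Perm ps) :
    full k ps' n = true := by
  have ht : ∀ f, tot ps' n f = tot ps n f := fun f => ((h.filter _).map _).sum_eq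
  simp only [full, ht, Bool.and_eq_true, List.all_eq_true, Bool.or_eq_true, bne_iff_ne, ne_eq,
    List.any_eq_true, beq_iff_eq, Bool.cond_eq_ite, Nat.ble_eq, h.mem_iff]
  refine ⟨⟨⟨fun p hp => or_iff_not_imp_left.2 fun e => ?_, fun q hq p hp => ?_⟩, D.inv⟩,
    fun d _ => or_iff_not_imp_left.2 fun e => Nat.mod_eq_zero_of_dvd
      (D.frob d (Nat.dvd_of_mod_eq_zero (not_not.1 e)))⟩
  · obtain ⟨q, h1, h2, h3⟩ := D.r3 p (PR_prime p hp) (Nat.dvd_of_mod_eq_zero (not_not.1 e))
    exact ⟨q, h1, h2, Nat.mod_eq_zero_of_dvd h3⟩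
  · split_ifs with e
    · simp only [Bool.or_eq_true, beq_iff_eq, List.any_eq_true, Bool.and_eq_true, h.mem_iff]
      refine or_iff_not_imp_left.2 fun e' => ?_
      obtain ⟨r, h1, h2, h3⟩ := D.r1 q hq p (PR_prime p hp) (Nat.dvd_of_mod_eq_zero e) e'
      exact ⟨r, h1, h2, Nat.mod_eq_zero_of_dvd h3⟩
    · simp only [Bool.or_eq_true, beq_iff_eq, List.any_eq_true, Bool.and_eq_true, h.mem_iff,
        bne_iff_ne]
      refine or_iff_not_imp_left.2 fun e' => ?_
      obtain ⟨r, h1, h2, h3⟩ := D.r2 q hq p (PR_prime p hp)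
        (Nat.dvd_of_mod_eq_zero (not_not.1 e')) fun e2 => e (Nat.mod_eq_zero_of_dvd e2)
      exact ⟨r, h1, h2, Nat.mod_eq_zero_of_dvd h3⟩

theorem Data.inv2 (D : Data k ps n) {q : ℕ × ℕ} (hq : q ∈ ps) (h : q.1 = 2) :
    n ≤ k * q.2 * q.2 := by
  obtain ⟨h1, h2, ⟨m, rfl⟩, -⟩ := D.five q hq
  have h3 := le_tot (n := q.2 * m) hq (f := (· == 2)) (by simp [h])
  rw [Nat.mul_div_cancel_left _ (by omega)] at h3
  have h4 := (Nat.mul_le_mul h3 h3).trans D.inv
  have h5 : 0 < m := Nat.pos_of_mul_pos_left (by omega : 0 < q.2 * m)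
  have h6 : m ≤ k * q.2 := Nat.le_of_mul_le_mul_right (by linarith) h5
  nlinarith

theorem Data.un_ok (D : Data k ps n) {cs : List ℕ} (h : cs.Perm (ps.map Prod.snd))
    {q : ℕ × ℕ} (hq : q ∈ ps) : q.1 ∈ (dvs q.2).filter (un k cs n q.2 ((dvs q.2).filter isP)) := by
  obtain ⟨h1, h2, h3, h4, h5⟩ := D.five q hq
  refine List.mem_filter.2 ⟨mem_dvs (by omega) h4, ?_⟩
  simp only [un, Bool.and_eq_true, bne_iff_ne, ne_eq, Bool.or_eq_true, Nat.ble_eq,
    List.all_eq_true, List.mem_filter, Bool.cond_eq_ite, beq_iff_eq, h.countP_eq, List.countP_map]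
  refine ⟨⟨h5, or_iff_not_imp_left.2 fun e => D.inv2 hq (not_not.1 e)⟩, fun p hp => ?_⟩
  have hp := isP_prime hp.2
  split_ifs with e1 e2
  · simp only [Bool.or_eq_true, bne_iff_ne, beq_iff_eq]
    subst e2
    exact or_iff_not_imp_left.2 fun e => Nat.mod_eq_zero_of_dvd
      (D.r8 q hq hp (Nat.dvd_of_mod_eq_zero (not_not.1 e)))
  · obtain ⟨r, r1, r2, r3⟩ := D.r1 q hq p hp (Nat.dvd_of_mod_eq_zero e1) e2
    rw [Nat.ble_eq]
    refine two_le hq r1 (fun e => ?_) (by simp) (by simpa using Nat.mod_eq_zero_of_dvd r3)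
    subst e
    have := hp.one_lt
    have : 0 < q.1 := Nat.pos_of_dvd_of_pos h4 (by omega)
    nlinarith
  · simp only [Bool.or_eq_true, bne_iff_ne, Nat.ble_eq]
    refine or_iff_not_imp_left.2 fun e => ?_
    have e3 := Nat.dvd_of_mod_eq_zero (not_not.1 e)
    have e4 : ¬ p ∣ q.1 := fun e2 => e1 (Nat.mod_eq_zero_of_dvd e2)
    obtain ⟨r, r1, r2, r3⟩ := D.r2 q hq p hp e3 e4
    refine two_le hq r1 (fun e => e4 ?_) ?_ ?_
    · subst e; exact r2 ▸ dvd_mul_left _ _
    · simpa using Nat.mod_eq_zero_of_dvd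
        (((Nat.Prime.coprime_iff_not_dvd hp).2 e4).mul_dvd_of_dvd_of_dvd e3 h4)
    · have := (D.five r r1).2.2.2.1
      rw [r2, mul_comm] at this
      simpa using ⟨Nat.mod_eq_zero_of_dvd this, Nat.mod_eq_zero_of_dvd r3⟩

theorem Data.pre_ok (D : Data k ps n) {cs : List ℕ} (h : cs.Perm (ps.map Prod.snd)) :
    pre k cs n = true := by
  simp only [pre, Bool.and_eq_true, List.all_eq_true, beq_iff_eq, List.any_eq_true, Nat.ble_eq,
    Bool.or_eq_true, Bool.not_eq_true', h.mem_iff, h.count_eq, List.mem_map]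
  refine ⟨⟨⟨?_, Nat.mod_eq_zero_of_dvd D.even⟩, ?_⟩, ?_⟩
  · rintro _ ⟨q, hq, rfl⟩
    exact Nat.mod_eq_zero_of_dvd (D.five q hq).2.2.1
  · obtain ⟨q, h1, h2, h3⟩ := D.r3 2 Nat.prime_two D.even
    exact ⟨_, ⟨q, h1, rfl⟩, Nat.mod_eq_zero_of_dvd h3, D.inv2 h1 h2⟩
  · rintro _ ⟨q, hq, rfl⟩
    refine or_iff_not_imp_left.2 fun e => Nat.mod_eq_zero_of_dvd ?_
    have hp : q.2.Prime := PR_prime _ (by simpa using e)
    have h1 := D.frob q.2 (D.five q hq).2.2.1
    have h2 : ∀ r ∈ ps, (q.2 % r.1 == 0) = true ↔ r.2 = q.2 := fun r hr => by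
      obtain ⟨-, -, -, r1, r2⟩ := D.five r hr
      rw [beq_iff_eq, ← Nat.dvd_iff_mod_eq_zero]
      refine ⟨fun e => ((D.pr q hq hp).1 r hr ?_).1, fun e => e ▸ r1⟩
      exact ((Nat.dvd_prime hp).1 e).resolve_left r2 ▸ r1
    have h3 : (tot ps n fun o => q.2 % o == 0) = (ps.map Prod.snd).count q.2 * (n / q.2) := by
      rw [tot, List.map_congr_left (g := fun _ => n / q.2) fun r hr => by
        rw [(h2 r (List.mem_filter.1 hr).1).1 (List.mem_filter.1 hr).2], List.map_const',
        List.sum_replicate, smul_eq_mul, List.count_eq_countP, List.countP_map,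
        ← List.countP_eq_length_filter]
      congr 1
      exact List.countP_congr fun r hr => by rw [h2 r hr]; simp
    rwa [h3] at h1

theorem cand_spec {cs : List ℕ} : ∀ (qs : List (ℕ × ℕ)) (F : List (List ℕ × ℕ) → Bool),
    (∀ q ∈ qs, q.1 ∈ (dvs q.2).filter (un k cs n q.2 ((dvs q.2).filter isP))) →
    cand k cs n (qs.map Prod.snd) F = true →
    ∃ L, List.Forall₂ (fun (q : ℕ × ℕ) (A : List ℕ × ℕ) => q.1 ∈ A.1 ∧ q.2 = A.2) qs L ∧ F L = true
  | [], F, _, h => ⟨[], .nil, h⟩
  | q :: qs, F, h1, h => by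
    have h2 := h1 q List.mem_cons_self
    have e : cand k cs n ((q :: qs).map Prod.snd) F = List.rec (motive := fun _ => Bool) true
      (fun a A _ => cand k cs n (qs.map Prod.snd) fun L => F ((a :: A, q.2) :: L))
      ((dvs q.2).filter (un k cs n q.2 ((dvs q.2).filter isP))) := rfl
    rw [e] at h
    generalize (dvs q.2).filter (un k cs n q.2 ((dvs q.2).filter isP)) = B at h h2
    cases B with
    | nil => cases h2
    | cons a A =>
      obtain ⟨L, h3, h4⟩ := cand_spec qs _ (fun r hr => h1 r (List.mem_cons_of_mem _ hr)) h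
      exact ⟨_, .cons ⟨h2, rfl⟩ h3, h4⟩

theorem ass_spec {F : List (ℕ × ℕ) → Bool} {qs : List (ℕ × ℕ)} {L : List (List ℕ × ℕ)}
    (h : List.Forall₂ (fun (q : ℕ × ℕ) (A : List ℕ × ℕ) => q.1 ∈ A.1 ∧ q.2 = A.2) qs L) :
    ∀ acc, ass F L acc = true → F (qs.reverse ++ acc) = true := by
  induction h with
  | nil => exact fun _ h => h
  | @cons q A qs L h1 _ ih =>
    intro acc h
    have e : ass F (A :: L) acc = A.1.all fun o => ass F L ((o, A.2) :: acc) := rfl
    rw [e, List.all_eq_true] at h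
    have := ih _ (h _ h1.1)
    rw [← h1.2] at this
    simpa using this

theorem Data.leaf_ok (D : Data k ps n) {sp : List ℕ → ℕ → Bool}
    (h : leaf k sp (ps.map Prod.snd).reverse n = true) : sp (ps.map Prod.snd).reverse n = true := by
  have hp := List.reverse_perm (ps.map Prod.snd)
  simp only [leaf, D.pre_ok hp, Bool.not_true, Bool.or_false, Bool.or_eq_true] at h
  refine h.resolve_right fun h => ?_
  nth_rewrite 2 [← List.map_reverse] at h
  obtain ⟨L, h1, h2⟩ := cand_spec ps.reverse _ (fun q hq => D.un_ok hp (List.mem_reverse.1 hq)) h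
  have := ass_spec h1 _ h2
  rw [D.perm (by simp)] at this
  cases this

theorem pr_false {all cs rest : List ℕ}
    (hP : ∀ c ∈ all, c.Prime → (∀ x ∈ all, c ∣ x → x = c) ∧ 2 * all.count c ≤ c - 1)
    (hi : (all.take 5).sum % m = i) (h1 : cs.reverse ++ rest = all) : pr m i cs = false := by
  cases cs with
  | nil => rfl
  | cons x cs =>
    refine Bool.eq_false_iff.2 fun h5 => ?_
    simp only [pr, prune, List.any_eq_true, Bool.and_eq_true, beq_iff_eq, Bool.or_eq_true,
      bne_iff_ne, Nat.blt_eq] at h5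
    rcases h5 with ⟨c, c1, ⟨c2, c3⟩, c4⟩ | ⟨c1, c2⟩
    swap
    · rw [← h1, List.take_left' (by simp [c1]), List.sum_reverse, List.sum_cons] at hi
      exact c2 hi
    obtain ⟨c5, c6⟩ := hP c (by simp [← h1, c1]) (PR_prime c (by simpa using c3))
    have c7 := c5 x (by simp [← h1]) (Nat.dvd_of_mod_eq_zero c2)
    subst c7
    rw [← h1, List.count_append, List.count_reverse, List.count_cons_self] at c6
    rcases c4 with c4 | c4
    · exact absurd rfl c4
    · omega

theorem go_spec {lf : List ℕ → ℕ → Bool} {all : List ℕ}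
    (hP : ∀ c ∈ all, c.Prime → (∀ x ∈ all, c ∣ x → x = c) ∧ 2 * all.count c ≤ c - 1)
    (hi : (all.take 5).sum % m = i) (hn : 0 < n) : ∀ (rest : List ℕ) (a b lo : ℕ) (cs : List ℕ), cs.reverse ++ rest = all → 0 < b →
    (a / b : ℚ) = (rest.map fun c : ℕ => (1 / c : ℚ)).sum + 1 / n → rest.Pairwise (· ≤ ·) →
    (∀ c ∈ rest, lo ≤ c ∧ 0 < c ∧ 5 * c ≤ n) → go m i lf rest.length a b lo cs = true →
    lf all.reverse n = true
  | [], a, b, lo, cs, h1, hb, h2, _, _, h => by
    have e : go m i lf 0 a b lo cs =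
      bif Nat.beq (b % a) 0 then pr m i cs || force (b / a) (lf cs) else true := rfl
    have h3 : b = a * n := by
      have : (b : ℚ) = a * n := by
        simp only [List.map_nil, List.sum_nil, zero_add] at h2
        field_simp at h2
        exact h2.symm
      exact_mod_cast this
    have ha : 0 < a := Nat.pos_of_mul_pos_right (h3 ▸ hb)
    rw [List.length_nil, e, force_eq, h3, Nat.mul_div_cancel_left _ ha, pr_false hP hi h1,
      Nat.mul_mod_right] at h
    simpa [← h1] using h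
  | x :: rest, a, b, lo, cs, h1, hb, h2, h3, h4, h => by
    have e : go m i lf (rest.length + 1) a b lo cs = (pr m i cs || allR (fun x => force (a * x - b)
      fun a' => force (b * x) fun b' => go m i lf rest.length a' b' x (x :: cs)) (max lo (b / a + 1))
        ((5 * rest.length + 6) * b / (5 * a))) := rfl
    obtain ⟨x1, x2, x3⟩ := h4 x List.mem_cons_self
    rw [List.pairwise_cons] at h3
    simp only [List.map_cons, List.sum_cons] at h2
    have q1 : (0 : ℚ) < b := by exact_mod_cast hb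
    have q2 : (0 : ℚ) < x := by exact_mod_cast x2
    have q3 : (0 : ℚ) < n := by exact_mod_cast hn
    have s0 : 0 ≤ (rest.map fun c : ℕ => (1 / c : ℚ)).sum :=
      List.sum_nonneg fun y hy => by obtain ⟨c, -, rfl⟩ := List.mem_map.1 hy; positivity
    have s1 : (rest.map fun c : ℕ => (1 / c : ℚ)).sum ≤ rest.length * (1 / x) := by
      have := List.sum_le_card_nsmul (rest.map fun c : ℕ => (1 / c : ℚ)) (1 / x) fun y hy => by
        obtain ⟨c, hc, rfl⟩ := List.mem_map.1 hy
        exact one_div_le_one_div_of_le q2 (by exact_mod_cast h3.1 c hc)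
      simpa using this
    have s2 : (1 / n : ℚ) ≤ 1 / (5 * x) :=
      one_div_le_one_div_of_le (by positivity) (by exact_mod_cast x3)
    have s3 : (0 : ℚ) < 1 / n := by positivity
    have l1 : b < a * x := by
      have : (1 / x : ℚ) < a / b := by linarith
      rw [div_lt_div_iff₀ q2 q1] at this
      exact_mod_cast (by linarith : (b : ℚ) < a * x)
    have ha : 0 < a := Nat.pos_of_mul_pos_right (by omega : 0 < a * x)
    have l2 : x * (5 * a) ≤ (5 * rest.length + 6) * b := by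
      have : (a / b : ℚ) ≤ (5 * rest.length + 6) / (5 * x) := by
        have : ((5 * rest.length + 6) / (5 * x) : ℚ) = 1 / x + rest.length * (1 / x) + 1 / (5 * x) := by
          field_simp; ring
        linarith
      rw [div_le_div_iff₀ q1 (by positivity)] at this
      exact_mod_cast (by linarith : (x * (5 * a) : ℚ) ≤ (5 * rest.length + 6) * b)
    rw [List.length_cons, e, pr_false hP hi h1, Bool.false_or] at h
    have h5 := allR_spec h x (max_le x1 ((Nat.div_lt_iff_lt_mul ha).2 (by linarith)))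
      ((Nat.le_div_iff_mul_le (by omega)).2 l2)
    simp only [force_eq] at h5
    · refine go_spec hP hi hn rest _ _ x _ (by simp [← h1]) (Nat.mul_pos hb x2) ?_ h3.2
        (fun c hc => ⟨h3.1 c hc, (h4 c (List.mem_cons_of_mem _ hc)).2⟩) h5
      rw [Nat.cast_sub l1.le]
      have : (((a * x : ℕ) - b) / (b * x : ℕ) : ℚ) = a / b - 1 / x := by
        push_cast; field_simp
      linarith

theorem Data.main (D : Data k ps n) (hn : 0 < n) {sp : List ℕ → ℕ → Bool}
    (hm : 0 < m) (h : ∀ i < m, go m i (leaf k sp) ps.length 1 1 5 [] = true) : sp (ps.map Prod.snd).reverse n = true := by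
  refine D.leaf_ok (go_spec (all := ps.map Prod.snd) (fun c hc hp => ?_) rfl hn _ 1 1 5 [] rfl one_pos
    (by rw [D.sum]; simp) D.srt (fun c hc => ?_) (by
      rw [List.length_map]; exact h _ (Nat.mod_lt _ hm)))
  · obtain ⟨q, hq, rfl⟩ := List.mem_map.1 hc
    refine ⟨fun x hx e => ?_, (D.pr q hq hp).2⟩
    obtain ⟨r, hr, rfl⟩ := List.mem_map.1 hx
    exact ((D.pr q hq hp).1 r hr e).1
  · obtain ⟨q, hq, rfl⟩ := List.mem_map.1 hc
    have := D.five q hq
    omega

end CA.H7Kc
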