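import Mathlib
import Cfsg.Agent.Lib.Char.H7Kcb
import Cfsg.Agent.Lib.Grp.H28SC
import Cfsg.Agent.Lib.Grp.PGBasic
import Cfsg.Agent.Lib.Odd.PF14
import Cfsg.Agent.S3993

/-! The class equation data of a simple group. -/

set_option autoImplicit false

namespace CA.H7Kc

open Subgroup CA.H28Syl CA.H28SC

variable {G : Type*} [Group G] [Finite G]

/-- The order of the centralizer. -/
noncomputable abbrev cc (x : G) : ℕ := Nat.card (CC x)

omit [Finite G] in
theorem cc_conj {x y : G} (h : IsConj x y) : cc x = cc y := by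
  obtain ⟨g, rfl⟩ := isConj_iff.1 h
  refine Nat.card_congr ((MulAut.conj g).toEquiv.subtypeEquiv fun c => ?_)
  rw [mem_CC, mem_CC]
  simp only [MulEquiv.toEquiv_eq_coe, MulEquiv.coe_toEquiv, MulAut.conj_apply, conj_mul]
  simp

omit [Finite G] in
theorem ord_conj {x y : G} (h : IsConj x y) : orderOf x = orderOf y := by
  obtain ⟨g, rfl⟩ := isConj_iff.1 h
  exact ((MulAut.conj g).orderOf_eq x).symm

omit [Finite G] in
theorem cc_dvd {x y : G} (h : y ∈ zpowers x) : cc x ∣ cc y := card_dvd_of_le fun c hc => by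
  obtain ⟨k, rfl⟩ := h
  exact mem_CC_iff_commute.2 ((mem_CC_iff_commute.1 hc).zpow_right k)

/-- The pair attached to a class. -/
noncomputable def pa (C : ConjClasses G) : ℕ × ℕ := (orderOf C.out, cc C.out)

omit [Finite G] in
theorem pa_mk (x : G) : pa (ConjClasses.mk x) = (orderOf x, cc x) := by
  have h : IsConj (ConjClasses.mk x).out x := ConjClasses.mk_eq_mk_iff_isConj.1 (Quotient.out_eq _)
  rw [pa, ord_conj h, cc_conj h]

open Classical in
theorem fiber [Fintype G] (x : G) :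
    (Finset.univ.filter fun g => ConjClasses.mk g = ConjClasses.mk x).card = Nat.card G / cc x := by
  have h := ConjClasses.card_carrier x
  rw [cc, nat_card_centralizer_nat_card_stabilizer, Nat.card_eq_fintype_card,
    Nat.card_eq_fintype_card, ← h, ← Fintype.card_subtype]
  exact Fintype.card_congr (Equiv.subtypeEquivRight fun g => ConjClasses.mem_carrier_iff_mk_eq.symm)

theorem cnt {L : List (ConjClasses G)} (h1 : L.Nodup) (h2 : ∀ C, C ∈ L ↔ C ≠ 1) (f : ℕ → Bool) :
    Nat.card {g : G // g ≠ 1 ∧ f (orderOf g) = true} = tot (L.map pa) (Nat.card G) f := by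
  classical
  have := Fintype.ofFinite G
  rw [tot, List.filter_map, List.map_map, ← List.sum_toFinset _ (h1.filter _),
    Nat.card_eq_fintype_card, Fintype.card_subtype,
    Finset.card_eq_sum_card_fiberwise (f := ConjClasses.mk)]
  · refine Finset.sum_congr rfl fun C hC => ?_
    obtain ⟨x, rfl⟩ := ConjClasses.mk_surjective C
    simp only [List.mem_toFinset, List.mem_filter, h2, Function.comp, pa_mk] at hC ⊢
    rw [← fiber, Finset.filter_filter]
    refine congrArg _ (Finset.filter_congr fun g _ => and_iff_right_of_imp fun e => ⟨?_, ?_⟩)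
    · rintro rfl; exact hC.1 e.symm
    · rw [ord_conj (ConjClasses.mk_eq_mk_iff_isConj.1 e)]; exact hC.2
  · intro g hg
    simp only [Finset.coe_filter, Finset.mem_univ, true_and, Set.mem_setOf_eq] at hg
    simp only [List.coe_toFinset, List.mem_filter, h2, Function.comp, pa_mk, Set.mem_setOf_eq]
    exact ⟨fun e => hg.1 (isConj_one_left.1 (ConjClasses.mk_eq_mk_iff_isConj.1 e)), hg.2⟩

theorem inv_sq : Nat.card {g : G // orderOf g = 2} * Nat.card {g : G // orderOf g = 2} ≤
    Nat.card (ConjClasses G) * Nat.card G := by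
  classical
  rw [← card_comm_eq_card_conjClasses_mul_card, ← Nat.card_prod]
  have h : ∀ x : G, ∃ u : G, ∀ w : G, w * x = x⁻¹ * w → u * x = x⁻¹ * u := fun x => by
    by_cases e : ∃ w : G, w * x = x⁻¹ * w
    · exact ⟨e.choose, fun _ _ => e.choose_spec⟩
    · exact ⟨1, fun w hw => absurd ⟨w, hw⟩ e⟩
  choose u hu using h
  have sq : ∀ t : {g : G // orderOf g = 2}, t.1⁻¹ = t.1 := fun t =>
    inv_eq_of_mul_eq_one_right (by have := pow_orderOf_eq_one t.1; rwa [t.2, sq] at this)
  have k : ∀ s t : {g : G // orderOf g = 2}, s.1 * (s.1 * t.1) = (s.1 * t.1)⁻¹ * s.1 := fun s t => by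
    rw [mul_inv_rev, mul_assoc, inv_mul_cancel, mul_one, sq, ← mul_assoc]
    nth_rewrite 1 [← sq s]
    rw [inv_mul_cancel, one_mul]
  refine Nat.card_le_card_of_injective (fun p => ⟨(p.1.1 * p.2.1, (u (p.1.1 * p.2.1))⁻¹ * p.1.1), ?_⟩)
    fun p q e => ?_
  · have h1 := k p.1 p.2
    have h2 := hu _ _ h1
    generalize p.1.1 * p.2.1 = x at *
    change x * ((u x)⁻¹ * p.1.1) = (u x)⁻¹ * p.1.1 * x
    have h3 : x * (u x)⁻¹ = (u x)⁻¹ * x⁻¹ := by
      calc x * (u x)⁻¹ = (u x)⁻¹ * (u x * x) * (u x)⁻¹ := by group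
        _ = _ := by rw [h2]; group
    rw [mul_assoc, h1, ← mul_assoc, ← mul_assoc, h3]
  · obtain ⟨e1, e2⟩ := Prod.ext_iff.1 (congrArg Subtype.val e)
    simp only at e1 e2
    rw [e1, mul_right_inj] at e2
    rw [e2, mul_right_inj] at e1
    exact Prod.ext (Subtype.ext e2) (Subtype.ext e1)

theorem central (p : ℕ) [Fact p.Prime] (P : Sylow p G) (h : p ∣ Nat.card G) :
    ∃ z ∈ (P : Subgroup G), orderOf z = p ∧ (P : Subgroup G) ≤ CC z := by
  have : Nontrivial P := (nontrivial_iff_ne_bot _).2 (P.ne_bot_of_dvd_card h)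
  obtain ⟨z, -, h1, h2⟩ := CA.PGBasic.exists_mem_center_orderOf P.isPGroup' (M := ⊤) top_ne_bot
  exact ⟨z, z.2, by rwa [orderOf_coe], fun g hg =>
    mem_CC.2 (congrArg Subtype.val (mem_center_iff.1 h1 ⟨g, hg⟩))⟩

theorem sq_dvd {p : ℕ} [hp : Fact p.Prime] {x : G} (hx : orderOf x = p)
    (h : p * p ∣ Nat.card G) : p * p ∣ cc x := by
  have h1 : IsPGroup p (zpowers x) :=
    IsPGroup.of_card (n := 1) (by rw [Nat.card_zpowers, hx, pow_one])
  obtain ⟨P, hP⟩ := h1.exists_le_sylow
  obtain ⟨z, z1, z2, z3⟩ := central p P ((dvd_mul_right p p).trans h)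
  obtain ⟨i, hi⟩ := (P.isPGroup'.to_le (inf_le_left (b := CC x))).exists_card_eq
  rw [← sq] at h ⊢
  by_cases e : 2 ≤ i
  · exact (pow_dvd_pow p e).trans (hi ▸ card_dvd_of_le inf_le_right)
  have h2 : zpowers x = (P : Subgroup G) ⊓ CC x := eq_of_le_of_card_ge (le_inf hP (zpowers_le_CC x)) (by
    rw [hi, Nat.card_zpowers, hx]
    exact (Nat.pow_le_pow_right hp.out.pos (by omega : i ≤ 1)).trans_eq (pow_one p))
  have h3 : z ∈ zpowers x := h2.ge ⟨z1, mem_CC.2 (mem_CC.1 (z3 (hP (mem_zpowers x)))).symm⟩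
  have h4 : zpowers z = zpowers x := eq_of_le_of_card_ge (zpowers_le.2 h3) (by
    rw [Nat.card_zpowers, Nat.card_zpowers, hx, z2])
  exact ((P.pow_dvd_card_of_pow_dvd_card h).trans (card_dvd_of_le z3)).trans
    (cc_dvd (h4.ge (mem_zpowers x)))

theorem sc_of {p : ℕ} [hp : Fact p.Prime] {x : G} (h1 : x ≠ 1) (h : cc x = p) : SC p x := by
  have h2 : orderOf x = p := ((Nat.dvd_prime hp.out).1
    (h ▸ (CC x).orderOf_dvd_natCard (mem_CC.2 rfl))).resolve_left (by simpa using h1)
  exact ⟨h2, (eq_of_le_of_card_ge (zpowers_le_CC x) (by rw [Nat.card_zpowers, h2]; exact h.le)).symm⟩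

theorem cc_of_ord {p : ℕ} [hp : Fact p.Prime] {x y : G} (h : SC p x) (hy : orderOf y = p) :
    cc y = p := by
  obtain ⟨a, ha, e⟩ := h.isSylGen.exists_isConj hy
  rw [← cc_conj e, cc, CC_xp h.ord ha, h.cent, Nat.card_zpowers, h.ord]

theorem five_le [IsSimpleGroup G] (hn : 24 < Nat.card G) {x : G} (hG : ¬ IsMulCommutative G)
    (hx : x ≠ 1) : 5 * cc x ≤ Nat.card G := by
  have h1 : CC x ≠ ⊤ := fun e => by
    rcases (inferInstance : (center G).Normal).eq_bot_or_eq_top with h | h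
    · exact hx (h.le (mem_center_iff.2 fun g => mem_CC.1 (e.ge (mem_top g))))
    · exact hG ⟨⟨fun a b => mem_center_iff.1 (h.ge (mem_top b)) a⟩⟩
  have h2 : (CC x).normalCore = ⊥ := (CC x).normalCore_normal.eq_bot_or_eq_top.resolve_right
    fun e => h1 (top_le_iff.1 (e.ge.trans (normalCore_le _)))
  have h3 : Nat.card G ∣ (CC x).index.factorial := by
    have := card_dvd_of_injective (MulAction.toPermHom G (G ⧸ CC x))
      ((MonoidHom.ker_eq_bot_iff _).1 (by rw [← normalCore_eq_ker, h2]))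
    rwa [Nat.card_perm] at this
  rw [← (CC x).card_mul_index, mul_comm]
  refine Nat.mul_le_mul_left _ (not_lt.1 fun e => ?_)
  have := (Nat.le_of_dvd (Nat.factorial_pos _) h3).trans (Nat.factorial_le (by omega : _ ≤ 4))
  exact absurd this (by simpa [Nat.factorial] using hn)

theorem data [IsSimpleGroup G] (hG : ¬ IsMulCommutative G) (hn : 24 < Nat.card G)
    (h5 : ∀ x : G, x ≠ 1 → 5 ≤ cc x) : ∃ ps : List (ℕ × ℕ),
      Data (Nat.card (ConjClasses G)) ps (Nat.card G) ∧ ps.length + 1 = Nat.card (ConjClasses G) ∧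
      ∀ q ∈ ps, ∃ x : G, x ≠ 1 ∧ cc x = q.2 := by
  classical
  have := Fintype.ofFinite G
  let L := ((Finset.univ.erase (1 : ConjClasses G)).toList).mergeSort
    fun a b => decide ((pa a).2 ≤ (pa b).2)
  have hp : L.Perm _ := List.mergeSort_perm _ _
  have h1 : L.Nodup := hp.nodup_iff.2 (Finset.nodup_toList _)
  have h2 : ∀ C, C ∈ L ↔ C ≠ 1 := fun C => by simp [hp.mem_iff]
  have m1 : ∀ q ∈ L.map pa, ∃ x : G, x ≠ 1 ∧ q = (orderOf x, cc x) := fun q hq => by
    obtain ⟨C, hC, rfl⟩ := List.mem_map.1 hq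
    obtain ⟨x, rfl⟩ := ConjClasses.mk_surjective C
    exact ⟨x, fun e => (h2 _).1 hC (e ▸ rfl), pa_mk x⟩
  have m2 : ∀ x : G, x ≠ 1 → (orderOf x, cc x) ∈ L.map pa := fun x hx =>
    List.mem_map.2 ⟨_, (h2 _).2 fun e =>
      hx (isConj_one_left.1 (ConjClasses.mk_eq_mk_iff_isConj.1 e)), pa_mk x⟩
  have ne : ∀ {x : G}, 1 < orderOf x → x ≠ 1 := fun h e => by simp [e] at h
  have hc : commutator G = ⊤ := (inferInstance : (commutator G).Normal).eq_bot_or_eq_top.resolve_left
    fun e =>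
    hG ⟨⟨fun a b => commutatorElement_eq_one_iff_mul_comm.1
      (e.le (commutator_mem_commutator (mem_top a) (mem_top b)))⟩⟩
  have sp : ∀ (P : G → Prop), P 1 → Nat.card {g // P g} = 1 + Nat.card {g // g ≠ 1 ∧ P g} :=
    fun P h => by
      rw [Nat.card_eq_fintype_card, Nat.card_eq_fintype_card, Fintype.card_subtype,
        Fintype.card_subtype, add_comm, ← Finset.card_insert_of_notMem (a := 1) (by simp)]
      congr 1
      ext g
      by_cases e : g = 1 <;> simp [e, h]
  refine ⟨L.map pa, ⟨?_, ?_, fun q hq => ?_, ?_, fun q hq hp => ?_, fun p hp h => ?_,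
    fun q hq p hp e1 e2 => ?_, fun q hq p hp e1 e2 => ?_, fun q hq hp e => ?_, ?_, fun d hd => ?_⟩,
    ?_, fun q hq => ?_⟩
  · have e := sp (fun _ => True) trivial
    have e' := cnt h1 h2 fun _ => true
    simp only [and_true] at e e'
    rw [e', Nat.card_congr (Equiv.subtypeUnivEquiv fun _ => trivial), tot, List.filter_true] at e
    have n0 : (Nat.card G : ℚ) ≠ 0 := by exact_mod_cast Nat.card_pos.ne'
    have e2 : (Nat.card G : ℚ) = 1 + (((L.map pa).map Prod.snd).map
        fun c : ℕ => (Nat.card G : ℚ) * (1 / c)).sum := by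
      rw [List.map_map, ← List.map_congr_left (f := fun q : ℕ × ℕ => ((Nat.card G / q.2 : ℕ) : ℚ))
        fun q hq => ?_]
      · conv_lhs => rw [e]
        rw [Nat.cast_add, Nat.cast_list_sum, List.map_map, Nat.cast_one]; rfl
      · obtain ⟨x, -, rfl⟩ := m1 q hq
        rw [Nat.cast_div (card_subgroup_dvd_card _) (by exact_mod_cast Nat.card_pos.ne')]
        simp [div_eq_mul_inv]
    rw [List.sum_map_mul_left] at e2
    field_simp
    linarith
  · rw [List.map_map, List.pairwise_map]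
    exact (List.pairwise_mergeSort (le := fun a b => decide ((pa a).2 ≤ (pa b).2))
      (fun a b c => by simpa using le_trans) (fun a b => by simpa using le_total _ _) _).imp
      (by simp)
  · obtain ⟨x, hx, rfl⟩ := m1 q hq
    exact ⟨h5 x hx, five_le hn hG hx, card_subgroup_dvd_card _,
      (CC x).orderOf_dvd_natCard (mem_CC.2 rfl), by simpa using hx⟩
  · by_contra e
    have := CA.PF.odd_solvable G (Nat.odd_iff.2 (by omega))
    exact hG ⟨⟨IsSimpleGroup.comm_iff_isSolvable.2 this⟩⟩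
  · obtain ⟨x, hx, rfl⟩ := m1 q hq
    have := Fact.mk hp
    have hs : SC (cc x) x := sc_of hx rfl
    refine ⟨fun r hr e => ?_, ?_⟩
    · obtain ⟨y, hy, rfl⟩ := m1 r hr
      obtain ⟨z, hz⟩ := exists_prime_orderOf_dvd_card' _ e
      rw [← orderOf_coe] at hz
      have z1 := sc_of (ne (hz ▸ hp.one_lt)) (cc_of_ord hs hz)
      have z2 : y ∈ zpowers z.1 := z1.cent.le (mem_CC.2 (mem_CC.1 z.2).symm)
      have z3 : orderOf y = cc x := ((Nat.dvd_prime hp).1
        (hz ▸ orderOf_dvd_of_mem_zpowers z2)).resolve_left (by simpa using hy)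
      exact ⟨cc_of_ord hs z3, z3⟩
    · have e1 := card_classes hs.isSylGen
      have e2 := mul_ee hs.ord
      have e3 := ee_ne_one_of_perfect hs.isSylGen hc
      have e4 : ee x ≠ 0 := fun e => by
        have := hp.two_le
        rw [e] at e2; simp only at this; omega
      have e5 : ((L.map pa).map Prod.snd).count (cc x) ≤ (cc x - 1) / ee x := by
        rw [← e1, List.count_eq_countP, List.map_map, List.countP_map,
          List.countP_eq_length_filter, ← List.toFinset_card_of_nodup (h1.filter _),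
          Nat.card_eq_fintype_card, Fintype.card_subtype]
        refine Finset.card_le_card fun C hC => ?_
        obtain ⟨y, rfl⟩ := ConjClasses.mk_surjective C
        simp only [List.mem_toFinset, List.mem_filter, h2, Function.comp, pa_mk, beq_iff_eq] at hC
        exact Finset.mem_filter.2 ⟨Finset.mem_univ _, y, rfl,
          (sc_of (fun e => hC.1 (by rw [e]; rfl)) hC.2).ord⟩
      calc _ ≤ ee x * ((cc x - 1) / ee x) := Nat.mul_le_mul (by omega) e5
        _ = _ := by rw [mul_comm, e2]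
  · have := Fact.mk hp
    obtain ⟨P⟩ : Nonempty (Sylow p G) := inferInstance
    obtain ⟨z, -, z2, z3⟩ := central p P h
    refine ⟨_, m2 z (ne (z2 ▸ hp.one_lt)), z2, ?_⟩
    obtain ⟨i, -, hi⟩ := (Nat.dvd_prime_pow hp).1 (Nat.gcd_dvd_right (Nat.card G) (p ^ 40))
    rw [hi]
    exact (P.pow_dvd_card_of_pow_dvd_card (hi ▸ Nat.gcd_dvd_left _ _)).trans (card_dvd_of_le z3)
  · obtain ⟨x, hx, rfl⟩ := m1 q hq
    have e3 : orderOf (x ^ p) * p = orderOf x := by
      rw [orderOf_pow_of_dvd hp.ne_zero e1, Nat.div_mul_cancel e1]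
    refine ⟨_, m2 (x ^ p) fun e => e2 ?_, e3, cc_dvd (pow_mem (mem_zpowers x) p)⟩
    rw [e, orderOf_one, one_mul] at e3
    exact e3.symm
  · obtain ⟨x, hx, rfl⟩ := m1 q hq
    have := Fact.mk hp
    obtain ⟨z, hz⟩ := exists_prime_orderOf_dvd_card' _ e1
    rw [← orderOf_coe] at hz
    have c1 : Commute x z := (mem_CC_iff_commute.1 z.2).symm
    have c2 : Nat.Coprime p (orderOf x) := (Nat.Prime.coprime_iff_not_dvd hp).2 e2
    have e3 : orderOf (x * z) = orderOf x * p := by
      rw [c1.orderOf_mul_eq_mul_orderOf_of_coprime (hz ▸ c2.symm), hz]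
    refine ⟨_, m2 (x * z) fun e => e2 ?_, e3, cc_dvd ?_⟩
    · rw [e, orderOf_one] at e3
      exact absurd (Nat.eq_one_of_mul_eq_one_left e3.symm) hp.one_lt.ne'
    · refine zpowers_le.2 (pow_mem (mem_zpowers (x * z)) p) ?_
      rw [c1.mul_pow, ← hz, pow_orderOf_eq_one, mul_one, hz]
      exact mem_zpowers_pow_iff.2 c2
  · obtain ⟨x, hx, rfl⟩ := m1 q hq
    have := Fact.mk hp
    exact sq_dvd rfl e
  · rw [← cnt h1 h2, Nat.card_congr (Equiv.subtypeEquivRight (q := fun g : G => orderOf g = 2)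
      fun g => by simpa using fun e => ne (by omega))]
    exact inv_sq
  · have := Cfsg.Agent.S3993.result d hd
    rwa [sp (fun g => g ^ d = 1) (one_pow d), Nat.card_congr (Equiv.subtypeEquivRight
      (q := fun g : G => g ≠ 1 ∧ (d % orderOf g == 0) = true) fun g => by
        rw [beq_iff_eq, ← Nat.dvd_iff_mod_eq_zero, orderOf_dvd_iff_pow_eq_one]),
      cnt h1 h2 fun o => d % o == 0] at this
  · rw [List.length_map, hp.length_eq, Finset.length_toList,
      Finset.card_erase_add_one (Finset.mem_univ _), Nat.card_eq_fintype_card, Finset.card_univ]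
  · obtain ⟨x, hx, rfl⟩ := m1 q hq
    exact ⟨x, hx, rfl⟩

end CA.H7Kc
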