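import Mathlib
import Cfsg.Agent.Lib.Char.H7Kcb

/-! The class equations with nine classes. -/

set_option autoImplicit false

namespace CA.H7Kc

def sp9 (cs : List ℕ) (n : ℕ) : Bool :=
  Nat.blt n 5616 || (n == 20160 && cs.contains 5 && cs.contains 7)

theorem n9_0 : go 20 0 (leaf 9 sp9) 8 1 1 5 [] = true := by decide +kernel
theorem n9_1 : go 20 1 (leaf 9 sp9) 8 1 1 5 [] = true := by decide +kernel
theorem n9_2 : go 20 2 (leaf 9 sp9) 8 1 1 5 [] = true := by decide +kernel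
theorem n9_3 : go 20 3 (leaf 9 sp9) 8 1 1 5 [] = true := by decide +kernel
theorem n9_4 : go 20 4 (leaf 9 sp9) 8 1 1 5 [] = true := by decide +kernel
theorem n9_5 : go 20 5 (leaf 9 sp9) 8 1 1 5 [] = true := by decide +kernel
theorem n9_6 : go 20 6 (leaf 9 sp9) 8 1 1 5 [] = true := by decide +kernel
theorem n9_7 : go 20 7 (leaf 9 sp9) 8 1 1 5 [] = true := by decide +kernel
theorem n9_8 : go 20 8 (leaf 9 sp9) 8 1 1 5 [] = true := by decide +kernel
theorem n9_9 : go 20 9 (leaf 9 sp9) 8 1 1 5 [] = true := by decide +kernel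
theorem n9_10 : go 20 10 (leaf 9 sp9) 8 1 1 5 [] = true := by decide +kernel
theorem n9_11 : go 20 11 (leaf 9 sp9) 8 1 1 5 [] = true := by decide +kernel
theorem n9_12 : go 20 12 (leaf 9 sp9) 8 1 1 5 [] = true := by decide +kernel
theorem n9_13 : go 20 13 (leaf 9 sp9) 8 1 1 5 [] = true := by decide +kernel
theorem n9_14 : go 20 14 (leaf 9 sp9) 8 1 1 5 [] = true := by decide +kernel
theorem n9_15 : go 20 15 (leaf 9 sp9) 8 1 1 5 [] = true := by decide +kernel
theorem n9_16 : go 20 16 (leaf 9 sp9) 8 1 1 5 [] = true := by decide +kernel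
theorem n9_17 : go 20 17 (leaf 9 sp9) 8 1 1 5 [] = true := by decide +kernel
theorem n9_18 : go 20 18 (leaf 9 sp9) 8 1 1 5 [] = true := by decide +kernel
theorem n9_19 : go 20 19 (leaf 9 sp9) 8 1 1 5 [] = true := by decide +kernel

theorem nine {ps : List (ℕ × ℕ)} {n : ℕ} (D : Data 9 ps n) (hn : 0 < n) (h : ps.length = 8) :
    n < 5616 ∨ (n = 20160 ∧ 5 ∈ ps.map Prod.snd ∧ 7 ∈ ps.map Prod.snd) := by
  have := D.main hn (sp := sp9) (m := 20) (by decide) fun i hi => by
    rw [h]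
    interval_cases i
    exacts [n9_0, n9_1, n9_2, n9_3, n9_4, n9_5, n9_6, n9_7, n9_8, n9_9,
      n9_10, n9_11, n9_12, n9_13, n9_14, n9_15, n9_16, n9_17, n9_18, n9_19]
  simpa [sp9, and_assoc] using this

end CA.H7Kc
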