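import Cfsg.Agent.Lib.Char.CharGen
import Cfsg.Agent.Lib.Perm.SnCyc
import Mathlib.Data.Sym.Sym2.Order

/-! The characters `(n-2,2)` and `(n-2,1,1)` of a fourfold transitive group. -/

set_option autoImplicit false

namespace CA.H8Sn

open Finset Equiv Cfsg CChar.CharGen CChar.CharOrth

variable {X : Type} [Fintype X] [DecidableEq X] {ι κ : Type} [Fintype ι] [DecidableEq ι] [Fintype κ]
  [DecidableEq κ] {D : Type} [Group D] [Fintype D]

/-- the equality pattern of a tuple -/
def pat {Y : Type} [DecidableEq Y] (a : ι → Y) : ι → ι → Bool := fun i j => decide (a i = a j)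

/-- tuples moved by `τ` as `σ` prescribes -/
def U (σ : ι → ι) (τ : Perm X) : ℕ := #{a : ι → X | τ ∘ a = a ∘ σ}

/-- the number of invariant patterns -/
def NP (σ : ι → ι) : ℕ :=
  #{ρ ∈ univ.image (pat : (ι → ι) → ι → ι → Bool) | ∀ i j, ρ (σ i) (σ j) = ρ i j}

/-- transitivity on the tuples of each pattern -/
def Tr (φ : D →* Perm X) : Prop := ∀ (ι : Type) [Fintype ι], Fintype.card ι ≤ 4 → ∀ a b : ι → X,
  pat a = pat b → ∃ g, φ g ∘ a = b

omit [Fintype X] [Fintype ι] [DecidableEq ι] in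
theorem pat_comp {Y : Type} [DecidableEq Y] {f : X → Y} (hf : Function.Injective f) (a : ι → X) :
    pat (f ∘ a) = pat a := by
  funext i j; simp [pat, hf.eq_iff]

theorem mom {φ : D →* Perm X} (h : Tr φ) (h4 : Fintype.card ι ≤ 4) (hX : 4 ≤ Fintype.card X) (σ : ι → ι) :
    ∑ g, U σ (φ g) = NP σ * Fintype.card D := by
  classical
  obtain ⟨e⟩ : Nonempty (ι ↪ X) := Function.Embedding.nonempty_of_card_le (h4.trans hX)
  have e1 : ∑ g, U σ (φ g) = ∑ a : ι → X, #{g | φ g ∘ a = a ∘ σ} := by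
    simp only [U, card_filter]; exact sum_comm
  rw [e1, ← sum_fiberwise_of_maps_to (t := univ.image (pat : (ι → ι) → ι → ι → Bool)) (g := pat), NP,
    ← smul_eq_mul, ← sum_const, sum_filter]
  · refine sum_congr rfl fun ρ hρ => ?_
    obtain ⟨b, -, rfl⟩ := mem_image.1 hρ
    split_ifs with c
    · rw [← card_univ, card_eq_sum_card_fiberwise (f := fun g => φ g ∘ e ∘ b)
        (t := {a : ι → X | pat a = pat b}) fun g _ => by
          simp [pat_comp (φ g).injective, pat_comp e.injective]]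
      refine sum_congr rfl fun a ha => ?_
      have ha := (mem_filter.1 ha).2
      obtain ⟨k, hk⟩ := h ι h4 (e ∘ b) a (by rw [pat_comp e.injective, ha])
      obtain ⟨l, hl⟩ := h ι h4 a (a ∘ σ) (by
        funext i j; exact (congrFun (congrFun ha i) j).trans ((c i j).symm.trans
          (congrFun (congrFun ha _) _).symm))
      refine (card_equiv ((Equiv.mulRight k⁻¹).trans (Equiv.mulLeft l)) fun g => ?_).symm
      simp only [mem_filter, mem_univ, true_and, Equiv.trans_apply, coe_mulRight, coe_mulLeft, map_mul,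
        Perm.coe_mul, map_inv]
      rw [← hl, Function.comp_assoc, Function.comp_assoc, ((φ l).injective.comp_left).eq_iff]
      rw [show ⇑(φ k)⁻¹ ∘ a = e ∘ b by rw [← hk]; funext i; simp]
    · refine sum_eq_zero fun a ha => card_eq_zero.2 (filter_eq_empty_iff.2 fun g _ hg => c fun i j => ?_)
      rw [← (mem_filter.1 ha).2]
      conv_rhs => rw [← pat_comp (φ g).injective a, hg]
      rfl
  · intro a _
    refine mem_image.2 ⟨fun i => @Function.invFun _ _ ⟨i⟩ a (a i), mem_univ _, ?_⟩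
    have k : ∀ i, a (@Function.invFun _ _ ⟨i⟩ a (a i)) = a i := fun i => @Function.invFun_eq _ _ ⟨i⟩ _ _ ⟨i, rfl⟩
    funext i j
    exact decide_eq_decide.2 ⟨fun c => (k i).symm.trans ((congrArg a c).trans (k j)), fun c => by simp only [c]⟩

theorem U_sum (σ : ι → ι) (σ' : κ → κ) (τ : Perm X) : U (Sum.map σ σ') τ = U σ τ * U σ' τ := by
  rw [U, U, U, ← card_product]
  refine card_equiv (sumArrowEquivProdArrow _ _ _) fun a => ?_
  simp only [mem_filter, mem_univ, true_and, mem_product, funext_iff, Sum.forall]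
  rfl

/-- fixed points -/
def f1 (τ : Perm X) : ℕ := #{x | τ x = x}

/-- fixed points of the square -/
def f2 (τ : Perm X) : ℕ := #{x | τ (τ x) = x}

theorem U_one (τ : Perm X) : U (id : Unit → Unit) τ = f1 τ :=
  card_equiv (funUnique _ _) fun a => by simp [funext_iff, Unique.forall_iff]

theorem f2_eq (τ : Perm X) : f2 τ = #{p : X × X | τ p.1 = p.2 ∧ τ p.2 = p.1} :=
  card_bij (fun x _ => (x, τ x)) (fun x h => by simpa using h) (fun _ _ _ _ h => congrArg Prod.fst h)
    fun ⟨x, y⟩ h => by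
      simp only [mem_filter, mem_univ, true_and] at h
      exact ⟨x, by simp [h], by simp [h]⟩

theorem U_two (τ : Perm X) : U not τ = f2 τ := by
  rw [f2_eq]
  exact card_equiv (boolArrowEquivProd _) fun a => by simp [funext_iff, boolArrowEquivProd]

/-- fixed unordered pairs -/
def s2 (τ : Perm X) : ℕ := #{z : Sym2 X | z.map τ = z}

theorem two_s2 [LinearOrder X] (τ : Perm X) : 2 * s2 τ = f1 τ ^ 2 + f2 τ := by
  let T : X × X → Prop := fun p => (τ p.1 = p.1 ∧ τ p.2 = p.2) ∨ (τ p.1 = p.2 ∧ τ p.2 = p.1)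
  have a : s2 τ = #{p : X × X | T p ∧ p.1 ≤ p.2} := by
    refine (card_bij (fun p _ => s(p.1, p.2)) (fun p h => ?_) (fun p h q h' e => ?_) fun z h => ?_).symm
    · simpa [Prod.ext_iff] using (mem_filter.1 h).2.1
    · exact congrArg Subtype.val (Sym2.sortEquiv.symm.injective (a₁ := ⟨p, (mem_filter.1 h).2.2⟩)
        (a₂ := ⟨q, (mem_filter.1 h').2.2⟩) e)
    · obtain ⟨⟨p, hp⟩, rfl⟩ := Sym2.sortEquiv.symm.surjective z
      exact ⟨p, mem_filter.2 ⟨mem_univ _, by simpa [Prod.ext_iff] using (mem_filter.1 h).2, hp⟩, rfl⟩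
  have b : #{p : X × X | T p ∧ p.1 ≤ p.2} = #{p : X × X | T p ∧ p.2 ≤ p.1} :=
    card_equiv (prodComm _ _) fun p => by simp [T, and_comm]
  rw [two_mul, a]
  conv_lhs => enter [2]; rw [b]
  rw [f2_eq, sq, f1, ← card_product, ← filter_product, univ_product_univ]
  simp only [card_filter, ← sum_add_distrib]
  refine sum_congr rfl fun ⟨x, y⟩ _ => ?_
  rcases lt_trichotomy x y with c | rfl | c
  · have := c.ne
    simp only [T, c.le, c.not_ge, and_true, and_false, if_false]; grind
  · simp [T]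
  · have := c.ne
    simp only [T, c.le, c.not_ge, and_true, and_false, if_false]; grind

/-- the character `(n-2,2)` -/
noncomputable def χ2 (τ : Perm X) : ℂ := s2 τ - 2 * f1 τ

/-- the character `(n-2,1,1)` -/
noncomputable def χ3 (τ : Perm X) : ℂ := f1 τ * f1 τ - s2 τ - f1 τ + 1

theorem s2_eq [LinearOrder X] (τ : Perm X) : (s2 τ : ℂ) = (f1 τ ^ 2 + f2 τ) / 2 := by
  have := congrArg (Nat.cast : ℕ → ℂ) (two_s2 τ)
  push_cast at this; linear_combination this / 2

omit [Fintype D] in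
theorem gen_f1 (φ : D →* Perm X) : IsGeneralizedCharacter D fun g => (f1 (φ g) : ℂ) := by
  let _ := MulAction.compHom X φ
  convert gen_of_char (char_perm (G := D) X) using 3 with g
  rw [f1, ← Fintype.card_subtype, ← Nat.card_eq_fintype_card]; rfl

omit [Fintype D] in
theorem gen_s2 (φ : D →* Perm X) : IsGeneralizedCharacter D fun g => (s2 (φ g) : ℂ) := by
  let _ : MulAction D (Sym2 X) :=
    { smul g z := z.map (φ g)
      one_smul z := by show z.map (φ 1) = z; simp
      mul_smul g h z := by show z.map (φ (g * h)) = (z.map (φ h)).map (φ g); simp [Sym2.map_map] }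
  convert gen_of_char (char_perm (G := D) (Sym2 X)) using 3 with g
  rw [s2, ← Fintype.card_subtype, ← Nat.card_eq_fintype_card]; rfl

theorem poly {φ : D →* Perm X} (h : Tr φ) (hX : 4 ≤ Fintype.card X) (a b c d e f k l m : ℂ) :
    ∑ g, (a * f1 (φ g) ^ 4 + b * (f1 (φ g) ^ 2 * f2 (φ g)) + c * f2 (φ g) ^ 2 + d * f1 (φ g) ^ 3 +
      e * (f1 (φ g) * f2 (φ g)) + f * f1 (φ g) ^ 2 + k * f2 (φ g) + l * f1 (φ g) + m) =
    (15 * a + 7 * b + 7 * c + 5 * d + 3 * e + 2 * f + 2 * k + l + m) * Fintype.card D := by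
  let i : Unit → Unit := id
  have h1 := mom h (by decide) hX (Sum.map (Sum.map i i) (Sum.map i i))
  have h2 := mom h (by decide) hX (Sum.map (Sum.map i i) not)
  have h3 := mom h (by decide) hX (Sum.map not not)
  have h4 := mom h (by decide) hX (Sum.map (Sum.map i i) i)
  have h5 := mom h (by decide) hX (Sum.map i not)
  have h6 := mom h (by decide) hX (Sum.map i i)
  have h7 := mom h (by decide) hX not
  have h8 := mom h (by decide) hX i
  rw [show NP _ = 15 by decide +kernel] at h1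
  rw [show NP _ = 7 by decide +kernel] at h2 h3
  rw [show NP _ = 5 by decide +kernel] at h4
  rw [show NP _ = 3 by decide +kernel] at h5
  rw [show NP _ = 2 by decide +kernel] at h6 h7
  rw [show NP _ = 1 by decide +kernel] at h8
  simp only [U_sum, i, U_one, U_two] at h1 h2 h3 h4 h5 h6 h7 h8
  simp only [sum_add_distrib, ← mul_sum, sum_const, card_univ, nsmul_eq_mul]
  have c := fun {u v : ℕ} (h : u = v) => congrArg (Nat.cast : ℕ → ℂ) h
  replace h1 := c h1; replace h2 := c h2; replace h3 := c h3; replace h4 := c h4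
  replace h5 := c h5; replace h6 := c h6; replace h7 := c h7; replace h8 := c h8
  push_cast at h1 h2 h3 h4 h5 h6 h7 h8
  simp only [← sq, ← pow_mul, ← pow_succ, Nat.reducePow, Nat.reduceAdd] at h1 h2 h3 h4 h6
  rw [h1, h2, h3, h4, h5, h6, h7, h8]; ring

theorem irr [LinearOrder X] {φ : D →* Perm X} (h : Tr φ) (hX : 4 ≤ Fintype.card X) :
    IsIrrCharacter D (fun g => χ2 (φ g)) ∧ IsIrrCharacter D fun g => χ3 (φ g) := by
  have n0 : (Nat.card D : ℂ) ≠ 0 := Nat.cast_ne_zero.2 Nat.card_pos.ne'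
  have a1 : f1 (φ 1) = Fintype.card X := by simp [f1]
  have a2 : f2 (φ 1) = Fintype.card X := by simp [f2]
  have hX' : (4 : ℝ) ≤ Fintype.card X := by exact_mod_cast hX
  refine ⟨irr_of_gen_norm_one ?_ ?_ ?_, irr_of_gen_norm_one ?_ ?_ ?_⟩
  · convert gen_sub (gen_sub (gen_s2 φ) (gen_f1 φ)) (gen_f1 φ) using 1
    funext g; simp [χ2]; ring
  · rw [classInner, sum_congr rfl fun g _ => ?_, poly h hX (1 / 4) (1 / 2) (1 / 4) (-2) (-2) 4 0 0 0,
      ← Nat.card_eq_fintype_card]
    · field_simp; norm_num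
    · simp only [χ2, s2_eq, map_sub, map_mul, map_natCast, map_ofNat, map_div₀, map_add, map_pow]; ring
  · simp only [χ2, s2_eq, a1, a2]
    simp [sq]; nlinarith
  · exact gen_add (gen_sub (gen_sub (gen_mul (gen_f1 φ) (gen_f1 φ)) (gen_s2 φ)) (gen_f1 φ)) gen_one
  · rw [classInner, sum_congr rfl fun g _ => ?_, poly h hX (1 / 4) (-1 / 2) (1 / 4) (-1) 1 2 (-1) (-2) 1,
      ← Nat.card_eq_fintype_card]
    · field_simp; norm_num
    · simp only [χ3, s2_eq, map_sub, map_mul, map_natCast, map_ofNat, map_div₀, map_add, map_pow, map_one]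
      ring
  · simp only [χ3, s2_eq, a1, a2]
    simp [sq]; nlinarith

omit [Fintype ι] [DecidableEq ι] in
theorem ex_perm {a b : ι → X} (h : pat a = pat b) : ∃ τ : Perm X, τ ∘ a = b := by
  have k : ∀ i j, a i = a j ↔ b i = b j := fun i j => decide_eq_decide.1 (congrFun (congrFun h i) j)
  obtain ⟨τ, hτ⟩ := Perm.exists_extending_pair (Subtype.val : Set.range a → X) (fun x => b x.2.choose)
    Subtype.val_injective fun x y e => Subtype.ext (by
      rw [← x.2.choose_spec, ← y.2.choose_spec]; exact (k _ _).2 e)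
  exact ⟨τ, funext fun i => (hτ ⟨a i, i, rfl⟩).trans ((k _ _).1 (Exists.choose_spec (⟨i, rfl⟩ : a i ∈ Set.range a)))⟩

theorem tr_top : Tr (MonoidHom.id (Perm X)) := fun _ _ _ _ _ h => ex_perm h

theorem tr_alt (hX : 6 ≤ Fintype.card X) : Tr (alternatingGroup X).subtype := fun ι _ h4 a b h => by
  obtain ⟨τ, hτ⟩ := ex_perm h
  rcases Int.units_eq_one_or (Perm.sign τ) with c | c
  · exact ⟨⟨τ, c⟩, hτ⟩
  obtain ⟨x, hx, y, hy, ne⟩ := one_lt_card.1 (show 1 < #(univ.image a)ᶜ by
    have := card_image_le (s := univ) (f := a)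
    rw [card_compl]; rw [card_univ] at this; omega)
  refine ⟨⟨τ * swap x y, by simp [c, ne]⟩, funext fun i => (congrArg τ ?_).trans (congrFun hτ i)⟩
  exact swap_apply_of_ne_of_ne (fun e => by simp [← e] at hx) fun e => by simp [← e] at hy

theorem f2_of {τ : Perm X} (h : 2 ∉ τ.cycleType) : f2 τ = f1 τ := by
  refine congrArg card (filter_congr fun x _ => ⟨fun e => by_contra fun c => h ?_, fun e => by rw [e, e]⟩)
  have hc := τ.isCycle_cycleOf c
  have d := orderOf_dvd_of_pow_eq_one ((hc.pow_eq_one_iff' (x := x) (n := 2) (by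
    rwa [Perm.cycleOf_apply_self])).2 ((τ.cycleOf_pow_apply_self x 2).trans e))
  rw [hc.orderOf] at d
  have := hc.two_le_card_support
  rw [Perm.cycleType_def]
  exact Multiset.mem_map.2 ⟨_, Perm.cycleOf_mem_cycleFactorsFinset_iff.2 (Perm.mem_support.2 c),
    (Nat.le_of_dvd two_pos d).antisymm this⟩

theorem f1_eq (τ : Perm X) : f1 τ + τ.cycleType.sum = Fintype.card X := by
  rw [Perm.sum_cycleType, add_comm, ← card_add_card_compl τ.support, f1]
  congr 2; ext x; simp

theorem zero [LinearOrder X] {τ : Perm X} (h : 2 ∉ τ.cycleType) (h3 : Fintype.card X ≤ τ.cycleType.sum + 3) :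
    χ2 τ = 0 ∨ χ3 τ = 0 := by
  have := f1_eq τ
  simp only [χ2, χ3, s2_eq, f2_of h]
  obtain e | e | e | e : f1 τ = 0 ∨ f1 τ = 1 ∨ f1 τ = 2 ∨ f1 τ = 3 := by omega
  all_goals rw [e]; norm_num

end CA.H8Sn
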