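import Mathlib.GroupTheory.DoubleCoset
import Cfsg.Agent.Lib.Char.Ind

/-!
Mackey's subgroup theorem for `Cfsg.indFun`, and its special case `G = K H`.
-/

set_option autoImplicit false

open Cfsg

namespace CA.Mackey

variable {G : Type*} [Group G]

instance finite_quot [Finite G] (H K : Set G) : Finite (DoubleCoset.Quotient H K) :=
  Quotient.finite _

/-- The subgroup `K ∩ x H x⁻¹` of `K`. -/
def sub (H K : Subgroup G) (x : G) : Subgroup K :=
  H.comap ((MulAut.conj x⁻¹).toMonoidHom.comp K.subtype)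

theorem mem_sub {H K : Subgroup G} {x : G} {k : K} : k ∈ sub H K x ↔ x⁻¹ * k * x ∈ H := by
  change x⁻¹ * k * x⁻¹⁻¹ ∈ H ↔ _
  rw [inv_inv]

/-- The function `u ↦ θ (x⁻¹ u x)` on `K ∩ x H x⁻¹`. -/
def fn (H K : Subgroup G) (x : G) (θ : H → ℂ) : sub H K x → ℂ :=
  fun u => θ ⟨x⁻¹ * (u : K) * x, mem_sub.1 u.2⟩

/-- The homomorphism `u ↦ x⁻¹ u x` from `K ∩ x H x⁻¹` to `H`. -/
def hom (H K : Subgroup G) (x : G) : sub H K x →* H where
  toFun u := ⟨x⁻¹ * (u : K) * x, mem_sub.1 u.2⟩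
  map_one' := Subtype.ext (by simp)
  map_mul' a b := Subtype.ext (by simp [mul_assoc])

theorem fn_eq (H K : Subgroup G) (x : G) (θ : H → ℂ) :
    fn H K x θ = fun u => θ (hom H K x u) := rfl

theorem ext_fn (H K : Subgroup G) (x : G) (θ : H → ℂ) (k : K) :
    extendByZero (sub H K x) (fn H K x θ) k = extendByZero H θ (x⁻¹ * k * x) := by
  by_cases hk : k ∈ sub H K x
  · rw [CA.Ind.ext_of_mem _ _ hk, CA.Ind.ext_of_mem H θ (mem_sub.1 hk)]
    rfl
  · rw [CA.Ind.ext_of_not_mem _ _ hk, CA.Ind.ext_of_not_mem H θ (fun h => hk (mem_sub.2 h))]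

open Classical in
/-- Counting over a double coset. -/
theorem sum_prod_eq [Fintype G] (H K : Subgroup G) [Fintype H] [Fintype K] (x : G) (f : G → ℂ) :
    ∑ y : K, ∑ h : H, f (y * x * h) = (Nat.card (sub H K x) : ℂ) *
      ∑ z ∈ Finset.univ.filter (fun z : G => z ∈ DoubleCoset.doubleCoset x K H), f z := by
  rw [← Fintype.sum_prod_type' (f := fun (y : K) (h : H) => f (y * x * h)),
    ← Finset.sum_fiberwise_of_maps_to (s := Finset.univ)
      (t := Finset.univ.filter (fun z : G => z ∈ DoubleCoset.doubleCoset x K H))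
      (g := fun p : K × H => (p.1 : G) * x * p.2), Finset.mul_sum]
  · refine Finset.sum_congr rfl fun z hz => ?_
    obtain ⟨y0, hy0, h0, hh0, rfl⟩ := DoubleCoset.mem_doubleCoset.1 (Finset.mem_filter.1 hz).2
    rw [Finset.sum_congr rfl (g := fun _ => f (y0 * x * h0))
      (fun p hp => by rw [(Finset.mem_filter.1 hp).2]), Finset.sum_const, nsmul_eq_mul]
    congr 2
    rw [← Fintype.card_subtype, ← Nat.card_eq_fintype_card]
    refine Nat.card_congr ⟨fun p => ⟨⟨y0, hy0⟩⁻¹ * p.1.1, mem_sub.2 ?_⟩,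
      fun u => ⟨(⟨y0, hy0⟩ * (u : K), (hom H K x u)⁻¹ * ⟨h0, hh0⟩), ?_⟩, ?_, ?_⟩
    · have h1 : x⁻¹ * ((⟨y0, hy0⟩⁻¹ * p.1.1 : K) : G) * x = h0 * (p.1.2 : G)⁻¹ := by
        have := p.2
        simp only [Subgroup.coe_mul, Subgroup.coe_inv]
        calc x⁻¹ * (y0⁻¹ * p.1.1) * x = x⁻¹ * y0⁻¹ * (p.1.1 * x * p.1.2) * (p.1.2 : G)⁻¹ := by
              group
          _ = _ := by rw [this]; group
      rw [h1]
      exact H.mul_mem hh0 (H.inv_mem p.1.2.2)
    · simp only [hom, MonoidHom.coe_mk, OneHom.coe_mk, Subgroup.coe_mul, Subgroup.coe_inv]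
      group
    · rintro ⟨⟨y, h⟩, hp⟩
      simp only at hp
      refine Subtype.ext (Prod.ext (by simp) (Subtype.ext ?_))
      simp only [hom, MonoidHom.coe_mk, OneHom.coe_mk, Subgroup.coe_mul, Subgroup.coe_inv]
      calc (x⁻¹ * (y0⁻¹ * y) * x)⁻¹ * h0 = (y * x)⁻¹ * (y0 * x * h0) := by group
        _ = h := by rw [← hp]; group
    · intro u
      exact Subtype.ext (by simp)
  · intro p _
    exact Finset.mem_filter.2 ⟨Finset.mem_univ _,
      DoubleCoset.mem_doubleCoset.2 ⟨_, p.1.2, _, p.2.2, rfl⟩⟩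

open Classical in
/-- The contribution of one double coset `K x H`. -/
theorem indFun_sub_eq [Fintype G] (H K : Subgroup G) [Fintype K] {θ : H → ℂ}
    (hθ : IsClassFunction H θ) (x : G) (k : K) :
    indFun (sub H K x) (fn H K x θ) k = (Nat.card H : ℂ)⁻¹ *
      ∑ z ∈ Finset.univ.filter (fun z : G => z ∈ DoubleCoset.doubleCoset x K H),
        extendByZero H θ (z⁻¹ * k * z) := by
  have := Fintype.ofFinite H
  have h1 := sum_prod_eq H K x (fun z => extendByZero H θ (z⁻¹ * k * z))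
  have h2 : ∀ (y : K) (h : H), extendByZero H θ (((y : G) * x * h)⁻¹ * k * (y * x * h))
      = extendByZero (sub H K x) (fn H K x θ) (y⁻¹ * k * y) := by
    intro y h
    rw [ext_fn, ← CA.Ind.ext_conj' hθ h.2 (x⁻¹ * _ * x)]
    congr 1
    simp only [Subgroup.coe_mul, Subgroup.coe_inv]
    group
  simp only [h2, Finset.sum_const, Finset.card_univ, nsmul_eq_mul, ← Finset.mul_sum,
    ← Nat.card_eq_fintype_card] at h1
  rw [CA.Ind.indFun_def]
  have h3 := CA.Ind.card_ne_zero H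
  have h4 := CA.Ind.card_ne_zero (sub H K x)
  field_simp
  rw [← h1, mul_comm]

/-- **Mackey's subgroup theorem**: the restriction to `K` of the function induced from a class
function `θ` of `H` is the sum over the double cosets `K x H` of the functions induced to `K`
from `K ∩ x H x⁻¹`. -/
theorem indFun_res [Fintype G] (H K : Subgroup G) [Fintype K]
    [Fintype (DoubleCoset.Quotient (K : Set G) H)] {θ : H → ℂ} (hθ : IsClassFunction H θ)
    (k : K) : indFun H θ k = ∑ q : DoubleCoset.Quotient (K : Set G) H,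
      indFun (sub H K q.out) (fn H K q.out θ) k := by
  classical
  simp only [indFun_sub_eq H K hθ, ← Finset.mul_sum]
  rw [CA.Ind.indFun_def]
  congr 1
  rw [← Finset.sum_fiberwise_of_maps_to (s := Finset.univ)
    (t := (Finset.univ : Finset (DoubleCoset.Quotient (K : Set G) H)))
    (g := fun z : G => DoubleCoset.mk K H z) (fun _ _ => Finset.mem_univ _)]
  refine Finset.sum_congr rfl fun q _ => Finset.sum_congr ?_ fun _ _ => rfl
  ext z
  simp only [Finset.mem_filter, Finset.mem_univ, true_and]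
  exact (DoubleCoset.mem_quotToDoubleCoset_iff q z).symm

/-- Mackey for `G = K H`: `(θ^G)_K = (θ_{H ∩ K})^K`. -/
theorem indFun_res_of_mul [Fintype G] (H K : Subgroup G) [Fintype K]
    (hKH : ∀ g : G, ∃ k ∈ K, ∃ h ∈ H, g = k * h) {θ : H → ℂ} (hθ : IsClassFunction H θ) (k : K) :
    indFun H θ k = indFun (H.subgroupOf K)
      (fun u => θ ⟨(u : K), Subgroup.mem_subgroupOf.1 u.2⟩) k := by
  classical
  have h1 : H.subgroupOf K = sub H K 1 := by
    ext u
    rw [mem_sub, Subgroup.mem_subgroupOf]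
    simp
  rw [← CA.Ind.indFun_congr h1 _ (fn H K 1 θ) (fun u => by simp [fn]), indFun_sub_eq H K hθ,
    CA.Ind.indFun_def, Finset.filter_true_of_mem]
  intro z _
  obtain ⟨a, ha, b, hb, rfl⟩ := hKH z
  exact DoubleCoset.mem_doubleCoset.2 ⟨a, ha, b, hb, by simp⟩

/-- If `N` is normal and `N ⊔ H = ⊤` then every element is a product. -/
theorem exists_mul_of_sup {H N : Subgroup G} [N.Normal] (h : N ⊔ H = ⊤) (g : G) :
    ∃ k ∈ N, ∃ h ∈ H, g = k * h := by
  have : g ∈ ((N ⊔ H : Subgroup G) : Set G) := by rw [h]; trivial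
  rw [Subgroup.normal_mul] at this
  obtain ⟨a, ha, b, hb, rfl⟩ := this
  exact ⟨a, ha, b, hb, rfl⟩

theorem exists_mul_of_sup' {H N : Subgroup G} [N.Normal] (h : H ⊔ N = ⊤) (g : G) :
    ∃ k ∈ H, ∃ h ∈ N, g = k * h := by
  have : g ∈ ((H ⊔ N : Subgroup G) : Set G) := by rw [h]; trivial
  rw [Subgroup.mul_normal] at this
  obtain ⟨a, ha, b, hb, rfl⟩ := this
  exact ⟨a, ha, b, hb, rfl⟩

/-- Mackey's inner product formula. -/
theorem inner_ind_ind [Fintype G] (H K : Subgroup G)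
    [Fintype (DoubleCoset.Quotient (K : Set G) H)] [∀ x : G, Fintype (sub H K x)] {θ : H → ℂ}
    (hθ : IsClassFunction H θ) {φ : K → ℂ} (hφ : IsClassFunction K φ) :
    classInner (indFun H θ) (indFun K φ) = ∑ q : DoubleCoset.Quotient (K : Set G) H,
      classInner (fn H K q.out θ) (fun u => φ u) := by
  have := Fintype.ofFinite K
  rw [CA.Ind.inner_ind_right K φ (CA.Ind.indFun_classFun H θ)]
  simp only [← CA.Ind.inner_ind_left _ _ hφ, indFun_res H K hθ, CA.Ind.inner_def, Finset.sum_mul,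
    ← Finset.mul_sum]
  rw [Finset.sum_comm]

end CA.Mackey
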